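import Cfsg.Agent.Lib.H82.Cliff
import Cfsg.Agent.Lib.H78.Cong
import Cfsg.Agent.S0925

/-!
# Characters of height zero over a character of a normal subgroup in a block
-/

set_option autoImplicit false
set_option linter.style.haveILetI false

namespace H82.BlockOver

open Cfsg H18.CharBasic H18.CharOrtho H18.CharInd H18.CharQuot H31.Clifford
open H82.Deg H82.Simple H82.Quot H82.Cliff H20.Loc
open scoped ComplexConjugate

universe u

variable {G : Type u} [Group G]

theorem card_sub' {α : Type*} [Fintype α] (p : α → Prop) [DecidablePred p] :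
    Nat.card {x // p x} = (Finset.univ.filter p).card := by
  rw [Nat.card_eq_fintype_card, Fintype.card_subtype]

theorem main [Fintype G] (p : ℕ) [hp : Fact p.Prime] (P : Sylow p G) (M : Ideal AlgInt)
    (hM : IsPModular p M) (B : Set (IrrCharacter G)) (hB : IsPBlock M B) (N : Subgroup G)
    [hN : N.Normal] [Fintype N] (hPN : ¬ (P : Subgroup G) ≤ N) (θ : IrrCharacter N) :
    (Nat.card {χ : IrrCharacter G // χ ∈ B ∧ ¬ p ∣ charDegree (χ : G → ℂ) ∧
        classInner (fun n : N => (χ : G → ℂ) n) (θ : N → ℂ) ≠ 0} = 0 ∨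
      2 ≤ Nat.card {χ : IrrCharacter G // χ ∈ B ∧ ¬ p ∣ charDegree (χ : G → ℂ) ∧
        classInner (fun n : N => (χ : G → ℂ) n) (θ : N → ℂ) ≠ 0}) ∧
    (p ≤ 3 → p ∣ Nat.card {χ : IrrCharacter G // χ ∈ B ∧ ¬ p ∣ charDegree (χ : G → ℂ) ∧
        classInner (fun n : N => (χ : G → ℂ) n) (θ : N → ℂ) ≠ 0}) := by
  classical
  letI := Fintype.ofFinite (IrrCharacter G)
  haveI hMp := pm_isPrime hM
  -- multiplicities
  have hmult : ∀ χ : IrrCharacter G, ∃ e : ℕ, classInner (fun n : N => (χ : G → ℂ) n) (θ : N → ℂ) = e :=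
    fun χ => inner_char_natCast (isCharacter_restrict N (isCharacter_of_isIrr χ.2))
      (isCharacter_of_isIrr θ.2)
  choose e he using hmult
  set c := (inertia N (θ : N → ℂ)).index * charDegree (θ : N → ℂ) with hc
  have hdeg : ∀ χ : IrrCharacter G, e χ ≠ 0 → charDegree (χ : G → ℂ) = e χ * c := by
    intro χ hχ
    have h1 := degree_eq N χ.2 θ.2 (by rw [he χ]; exact_mod_cast hχ)
    rw [he χ, ← coe_charDegree' χ, ← coe_charDegree' θ] at h1
    have h2 : charDegree (χ : G → ℂ) = e χ * (inertia N (θ : N → ℂ)).index * charDegree (θ : N → ℂ) := by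
      exact_mod_cast h1
    rw [h2, hc]; ring
  have hedeg : ∀ χ : IrrCharacter G, e χ * charDegree (χ : G → ℂ) = e χ ^ 2 * c := by
    intro χ
    by_cases h0 : e χ = 0
    · rw [h0]; ring
    · rw [hdeg χ h0]; ring
  -- the block part vanishes
  obtain ⟨x, hxP, hxN⟩ := SetLike.not_le_iff_exists.1 hPN
  obtain ⟨k, hk⟩ := P.isPGroup' ⟨x, hxP⟩
  have hxk : x ^ p ^ k = 1 := congrArg Subtype.val hk
  obtain ⟨l, _, hl⟩ := (Nat.dvd_prime_pow hp.out).1 (orderOf_dvd_of_pow_eq_one hxk)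
  have hppart : IsPPart p x x := ⟨1, mul_one x, Commute.one_right x, ⟨l, hl⟩, by
    rw [orderOf_one]; intro h; exact hp.out.one_lt.ne' (Nat.dvd_one.1 h)⟩
  have hpart := (Cfsg.Agent.S0925.result p M hM).1 (indFun N (θ : N → ℂ)) (isClassFunction_indFun N _)
    x ⟨l, hl⟩ (by
      rintro u z ⟨y, hzy, hcomm, hzo, hyo⟩ hxz
      apply ind_not_mem
      intro hu
      -- then `z ∈ N`
      have hz : z ∉ N := by
        intro hz
        obtain ⟨g, hg⟩ := isConj_iff.1 hxz
        have h1 := hN.conj_mem z hz g⁻¹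
        rw [← hg] at h1
        have h2 : g⁻¹ * (g * x * g⁻¹) * g⁻¹⁻¹ = x := by group
        rw [h2] at h1
        exact hxN h1
      apply hz
      -- work in the quotient
      rw [← QuotientGroup.eq_one_iff]
      have h1 : (z : G ⧸ N) * (y : G ⧸ N) = 1 := by
        rw [← QuotientGroup.mk_mul, hzy]; exact (QuotientGroup.eq_one_iff u).2 hu
      obtain ⟨n, hn⟩ := hzo
      have h2 : orderOf (z : G ⧸ N) ∣ p ^ n := by
        rw [← hn]; exact orderOf_map_dvd (QuotientGroup.mk' N) z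
      have h3 : orderOf (z : G ⧸ N) ∣ orderOf y := by
        have h4 : (z : G ⧸ N) = (y : G ⧸ N)⁻¹ := eq_inv_of_mul_eq_one_left h1
        rw [h4, orderOf_inv]
        exact orderOf_map_dvd (QuotientGroup.mk' N) y
      have h5 : (p ^ n).Coprime (orderOf y) :=
        Nat.Coprime.pow_left _ ((Nat.Prime.coprime_iff_not_dvd hp.out).2 hyo)
      exact orderOf_eq_one_iff.1 (Nat.eq_one_of_dvd_coprimes h5 h2 h3)) B hB x x hppart (IsConj.refl x)
  -- rewrite the block part
  have hfr : ∀ χ : IrrCharacter G, classInner (indFun N (θ : N → ℂ)) (χ : G → ℂ) = e χ := by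
    intro χ
    rw [frobenius N _ (isClassFunction_of_isIrr χ.2), ← H18.CharOrtho.inner_conj_symm, he χ,
      Complex.conj_natCast]
  have hsum0 : ∑ χ ∈ Finset.univ.filter (· ∈ B), (e χ : ℂ) * (χ : G → ℂ) x = 0 := by
    unfold blockPart at hpart
    rw [finsum_mem_eq_finite_toFinset_sum _ (Set.toFinite B)] at hpart
    rw [← hpart]
    have h1 : (Set.toFinite B).toFinset = Finset.univ.filter (· ∈ B) := by
      ext χ; simp
    rw [h1]
    refine Finset.sum_congr rfl fun χ _ => ?_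
    rw [← hfr χ]
    congr 1
    exact congrArg (fun i => @classInner G _ i (indFun N (θ : N → ℂ)) (χ : G → ℂ)) (Subsingleton.elim _ _)
  -- reduce modulo `M`
  have hdvd : p ∣ ∑ χ ∈ Finset.univ.filter (· ∈ B), e χ * charDegree (χ : G → ℂ) := by
    rw [← locI_natCast_iff hM]
    push_cast
    have h1 : ∑ χ ∈ Finset.univ.filter (· ∈ B), (e χ : ℂ) * (charDegree (χ : G → ℂ) : ℂ) =
        ∑ χ ∈ Finset.univ.filter (· ∈ B), (e χ : ℂ) * ((charDegree (χ : G → ℂ) : ℂ) - (χ : G → ℂ) x) := by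
      simp_rw [mul_sub]
      rw [Finset.sum_sub_distrib, hsum0, sub_zero]
    rw [h1]
    apply locI_sum
    intro χ _
    apply locI_mul_left (locR_natCast _)
    rw [coe_charDegree' χ, locI_sub_comm]
    exact H78.Cong.char_congr_one hM (isCharacter_of_isIrr χ.2) hxk
  set X := Finset.univ.filter (fun χ : IrrCharacter G => χ ∈ B ∧ ¬ p ∣ charDegree (χ : G → ℂ) ∧
        classInner (fun n : N => (χ : G → ℂ) n) (θ : N → ℂ) ≠ 0) with hX
  have hcardX : Nat.card {χ : IrrCharacter G // χ ∈ B ∧ ¬ p ∣ charDegree (χ : G → ℂ) ∧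
        classInner (fun n : N => (χ : G → ℂ) n) (θ : N → ℂ) ≠ 0} = X.card := by
    rw [hX]; exact card_sub' _
  rw [hcardX]
  rcases X.eq_empty_or_nonempty with hXe | ⟨χ₀, hχ₀⟩
  · rw [hXe, Finset.card_empty]
    exact ⟨Or.inl rfl, fun _ => dvd_zero p⟩
  · rw [hX, Finset.mem_filter] at hχ₀
    have he0 : ∀ χ : IrrCharacter G, classInner (fun n : N => (χ : G → ℂ) n) (θ : N → ℂ) ≠ 0 ↔ e χ ≠ 0 := by
      intro χ; rw [he χ]; exact Nat.cast_ne_zero
    have hpc : ¬ p ∣ c := by
      intro h1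
      apply hχ₀.2.2.1
      rw [hdeg χ₀ ((he0 χ₀).1 hχ₀.2.2.2)]
      exact h1.mul_left _
    have hsq : p ∣ ∑ χ ∈ Finset.univ.filter (· ∈ B), e χ ^ 2 := by
      simp_rw [hedeg] at hdvd
      rw [← Finset.sum_mul] at hdvd
      exact (hp.out.dvd_mul.1 hdvd).resolve_right hpc
    have hXmem : ∀ χ : IrrCharacter G, χ ∈ X ↔ χ ∈ B ∧ ¬ p ∣ e χ := by
      intro χ
      rw [hX, Finset.mem_filter, he0]
      constructor
      · rintro ⟨_, h1, h2, h3⟩
        refine ⟨h1, fun h4 => h2 ?_⟩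
        rw [hdeg χ h3]; exact h4.mul_right _
      · rintro ⟨h1, h2⟩
        have h3 : e χ ≠ 0 := by rintro h3; rw [h3] at h2; exact h2 (dvd_zero p)
        refine ⟨Finset.mem_univ _, h1, ?_, h3⟩
        rw [hdeg χ h3]
        intro h4
        rcases hp.out.dvd_mul.1 h4 with h5 | h5
        · exact h2 h5
        · exact hpc h5
    have hXsq : p ∣ ∑ χ ∈ X, e χ ^ 2 := by
      have h1 : Finset.univ.filter (· ∈ B) = X ∪ (Finset.univ.filter fun χ : IrrCharacter G => χ ∈ B ∧ p ∣ e χ) := by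
        ext χ
        rw [Finset.mem_union, hXmem]
        simp only [Finset.mem_filter, Finset.mem_univ, true_and]
        tauto
      have h2 : Disjoint X (Finset.univ.filter fun χ : IrrCharacter G => χ ∈ B ∧ p ∣ e χ) := by
        rw [Finset.disjoint_left]
        intro χ h3 h4
        rw [Finset.mem_filter] at h4
        exact ((hXmem χ).1 h3).2 h4.2.2
      rw [h1, Finset.sum_union h2] at hsq
      refine (Nat.dvd_add_left ?_).1 hsq
      apply Finset.dvd_sum
      intro χ hχ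
      rw [Finset.mem_filter] at hχ
      exact hχ.2.2.trans (dvd_pow_self _ two_ne_zero)
    have hχ₀X : χ₀ ∈ X := by rw [hX, Finset.mem_filter]; exact hχ₀
    refine ⟨Or.inr ?_, fun hp3 => ?_⟩
    · by_contra hlt
      have h1 : X.card = 1 := by
        have : 0 < X.card := Finset.card_pos.2 ⟨χ₀, hχ₀X⟩
        omega
      obtain ⟨χ₁, hχ₁⟩ := Finset.card_eq_one.1 h1
      rw [hχ₁, Finset.sum_singleton] at hXsq
      have h2 : χ₁ ∈ X := by rw [hχ₁]; exact Finset.mem_singleton_self _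
      exact ((hXmem χ₁).1 h2).2 (hp.out.dvd_of_dvd_pow hXsq)
    · -- all squares are `1` modulo `p`
      have h1 : ∀ χ ∈ X, e χ ^ 2 ≡ 1 [MOD p] := by
        intro χ hχ
        have h2 := ((hXmem χ).1 hχ).2
        have hp2 := hp.out.two_le
        have h3 : p = 2 ∨ p = 3 := by omega
        rcases h3 with rfl | rfl
        · have h4 : e χ % 2 = 1 := by omega
          rw [Nat.ModEq, Nat.pow_mod, h4]
        · have h4 : e χ % 3 = 1 ∨ e χ % 3 = 2 := by omega
          rcases h4 with h4 | h4 <;> rw [Nat.ModEq, Nat.pow_mod, h4]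
      have h2 : ∑ χ ∈ X, e χ ^ 2 ≡ ∑ χ ∈ X, 1 [MOD p] := by
        unfold Nat.ModEq
        rw [Finset.sum_nat_mod X p (fun χ => e χ ^ 2), Finset.sum_nat_mod X p (fun _ => 1)]
        congr 1
        exact Finset.sum_congr rfl fun χ hχ => h1 χ hχ
      rw [Finset.sum_const, smul_eq_mul, mul_one] at h2
      exact (Nat.modEq_zero_iff_dvd.1 (h2.symm.trans (Nat.modEq_zero_iff_dvd.2 hXsq)))

end H82.BlockOver
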