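import Cfsg.Agent.Lib.H82.Quot

/-!
# Convolution formulas and sums over commutators
-/

set_option autoImplicit false
set_option linter.style.haveILetI false

namespace H82.Comm

open Cfsg H18.CharBasic H18.CharOrtho H18.CharInd H18.CharQuot H82.Deg H82.Simple
open scoped ComplexConjugate

universe u

variable {G : Type u} [Group G]

/-- Central elements act on an irreducible character by multiplication. -/
theorem central_sum [Finite G] [Fintype G] (χ : IrrCharacter G) (f : G → ℂ) (hf : IsClassFunction G f) (x : G) :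
    ∑ b : G, f b * (χ : G → ℂ) (b * x) =
      (∑ b : G, f b * (χ : G → ℂ) b) / (χ : G → ℂ) 1 * (χ : G → ℂ) x := by
  classical
  have h1 := H20.GA.evA_central_mul' χ (H20.GA.zof f hf) (MonoidAlgebra.single x 1)
  rw [H20.GA.evA_single, one_mul, H20.GA.omega_eq_sum, H20.GA.evA_eq_sum] at h1
  simp only [H20.GA.zc_zof] at h1
  rw [← h1]
  have h2 : ∀ y : G, (H20.GA.toA (H20.GA.zof f hf) * MonoidAlgebra.single x 1).coeff y = f (y * x⁻¹) := by
    intro y
    rw [MonoidAlgebra.coeff_mul_single_apply]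
    simp only [mul_one]
    rfl
  simp_rw [h2]
  rw [← Equiv.sum_comp (Equiv.mulRight x) (fun y => f (y * x⁻¹) * (χ : G → ℂ) y)]
  simp only [Equiv.coe_mulRight, mul_inv_cancel_right]

/-- `∑_b χ(b) χ(b⁻¹ x) = |G| χ(x) / χ(1)`. -/
theorem conv_self [Finite G] [Fintype G] (χ : IrrCharacter G) (x : G) :
    ∑ b : G, (χ : G → ℂ) b * (χ : G → ℂ) (b⁻¹ * x) =
      (Nat.card G : ℂ) / (χ : G → ℂ) 1 * (χ : G → ℂ) x := by
  classical
  have hcl := isClassFunction_of_isIrr χ.2
  have h1 := central_sum χ (fun b => conj ((χ : G → ℂ) b)) (isClassFunction_conj hcl) x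
  have h2 : ∑ b : G, conj ((χ : G → ℂ) b) * (χ : G → ℂ) b = Nat.card G := by
    have h3 := inner_irr_self χ.2
    unfold classInner at h3
    have h0 : (Nat.card G : ℂ) ≠ 0 := by exact_mod_cast Nat.card_pos.ne'
    rw [inv_mul_eq_iff_eq_mul₀ h0, mul_one] at h3
    rw [← h3]
    exact Finset.sum_congr rfl fun b _ => mul_comm _ _
  rw [h2] at h1
  rw [← h1, ← Equiv.sum_comp (Equiv.inv G)]
  refine Finset.sum_congr rfl fun b _ => ?_
  simp only [Equiv.inv_apply, inv_inv]
  rw [char_inv (isCharacter_of_isIrr χ.2)]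

/-- `∑_a χ(a b a⁻¹ y) = |G| χ(b) χ(y) / χ(1)`. -/
theorem sum_conj_mul [Finite G] [Fintype G] (χ : IrrCharacter G) (b y : G) :
    ∑ a : G, (χ : G → ℂ) (a * b * a⁻¹ * y) =
      (Nat.card G : ℂ) * (χ : G → ℂ) b / (χ : G → ℂ) 1 * (χ : G → ℂ) y := by
  classical
  have hcl := isClassFunction_of_isIrr χ.2
  let f : G → ℂ := fun x => ((Finset.univ.filter fun a : G => a * b * a⁻¹ = x).card : ℂ)
  have hf : IsClassFunction G f := by
    intro x h
    simp only [f]
    congr 1
    refine Finset.card_bij (fun a _ => h⁻¹ * a) ?_ ?_ ?_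
    · intro a ha
      simp only [Finset.mem_filter, Finset.mem_univ, true_and] at ha ⊢
      have : h⁻¹ * a * b * (h⁻¹ * a)⁻¹ = h⁻¹ * (a * b * a⁻¹) * h := by group
      rw [this, ha]; group
    · intro a _ a' _ h'
      exact mul_left_cancel h'
    · intro a ha
      simp only [Finset.mem_filter, Finset.mem_univ, true_and] at ha
      refine ⟨h * a, ?_, by group⟩
      simp only [Finset.mem_filter, Finset.mem_univ, true_and]
      have : h * a * b * (h * a)⁻¹ = h * (a * b * a⁻¹) * h⁻¹ := by group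
      rw [this, ha]
  have hsum : ∀ F : G → ℂ, ∑ x : G, f x * F x = ∑ a : G, F (a * b * a⁻¹) := by
    intro F
    have h0 := Finset.sum_fiberwise (Finset.univ : Finset G) (fun a => a * b * a⁻¹)
      (fun a => F (a * b * a⁻¹))
    rw [← h0]
    refine Finset.sum_congr rfl fun x _ => ?_
    rw [Finset.sum_congr rfl (g := fun _ => F x) fun a ha => ?_]
    · rw [Finset.sum_const, nsmul_eq_mul]
    · rw [(Finset.mem_filter.1 ha).2]
  have h1 := central_sum χ f hf y
  rw [hsum (fun x => (χ : G → ℂ) (x * y)), hsum (fun x => (χ : G → ℂ) x)] at h1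
  rw [h1]
  congr 2
  rw [Finset.sum_congr rfl fun a _ => hcl b a, Finset.sum_const, nsmul_eq_mul,
    Nat.card_eq_fintype_card, Finset.card_univ]

/-- `∑_{a,b} χ([a,b] x) = (|G|/χ(1))² χ(x)`. -/
theorem sum_commutator [Finite G] [Fintype G] (χ : IrrCharacter G) (x : G) :
    ∑ a : G, ∑ b : G, (χ : G → ℂ) (a * b * a⁻¹ * b⁻¹ * x) =
      ((Nat.card G : ℂ) / (χ : G → ℂ) 1) ^ 2 * (χ : G → ℂ) x := by
  classical
  rw [Finset.sum_comm]
  have h1 : ∀ b : G, ∑ a : G, (χ : G → ℂ) (a * b * a⁻¹ * b⁻¹ * x) =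
      (Nat.card G : ℂ) / (χ : G → ℂ) 1 * ((χ : G → ℂ) b * (χ : G → ℂ) (b⁻¹ * x)) := by
    intro b
    have := sum_conj_mul χ b (b⁻¹ * x)
    simp only [← mul_assoc] at this ⊢
    rw [this]; ring
  rw [Finset.sum_congr rfl fun b _ => h1 b, ← Finset.mul_sum, conv_self]
  ring

end H82.Comm
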