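import Cfsg.Agent.Lib.H67.HallPetrescu
import Cfsg.Agent.Lib.H66.Commutators
import Cfsg.Agent.Lib.H79.PSmall
import Cfsg.Agent.Lib.H3.PBasic

/-!
# Derived quotients of finite `p`-groups (Hall, Mann): Hall's bound
-/

set_option autoImplicit false
set_option linter.style.haveILetI false

namespace H82.DLen

open Subgroup H66.Commutators
open scoped commutatorElement

universe u

section basic

variable {G : Type u} [Group G]

/-- `γ_{m+1}(G)`. -/
abbrev LL (G : Type u) [Group G] (m : ℕ) : Subgroup G := (⊤ : Subgroup G).lowerCentralSeries m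

variable [Finite G] {p : ℕ} [hp : Fact p.Prime]

theorem exists_central (hG : IsPGroup p G) {H : Subgroup G} [H.Normal] (hH : H ≠ ⊥) :
    ∃ w : G, w ∈ H ∧ w ∈ center G ∧ orderOf w = p := by
  haveI := hG.isNilpotent
  have h1 := H3.PBasic.normal_inf_center_ne_bot H hH
  have h2 : p ∣ Nat.card (H ⊓ center G : Subgroup G) := by
    obtain ⟨k, hk⟩ := IsPGroup.iff_card.1 (hG.to_subgroup (H ⊓ center G : Subgroup G))
    rw [hk]
    apply dvd_pow_self
    rintro rfl
    rw [pow_zero] at hk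
    exact h1 (Subgroup.card_eq_one.1 hk)
  obtain ⟨z, hz⟩ := exists_prime_orderOf_dvd_card' p h2
  exact ⟨z, z.2.1, z.2.2, by rw [Subgroup.orderOf_coe, hz]⟩

omit [Finite G] in
theorem normal_zpowers {w : G} (hw : w ∈ center G) : (zpowers w).Normal := by
  refine ⟨fun n hn g => ?_⟩
  have h1 : n ∈ center G := (Subgroup.zpowers_le.2 hw) hn
  rw [mem_center_iff.1 h1 g, mul_inv_cancel_right]
  exact hn

omit [Finite G] in
theorem card_comap (N : Subgroup G) [N.Normal] [Finite G] (K : Subgroup (G ⧸ N)) :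
    Nat.card (K.comap (QuotientGroup.mk' N)) = Nat.card N * Nat.card K := by
  have h1 := Subgroup.card_mul_index (K.comap (QuotientGroup.mk' N))
  have h2 := Subgroup.card_mul_index K
  have h3 := (Subgroup.card_eq_card_quotient_mul_card_subgroup N)
  rw [Subgroup.index_comap_of_surjective _ (QuotientGroup.mk'_surjective N)] at h1
  have h4 : Nat.card (K.comap (QuotientGroup.mk' N)) * K.index = Nat.card N * Nat.card K * K.index := by
    rw [h1, mul_assoc, h2, h3, mul_comm]
  exact Nat.eq_of_mul_eq_mul_right (Nat.pos_of_ne_zero index_ne_zero_of_finite) h4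

/-- One step up. -/
theorem exists_step (hG : IsPGroup p G) {Z H : Subgroup G} [Z.Normal] [H.Normal] (hZH : Z ≤ H)
    (hne : Z ≠ H) : ∃ T : Subgroup G, T.Normal ∧ Z ≤ T ∧ T ≤ H ∧ Nat.card T = Nat.card Z * p := by
  have h1 : (H.map (QuotientGroup.mk' Z)) ≠ ⊥ := by
    intro h
    rw [Subgroup.map_eq_bot_iff, QuotientGroup.ker_mk'] at h
    exact hne (le_antisymm hZH h)
  have : (H.map (QuotientGroup.mk' Z)).Normal := Subgroup.Normal.map inferInstance _
    (QuotientGroup.mk'_surjective Z)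
  obtain ⟨w, hwH, hwZ, hw⟩ := exists_central (hG.to_quotient Z) h1
  have hn := normal_zpowers hwZ
  refine ⟨(zpowers w).comap (QuotientGroup.mk' Z), inferInstance, ?_, ?_, ?_⟩
  · intro z hz
    rw [mem_comap]
    have : QuotientGroup.mk' Z z = 1 := (QuotientGroup.eq_one_iff z).2 hz
    rw [this]
    exact one_mem _
  · intro x hx
    rw [mem_comap] at hx
    have h2 : QuotientGroup.mk' Z x ∈ H.map (QuotientGroup.mk' Z) := (zpowers_le.2 hwH) hx
    rw [← mem_comap, comap_map_eq, QuotientGroup.ker_mk', sup_eq_left.2 hZH] at h2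
    exact h2
  · rw [card_comap, Nat.card_zpowers, hw]

/-- A normal subgroup of order dividing `p ^ (m + 1)` is centralized by `γ_{m+1}`. -/
theorem cent (hG : IsPGroup p G) {T : Subgroup G} [T.Normal] {m : ℕ} (hT : Nat.card T ∣ p ^ (m + 1)) :
    ⁅T, LL G m⁆ = ⊥ := by
  by_cases h0 : T = ⊥
  · rw [h0, Subgroup.commutator_bot_left]
  obtain ⟨w, hwT, hwZ, hw⟩ := exists_central hG h0
  haveI := normal_zpowers hwZ
  have hle : zpowers w ≤ T := zpowers_le.2 hwT
  obtain ⟨t, ht, hTt⟩ := (Nat.dvd_prime_pow hp.out).1 hT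
  have h1 := Subgroup.relIndex_mul_relIndex ⊥ (zpowers w) T bot_le hle
  rw [relIndex_bot_left, relIndex_bot_left, Nat.card_zpowers, hw, hTt] at h1
  have ht0 : t ≠ 0 := by
    rintro rfl
    rw [pow_zero] at h1
    exact hp.out.one_lt.ne' (Nat.eq_one_of_mul_eq_one_right h1)
  obtain ⟨s, rfl⟩ := Nat.exists_eq_succ_of_ne_zero ht0
  have h2 : (zpowers w).relIndex T = p ^ s := by
    rw [Nat.pow_succ', ] at h1
    exact Nat.eq_of_mul_eq_mul_left hp.out.pos h1
  have h3 := commutator_lcs_le_of_relIndex hG T (zpowers w) hle s h2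
  have h4 : ⁅zpowers w, (⊤ : Subgroup G)⁆ = ⊥ := by
    rw [commutator_eq_bot_iff_le_centralizer]
    intro x hx
    rw [mem_centralizer_iff]
    intro y _
    exact mem_center_iff.1 ((zpowers_le.2 hwZ) hx) y
  rw [h4, le_bot_iff] at h3
  rw [eq_bot_iff, ← h3]
  exact commutator_mono le_rfl (Subgroup.lowerCentralSeries_antitone _ (by omega))

/-- The centre of `H`. -/
def ZZ (H : Subgroup G) : Subgroup G := H ⊓ centralizer (H : Set G)

omit [Finite G] in
instance ZZ_normal (H : Subgroup G) [H.Normal] : (ZZ H).Normal := by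
  unfold ZZ; infer_instance

omit [Finite G] in
theorem ZZ_subgroupOf (H : Subgroup G) : (ZZ H).subgroupOf H = center H := by
  ext x
  rw [mem_subgroupOf, mem_center_iff]
  constructor
  · intro h y
    exact Subtype.ext (mem_centralizer_iff.1 h.2 y y.2)
  · intro h
    refine ⟨x.2, mem_centralizer_iff.2 fun y hy => ?_⟩
    exact congrArg Subtype.val (h ⟨y, hy⟩)

theorem card_ZZ (hG : IsPGroup p G) {H : Subgroup G} [H.Normal] {m : ℕ} (hH : H ≤ LL G m)
    (hne : ⁅H, H⁆ ≠ ⊥) : p ^ (m + 1) ∣ Nat.card (ZZ H) := by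
  obtain ⟨z, hz⟩ := IsPGroup.iff_card.1 (hG.to_subgroup (ZZ H))
  by_contra hcon
  rw [hz, Nat.pow_dvd_pow_iff_le_right hp.out.one_lt] at hcon
  have h1 : ZZ H ≠ H := by
    intro h
    apply hne
    rw [commutator_eq_bot_iff_le_centralizer]
    intro x hx
    rw [← h] at hx
    exact hx.2
  obtain ⟨T, hTn, hZT, hTH, hT⟩ := exists_step (Z := ZZ H) hG inf_le_left h1
  have h2 := cent (m := m) hG (T := T) (by
    rw [hT, hz, ← pow_succ]
    exact pow_dvd_pow p (by omega))
  have h3 : T ≤ ZZ H := by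
    refine le_inf hTH ?_
    rw [← commutator_eq_bot_iff_le_centralizer, eq_bot_iff, ← h2]
    exact commutator_mono le_rfl hH
  have h4 := Subgroup.card_le_of_le h3
  rw [hT] at h4
  have h5 : 0 < Nat.card (ZZ H) := Nat.card_pos
  have h6 := hp.out.one_lt
  nlinarith

theorem hall_base (hG : IsPGroup p G) {H : Subgroup G} [H.Normal] {m : ℕ} (hH : H ≤ LL G m)
    (hc : Nat.card (⁅H, H⁆ : Subgroup G) = p) : p ^ (m + 2) ∣ ⁅H, H⁆.relIndex H := by
  have hp1 := hp.out.one_lt
  have hne : ⁅H, H⁆ ≠ ⊥ := by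
    intro h
    rw [h, Subgroup.card_bot] at hc
    omega
  have h1 := card_ZZ hG hH hne
  have hle : ZZ H ≤ H := inf_le_left
  have h2 := Subgroup.relIndex_mul_relIndex ⊥ (ZZ H) H bot_le hle
  rw [relIndex_bot_left, relIndex_bot_left] at h2
  have h3 : (ZZ H).relIndex H = (center H).index := by
    rw [relIndex, ZZ_subgroupOf]
  have h4 : p ^ 2 ∣ (ZZ H).relIndex H := by
    obtain ⟨n, hn⟩ := IsPGroup.iff_card.1 (hG.to_subgroup H)
    have h5 : (ZZ H).relIndex H ∣ p ^ n := by rw [← hn, ← h2]; exact Dvd.intro_left _ rfl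
    obtain ⟨j, _, hj⟩ := (Nat.dvd_prime_pow hp.out).1 h5
    rw [hj, Nat.pow_dvd_pow_iff_le_right hp1]
    by_contra hcon
    have h6 : j = 0 ∨ j = 1 := by omega
    rcases h6 with rfl | rfl
    · rw [pow_zero, relIndex_eq_one] at hj
      apply hne
      rw [commutator_eq_bot_iff_le_centralizer]
      exact fun x hx => (hj hx).2
    · rw [pow_one, h3] at hj
      exact H79.PSmall.index_center_ne_prime hp.out hj
  have h5 : p ^ (m + 3) ∣ Nat.card H := by
    rw [← h2]
    calc p ^ (m + 3) = p ^ (m + 1) * p ^ 2 := by rw [← pow_add]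
      _ ∣ _ := Nat.mul_dvd_mul h1 h4
  have h6 := Subgroup.relIndex_mul_relIndex ⊥ ⁅H, H⁆ H bot_le (Subgroup.commutator_le_self H)
  rw [relIndex_bot_left, relIndex_bot_left, hc] at h6
  rw [← h6, show m + 3 = (m + 2) + 1 from rfl, Nat.pow_succ'] at h5
  exact Nat.dvd_of_mul_dvd_mul_left hp.out.pos h5

end basic

theorem hall (p : ℕ) [hp : Fact p.Prime] (n : ℕ) : ∀ (G : Type u) [Group G] [Finite G], Nat.card G = n →
    IsPGroup p G → ∀ (m : ℕ) (H : Subgroup G) [H.Normal], H ≤ LL G m → ⁅H, H⁆ ≠ ⊥ →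
    p ^ (m + 2) ∣ ⁅H, H⁆.relIndex H := by
  induction n using Nat.strong_induction_on with
  | _ n ih =>
  intro G _ _ hn hG m H _ hH hne
  by_cases hc : Nat.card (⁅H, H⁆ : Subgroup G) = p
  · exact hall_base hG hH hc
  obtain ⟨w, hwH, hwZ, hw⟩ := exists_central hG hne
  haveI := normal_zpowers hwZ
  let N := zpowers w
  have hNH : N ≤ ⁅H, H⁆ := zpowers_le.2 hwH
  have hN : Nat.card N = p := by rw [Nat.card_zpowers, hw]
  have hcG : Nat.card (G ⧸ N) * p = Nat.card G := by
    rw [← hN]; exact (Subgroup.card_eq_card_quotient_mul_card_subgroup N).symm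
  have hp1 := hp.out.one_lt
  have hlt : Nat.card (G ⧸ N) < n := by
    rw [← hn, ← hcG]
    have := Nat.card_pos (α := G ⧸ N)
    nlinarith
  have hnorm : (H.map (QuotientGroup.mk' N)).Normal := Subgroup.Normal.map inferInstance _
    (QuotientGroup.mk'_surjective N)
  have h1 := ih _ hlt (G ⧸ N) rfl (hG.to_quotient N) m (H.map (QuotientGroup.mk' N)) (by
      refine (Subgroup.map_mono hH).trans ?_
      rw [Subgroup.map_lowerCentralSeries]
      have : (⊤ : Subgroup G).map (QuotientGroup.mk' N) = ⊤ := by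
        rw [← MonoidHom.range_eq_map, MonoidHom.range_eq_top.2 (QuotientGroup.mk'_surjective N)]
      rw [this]) (by
      rw [← Subgroup.map_commutator]
      intro h
      rw [Subgroup.map_eq_bot_iff, QuotientGroup.ker_mk'] at h
      apply hc
      rw [← hN, le_antisymm h hNH])
  rw [← Subgroup.map_commutator, relIndex_map_map, QuotientGroup.ker_mk', sup_eq_left.2 hNH,
    sup_eq_left.2 (hNH.trans (Subgroup.commutator_le_self H))] at h1
  exact h1

end H82.DLen
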