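import Cfsg.Agent.Lib.H82.DLen1

/-!
# Derived quotients of finite `p`-groups (Hall, Mann): the order of a group of derived length `k + 1`
-/

set_option autoImplicit false
set_option linter.style.haveILetI false

namespace H82.DLen

open Subgroup H66.Commutators
open scoped commutatorElement

universe u

variable {G : Type u} [Group G]

section chain

variable [Finite G] {p : ℕ} [hp : Fact p.Prime]

theorem descChain_le (hG : IsPGroup p G) (K L : Subgroup G) [K.Normal] [L.Normal] (hLK : L ≤ K) (m : ℕ)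
    (hm : L.relIndex K = p ^ m) : descChain K L m ≤ L := by
  classical
  have hp' : p.Prime := hp.out
  have hnil : Group.IsNilpotent G := hG.isNilpotent
  let C : ℕ → Subgroup G := descChain K L
  have hC0 : C 0 = K := rfl
  have hCs : ∀ j, C (j + 1) = ⁅C j, (⊤ : Subgroup G)⁆ ⊔ L := fun j => rfl
  have hCn : ∀ j, (C j).Normal := by
    intro j
    induction j with
    | zero => rw [hC0]; infer_instance
    | succ j ih =>
      have := ih
      rw [hCs]; exact Subgroup.sup_normal _ _
  have hLC : ∀ j, L ≤ C j := by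
    intro j
    cases j with
    | zero => exact hLK
    | succ j => rw [hCs]; exact le_sup_right
  have hdesc : ∀ j, C (j + 1) ≤ C j := by
    intro j
    have := hCn j
    rw [hCs]
    exact sup_le (Subgroup.commutator_le_left _ _) (hLC j)
  have hidx : ∀ j, j ≤ m → L.relIndex (C j) ∣ p ^ (m - j) := by
    intro j
    induction j with
    | zero => intro _; rw [hC0, hm, Nat.sub_zero]
    | succ j ih =>
      intro hj
      have ih' := ih (by omega)
      have hmul := Subgroup.relIndex_mul_relIndex L (C (j + 1)) (C j) (hLC (j + 1)) (hdesc j)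
      by_cases heq : C j ≤ C (j + 1)
      · have : C j ≤ L := by
          apply le_of_le_commutator_sup (C j) L
          rw [← hCs]; exact heq
        have h1 : L.relIndex (C (j + 1)) = 1 := Subgroup.relIndex_eq_one.2 ((hdesc j).trans this)
        rw [h1]; exact one_dvd _
      · have hne : (C (j + 1)).relIndex (C j) ≠ 1 := by
          intro h; exact heq (Subgroup.relIndex_eq_one.1 h)
        have hdvd : (C (j + 1)).relIndex (C j) ∣ p ^ (m - j) := (Dvd.intro_left _ hmul).trans ih'
        obtain ⟨t, ht, hte⟩ := (Nat.dvd_prime_pow hp').1 hdvd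
        have ht1 : t ≠ 0 := by rintro rfl; exact hne (by simpa using hte)
        have hpd : p ∣ (C (j + 1)).relIndex (C j) := by
          rw [hte]; exact dvd_pow_self p ht1
        have h2 : L.relIndex (C (j + 1)) * p ∣ p ^ (m - j) := by
          refine (Nat.mul_dvd_mul_left _ hpd).trans ?_
          rw [hmul]; exact ih'
        have h3 : m - j = (m - (j + 1)) + 1 := by omega
        rw [h3, pow_succ] at h2
        exact Nat.dvd_of_mul_dvd_mul_right hp'.pos h2
  have := hidx m le_rfl
  rw [Nat.sub_self, pow_zero, Nat.dvd_one] at this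
  exact Subgroup.relIndex_eq_one.1 this

/-- The chain `E, [E, G], [E, G, G], …`. -/
def ch (E : Subgroup G) : ℕ → Subgroup G
  | 0 => E
  | n + 1 => ⁅ch E n, (⊤ : Subgroup G)⁆

omit [Finite G] in
theorem ch_succ (E : Subgroup G) (n : ℕ) : ch E (n + 1) = ⁅ch E n, (⊤ : Subgroup G)⁆ := rfl

omit [Finite G] in
theorem ch_normal (E : Subgroup G) [E.Normal] (n : ℕ) : (ch E n).Normal := by
  induction n with
  | zero => assumption
  | succ n ih => rw [ch_succ]; infer_instance

omit [Finite G] in
theorem ch_anti (E : Subgroup G) [E.Normal] : Antitone (ch E) :=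
  antitone_nat_of_succ_le fun n => by
    haveI := ch_normal E n
    rw [ch_succ]
    exact Subgroup.commutator_le_left _ _

omit [Finite G] in
theorem ch_le_desc (E L : Subgroup G) (n : ℕ) : ch E (n + 1) ≤ descChain ⁅E, (⊤ : Subgroup G)⁆ L n := by
  induction n with
  | zero => exact le_rfl
  | succ n ih =>
    rw [ch_succ]
    exact (commutator_mono ih le_rfl).trans le_sup_left

theorem lemE (hG : IsPGroup p G) {E : Subgroup G} [E.Normal] {m : ℕ} (hE : E ≤ LL G m)
    (hne : ⁅E, E⁆ ≠ ⊥) (hidx : ⁅E, E⁆.relIndex E = p ^ (m + 2)) :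
    ⁅E, (⊤ : Subgroup G)⁆.relIndex E ∣ p ^ 2 := by
  have hle : ⁅E, E⁆ ≤ ⁅E, (⊤ : Subgroup G)⁆ := commutator_mono le_rfl le_top
  have h1 := Subgroup.relIndex_mul_relIndex ⁅E, E⁆ ⁅E, (⊤ : Subgroup G)⁆ E hle
    (Subgroup.commutator_le_left _ _)
  rw [hidx] at h1
  obtain ⟨t, ht, htt⟩ := (Nat.dvd_prime_pow hp.out).1 (Dvd.intro _ h1)
  have hmt : m ≤ t := by
    by_contra hcon
    push Not at hcon
    have h2 := descChain_le hG ⁅E, (⊤ : Subgroup G)⁆ ⁅E, E⁆ hle t htt
    have h3 : ch E m ≤ ⁅E, E⁆ := (ch_anti E (show t + 1 ≤ m by omega)).trans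
      ((ch_le_desc E ⁅E, E⁆ t).trans h2)
    have h4 := chain_commutator_lcs (ch E) (ch_normal E) (fun j => le_rfl) m 0
    rw [Nat.zero_add] at h4
    have h5 : ⁅E, E⁆ ≤ ⁅⁅E, E⁆, (⊤ : Subgroup G)⁆ := by
      refine (commutator_mono (le_refl E) hE).trans (h4.trans ?_)
      rw [ch_succ]
      exact commutator_mono h3 le_rfl
    haveI := hG.isNilpotent
    exact hne (eq_bot_of_le_commutator _ h5)
  rw [htt] at h1
  have h2 : p ^ t * ⁅E, (⊤ : Subgroup G)⁆.relIndex E ∣ p ^ t * p ^ 2 := by
    rw [h1, ← pow_add]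
    exact pow_dvd_pow p (by omega)
  exact Nat.dvd_of_mul_dvd_mul_left (pow_pos hp.out.pos t) h2

theorem lemF (hG : IsPGroup p G) {E : Subgroup G} [E.Normal] {m : ℕ} (hE : E ≤ LL G m)
    (h2 : ⁅E, (⊤ : Subgroup G)⁆.relIndex E ∣ p ^ 2) :
    ⁅⁅E, E⁆, ⁅E, E⁆⁆ ≤ LL G (4 * m + 4) := by
  let N := LL G (2 * m + 2)
  let f := QuotientGroup.mk' N
  let X := E.map f
  -- the image of `[E, G]` is central in `X`
  have h3 : (⁅E, (⊤ : Subgroup G)⁆.map f) ≤ ZZ X := by
    refine le_inf (Subgroup.map_mono (Subgroup.commutator_le_left _ _)) ?_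
    rw [← commutator_eq_bot_iff_le_centralizer, ← Subgroup.map_commutator, Subgroup.map_eq_bot_iff,
      QuotientGroup.ker_mk']
    refine (commutator_mono (commutator_mono hE le_rfl) hE).trans ?_
    refine (H67.HallPetrescu.commutator_lcs_le (m + 1) m).trans ?_
    exact Subgroup.lowerCentralSeries_antitone _ (by omega)
  have h4 : (center X).index ∣ p ^ 2 := by
    rw [← ZZ_subgroupOf]
    refine (relIndex_dvd_of_le_left X h3).trans (Nat.dvd_trans ?_ h2)
    rw [← relIndex_comap]
    exact relIndex_dvd_of_le_left E (Subgroup.le_comap_map _ _)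
  have h5 : Nat.card (⁅X, X⁆ : Subgroup (G ⧸ N)) ∣ p := by
    have h6 : Nat.card (⁅X, X⁆ : Subgroup (G ⧸ N)) = Nat.card (commutator X) := by
      rw [← Subgroup.map_subtype_commutator]
      exact (Nat.card_congr ((commutator X).equivMapOfInjective X.subtype
        X.subtype_injective).toEquiv).symm
    rw [h6]
    obtain ⟨j, hj, hjj⟩ := (Nat.dvd_prime_pow hp.out).1 h4
    have h7 : j ≠ 1 := by
      rintro rfl
      rw [pow_one] at hjj
      exact H79.PSmall.index_center_ne_prime hp.out hjj
    have h8 : j = 0 ∨ j = 2 := by omega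
    rcases h8 with rfl | rfl
    · rw [pow_zero, Subgroup.index_eq_one] at hjj
      have h9 : commutator X = ⊥ := by
        rw [eq_bot_iff]
        apply H79.PSmall.commutator_le_of_forall
        intro a b
        rw [mem_bot, commutatorElement_eq_one_iff_mul_comm]
        have : b ∈ center X := by rw [hjj]; trivial
        exact mem_center_iff.1 this a
      rw [h9, Subgroup.card_bot]
      exact one_dvd p
    · rw [H79.PSmall.card_commutator_of_index_center hjj]
  haveI : IsCyclic (⁅X, X⁆ : Subgroup (G ⧸ N)) := isCyclic_of_card_dvd_prime h5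
  obtain ⟨c₀, hc₀⟩ := IsCyclic.exists_generator (α := (⁅X, X⁆ : Subgroup (G ⧸ N)))
  have h6 : (⁅X, X⁆ : Subgroup (G ⧸ N)) = ⁅E, E⁆.map f := (Subgroup.map_commutator _ _ _).symm
  obtain ⟨c, hc, hcc⟩ : ∃ c ∈ ⁅E, E⁆, f c = c₀ := by
    have : (c₀ : G ⧸ N) ∈ ⁅E, E⁆.map f := by rw [← h6]; exact c₀.2
    exact this
  have h7 : ⁅E, E⁆ ≤ zpowers c ⊔ N := by
    intro x hx
    have h8 : f x ∈ (⁅X, X⁆ : Subgroup (G ⧸ N)) := by rw [h6]; exact ⟨x, hx, rfl⟩
    obtain ⟨i, hi⟩ := Subgroup.mem_zpowers_iff.1 (hc₀ ⟨f x, h8⟩)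
    have h9 : f x ∈ (zpowers c).map f := by
      refine ⟨c ^ i, ⟨i, rfl⟩, ?_⟩
      rw [map_zpow, hcc]
      exact congrArg Subtype.val hi
    rw [← mem_comap, comap_map_eq, QuotientGroup.ker_mk'] at h9
    exact h9
  have hE' : ⁅E, E⁆ ≤ LL G (2 * m + 1) := by
    refine (commutator_mono hE hE).trans ((H67.HallPetrescu.commutator_lcs_le m m).trans ?_)
    exact Subgroup.lowerCentralSeries_antitone _ (by omega)
  have hc' : zpowers c ≤ LL G (2 * m + 1) := zpowers_le.2 (hE' hc)
  have h8 : ⁅zpowers c, N⁆ ≤ LL G (4 * m + 4) := by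
    refine (commutator_mono hc' le_rfl).trans ((H67.HallPetrescu.commutator_lcs_le (2 * m + 1) (2 * m + 2)).trans ?_)
    exact Subgroup.lowerCentralSeries_antitone _ (by omega)
  have h9 : ⁅N, N⁆ ≤ LL G (4 * m + 4) := by
    refine (H67.HallPetrescu.commutator_lcs_le (2 * m + 2) (2 * m + 2)).trans ?_
    exact Subgroup.lowerCentralSeries_antitone _ (by omega)
  have h10 : ⁅zpowers c, zpowers c⁆ ≤ LL G (4 * m + 4) := by
    have : ⁅zpowers c, zpowers c⁆ = ⊥ := by
      rw [commutator_eq_bot_iff_le_centralizer]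
      rintro _ ⟨i, rfl⟩
      rw [mem_centralizer_iff]
      rintro _ ⟨j, rfl⟩
      show c ^ j * c ^ i = c ^ i * c ^ j
      rw [← zpow_add, ← zpow_add, add_comm]
    rw [this]
    exact bot_le
  refine (commutator_mono h7 h7).trans ?_
  apply commutator_sup_left_le
  · apply commutator_sup_right_le
    · exact h10
    · exact h8
  · apply commutator_sup_right_le
    · rw [Subgroup.commutator_comm]; exact h8
    · exact h9

end chain

section final

theorem derived_le (i : ℕ) : derivedSeries G i ≤ LL G (2 ^ i - 1) := by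
  induction i with
  | zero => exact le_rfl
  | succ i ih =>
    rw [derivedSeries_succ]
    refine (commutator_mono ih ih).trans ((H67.HallPetrescu.commutator_lcs_le _ _).trans ?_)
    apply Subgroup.lowerCentralSeries_antitone _
    have : 0 < 2 ^ i := by positivity
    rw [pow_succ]
    omega

variable [Finite G] {p : ℕ} [hp : Fact p.Prime]

theorem improved (hG : IsPGroup p G) {j : ℕ} (hj : derivedSeries G (j + 1) ≠ ⊥)
    (hidx : (derivedSeries G (j + 1)).relIndex (derivedSeries G j) = p ^ (2 ^ j + 1)) (i : ℕ) :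
    derivedSeries G (j + 2 + i) ≤ LL G (2 ^ (j + 2 + i)) := by
  induction i with
  | zero =>
    have h0 : 0 < 2 ^ j := by positivity
    haveI := derivedSeries_normal G j
    have h1 := lemE hG (derived_le j) hj (by
      rw [← derivedSeries_succ, hidx]
      congr 1
      omega)
    have h2 := lemF hG (derived_le j) h1
    refine h2.trans (Subgroup.lowerCentralSeries_antitone _ ?_)
    rw [Nat.add_zero, pow_add]
    omega
  | succ i ih =>
    rw [← Nat.add_assoc, derivedSeries_succ]
    refine (commutator_mono ih ih).trans ((H67.HallPetrescu.commutator_lcs_le _ _).trans ?_)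
    apply Subgroup.lowerCentralSeries_antitone _
    rw [pow_succ]
    omega

theorem result (hG : IsPGroup p G) {n k : ℕ} (hcard : Nat.card G = p ^ n)
    (hk : derivedSeries G k ≠ ⊥) : 2 ^ k + 2 * k ≤ n + 2 := by
  have hp1 := hp.out.one_lt
  have ha : ∀ i, ∃ a : ℕ, Nat.card (derivedSeries G i) = p ^ a := fun i =>
    IsPGroup.iff_card.1 (hG.to_subgroup _)
  choose a ha using ha
  have h0 : a 0 = n := by
    have h1 := ha 0
    rw [derivedSeries_zero, Subgroup.card_top, hcard] at h1
    exact (Nat.pow_right_injective hp1 h1).symm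
  have hak : 1 ≤ a k := by
    by_contra hcon
    have h1 : a k = 0 := by omega
    have h2 := ha k
    rw [h1, pow_zero] at h2
    exact hk (Subgroup.card_eq_one.1 h2)
  have hne : ∀ i, i ≤ k → derivedSeries G i ≠ ⊥ := by
    intro i hi h
    apply hk
    rw [eq_bot_iff, ← h]
    exact derivedSeries_antitone G hi
  have hrel : ∀ i, (derivedSeries G (i + 1)).relIndex (derivedSeries G i) * p ^ a (i + 1) = p ^ a i := by
    intro i
    have h1 := Subgroup.relIndex_mul_relIndex ⊥ (derivedSeries G (i + 1)) (derivedSeries G i) bot_le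
      (derivedSeries_antitone G (Nat.le_succ i))
    rw [relIndex_bot_left, relIndex_bot_left, ha, ha] at h1
    rw [mul_comm]; exact h1
  have hstep : ∀ i m, i < k → derivedSeries G i ≤ LL G m → a (i + 1) + (m + 2) ≤ a i := by
    intro i m hi hm
    haveI := derivedSeries_normal G i
    have h1 := hall p _ G rfl hG m (derivedSeries G i) hm (hne (i + 1) (by omega))
    rw [← derivedSeries_succ] at h1
    have h2 : p ^ (m + 2) * p ^ a (i + 1) ∣ p ^ a i := by
      rw [← hrel i]; exact Nat.mul_dvd_mul_right h1 _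
    rw [← pow_add, Nat.pow_dvd_pow_iff_le_right hp1] at h2
    omega
  have hbase : ∀ i, i < k → a (i + 1) + 2 ^ i + 1 ≤ a i := by
    intro i hi
    have h1 := hstep i _ hi (derived_le i)
    have : 0 < 2 ^ i := by positivity
    omega
  have himp : ∀ j, j < k → a j = a (j + 1) + 2 ^ j + 1 → ∀ i, j + 2 ≤ i → i < k →
      a (i + 1) + 2 ^ i + 2 ≤ a i := by
    intro j hj he i hij hik
    obtain ⟨r, rfl⟩ := Nat.exists_eq_add_of_le hij
    have h1 := improved hG (hne (j + 1) (by omega)) (by
      have h2 := hrel j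
      rw [he, show a (j + 1) + 2 ^ j + 1 = (2 ^ j + 1) + a (j + 1) by omega, pow_add] at h2
      exact Nat.eq_of_mul_eq_mul_right (pow_pos hp.out.pos _) h2) r
    have h2 := hstep _ _ hik h1
    omega
  have key : ∀ i, i ≤ k → (a i + 2 ^ i + 2 * i ≤ a 0 + 1) ∨
      (∃ j, j < k ∧ a j = a (j + 1) + 2 ^ j + 1 ∧ i = j + 1 ∧ a i + 2 ^ i + 2 * i ≤ a 0 + 2) ∨
      (∃ j, j < k ∧ a j = a (j + 1) + 2 ^ j + 1 ∧ j + 2 ≤ i ∧ a i + 2 ^ i + 2 * i ≤ a 0 + 3) := by
    intro i
    induction i with
    | zero => intro _; left; simp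
    | succ i ih =>
      intro hi
      have hb := hbase i (by omega)
      have hpw : 2 ^ (i + 1) = 2 * 2 ^ i := pow_succ' 2 i
      rcases ih (by omega) with h | ⟨j, hj, he, rfl, h⟩ | ⟨j, hj, he, hji, h⟩
      · by_cases he : a i = a (i + 1) + 2 ^ i + 1
        · right; left
          exact ⟨i, by omega, he, rfl, by omega⟩
        · left; omega
      · right; right
        exact ⟨j, hj, he, le_rfl, by omega⟩
      · right; right
        have := himp j hj he i hji (by omega)
        exact ⟨j, hj, he, by omega, by omega⟩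
  rcases key k le_rfl with h | ⟨_, _, _, _, h⟩ | ⟨_, _, _, _, h⟩ <;> omega

end final

end H82.DLen
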