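import Cfsg.Agent.Lib.H82.GalProd
import Cfsg.Agent.Lib.H82.Quot
import Cfsg.Agent.Lib.H82.Det
import Cfsg.Agent.Lib.H77.DegP4

/-!
# Groups whose nonlinear irreducible characters of equal degree have equal kernels
-/

set_option autoImplicit false
set_option linter.style.haveILetI false

namespace H82.EqDeg

open Cfsg Representation H18.CharBasic H18.CharOrtho H18.CharInd H18.CharQuot
open H82.Deg H82.Simple H82.Quot
open scoped ComplexConjugate commutatorElement

universe u

variable {G : Type u} [Group G] [Finite G]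

variable (G) in
/-- Nonlinear irreducible characters of equal degree have equal kernels, and these lie in the
derived subgroup. -/
def W : Prop :=
  (∀ χ ψ : IrrCharacter G, charDegree (χ : G → ℂ) ≠ 1 →
    charDegree (χ : G → ℂ) = charDegree (ψ : G → ℂ) → ker χ = ker ψ) ∧
  ∀ χ : IrrCharacter G, charDegree (χ : G → ℂ) ≠ 1 → ker χ ≤ commutator G

omit [Finite G] in
theorem mem_pow_iff' [Finite G] {k : ℕ} (hk : Nat.Coprime k (Nat.card G)) (T : Subgroup G) (g : G) :
    g ^ k ∈ T ↔ g ∈ T := by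
  letI := Fintype.ofFinite G
  exact H82.GalProd.mem_pow_iff hk T g

theorem W_of_gal (h : ∀ χ ψ : IrrCharacter G, charDegree (χ : G → ℂ) ≠ 1 →
    charDegree (χ : G → ℂ) = charDegree (ψ : G → ℂ) →
    ∃ k : ℕ, Nat.Coprime k (Nat.card G) ∧ ∀ g : G, (ψ : G → ℂ) g = (χ : G → ℂ) (g ^ k)) : W G := by
  have h1 : ∀ χ ψ : IrrCharacter G, charDegree (χ : G → ℂ) ≠ 1 →
    charDegree (χ : G → ℂ) = charDegree (ψ : G → ℂ) → ker χ = ker ψ := by
    intro χ ψ h1 h2
    obtain ⟨k, hk, hψ⟩ := h χ ψ h1 h2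
    ext g
    rw [← mem_pow_iff' hk (ker χ) g, mem_ker, mem_ker, hψ, hψ, one_pow]
  refine ⟨h1, fun χ hχ g hg => ?_⟩
  by_contra hgc
  obtain ⟨f, hf⟩ := exists_hom_ne_one hgc
  have h2 := isIrrCharacter_hom_mul f χ.2
  let ψ : IrrCharacter G := ⟨_, h2⟩
  have hψ : ∀ g, (ψ : G → ℂ) g = f g * (χ : G → ℂ) g := fun g => rfl
  have h3 : charDegree (ψ : G → ℂ) = charDegree (χ : G → ℂ) := by
    apply charDegree_eq_of
    rw [hψ, map_one, Units.val_one, one_mul, coe_charDegree' χ]
  have h4 := h1 χ ψ hχ h3.symm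
  have h5 : g ∈ ker ψ := h4 ▸ hg
  rw [mem_ker, hψ, hψ, map_one, Units.val_one, mem_ker.1 hg] at h5
  have h6 : ((f g : ℂ)) = 1 := mul_right_cancel₀ (irr_one_ne_zero χ.2) h5
  exact hf (Units.val_eq_one.1 h6)

/-- inflation -/
noncomputable def infl (N : Subgroup G) [N.Normal] (χ : IrrCharacter (G ⧸ N)) : IrrCharacter G :=
  ⟨fun g => (χ : G ⧸ N → ℂ) (QuotientGroup.mk' N g), isIrrCharacter_inflate N χ.2⟩

omit [Finite G] in
theorem infl_apply (N : Subgroup G) [N.Normal] (χ : IrrCharacter (G ⧸ N)) (g : G) :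
    (infl N χ : G → ℂ) g = (χ : G ⧸ N → ℂ) (QuotientGroup.mk' N g) := rfl

omit [Finite G] in
theorem charDegree_infl (N : Subgroup G) [N.Normal] (χ : IrrCharacter (G ⧸ N)) :
    charDegree (infl N χ : G → ℂ) = charDegree (χ : G ⧸ N → ℂ) := charDegree_inflate N χ

theorem ker_infl (N : Subgroup G) [N.Normal] (χ : IrrCharacter (G ⧸ N)) :
    ker (infl N χ) = (ker χ).comap (QuotientGroup.mk' N) := by
  ext g
  rw [mem_ker, Subgroup.mem_comap, mem_ker, infl_apply, infl_apply, map_one]

theorem le_ker_infl (N : Subgroup G) [N.Normal] (χ : IrrCharacter (G ⧸ N)) : N ≤ ker (infl N χ) := by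
  rw [ker_infl]
  intro n hn
  rw [Subgroup.mem_comap]
  have : QuotientGroup.mk' N n = 1 := (QuotientGroup.eq_one_iff n).2 hn
  rw [this]
  exact one_mem _

theorem map_ker_infl (N : Subgroup G) [N.Normal] (χ : IrrCharacter (G ⧸ N)) :
    ker χ = (ker (infl N χ)).map (QuotientGroup.mk' N) := by
  rw [ker_infl, Subgroup.map_comap_eq_self_of_surjective (QuotientGroup.mk'_surjective N)]

omit [Finite G] in
theorem map_commutator_quot (N : Subgroup G) [N.Normal] :
    (commutator G).map (QuotientGroup.mk' N) = commutator (G ⧸ N) := by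
  rw [commutator_def, commutator_def, Subgroup.map_commutator, ← MonoidHom.range_eq_map,
    MonoidHom.range_eq_top.2 (QuotientGroup.mk'_surjective N)]

theorem W.quot (h : W G) (N : Subgroup G) [N.Normal] : W (G ⧸ N) := by
  refine ⟨fun χ ψ h1 h2 => ?_, fun χ h1 => ?_⟩
  · rw [map_ker_infl N χ, map_ker_infl N ψ, h.1 (infl N χ) (infl N ψ) (by rwa [charDegree_infl])
      (by rwa [charDegree_infl, charDegree_infl])]
  · rw [map_ker_infl N χ, ← map_commutator_quot N]
    exact Subgroup.map_mono (h.2 _ (by rwa [charDegree_infl]))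

/-- Linear characters have the derived subgroup in the kernel. -/
theorem commutator_le_ker {χ : IrrCharacter G} (h : charDegree (χ : G → ℂ) = 1) :
    commutator G ≤ ker χ := by
  have h1 : (χ : G → ℂ) 1 = 1 := by rw [← coe_charDegree' χ, h, Nat.cast_one]
  obtain ⟨f, hf⟩ := exists_hom_of_degree_one (isCharacter_of_isIrr χ.2) h1
  intro g hg
  rw [mem_ker, hf]
  show (f g : ℂ) = (f 1 : ℂ)
  rw [map_one, H82.Det.hom_commutator f hg]

theorem linear_of_commutator_le {χ : IrrCharacter G} (h : commutator G ≤ ker χ) :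
    charDegree (χ : G → ℂ) = 1 := by
  letI := Fintype.ofFinite G
  apply charDegree_eq_of
  rw [Nat.cast_one]
  apply H18.Primitive.degree_one_of_commutator χ.2
  intro a b
  exact mem_ker.1 (h (Subgroup.commutator_mem_commutator (Subgroup.mem_top a) (Subgroup.mem_top b)))

section class2

variable {χ : G → ℂ}

theorem class2_zero (hc : commutator G ≤ Subgroup.center G) (hχ : IsIrrCharacter G χ)
    (hf : ∀ g ∈ commutator G, χ g = χ 1 → g = 1) {g : G} (hg : g ∉ Subgroup.center G) : χ g = 0 := by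
  obtain ⟨l, hl⟩ := H82.GalProd.exists_central hχ
  rw [Subgroup.mem_center_iff] at hg
  push Not at hg
  obtain ⟨x, hx⟩ := hg
  have h1 : ⁅x, g⁆ ∈ commutator G := Subgroup.commutator_mem_commutator trivial trivial
  have h2 := hl ⟨⁅x, g⁆, hc h1⟩ g
  have h3 : ⁅x, g⁆ * g = x * g * x⁻¹ := by rw [commutatorElement_def]; group
  have h4 : χ (⁅x, g⁆ * g) = χ g := by rw [h3]; exact isClassFunction_of_isIrr hχ g x
  by_contra h0
  have h5 : (l ⟨⁅x, g⁆, hc h1⟩ : ℂ) = 1 := by
    have h6 : (l ⟨⁅x, g⁆, hc h1⟩ : ℂ) * χ g = 1 * χ g := by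
      rw [one_mul, ← h2]; exact h4
    exact mul_right_cancel₀ h0 h6
  have h6 : ⁅x, g⁆ = 1 := by
    apply hf _ h1
    have h7 := hl ⟨⁅x, g⁆, hc h1⟩ 1
    rw [mul_one, h5, one_mul] at h7
    exact h7
  exact hx (commutatorElement_eq_one_iff_mul_comm.1 h6)

theorem class2_sq (hc : commutator G ≤ Subgroup.center G) (χ : IrrCharacter G)
    (hf : ∀ g ∈ commutator G, (χ : G → ℂ) g = (χ : G → ℂ) 1 → g = 1) :
    charDegree (χ : G → ℂ) ^ 2 = (Subgroup.center G).index := by
  classical
  letI := Fintype.ofFinite G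
  have h1 := inner_irr_self χ.2
  unfold classInner at h1
  have h4 : (Nat.card G : ℂ) ≠ 0 := by exact_mod_cast (Nat.card_pos (α := G)).ne'
  have h2 : ∑ g : G, (χ : G → ℂ) g * conj ((χ : G → ℂ) g) = Nat.card G := by
    field_simp at h1
    exact h1
  rw [← Finset.sum_filter_add_sum_filter_not Finset.univ (fun g => g ∈ Subgroup.center G)] at h2
  rw [Finset.sum_congr rfl (g := fun _ => (charDegree (χ : G → ℂ) : ℂ) ^ 2)
        (fun z hz => by
          rw [H19.Extra.center_sq χ.2 (Finset.mem_filter.1 hz).2, ← coe_charDegree' χ]),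
    Finset.sum_const, nsmul_eq_mul,
    Finset.sum_eq_zero (s := Finset.univ.filter (fun g => ¬ g ∈ Subgroup.center G))
        (fun z hz => by
          rw [class2_zero hc χ.2 hf (Finset.mem_filter.1 hz).2, zero_mul]), add_zero] at h2
  have h3 : (Finset.univ.filter (fun g => g ∈ Subgroup.center G)).card =
      Nat.card (Subgroup.center G) := by
    rw [Nat.card_eq_fintype_card]
    exact (Fintype.card_subtype _).symm
  rw [h3] at h2
  have h5 : Nat.card (Subgroup.center G) * charDegree (χ : G → ℂ) ^ 2 = Nat.card G := by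
    exact_mod_cast h2
  rw [← Subgroup.card_mul_index (Subgroup.center G)] at h5
  exact Nat.eq_of_mul_eq_mul_left Nat.card_pos h5

end class2

/-- A faithful irreducible character forces a cyclic centre. -/
theorem cyclic_center {χ : G → ℂ} (hχ : IsIrrCharacter G χ)
    (hf : ∀ g ∈ Subgroup.center G, χ g = χ 1 → g = 1) : IsCyclic (Subgroup.center G) := by
  obtain ⟨l, hl⟩ := H82.GalProd.exists_central hχ
  have hinj : Function.Injective l := by
    rw [injective_iff_map_eq_one]
    intro z hz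
    apply Subtype.ext
    apply hf z z.2
    have h1 := hl z 1
    rwa [mul_one, hz, Units.val_one, one_mul] at h1
  exact isCyclic_of_injective_ringHom ((Units.coeHom ℂ).comp l)
    (Units.val_injective.comp hinj)

end H82.EqDeg
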