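import Cfsg.Agent.Lib.H82.EqDeg1

/-!
# Groups whose nonlinear irreducible characters of equal degree have equal kernels: `|P'| = p²`
-/

set_option autoImplicit false
set_option linter.style.haveILetI false

namespace H82.EqDeg

open Cfsg Representation H18.CharBasic H18.CharOrtho H18.CharInd H18.CharQuot
open H82.Deg H82.Simple H82.Quot
open scoped ComplexConjugate commutatorElement

universe u

variable {G : Type u} [Group G] [Finite G]

theorem not_linear_of_not {χ : IrrCharacter G} (h : ¬ commutator G ≤ ker χ) :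
    charDegree (χ : G → ℂ) ≠ 1 := fun h1 => h (commutator_le_ker h1)

/-- A nonlinear character over `N` and one not over `N`. -/
theorem exists_pair (N : Subgroup G) [N.Normal] (hN1 : N ≠ ⊥) (hND : N ≤ commutator G)
    (hne : N ≠ commutator G) : ∃ χ ψ : IrrCharacter G, charDegree (χ : G → ℂ) ≠ 1 ∧
      charDegree (ψ : G → ℂ) ≠ 1 ∧ N ≤ ker χ ∧ ¬ N ≤ ker ψ := by
  classical
  -- first character
  have h1 : ∃ d ∈ commutator G, d ∉ N := by
    by_contra h
    push Not at h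
    exact hne (le_antisymm hND h)
  obtain ⟨d, hd, hdN⟩ := h1
  have h2 : ∃ χ : IrrCharacter (G ⧸ N), (χ : G ⧸ N → ℂ) (QuotientGroup.mk' N d) ≠ (χ : G ⧸ N → ℂ) 1 := by
    by_contra h
    push Not at h
    have h3 := eq_one_of_forall_irr (G := G ⧸ N) (g := QuotientGroup.mk' N d)
      (fun χ hχ => h ⟨χ, hχ⟩)
    exact hdN ((QuotientGroup.eq_one_iff d).1 h3)
  obtain ⟨χ, hχ⟩ := h2
  have h3 : ∃ n ∈ N, n ≠ 1 := N.ne_bot_iff_exists_ne_one.1 hN1 |>.elim
    (fun n hn => ⟨n, n.2, fun h => hn (Subtype.ext h)⟩)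
  obtain ⟨n, hn, hn1⟩ := h3
  have h4 : ∃ ψ : IrrCharacter G, (ψ : G → ℂ) n ≠ (ψ : G → ℂ) 1 := by
    by_contra h
    push Not at h
    exact hn1 (eq_one_of_forall_irr (G := G) (fun χ hχ => h ⟨χ, hχ⟩))
  obtain ⟨ψ, hψ⟩ := h4
  refine ⟨infl N χ, ψ, not_linear_of_not ?_, not_linear_of_not ?_, le_ker_infl N χ, ?_⟩
  · intro h
    have h5 := mem_ker.1 (h hd)
    rw [infl_apply, infl_apply, map_one] at h5
    exact hχ h5
  · exact fun h => hψ (mem_ker.1 (h (hND hn)))
  · exact fun h => hψ (mem_ker.1 (h hn))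

theorem W.pair (hW : W G) (N : Subgroup G) [N.Normal] (hN1 : N ≠ ⊥) (hND : N ≤ commutator G)
    (hne : N ≠ commutator G) : ∃ χ ψ : IrrCharacter G, charDegree (χ : G → ℂ) ≠ 1 ∧
      charDegree (ψ : G → ℂ) ≠ 1 ∧ N ≤ ker χ ∧
      charDegree (χ : G → ℂ) ≠ charDegree (ψ : G → ℂ) := by
  obtain ⟨χ, ψ, h1, h2, h3, h4⟩ := exists_pair N hN1 hND hne
  refine ⟨χ, ψ, h1, h2, h3, fun h => h4 ?_⟩
  rw [← hW.1 χ ψ h1 h]
  exact h3

variable {p : ℕ} [hp : Fact p.Prime]

theorem degree_pow (hP : IsPGroup p G) (χ : IrrCharacter G) : ∃ a : ℕ, charDegree (χ : G → ℂ) = p ^ a := by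
  obtain ⟨n, hn⟩ := IsPGroup.iff_card.1 hP
  have h1 := degree_dvd_card χ
  rw [hn] at h1
  obtain ⟨a, _, ha⟩ := (Nat.dvd_prime_pow hp.out).1 h1
  exact ⟨a, ha⟩

/-- A proper subgroup of a group of order `p ^ 2` has order dividing `p`. -/
theorem card_dvd_of_lt {D K : Subgroup G} (hD : Nat.card D = p ^ 2) (hK : K ≤ D) (hne : K ≠ D) :
    Nat.card K ∣ p := by
  have h1 := Subgroup.card_dvd_of_le hK
  rw [hD] at h1
  obtain ⟨j, hj, hK'⟩ := (Nat.dvd_prime_pow hp.out).1 h1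
  rw [hK']
  have h2 : j ≠ 2 := by
    rintro rfl
    exact hne (Subgroup.eq_of_le_of_card_ge hK (by rw [hD, hK']))
  have h3 : j ≤ 1 := by omega
  calc p ^ j ∣ p ^ 1 := pow_dvd_pow p h3
    _ = p := pow_one p

omit [Finite G] hp in
theorem pow_eq_one_of_card_dvd {K : Subgroup G} (h : Nat.card K ∣ p) {x : G} (hx : x ∈ K) :
    x ^ p = 1 := by
  have h1 : orderOf x ∣ p := (Subgroup.orderOf_dvd_natCard K hx).trans h
  exact orderOf_dvd_iff_pow_eq_one.1 h1

omit [Finite G] hp in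
/-- `x ^ p` is central when all `[x, y]` are central of order dividing `p`. -/
theorem pow_mem_center {x : G} (hc : ∀ y : G, ⁅x, y⁆ ∈ Subgroup.center G)
    (h1 : ∀ y : G, ⁅x, y⁆ ^ p = 1) : x ^ p ∈ Subgroup.center G := by
  rw [Subgroup.mem_center_iff]
  intro y
  have h2 : ∀ n : ℕ, x ^ n * y * (x ^ n)⁻¹ = ⁅x, y⁆ ^ n * y := by
    intro n
    induction n with
    | zero => simp
    | succ n ih =>
      have h3 : x ^ (n + 1) * y * (x ^ (n + 1))⁻¹ = x * (x ^ n * y * (x ^ n)⁻¹) * x⁻¹ := by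
        rw [pow_succ' x n]; group
      have h4 : x * (⁅x, y⁆ ^ n * y) * x⁻¹ = ⁅x, y⁆ ^ n * (x * y * x⁻¹) := by
        have h5 := Subgroup.mem_center_iff.1 (pow_mem (hc y) n) x
        rw [← mul_assoc, h5]; group
      have h5 : x * y * x⁻¹ = ⁅x, y⁆ * y := by rw [commutatorElement_def]; group
      rw [h3, ih, h4, h5, ← mul_assoc, ← pow_succ]
  have h3 := h2 p
  rw [h1, one_mul, mul_inv_eq_iff_eq_mul] at h3
  exact h3.symm

omit [Finite G] hp in
/-- A cyclic group modulo a subgroup containing all `p`-th powers. -/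
theorem relIndex_dvd {A B : Subgroup G} (hA : IsCyclic A) (hAB : ∀ a ∈ A, a ^ p ∈ B) :
    B.relIndex A ∣ p := by
  obtain ⟨g, hg⟩ := hA.exists_generator
  have : (B.subgroupOf A).Normal := by
    have hcomm : ∀ x y : A, x * y = y * x := fun x y => by
      obtain ⟨i, rfl⟩ := Subgroup.mem_zpowers_iff.1 (hg x)
      obtain ⟨j, rfl⟩ := Subgroup.mem_zpowers_iff.1 (hg y)
      rw [← zpow_add, ← zpow_add, add_comm]
    exact ⟨fun n hn x => by rw [hcomm x n, mul_inv_cancel_right]; exact hn⟩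
  have h1 : orderOf (QuotientGroup.mk' (B.subgroupOf A) g) = Nat.card (A ⧸ B.subgroupOf A) := by
    apply orderOf_eq_card_of_forall_mem_zpowers
    intro x
    obtain ⟨y, rfl⟩ := QuotientGroup.mk'_surjective _ x
    obtain ⟨i, rfl⟩ := Subgroup.mem_zpowers_iff.1 (hg y)
    exact Subgroup.mem_zpowers_iff.2 ⟨i, by rw [map_zpow]⟩
  have h2 : B.relIndex A = Nat.card (A ⧸ B.subgroupOf A) := rfl
  rw [h2, ← h1]
  apply orderOf_dvd_of_pow_eq_one
  rw [← map_pow]
  exact (QuotientGroup.eq_one_iff _).2 (Subgroup.mem_subgroupOf.2 (by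
    rw [Subgroup.coe_pow]
    exact hAB g g.2))

omit [Finite G] in
theorem comm_mk_mem {N : Subgroup G} [N.Normal] {x : G} (h : QuotientGroup.mk' N x ∈ Subgroup.center (G ⧸ N))
    (y : G) : ⁅x, y⁆ ∈ N := by
  rw [← QuotientGroup.eq_one_iff]
  show QuotientGroup.mk' N ⁅x, y⁆ = 1
  rw [map_commutatorElement, commutatorElement_eq_one_iff_mul_comm]
  exact (Subgroup.mem_center_iff.1 h _).symm

/-- Case A: the derived subgroup is central. -/
theorem deg_caseA (hP : IsPGroup p G) (hW : W G) (hc : commutator G ≤ Subgroup.center G)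
    (hcard : Nat.card (commutator G) = p ^ 2) (χ : IrrCharacter G)
    (hχ : charDegree (χ : G → ℂ) ≠ 1) :
    ∃ a e : ℕ, charDegree (χ : G → ℂ) = p ^ a ∧ e ≤ 1 ∧ (Subgroup.center G).index = p ^ e * p ^ (2 * a) := by
  obtain ⟨a, ha⟩ := degree_pow hP χ
  have hK := hW.2 χ hχ
  have hKD : ker χ ≠ commutator G := fun h => hχ (linear_of_commutator_le h.ge)
  have hKp := card_dvd_of_lt hcard hK hKD
  have hKZ : ker χ ≤ Subgroup.center G := hK.trans hc
  let N := ker χ
  let χ' : IrrCharacter (G ⧸ N) :=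
    ⟨deflate N (χ : G → ℂ), isIrrCharacter_deflate N χ.2 (fun n hn => mem_ker.1 hn)⟩
  have hχ' : ∀ g : G, (χ' : G ⧸ N → ℂ) (QuotientGroup.mk' N g) = (χ : G → ℂ) g := fun g =>
    deflate_mk N (isCharacter_of_isIrr χ.2) (fun n hn => mem_ker.1 hn) g
  have hfaith : ∀ g : G ⧸ N, (χ' : G ⧸ N → ℂ) g = (χ' : G ⧸ N → ℂ) 1 → g = 1 := by
    intro g hg
    obtain ⟨x, rfl⟩ := QuotientGroup.mk'_surjective N g
    rw [← map_one (QuotientGroup.mk' N), hχ', hχ'] at hg
    exact (QuotientGroup.eq_one_iff x).2 (mem_ker.2 hg)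
  have hc' : commutator (G ⧸ N) ≤ Subgroup.center (G ⧸ N) := by
    rw [← map_commutator_quot]
    rintro _ ⟨d, hd, rfl⟩
    rw [Subgroup.mem_center_iff]
    intro g
    obtain ⟨x, rfl⟩ := QuotientGroup.mk'_surjective N g
    rw [← map_mul, ← map_mul, Subgroup.mem_center_iff.1 (hc hd) x]
  have h1 := class2_sq hc' χ' (fun g _ => hfaith g)
  have h2 : charDegree (χ' : G ⧸ N → ℂ) = charDegree (χ : G → ℂ) :=
    charDegree_deflate N χ (fun n hn => mem_ker.1 hn)
  have hcyc := cyclic_center χ'.2 (fun g _ => hfaith g)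
  have h3 : ((Subgroup.center G).map (QuotientGroup.mk' N)).index = (Subgroup.center G).index :=
    Subgroup.index_map_eq _ (QuotientGroup.mk'_surjective N) (by rw [QuotientGroup.ker_mk']; exact hKZ)
  have h4 : (Subgroup.center G).map (QuotientGroup.mk' N) ≤ Subgroup.center (G ⧸ N) := by
    rintro _ ⟨d, hd, rfl⟩
    rw [Subgroup.mem_center_iff]
    intro g
    obtain ⟨x, rfl⟩ := QuotientGroup.mk'_surjective N g
    rw [← map_mul, ← map_mul, Subgroup.mem_center_iff.1 hd x]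
  have h5 : ((Subgroup.center G).map (QuotientGroup.mk' N)).relIndex (Subgroup.center (G ⧸ N)) ∣ p := by
    apply relIndex_dvd hcyc
    intro g hg
    obtain ⟨x, rfl⟩ := QuotientGroup.mk'_surjective N g
    refine ⟨x ^ p, pow_mem_center (fun y => hKZ (comm_mk_mem hg y))
      (fun y => pow_eq_one_of_card_dvd hKp (comm_mk_mem hg y)), map_pow _ _ _⟩
  have h6 := Subgroup.relIndex_mul_index h4
  rw [h3, ← h1, h2, ha] at h6
  have h7 : ((Subgroup.center G).map (QuotientGroup.mk' N)).relIndex (Subgroup.center (G ⧸ N)) ∣ p ^ 1 := by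
    rwa [pow_one]
  obtain ⟨e, he, he'⟩ := (Nat.dvd_prime_pow hp.out).1 h7
  refine ⟨a, e, ha, he, ?_⟩
  rw [← h6, he', ← pow_mul, mul_comm a 2]

theorem caseA (hP : IsPGroup p G) (hW : W G) (hc : commutator G ≤ Subgroup.center G)
    (hcard : Nat.card (commutator G) = p ^ 2) (N : Subgroup G) [N.Normal] (hN : Nat.card N = p)
    (hND : N ≤ commutator G) : False := by
  have hp1 := hp.out.one_lt
  obtain ⟨χ, ψ, h1, h2, _, h4⟩ := hW.pair N (by
    rintro rfl
    rw [Subgroup.card_bot] at hN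
    omega) hND (by
    rintro h
    rw [h, hcard] at hN
    nlinarith)
  obtain ⟨a, e, ha, he, hi⟩ := deg_caseA hP hW hc hcard χ h1
  obtain ⟨b, f, hb, hf, hj⟩ := deg_caseA hP hW hc hcard ψ h2
  apply h4
  rw [ha, hb]
  rw [hi, ← pow_add, ← pow_add] at hj
  have := Nat.pow_right_injective hp1 hj
  have : a = b := by omega
  rw [this]

end H82.EqDeg
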