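import Cfsg.Agent.Lib.H82.EqDeg2

/-!
# Groups whose nonlinear irreducible characters of equal degree have equal kernels: case B
-/

set_option autoImplicit false
set_option linter.style.haveILetI false

namespace H82.EqDeg

open Cfsg Representation H18.CharBasic H18.CharOrtho H18.CharInd H18.CharQuot
open H82.Deg H82.Simple H82.Quot
open scoped ComplexConjugate commutatorElement

universe u

variable {G : Type u} [Group G] [Finite G] {p : ℕ} [hp : Fact p.Prime]

/-- In a cyclic group `A ≥ B` with `|B| = p` all elements of order dividing `p` lie in `B`. -/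
theorem mem_of_pow {A B : Subgroup G} (hA : IsCyclic A) (hBA : B ≤ A) (hB : Nat.card B = p) {x : G}
    (hx : x ∈ A) (hxp : x ^ p = 1) : x ∈ B := by
  classical
  letI := Fintype.ofFinite A
  by_contra hxB
  have h1 := IsCyclic.card_pow_eq_one_le (α := A) (n := p) hp.out.pos
  letI := Fintype.ofFinite B
  let f : B → A := Subgroup.inclusion hBA
  have h2 : insert (⟨x, hx⟩ : A) (Finset.univ.image f) ⊆ Finset.univ.filter (fun a : A => a ^ p = 1) := by
    intro a ha
    rw [Finset.mem_filter]
    refine ⟨Finset.mem_univ _, ?_⟩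
    rcases Finset.mem_insert.1 ha with rfl | ha
    · exact Subtype.ext hxp
    · obtain ⟨b, _, rfl⟩ := Finset.mem_image.1 ha
      apply Subtype.ext
      show (b : G) ^ p = 1
      exact pow_eq_one_of_card_dvd (K := B) hB.dvd b.2
  have h3 := Finset.card_le_card h2
  rw [Finset.card_insert_of_notMem, Finset.card_image_of_injective _ (Subgroup.inclusion_injective hBA),
    Finset.card_univ, ← Nat.card_eq_fintype_card, hB] at h3
  · omega
  · intro h
    obtain ⟨b, _, hb⟩ := Finset.mem_image.1 h
    apply hxB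
    have := congrArg Subtype.val hb
    rw [← show (b : G) = x from this]
    exact b.2

theorem caseB (hP : IsPGroup p G) (hW : W G) (N : Subgroup G) [N.Normal] (hN : Nat.card N = p)
    (hND : N ≤ commutator G) (hNZ : N ≤ Subgroup.center G) (hcard : Nat.card (commutator G) = p ^ 2)
    (hD : ¬ commutator G ≤ Subgroup.center G) (hcyc : IsCyclic (Subgroup.center (G ⧸ N)))
    (hQ : Nat.card (commutator (G ⧸ N)) = p)
    (hQZ : commutator (G ⧸ N) ≤ Subgroup.center (G ⧸ N)) : False := by
  classical
  have hp1 := hp.out.one_lt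
  have hNp : ∀ n ∈ N, n ^ p = 1 := fun n hn => pow_eq_one_of_card_dvd hN.dvd hn
  -- D ⊓ Z = N
  have hDZ : ∀ x ∈ commutator G, x ∈ Subgroup.center G → x ∈ N := by
    have h1 : Nat.card (commutator G ⊓ Subgroup.center G : Subgroup G) ∣ p :=
      card_dvd_of_lt hcard inf_le_left (fun h => hD (inf_eq_left.1 h))
    have h2 : N = commutator G ⊓ Subgroup.center G :=
      Subgroup.eq_of_le_of_card_ge (le_inf hND hNZ) (by rw [hN]; exact Nat.le_of_dvd hp.out.pos h1)
    intro x hx hx'
    rw [h2]
    exact ⟨hx, hx'⟩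
  have hmem : ∀ x : G, QuotientGroup.mk' N x ∈ commutator (G ⧸ N) → x ∈ commutator G := by
    intro x hx
    rw [← map_commutator_quot, ← Subgroup.mem_comap, Subgroup.comap_map_eq, QuotientGroup.ker_mk',
      sup_eq_left.2 hND] at hx
    exact hx
  have hmem' : ∀ x : G, QuotientGroup.mk' N x ∈ Subgroup.center (G ⧸ N) →
      (QuotientGroup.mk' N x) ^ p = 1 → x ∈ commutator G := fun x h1 h2 =>
    hmem x (mem_of_pow hcyc hQZ hQ h1 h2)
  -- Z ≤ N
  have hZN : Subgroup.center G ≤ N := by
    intro z hz
    by_contra hzN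
    have h1 : QuotientGroup.mk' N z ≠ 1 := fun h => hzN ((QuotientGroup.eq_one_iff z).1 h)
    have h2 : orderOf (QuotientGroup.mk' N z) ≠ 1 := fun h => h1 (orderOf_eq_one_iff.1 h)
    obtain ⟨a, ha⟩ := IsPGroup.iff_orderOf.1 (hP.to_quotient N) (QuotientGroup.mk' N z)
    have ha0 : a ≠ 0 := by
      rintro rfl
      exact h2 (by rw [ha, pow_zero])
    obtain ⟨b, rfl⟩ := Nat.exists_eq_succ_of_ne_zero ha0
    have h3 : (QuotientGroup.mk' N (z ^ p ^ b)) ^ p = 1 := by
      rw [map_pow, ← pow_mul, ← pow_succ, ← ha, pow_orderOf_eq_one]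
    have h4 : QuotientGroup.mk' N (z ^ p ^ b) ≠ 1 := by
      intro h
      rw [map_pow] at h
      have h5 := orderOf_dvd_of_pow_eq_one h
      rw [ha] at h5
      have h6 := (Nat.pow_dvd_pow_iff_le_right hp1).1 h5
      omega
    have h5 : z ^ p ^ b ∈ Subgroup.center G := pow_mem hz _
    have h6 : z ^ p ^ b ∈ commutator G := hmem' _ (by
      rw [Subgroup.mem_center_iff]
      intro g
      obtain ⟨x, rfl⟩ := QuotientGroup.mk'_surjective N g
      rw [← map_mul, ← map_mul, Subgroup.mem_center_iff.1 h5 x]) h3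
    exact h4 ((QuotientGroup.eq_one_iff _).2 (hDZ _ h6 h5))
  -- preimage of the centre
  have hcen : ∀ x : G, QuotientGroup.mk' N x ∈ Subgroup.center (G ⧸ N) → x ∈ commutator G := by
    intro x hx
    apply hmem' x hx
    rw [← map_pow]
    exact (QuotientGroup.eq_one_iff _).2 (hZN (pow_mem_center (fun y => hNZ (comm_mk_mem hx y))
      (fun y => hNp _ (comm_mk_mem hx y))))
  have hcen' : (Subgroup.center (G ⧸ N)).index = (commutator G).index := by
    rw [← Subgroup.index_comap_of_surjective _ (QuotientGroup.mk'_surjective N)]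
    congr 1
    apply le_antisymm
    · exact fun x hx => hcen x hx
    · intro x hx
      apply hQZ
      rw [← map_commutator_quot]
      exact ⟨x, hx, rfl⟩
  -- the element d₀
  obtain ⟨d₀, hd₀, hd₀N⟩ : ∃ d ∈ commutator G, d ∉ N := by
    by_contra h
    push Not at h
    have := Subgroup.card_le_of_le (show commutator G ≤ N from h)
    rw [hcard, hN] at this
    nlinarith
  have hd₀Q : ∀ x : G, ⁅d₀, x⁆ ∈ N := comm_mk_mem (hQZ (by
    rw [← map_commutator_quot]
    exact ⟨d₀, hd₀, rfl⟩))
  let C : Subgroup G := Subgroup.centralizer {d₀}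
  have hCD : ∀ c ∈ C, ∀ d ∈ commutator G, c * d = d * c := by
    intro c hc
    have h1 : commutator G ⊓ Subgroup.centralizer {c} = commutator G := by
      by_contra hne
      have h2 := card_dvd_of_lt hcard (inf_le_left : commutator G ⊓ Subgroup.centralizer {c} ≤ _) hne
      have h3 : N = commutator G ⊓ Subgroup.centralizer {c} :=
        Subgroup.eq_of_le_of_card_ge (le_inf hND (fun n hn => by
          rw [Subgroup.mem_centralizer_singleton_iff]
          exact (Subgroup.mem_center_iff.1 (hNZ hn) c).symm))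
          (by rw [hN]; exact Nat.le_of_dvd hp.out.pos h2)
      apply hd₀N
      rw [h3]
      exact ⟨hd₀, Subgroup.mem_centralizer_singleton_iff.2
        (Subgroup.mem_centralizer_singleton_iff.1 hc).symm⟩
    intro d hd
    rw [← h1] at hd
    exact (Subgroup.mem_centralizer_singleton_iff.1 hd.2).symm
  have hDD : ∀ d ∈ commutator G, d ∈ C := by
    intro d hd
    rw [Subgroup.mem_centralizer_singleton_iff]
    exact (hCD d₀ (Subgroup.mem_centralizer_singleton_iff.2 rfl) d hd).symm
  -- index of C
  have hCidx : C.index ∣ p := by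
    let f : G →* N :=
      { toFun := fun x => ⟨⁅x, d₀⁆, by rw [← commutatorElement_inv]; exact inv_mem (hd₀Q x)⟩
        map_one' := by
          apply Subtype.ext
          show ⁅(1 : G), d₀⁆ = 1
          exact commutatorElement_one_left _
        map_mul' := by
          intro x y
          apply Subtype.ext
          show ⁅x * y, d₀⁆ = ⁅x, d₀⁆ * ⁅y, d₀⁆
          have h1 : ⁅y, d₀⁆ ∈ Subgroup.center G := hNZ (by
            rw [← commutatorElement_inv]; exact inv_mem (hd₀Q y))
          have h2 : ⁅x * y, d₀⁆ = x * ⁅y, d₀⁆ * x⁻¹ * ⁅x, d₀⁆ := by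
            simp only [commutatorElement_def]; group
          rw [h2, Subgroup.mem_center_iff.1 h1 x, mul_inv_cancel_right]
          exact (Subgroup.mem_center_iff.1 h1 _).symm }
    have h1 : f.ker = C := by
      ext x
      rw [MonoidHom.mem_ker, Subgroup.mem_centralizer_singleton_iff, Subtype.ext_iff]
      show ⁅x, d₀⁆ = 1 ↔ _
      exact commutatorElement_eq_one_iff_mul_comm
    rw [← h1, Subgroup.index_ker, ← hN]
    exact Subgroup.card_subgroup_dvd_card f.range
  have hCne : C.index ≠ 1 := by
    intro h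
    apply hd₀N
    apply hDZ d₀ hd₀
    rw [Subgroup.mem_center_iff]
    intro g
    have : g ∈ C := by rw [Subgroup.index_eq_one.1 h]; trivial
    exact Subgroup.mem_centralizer_singleton_iff.1 this
  have hCp : C.index = p := ((Nat.dvd_prime hp.out).1 hCidx).resolve_left hCne
  -- C' is central
  have hCC : ∀ a ∈ C, ∀ b ∈ C, ⁅a, b⁆ ∈ N := by
    intro a ha b hb
    apply hZN
    rw [Subgroup.mem_center_iff]
    intro y
    have h1 : ∀ c ∈ C, ∃ d ∈ commutator G, y * c * y⁻¹ = d * c := fun c _ =>
      ⟨⁅y, c⁆, Subgroup.commutator_mem_commutator (Subgroup.mem_top _) (Subgroup.mem_top _), by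
        rw [commutatorElement_def]; group⟩
    obtain ⟨d, hd, hda⟩ := h1 a ha
    obtain ⟨e, he, heb⟩ := h1 b hb
    have h2 : y * ⁅a, b⁆ * y⁻¹ = ⁅y * a * y⁻¹, y * b * y⁻¹⁆ := by
      simp only [commutatorElement_def]; group
    have hdb := hCD b hb d hd
    have hea := hCD a ha e he
    have hda' := hCD a ha d hd
    have heb' := hCD b hb e he
    have hde := hCD e (hDD e he) d hd
    have h3 : ⁅d * a, e * b⁆ = ⁅a, b⁆ := by
      rw [commutatorElement_def, commutatorElement_def]
      have h4 : d * a * (e * b) = (d * e) * (a * b) := by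
        calc d * a * (e * b) = d * (a * e) * b := by group
          _ = d * (e * a) * b := by rw [hea]
          _ = (d * e) * (a * b) := by group
      have h5 : (e * b) * (d * a) = (d * e) * (b * a) := by
        calc (e * b) * (d * a) = e * (b * d) * a := by group
          _ = e * (d * b) * a := by rw [hdb]
          _ = (e * d) * (b * a) := by group
          _ = (d * e) * (b * a) := by rw [hde]
      calc d * a * (e * b) * (d * a)⁻¹ * (e * b)⁻¹ = (d * a * (e * b)) * ((e * b) * (d * a))⁻¹ := by group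
        _ = ((d * e) * (a * b)) * ((d * e) * (b * a))⁻¹ := by rw [h4, h5]
        _ = (d * e) * (a * b * (b * a)⁻¹) * (d * e)⁻¹ := by group
        _ = (a * b * (b * a)⁻¹) * (d * e) * (d * e)⁻¹ := by
            have h6 : a * b * (b * a)⁻¹ ∈ C := mul_mem (mul_mem ha hb) (inv_mem (mul_mem hb ha))
            rw [hCD _ h6 _ (mul_mem hd he)]
        _ = a * b * a⁻¹ * b⁻¹ := by group
    have h4 : y * ⁅a, b⁆ * y⁻¹ = ⁅a, b⁆ := by rw [h2, hda, heb, h3]
    exact mul_inv_eq_iff_eq_mul.1 h4
  -- nonlinear characters of G / N have degree p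
  obtain ⟨χ, ψ, h1, h2, h3, h4⟩ := hW.pair N (by
    rintro rfl
    rw [Subgroup.card_bot] at hN
    omega) hND (by
    rintro h
    rw [h, hcard] at hN
    nlinarith)
  have hdeg : ∀ θ : IrrCharacter G, charDegree (θ : G → ℂ) ≠ 1 → charDegree (θ : G → ℂ) ≤ p →
      charDegree (θ : G → ℂ) = p := by
    intro θ h5 h6
    obtain ⟨a, ha⟩ := degree_pow hP θ
    rw [ha] at h5 h6 ⊢
    have h7 : a ≤ 1 := by
      rw [← pow_one p] at h6
      rw [pow_one] at h6
      by_contra h8
      have h9 : p ^ 2 ≤ p ^ a := Nat.pow_le_pow_right hp.out.pos (by omega)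
      nlinarith
    have h8 : a ≠ 0 := by
      rintro rfl
      exact h5 (pow_zero p)
    have h9 : a = 1 := by omega
    rw [h9, pow_one]
  let χ' : IrrCharacter (G ⧸ N) :=
    ⟨deflate N (χ : G → ℂ), isIrrCharacter_deflate N χ.2 (fun n hn => mem_ker.1 (h3 hn))⟩
  have hχ' : charDegree (χ' : G ⧸ N → ℂ) = charDegree (χ : G → ℂ) :=
    charDegree_deflate N χ (fun n hn => mem_ker.1 (h3 hn))
  have h5 : charDegree (χ : G → ℂ) ≤ p := by
    rw [← hχ', ← hCp, ← Subgroup.index_map_eq C (QuotientGroup.mk'_surjective N) (by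
      rw [QuotientGroup.ker_mk']
      exact fun n hn => hDD n (hND hn))]
    apply H77.TwoDeg.degree_le_index
    rintro _ ⟨a, ha, rfl⟩ _ ⟨b, hb, rfl⟩
    rw [← commutatorElement_eq_one_iff_mul_comm, ← map_commutatorElement]
    exact (QuotientGroup.eq_one_iff _).2 (hCC a ha b hb)
  have h6 := hdeg χ h1 h5
  have h7 := class2_sq hQZ χ' (by
    intro g hg hg1
    by_contra hg0
    have h8 : ∀ x ∈ commutator (G ⧸ N), x ∈ ker χ' := by
      have h9 : Nat.card (commutator (G ⧸ N) ⊓ ker χ' : Subgroup (G ⧸ N)) ∣ p := by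
        rw [← hQ]; exact Subgroup.card_dvd_of_le inf_le_left
      have h10 : Nat.card (commutator (G ⧸ N) ⊓ ker χ' : Subgroup (G ⧸ N)) ≠ 1 := by
        intro h
        have h11 := Subgroup.card_eq_one.1 h
        apply hg0
        have h12 : g ∈ (commutator (G ⧸ N) ⊓ ker χ' : Subgroup (G ⧸ N)) := ⟨hg, mem_ker.2 hg1⟩
        rw [h11] at h12
        exact Subgroup.mem_bot.1 h12
      have h11 := ((Nat.dvd_prime hp.out).1 h9).resolve_left h10
      have h12 : commutator (G ⧸ N) ⊓ ker χ' = commutator (G ⧸ N) :=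
        Subgroup.eq_of_le_of_card_ge inf_le_left (by rw [h11, hQ])
      intro x hx
      rw [← h12] at hx
      exact hx.2
    exact h1 (by rw [← hχ']; exact linear_of_commutator_le h8))
  rw [hχ', h6, hcen'] at h7
  -- C is abelian
  have h8 := Subgroup.relIndex_mul_index (show commutator G ≤ C from hDD)
  rw [hCp, ← h7, sq] at h8
  have h9 : (commutator G).relIndex C = p := Nat.eq_of_mul_eq_mul_right hp.out.pos h8
  have h10 : (commutator G).subgroupOf C ≤ Subgroup.center C := by
    intro d hd
    rw [Subgroup.mem_center_iff]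
    intro c
    exact Subtype.ext (hCD c c.2 d hd)
  have h11 : Nat.card (C ⧸ Subgroup.center C) ∣ p := by
    have := Subgroup.index_dvd_of_le h10
    rw [show ((commutator G).subgroupOf C).index = p from h9] at this
    exact this
  have h12 : IsCyclic (C ⧸ Subgroup.center C) := isCyclic_of_card_dvd_prime h11
  have h13 : ∀ a b : C, a * b = b * a := commutative_of_cyclic_center_quotient
    (QuotientGroup.mk' (Subgroup.center C)) (by rw [QuotientGroup.ker_mk'])
  have h14 := H77.TwoDeg.degree_le_index C (fun a ha b hb => congrArg Subtype.val (h13 ⟨a, ha⟩ ⟨b, hb⟩)) ψ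
  rw [hCp] at h14
  exact h4 (by rw [h6, hdeg ψ h2 h14])

end H82.EqDeg
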