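import Cfsg.Agent.Lib.H82.EqDeg3
import Cfsg.Agent.Lib.H3.PBasic
import Cfsg.Agent.Lib.H66.PIndex

/-!
# `p`-groups whose nonlinear irreducible characters of equal degree are Galois conjugate
-/

set_option autoImplicit false
set_option linter.style.haveILetI false

namespace H82.EqDeg

open Cfsg Representation H18.CharBasic H18.CharOrtho H18.CharInd H18.CharQuot
open H82.Deg H82.Simple H82.Quot
open scoped ComplexConjugate commutatorElement

universe u

section

variable {G : Type u} [Group G] [Finite G] {p : ℕ} [hp : Fact p.Prime]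

theorem exists_nonlinear (hna : ¬ ∀ a b : G, a * b = b * a) :
    ∃ χ : IrrCharacter G, charDegree (χ : G → ℂ) ≠ 1 := by
  by_contra h
  push Not at h
  exact hna (H77.TwoDeg.comm_of_linear' (fun χ => h χ))

/-- A nonlinear character is faithful on a derived subgroup of prime order. -/
theorem faithful_on (hcard : Nat.card (commutator G) = p) (χ : IrrCharacter G)
    (hχ : charDegree (χ : G → ℂ) ≠ 1) : ∀ g ∈ commutator G, (χ : G → ℂ) g = (χ : G → ℂ) 1 → g = 1 := by
  intro g hg hg1
  by_contra hg0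
  have h8 : ∀ x ∈ commutator G, x ∈ ker χ := by
    have h9 : Nat.card (commutator G ⊓ ker χ : Subgroup G) ∣ p := by
      rw [← hcard]; exact Subgroup.card_dvd_of_le inf_le_left
    have h10 : Nat.card (commutator G ⊓ ker χ : Subgroup G) ≠ 1 := by
      intro h
      have h11 := Subgroup.card_eq_one.1 h
      apply hg0
      have h12 : g ∈ (commutator G ⊓ ker χ : Subgroup G) := ⟨hg, mem_ker.2 hg1⟩
      rw [h11] at h12
      exact Subgroup.mem_bot.1 h12
    have h11 := ((Nat.dvd_prime hp.out).1 h9).resolve_left h10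
    have h12 : commutator G ⊓ ker χ = commutator G :=
      Subgroup.eq_of_le_of_card_ge inf_le_left (by rw [h11, hcard])
    intro x hx
    rw [← h12] at hx
    exact hx.2
  exact hχ (linear_of_commutator_le h8)

theorem cyc (hW : W G) (hna : ¬ ∀ a b : G, a * b = b * a) (hcard : Nat.card (commutator G) = p) :
    IsCyclic (Subgroup.center G) := by
  obtain ⟨χ, hχ⟩ := exists_nonlinear hna
  exact cyclic_center χ.2 (fun g _ hg1 => faithful_on hcard χ hχ g (hW.2 χ hχ (mem_ker.2 hg1)) hg1)

omit [Finite G] in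
theorem card_commutator_ne (hna : ¬ ∀ a b : G, a * b = b * a) : commutator G ≠ ⊥ := by
  intro h
  apply hna
  intro a b
  have h1 : ⁅a, b⁆ ∈ commutator G :=
    Subgroup.commutator_mem_commutator (Subgroup.mem_top a) (Subgroup.mem_top b)
  rw [h, Subgroup.mem_bot] at h1
  exact commutatorElement_eq_one_iff_mul_comm.1 h1

end

theorem main (p : ℕ) [hp : Fact p.Prime] (n : ℕ) : ∀ (G : Type u) [Group G] [Finite G], Nat.card G = n →
    IsPGroup p G → W G → (¬ ∀ a b : G, a * b = b * a) → Nat.card (commutator G) = p := by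
  induction n using Nat.strong_induction_on with
  | _ n ih =>
  intro G _ _ hn hP hW hna
  have hp1 := hp.out.one_lt
  have hD1 := card_commutator_ne hna
  by_contra hne
  -- a central subgroup of order p in the derived subgroup
  haveI := hP.isNilpotent
  have h1 := H3.PBasic.normal_inf_center_ne_bot (commutator G) hD1
  have h2 : p ∣ Nat.card (commutator G ⊓ Subgroup.center G : Subgroup G) := by
    obtain ⟨k, hk⟩ := IsPGroup.iff_card.1
      (hP.to_subgroup (commutator G ⊓ Subgroup.center G : Subgroup G))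
    rw [hk]
    apply dvd_pow_self
    rintro rfl
    rw [pow_zero] at hk
    exact h1 (Subgroup.card_eq_one.1 hk)
  obtain ⟨z, hz⟩ := exists_prime_orderOf_dvd_card' p h2
  have hzD : (z : G) ∈ commutator G := z.2.1
  have hzZ : (z : G) ∈ Subgroup.center G := z.2.2
  let N : Subgroup G := Subgroup.zpowers (z : G)
  have hND : N ≤ commutator G := by rwa [Subgroup.zpowers_le]
  have hNZ : N ≤ Subgroup.center G := by rwa [Subgroup.zpowers_le]
  have hNn : N.Normal := ⟨fun n hn g => by
    rw [Subgroup.mem_center_iff.1 (hNZ hn) g, mul_inv_cancel_right]; exact hn⟩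
  have hN : Nat.card N = p := by
    rw [Nat.card_zpowers, Subgroup.orderOf_coe, hz]
  have hcG : Nat.card (G ⧸ N) * p = Nat.card G := by
    rw [← hN]; exact (Subgroup.card_eq_card_quotient_mul_card_subgroup N).symm
  have hlt : Nat.card (G ⧸ N) < n := by
    rw [← hn, ← hcG]
    have := Nat.card_pos (α := G ⧸ N)
    nlinarith
  have hna' : ¬ ∀ a b : G ⧸ N, a * b = b * a := by
    intro h
    have h3 : commutator G ≤ N := by
      rw [commutator_def, Subgroup.commutator_le]
      intro a _ b _
      rw [← QuotientGroup.eq_one_iff]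
      show QuotientGroup.mk' N ⁅a, b⁆ = 1
      rw [map_commutatorElement, commutatorElement_eq_one_iff_mul_comm]
      exact h _ _
    exact hne (by rw [le_antisymm h3 hND, hN])
  have hPQ : IsPGroup p (G ⧸ N) := hP.to_quotient N
  have hWQ := hW.quot N
  have hQ := ih _ hlt (G ⧸ N) rfl hPQ hWQ hna'
  have hcyc := cyc hWQ hna' hQ
  have hQZ := H66.PIndex.le_center_of_card hPQ (commutator (G ⧸ N)) hQ
  have hcard : Nat.card (commutator G) = p ^ 2 := by
    have h3 := Subgroup.card_mul_index (commutator G)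
    have h4 := Subgroup.card_mul_index (commutator (G ⧸ N))
    have h5 : (commutator (G ⧸ N)).index = (commutator G).index := by
      rw [← map_commutator_quot]
      exact Subgroup.index_map_eq _ (QuotientGroup.mk'_surjective N) (by
        rw [QuotientGroup.ker_mk']; exact hND)
    rw [h5, hQ] at h4
    rw [← hcG, ← h4] at h3
    have h6 : Nat.card (commutator G) * (commutator G).index = p ^ 2 * (commutator G).index := by
      rw [h3]; ring
    exact Nat.eq_of_mul_eq_mul_right (Nat.pos_of_ne_zero Subgroup.index_ne_zero_of_finite) h6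
  by_cases hc : commutator G ≤ Subgroup.center G
  · exact caseA hP hW hc hcard N hN hND
  · exact caseB hP hW N hN hND hNZ hcard hc hcyc hQ hQZ

section

variable {G : Type u} [Group G] [Finite G] {p : ℕ} [hp : Fact p.Prime]

/-- Every nontrivial subgroup-like condition of a cyclic `p`-group. -/
theorem faithful_center (hP : IsPGroup p G) (hcyc : IsCyclic (Subgroup.center G))
    (hcard : Nat.card (commutator G) = p) (hDZ : commutator G ≤ Subgroup.center G)
    (χ : IrrCharacter G) (hχ : charDegree (χ : G → ℂ) ≠ 1) :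
    ∀ g ∈ Subgroup.center G, (χ : G → ℂ) g = (χ : G → ℂ) 1 → g = 1 := by
  intro z hz hz1
  by_contra hz0
  obtain ⟨a, ha⟩ := IsPGroup.iff_orderOf.1 hP z
  have ha0 : a ≠ 0 := by
    rintro rfl
    exact hz0 (orderOf_eq_one_iff.1 (by rw [ha, pow_zero]))
  obtain ⟨b, rfl⟩ := Nat.exists_eq_succ_of_ne_zero ha0
  have h3 : (z ^ p ^ b) ^ p = 1 := by
    rw [← pow_mul, ← pow_succ, ← ha, pow_orderOf_eq_one]
  have h4 : z ^ p ^ b ≠ 1 := by
    intro h
    have h5 := orderOf_dvd_of_pow_eq_one h
    rw [ha] at h5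
    have h6 := (Nat.pow_dvd_pow_iff_le_right hp.out.one_lt).1 h5
    omega
  have h5 := mem_of_pow hcyc hDZ hcard (pow_mem hz (p ^ b)) h3
  have h6 : z ^ p ^ b ∈ ker χ := pow_mem (mem_ker.2 hz1) _
  exact h4 (faithful_on hcard χ hχ _ h5 (mem_ker.1 h6))

theorem gal_of (hP : IsPGroup p G) (hcyc : IsCyclic (Subgroup.center G))
    (hcard : Nat.card (commutator G) = p) (χ ψ : IrrCharacter G)
    (hχ : charDegree (χ : G → ℂ) ≠ 1) (hχψ : charDegree (χ : G → ℂ) = charDegree (ψ : G → ℂ)) :
    ∃ k : ℕ, Nat.Coprime k (Nat.card G) ∧ ∀ g : G, (ψ : G → ℂ) g = (χ : G → ℂ) (g ^ k) := by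
  have hψ : charDegree (ψ : G → ℂ) ≠ 1 := by rwa [← hχψ]
  have hDZ := H66.PIndex.le_center_of_card hP (commutator G) hcard
  have hf := faithful_center hP hcyc hcard hDZ χ hχ
  have hf' := faithful_center hP hcyc hcard hDZ ψ hψ
  obtain ⟨l, hl⟩ := H82.GalProd.exists_central χ.2
  obtain ⟨l', hl'⟩ := H82.GalProd.exists_central ψ.2
  have hinj : Function.Injective l := by
    rw [injective_iff_map_eq_one]
    intro z hz
    apply Subtype.ext
    apply hf z z.2
    have h1 := hl z 1
    rwa [mul_one, hz, Units.val_one, one_mul] at h1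
  have hinj' : Function.Injective l' := by
    rw [injective_iff_map_eq_one]
    intro z hz
    apply Subtype.ext
    apply hf' z z.2
    have h1 := hl' z 1
    rwa [mul_one, hz, Units.val_one, one_mul] at h1
  obtain ⟨z, hz⟩ := hcyc.exists_generator
  have hord : orderOf z = Nat.card (Subgroup.center G) := orderOf_eq_card_of_forall_mem_zpowers hz
  have hprim : IsPrimitiveRoot (l z) (Nat.card (Subgroup.center G)) := by
    rw [← hord, ← orderOf_injective l hinj z]
    exact IsPrimitiveRoot.orderOf _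
  have hprim' : IsPrimitiveRoot (l' z) (Nat.card (Subgroup.center G)) := by
    rw [← hord, ← orderOf_injective l' hinj' z]
    exact IsPrimitiveRoot.orderOf _
  haveI : NeZero (Nat.card (Subgroup.center G)) := ⟨Nat.card_pos.ne'⟩
  obtain ⟨k, _, hk, hkz⟩ := (IsPrimitiveRoot.isPrimitiveRoot_iff' hprim).1 hprim'
  have hll : ∀ w : Subgroup.center G, l' w = l w ^ k := by
    intro w
    obtain ⟨i, rfl⟩ := Subgroup.mem_zpowers_iff.1 (hz w)
    rw [map_zpow, map_zpow, ← hkz, ← zpow_natCast, ← zpow_natCast, ← zpow_mul, ← zpow_mul, mul_comm]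
  have hkG : Nat.Coprime k (Nat.card G) := by
    obtain ⟨n, hn⟩ := IsPGroup.iff_card.1 hP
    rw [hn]
    apply Nat.Coprime.pow_right
    apply hk.coprime_dvd_right
    rw [← hcard]
    exact Subgroup.card_dvd_of_le hDZ
  refine ⟨k, hkG, fun g => ?_⟩
  by_cases hg : g ∈ Subgroup.center G
  · have h1 := hl' ⟨g, hg⟩ 1
    have h2 := hl (⟨g, hg⟩ ^ k) 1
    rw [mul_one, Subgroup.coe_pow] at h2
    rw [mul_one] at h1
    show (ψ : G → ℂ) g = _
    rw [h1, h2, hll, map_pow, ← coe_charDegree' χ, ← coe_charDegree' ψ, hχψ]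
  · rw [class2_zero hDZ ψ.2 (faithful_on hcard ψ hψ) hg,
      class2_zero hDZ χ.2 (faithful_on hcard χ hχ) (fun h => hg ((mem_pow_iff' hkG _ g).1 h))]

theorem result (hP : IsPGroup p G) (hna : ¬ ∀ a b : G, a * b = b * a) :
    (∀ χ ψ : IrrCharacter G, charDegree (χ : G → ℂ) ≠ 1 →
      charDegree (χ : G → ℂ) = charDegree (ψ : G → ℂ) →
      ∃ k : ℕ, Nat.Coprime k (Nat.card G) ∧ ∀ g : G, (ψ : G → ℂ) g = (χ : G → ℂ) (g ^ k)) ↔
      (IsCyclic (Subgroup.center G) ∧ Nat.card (commutator G) = p) := by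
  constructor
  · intro h
    have hW := W_of_gal h
    have h1 := main p _ G rfl hP hW hna
    exact ⟨cyc hW hna h1, h1⟩
  · rintro ⟨h1, h2⟩ χ ψ h3 h4
    exact gal_of hP h1 h2 χ ψ h3 h4

end

end H82.EqDeg
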