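import Mathlib
import Cfsg.Agent.Lib.H82.GagAct
import Cfsg.Agent.Lib.H1.Cores
import Cfsg.Agent.Lib.H1.Solv
import Cfsg.Agent.Lib.H2.NPC
import Cfsg.Agent.Lib.H2.Nilp
import Cfsg.Agent.Lib.H3.QuatSub
import Cfsg.Agent.Lib.H3.CentralizerNorm
import Cfsg.Agent.Lib.H3.NarrowFit
import Cfsg.Agent.Lib.H11.CyclicNormal
import Cfsg.Agent.Lib.H15.Q8Lin2
import Cfsg.Agent.Lib.H76.MaxClass

/-!
# Solvable groups acting transitively on an elementary abelian group with `p`-stabilizers
-/

set_option linter.style.haveILetI false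
set_option linter.style.longLine false

namespace H82.GagSolv

open Subgroup
open scoped commutatorElement

/-- the quaternion relations as used below -/
theorem order_three {Q : Type*} [Group Q] {i j : Q} (hji : j ^ 2 = i ^ 2) (hrel : j * i = i⁻¹ * j)
    (hcl : closure {i, j} = ⊤) (α : MulAut Q) (hi : α i = j) (hj : α j = i * j) : α ^ 3 = 1 := by
  have h1 : (α ^ 3) i = i := by
    rw [pow_succ, pow_two, MulAut.mul_apply, MulAut.mul_apply, hi, hj, map_mul, hi, hj, ← mul_assoc,
      hrel, mul_assoc, ← pow_two, hji, pow_two]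
    group
  have h2 : (α ^ 3) j = j := by
    have h3 : (α ^ 3) (α i) = α ((α ^ 3) i) := by
      rw [← MulAut.mul_apply, ← MulAut.mul_apply, ← pow_succ, ← pow_succ']
    rw [hi, h1, hi] at h3
    exact h3
  have h3 : ((α ^ 3 : MulAut Q) : Q ≃* Q).toMonoidHom = MonoidHom.id Q := by
    apply MonoidHom.eq_of_eqOn_dense hcl
    rintro x (rfl | rfl)
    · exact h1
    · exact h2
  ext x
  exact DFunLike.congr_fun h3 x

theorem odd_six {n : ℕ} (h : n ∣ 6) (h2 : ¬ 2 ∣ n) : n ∣ 3 := by
  have h3 : Nat.Coprime n 2 := by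
    rw [Nat.coprime_comm]; exact (Nat.Prime.coprime_iff_not_dvd Nat.prime_two).2 h2
  exact Nat.Coprime.dvd_of_dvd_mul_right h3 (by simpa using h)

theorem dvd_eight {m : ℕ} (h : m ∣ 8) (h1 : m ≠ 1) (h2 : m ≠ 2) : m = 4 ∨ m = 8 := by
  have h3 : m ≤ 8 := Nat.le_of_dvd (by norm_num) h
  interval_cases m <;> omega

/-- Case analysis for a normal quaternion subgroup. -/
theorem mem_centralizer {H N : Type*} [Group H] [Finite H] [CommGroup N] [Finite N] [Nontrivial N]
    (φ : H →* MulAut N) (hφ : Function.Injective φ) {p : ℕ} [hpf : Fact p.Prime] (hN : IsPGroup p N)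
    (htrans : ∀ x y : N, x ≠ 1 → y ≠ 1 → ∃ h, φ h x = y)
    (hstab : ∀ x : N, x ≠ 1 → ∀ h, φ h x = x → ∃ k : ℕ, h ^ p ^ k = 1)
    (Q : Subgroup H) [hQn : Q.Normal] (hQ2 : IsPGroup 2 Q) {n : ℕ} (ψ : Q →* QuaternionGroup (2 ^ n))
    (hψ : Function.Injective ψ) (g : H) (hg : g ∈ _root_.commutator H) (hgp : g ^ p = 1)
    (hp2 : p ≠ 2) : g ∈ centralizer (Q : Set H) := by
  classical
  set C := centralizer (Q : Set H) with hCdef
  haveI hCn : C.Normal := H3.CentralizerNorm.centralizer_normal Q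
  by_contra hgC
  set α : MulAut Q := MulAut.conjNormal g with hα
  have hαapp : ∀ x : Q, ((α x : Q) : H) = g * x * g⁻¹ := fun x => MulAut.conjNormal_apply g x
  have hαp : α ^ p = 1 := by rw [hα, ← map_pow, hgp, map_one]
  have hα1 : α ≠ 1 := by
    intro h1
    apply hgC
    rw [hCdef, mem_centralizer_iff]
    intro x hx
    have h2 := hαapp ⟨x, hx⟩
    rw [h1] at h2
    have h3 : x = g * x * g⁻¹ := h2
    nth_rewrite 1 [h3]
    group
  have hαo : orderOf α = p := orderOf_eq_prime hαp hα1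
  obtain ⟨i, j, hi4, hi2, hji, hrel, hαi, hαj, hcl, hQc⟩ := H3.QuatSub.main hQ2 ψ hψ α
    (by rw [hαo]; exact (Nat.coprime_primes hpf.out Nat.prime_two).2 hp2) hα1
  have hp3 : p = 3 := by
    have h1 := order_three hji hrel hcl α hαi hαj
    have h2 : orderOf α = 3 := by
      haveI : Fact (Nat.Prime 3) := ⟨Nat.prime_three⟩
      exact orderOf_eq_prime h1 hα1
    rw [← hαo, h2]
  subst hp3
  have hoi : orderOf i = 2 * 2 := by
    have h1 : orderOf i = 2 ^ (1 + 1) := orderOf_eq_prime_pow (by simpa using hi2) (by simpa using hi4)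
    simpa using h1
  have hjA : j ∉ zpowers i := by
    intro h1
    obtain ⟨k, hk⟩ := mem_zpowers_iff.1 h1
    have h2 : j * i = i * j := by rw [← hk]; group
    rw [h2] at hrel
    have h3 : i = i⁻¹ := mul_right_cancel hrel
    apply hi2
    rw [pow_two]
    nth_rewrite 2 [h3]
    exact mul_inv_cancel i
  have hjij : j * i * j⁻¹ = i⁻¹ := by rw [hrel]; group
  obtain ⟨e⟩ := H76.MaxClass.quaternion_of (n := 2) i j hoi hjij hji hjA (by
    have h1 := (zpowers i).card_mul_index
    rw [Nat.card_zpowers, hoi, hQc] at h1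
    omega)
  have hCdvd : C.index ∣ 24 := by
    have h1 := H15.Q8Lin.card_dvd_24 Q hQn e
    rw [← hCdef, ← C.card_mul_index] at h1
    exact Nat.dvd_of_mul_dvd_mul_left Nat.card_pos h1
  -- relative index of `C` in `QC`
  set D := C.subgroupOf Q with hD
  have hmemD : ∀ x : Q, x ∈ D → ∀ y : Q, y * x = x * y := by
    intro x hx y
    have h1 : (x : H) ∈ C := mem_subgroupOf.1 hx
    exact Subtype.ext (mem_centralizer_iff.1 h1 y y.2)
  have hDi : D.index ∣ 8 := by rw [← hQc]; exact D.index_dvd_card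
  have hij : i * j ≠ j * i := by
    intro h1
    rw [← h1] at hrel
    have h3 : i = i⁻¹ := mul_right_cancel hrel
    apply hi2
    rw [pow_two]
    nth_rewrite 2 [h3]
    exact mul_inv_cancel i
  have hD1 : D.index ≠ 1 := by
    intro h1
    rw [index_eq_one] at h1
    exact hij (hmemD j (by rw [h1]; exact mem_top _) i)
  have hD2 : D.index ≠ 2 := by
    intro h1
    have hiD : i ∉ D := fun h2 => hij (hmemD i h2 j).symm
    have hjD : j ∉ D := fun h2 => hij (hmemD j h2 i)
    have h3 : i * j ∈ D := (mul_mem_iff_of_index_two h1).2 (iff_of_false hiD hjD)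
    have h4 := hmemD _ h3 i
    apply hij
    apply mul_left_cancel (a := i)
    rw [h4, mul_assoc]
  have hrelQ : C.relIndex (Q ⊔ C) = D.index := relIndex_sup_right Q C
  have hmul : C.relIndex (Q ⊔ C) * (Q ⊔ C).index = C.index := relIndex_mul_index le_sup_right
  rw [hrelQ] at hmul
  have h3C : 3 ∣ C.index := by
    have h1 : orderOf (g : H ⧸ C) = 3 := by
      haveI : Fact (Nat.Prime 3) := ⟨Nat.prime_three⟩
      apply orderOf_eq_prime
      · rw [← QuotientGroup.mk_pow, hgp, QuotientGroup.mk_one]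
      · rw [Ne, QuotientGroup.eq_one_iff]; exact hgC
    rw [← h1, index_eq_card]
    exact orderOf_dvd_natCard _
  by_cases h8 : 8 ∣ C.index
  · have h24 : C.index = 24 := by
      apply Nat.dvd_antisymm hCdvd
      exact Nat.Coprime.mul_dvd_of_dvd_of_dvd (m := 8) (n := 3) (by norm_num) h8 h3C
    have hi2C : ((i ^ 2 : Q) : H) ∈ C := by
      rw [hCdef, mem_centralizer_iff]
      intro y hy
      have h1 : (⟨y, hy⟩ : Q) ∈ centralizer ({i ^ 2} : Set Q) := by
        have h2 : closure {i, j} ≤ centralizer ({i ^ 2} : Set Q) := by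
          rw [closure_le]
          rintro x (rfl | rfl)
          · change _ ∈ centralizer _
            rw [mem_centralizer_singleton_iff]
            group
          · change _ ∈ centralizer _
            rw [mem_centralizer_singleton_iff, ← hji]
            group
        exact h2 (by rw [hcl]; exact mem_top _)
      rw [mem_centralizer_singleton_iff] at h1
      exact congrArg Subtype.val h1
    refine H82.GagAct.not_index_eq φ C hN htrans hstab h24 ?_ (φ i) (φ j) ?_ ?_ ?_
    · have h1 : orderOf (⟨((i ^ 2 : Q) : H), hi2C⟩ : C) = 2 := by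
        haveI : Fact (Nat.Prime 2) := ⟨Nat.prime_two⟩
        apply orderOf_eq_prime
        · apply Subtype.ext
          change (((i ^ 2 : Q) : H)) ^ 2 = 1
          rw [← Subgroup.coe_pow, ← pow_mul, hi4, Subgroup.coe_one]
        · intro h2
          apply hi2
          apply Subtype.ext
          have h3 := congrArg (Subtype.val : C → H) h2
          exact h3
      rw [← h1]
      exact orderOf_dvd_natCard _
    · rw [← map_mul, ← map_mul]
      intro h1
      exact hij (Subtype.ext (hφ h1))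
    · intro c hc
      rw [← map_mul, ← map_mul, mem_centralizer_iff.1 hc i i.2]
    · intro c hc
      rw [← map_mul, ← map_mul, mem_centralizer_iff.1 hc j j.2]
  · have hD4 : D.index = 4 := by
      rcases dvd_eight hDi hD1 hD2 with h1 | h1
      · exact h1
      · exact absurd ⟨_, by rw [← h1]; exact hmul.symm⟩ h8
    rw [hD4] at hmul
    have hQC : (Q ⊔ C).index ∣ 3 := by
      apply odd_six
      · rw [← hmul] at hCdvd
        exact Nat.dvd_of_mul_dvd_mul_left (k := 4) (by norm_num) (by simpa using hCdvd)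
      · rintro ⟨k, hk⟩
        exact h8 ⟨k, by rw [← hmul, hk]; ring⟩
    have hcomm : _root_.commutator H ≤ Q ⊔ C := by
      haveI : Fact (Nat.Prime 3) := ⟨Nat.prime_three⟩
      rw [← Subgroup.Normal.quotient_commutative_iff_commutator_le]
      haveI : IsCyclic (H ⧸ (Q ⊔ C)) := isCyclic_of_card_dvd_prime (p := 3) (by
        rw [← index_eq_card]; exact hQC)
      exact IsCyclic.commutative
    have h1 := Subgroup.pow_index_mem (C.subgroupOf (Q ⊔ C)) ⟨g, hcomm hg⟩
    have h2 : (C.subgroupOf (Q ⊔ C)).index = 4 := by rw [← hD4, ← hrelQ]; rfl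
    rw [h2, mem_subgroupOf] at h1
    apply hgC
    have h3 : g ^ 4 ∈ C := h1
    have h4 : g ^ 4 = g := by rw [pow_succ, hgp, one_mul]
    rwa [h4] at h3

theorem not_dvd_commutator {H N : Type*} [Group H] [Finite H] [CommGroup N] [Finite N] [Nontrivial N]
    (φ : H →* MulAut N) (hφ : Function.Injective φ) {p : ℕ} [hpf : Fact p.Prime] (hN : IsPGroup p N)
    (htrans : ∀ x y : N, x ≠ 1 → y ≠ 1 → ∃ h, φ h x = y)
    (hstab : ∀ x : N, x ≠ 1 → ∀ h, φ h x = x → ∃ k : ℕ, h ^ p ^ k = 1)
    (hs : Group.IsSolvable H) (hcore : Cfsg.pCore p H = ⊥)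
    (hcyc : ∀ q : ℕ, q.Prime → q ≠ p → ∀ Q : Subgroup H, IsPGroup q Q →
      IsCyclic Q ∨ (q = 2 ∧ ∃ (n : ℕ) (ψ : Q →* QuaternionGroup (2 ^ n)), Function.Injective ψ)) :
    ¬ p ∣ Nat.card (_root_.commutator H) := by
  intro hd
  obtain ⟨⟨g, hg⟩, hgo⟩ := exists_prime_orderOf_dvd_card' p hd
  have hgp : g ^ p = 1 := by
    have h1 := pow_orderOf_eq_one (⟨g, hg⟩ : _root_.commutator H)
    rw [hgo] at h1
    exact congrArg Subtype.val h1
  have hg1 : g ≠ 1 := by
    rintro rfl
    have h1 : (⟨1, hg⟩ : _root_.commutator H) = 1 := rfl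
    rw [h1, orderOf_one] at hgo
    exact hpf.out.one_lt.ne hgo
  have hcent : ∀ q : Nat.Primes, g ∈ centralizer (Cfsg.pCore (q : ℕ) H : Set H) := by
    rintro ⟨q, hq⟩
    change g ∈ centralizer (Cfsg.pCore q H : Set H)
    by_cases hqp : q = p
    · rw [hqp, hcore, mem_centralizer_iff]
      intro x hx
      have : x = 1 := hx
      rw [this, one_mul, mul_one]
    · haveI : (Cfsg.pCore q H).Normal := inferInstance
      rcases hcyc q hq hqp (Cfsg.pCore q H) (H1.Cores.isPGroup_pCore q) with h1 | ⟨h2, n, ψ, hψ⟩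
      · exact H11.CyclicNormal.commutator_le_centralizer_of_cyclic_normal _ hg
      · exact mem_centralizer φ hφ hN htrans hstab (Cfsg.pCore q H)
          (by rw [← h2]; exact H1.Cores.isPGroup_pCore q) ψ hψ g hg hgp (by rw [← h2]; exact Ne.symm hqp)
  have hF : g ∈ centralizer (Cfsg.fittingSubgroup H : Set H) := by
    rw [← Subgroup.zpowers_le, Subgroup.le_centralizer_iff, H1.Cores.fittingSubgroup_eq_iSup_pCore,
      iSup_le_iff]
    intro q
    rw [Subgroup.le_centralizer_iff, Subgroup.zpowers_le]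
    exact hcent q
  have h1 := H1.Solv.centralizer_fitting_le hs hF
  have h2 := H3.NarrowFit.mem_pCore_of_mem_fitting (q := p) h1 (k := 1) (by rw [pow_one]; exact hgp)
  rw [hcore] at h2
  exact hg1 h2

theorem npc_of_commutator {H : Type*} [Group H] [Finite H] {p : ℕ} [hpf : Fact p.Prime]
    (h : ¬ p ∣ Nat.card (_root_.commutator H)) :
    Cfsg.HasNormalPComplement p H ∧ ∀ Q : Sylow p H, IsMulCommutative (Q : Subgroup H) := by
  constructor
  · refine H2.NPC.of_quotient (_root_.commutator H) h (H2.Nilp.hasNPC_of_nilpotent ?_)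
    exact (inferInstance : Group.IsNilpotent (Abelianization H))
  · intro Q
    refine ⟨⟨fun a b => ?_⟩⟩
    apply Subtype.ext
    have h1 : ⁅(a : H), (b : H)⁆ ∈ _root_.commutator H := commutator_mem_commutator (mem_top _) (mem_top _)
    have h2 : ⁅(a : H), (b : H)⁆ ∈ (Q : Subgroup H) := by
      rw [commutatorElement_def]
      exact mul_mem (mul_mem (mul_mem a.2 b.2) (inv_mem a.2)) (inv_mem b.2)
    have h3 : (Q : Subgroup H) ⊓ _root_.commutator H = ⊥ := by
      apply H1.Cores.disjoint_of_isPGroup Q.isPGroup'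
      rw [Nat.coprime_comm]
      exact (Nat.Prime.coprime_iff_not_dvd hpf.out).2 h
    have h4 : ⁅(a : H), (b : H)⁆ ∈ (⊥ : Subgroup H) := by rw [← h3]; exact ⟨h2, h1⟩
    rw [mem_bot, commutatorElement_eq_one_iff_mul_comm] at h4
    exact h4

end H82.GagSolv
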