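import Cfsg.Agent.Lib.H82.Gagola2

/-!
# Characters vanishing on all but two conjugacy classes: the Sylow subgroup
-/

set_option autoImplicit false
set_option linter.style.haveILetI false

namespace H82.Gagola

open Cfsg H18.CharBasic H18.CharOrtho H18.CharInd H18.CharQuot H82.Deg H82.Simple H82.Quot
open scoped ComplexConjugate

universe u

variable {G : Type u} [Group G] [Finite G]
variable {χ : IrrCharacter G} {N : Subgroup G} {f : ℕ} (h : Gag χ N f)

include h

/-- Every prime divisor of `f` is `p`. -/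
theorem prime_eq {p : ℕ} [Fact p.Prime] (hp : IsPGroup p N) {q : ℕ} (hq : q.Prime) (hqf : q ∣ f) :
    q = p := by
  classical
  by_contra hne
  haveI := Fact.mk hq
  obtain ⟨x, hx, hx1⟩ := exists_ne_one h
  set C := Subgroup.centralizer ({x} : Set G) with hCdef
  have hC := card_centralizer h hx hx1
  have hf0 : f ≠ 0 := h.f_pos.ne'
  set v := f.factorization q with hv
  have hv1 : 1 ≤ v := (hq.dvd_iff_one_le_factorization hf0).1 hqf
  have hdvd : q ^ (v * 2) ∣ Nat.card C := by
    rw [hC, pow_mul]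
    exact Dvd.dvd.mul_right (pow_dvd_pow_of_dvd (Nat.ordProj_dvd f q) 2) _
  obtain ⟨Q, hQ⟩ := Sylow.exists_subgroup_card_pow_prime q hdvd
  let Z := Subgroup.zpowers x
  have hZN : Z ≤ N := Subgroup.zpowers_le.2 hx
  have hcomm : ∀ (z : Z) (b : Q), Commute (Z.subtype z) ((C.subtype.comp Q.subtype) b) := by
    intro z b
    obtain ⟨k, hk⟩ := Subgroup.mem_zpowers_iff.1 z.2
    have h1 : (z : G) = x ^ k := hk.symm
    have h2 : Commute x ((b : C) : G) := by
      exact Subgroup.mem_centralizer_iff.1 (b : C).2 x rfl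
    show Commute (z : G) ((b : C) : G)
    rw [h1]
    exact h2.zpow_left k
  let φ : Z × Q →* G := MonoidHom.noncommCoprod Z.subtype (C.subtype.comp Q.subtype) hcomm
  have hφ : ∀ a : Z × Q, φ a = (a.1 : G) * ((a.2 : C) : G) := fun a => rfl
  have hnc : (⟨x, Subgroup.mem_zpowers x⟩ : Z) ∉ commutator Z := by
    have h1 : commutator Z = ⊥ := by
      rw [_root_.commutator, Subgroup.commutator_eq_bot_iff_le_centralizer]
      intro a _
      rw [Subgroup.mem_centralizer_iff]
      intro b _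
      exact IsCyclic.commutative.is_comm.comm b a
    rw [h1, Subgroup.mem_bot]
    intro h2
    exact hx1 (congrArg Subtype.val h2)
  obtain ⟨μ, hμ⟩ := exists_hom_ne_one hnc
  letI := Fintype.ofFinite Z
  letI := Fintype.ofFinite Q
  have hsumμ : ∑ z : Z, (μ z : ℂ) = 0 := by
    have := sum_hom_units_eq_zero ((Units.coeHom ℂ).comp μ) (by
      intro h1
      apply hμ
      have h2 := DFunLike.congr_fun h1 ⟨x, Subgroup.mem_zpowers x⟩
      exact Units.ext h2)
    exact this
  obtain ⟨n, hn⟩ := inner_char_natCast (G := Z × Q)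
    (isCharacter_comp φ (isCharacter_of_isIrr χ.2))
    (isCharacter_comp (MonoidHom.fst Z Q) (isCharacter_of_isIrr (isIrrCharacter_of_hom μ)))
  have hvan : ∀ (z : Z) (b : Q), b ≠ 1 → (χ : G → ℂ) ((z : G) * ((b : C) : G)) = 0 := by
    intro z b hb
    apply h.zero
    intro hmem
    have h1 : ((b : C) : G) ∈ N := (Subgroup.mul_mem_cancel_left N (hZN z.2)).1 hmem
    obtain ⟨k, hk⟩ := hp ⟨_, h1⟩
    have h2 : ((b : C) : G) ^ p ^ k = 1 := congrArg Subtype.val hk
    have h3 : ((b : C) : G) ^ q ^ (v * 2) = 1 := by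
      have h4 : b ^ Nat.card Q = 1 := pow_card_eq_one'
      rw [hQ] at h4
      have h5 := congrArg (fun b : Q => ((b : C) : G)) h4
      simpa using h5
    have hcop : (p ^ k).Coprime (q ^ (v * 2)) :=
      Nat.Coprime.pow _ _ ((Nat.coprime_primes (Fact.out : p.Prime) hq).2 (Ne.symm hne))
    have h4 : orderOf ((b : C) : G) ∣ 1 := by
      rw [← hcop.gcd_eq_one]
      exact Nat.dvd_gcd (orderOf_dvd_of_pow_eq_one h2) (orderOf_dvd_of_pow_eq_one h3)
    have h5 : ((b : C) : G) = 1 := orderOf_eq_one_iff.1 (Nat.dvd_one.1 h4)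
    exact hb (Subtype.ext (Subtype.ext h5))
  have hχZ : ∀ z : Z, (χ : G → ℂ) (z : G) = (if z = 1 then (f : ℂ) * Nat.card N else 0) - f := by
    intro z
    split_ifs with hz
    · rw [hz, OneMemClass.coe_one, ← coe_charDegree' χ, h.deg]
      have h1 : ((Nat.card N - 1 : ℕ) : ℂ) = (Nat.card N : ℂ) - 1 := by
        rw [Nat.cast_sub Nat.card_pos]; simp
      push_cast [h1]
      ring
    · rw [h.val z (hZN z.2) (fun h1 => hz (Subtype.ext h1))]; ring
  have hsum : ∑ a : Z × Q, (χ : G → ℂ) (φ a) * conj ((μ a.1 : ℂˣ) : ℂ) = (f : ℂ) * Nat.card N := by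
    rw [Fintype.sum_prod_type]
    have h1 : ∀ z : Z, ∑ b : Q, (χ : G → ℂ) (φ (z, b)) * conj ((μ z : ℂˣ) : ℂ) =
        (χ : G → ℂ) (z : G) * conj ((μ z : ℂˣ) : ℂ) := by
      intro z
      rw [Finset.sum_eq_single (1 : Q)]
      · rw [hφ]; simp
      · intro b _ hb
        rw [hφ, hvan z b hb, zero_mul]
      · intro h2; exact absurd (Finset.mem_univ _) h2
    simp only [h1]
    have h2 : ∀ z : Z, (χ : G → ℂ) (z : G) * conj ((μ z : ℂˣ) : ℂ) =
        (if z = 1 then (f : ℂ) * Nat.card N else 0) - f * conj ((μ z : ℂˣ) : ℂ) := by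
      intro z
      rw [hχZ z, sub_mul]
      split_ifs with hz
      · rw [hz, map_one, Units.val_one, map_one, mul_one]
      · rw [zero_mul]
    simp only [h2]
    rw [Finset.sum_sub_distrib, ← Finset.mul_sum, ← map_sum, hsumμ, map_zero, mul_zero, sub_zero,
      Finset.sum_ite_eq' Finset.univ (1 : Z), if_pos (Finset.mem_univ _)]
  have hn' : (f : ℂ) * Nat.card N = n * (Nat.card Z * Nat.card Q) := by
    rw [← hsum, ← hn]
    unfold classInner
    have h0 : (Nat.card (Z × Q) : ℂ) ≠ 0 := by exact_mod_cast Nat.card_pos.ne'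
    have h1 : ((Nat.card Z : ℂ) * Nat.card Q) = Nat.card (Z × Q) := by rw [Nat.card_prod]; push_cast; rfl
    rw [h1]
    rw [mul_comm, mul_inv_cancel_left₀ h0]
    rfl
  have hn'' : f * Nat.card N = n * (Nat.card Z * Nat.card Q) := by exact_mod_cast hn'
  have hd : q ^ (v * 2) ∣ f * Nat.card N := by
    rw [hn'', ← hQ]
    exact Dvd.dvd.mul_left (Dvd.intro_left _ rfl) _
  obtain ⟨k, hk⟩ := IsPGroup.iff_card.1 hp
  have hcop : (q ^ (v * 2)).Coprime (Nat.card N) := by
    rw [hk]
    exact Nat.Coprime.pow _ _ ((Nat.coprime_primes hq (Fact.out : p.Prime)).2 hne)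
  have hd2 := hcop.dvd_of_dvd_mul_right hd
  have h6 := (hq.pow_dvd_iff_le_factorization hf0).1 hd2
  omega

theorem f_eq_pow {p : ℕ} [Fact p.Prime] (hp : IsPGroup p N) : ∃ k, f = p ^ k :=
  ⟨_, Nat.eq_prime_pow_of_unique_prime_dvd h.f_pos.ne' fun hq hqf => prime_eq h hp hq hqf⟩

theorem not_dvd_sub_one {p : ℕ} [hpf : Fact p.Prime] (hp : IsPGroup p N) : ¬ p ∣ Nat.card N - 1 := by
  intro hd
  haveI : Nontrivial N := (Subgroup.nontrivial_iff_ne_bot N).2 h.ne_bot
  obtain ⟨k, hk0, hk⟩ := (IsPGroup.nontrivial_iff_card hp).1 inferInstance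
  have h1 : p ∣ Nat.card N := by rw [hk]; exact dvd_pow_self p hk0.ne'
  have h2 : p ∣ 1 := by
    have h3 : Nat.card N = (Nat.card N - 1) + 1 := (Nat.sub_add_cancel Nat.card_pos).symm
    rw [h3] at h1
    exact (Nat.dvd_add_right hd).1 h1
  exact hpf.out.one_lt.ne' (Nat.dvd_one.1 h2)

/-- A subgroup of index `|N| - 1` is a Sylow subgroup. -/
theorem sylow_of_index {p : ℕ} [hpf : Fact p.Prime] (hp : IsPGroup p N) (H : Subgroup G)
    (hH : H.index = Nat.card N - 1) : ∃ P : Sylow p G, H = P := by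
  obtain ⟨k, hk⟩ := f_eq_pow h hp
  obtain ⟨m, hm⟩ := IsPGroup.iff_card.1 hp
  have h1 := H.card_mul_index
  rw [hH, h.card] at h1
  have h2 : Nat.card H = f ^ 2 * Nat.card N := Nat.eq_of_mul_eq_mul_right (card_sub_one_pos h) h1
  have h3 : IsPGroup p H := by
    rw [IsPGroup.iff_card]
    refine ⟨k * 2 + m, ?_⟩
    rw [h2, hk, hm, pow_add, pow_mul]
  have h4 : ¬ p ∣ H.index := by rw [hH]; exact not_dvd_sub_one h hp
  exact ⟨h3.toSylow h4, (IsPGroup.toSylow_coe h3 h4).symm⟩

theorem index_centralizer {x : G} (hx : x ∈ N) (hx1 : x ≠ 1) :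
    (Subgroup.centralizer ({x} : Set G)).index = Nat.card N - 1 := by
  have h1 := (Subgroup.centralizer ({x} : Set G)).card_mul_index
  rw [card_centralizer h hx hx1, h.card] at h1
  have h2 : 0 < f ^ 2 * Nat.card N := Nat.mul_pos (pow_pos h.f_pos 2) Nat.card_pos
  exact Nat.eq_of_mul_eq_mul_left h2 h1

theorem centralizer_sylow {p : ℕ} [hpf : Fact p.Prime] (hp : IsPGroup p N) {x : G} (hx : x ∈ N)
    (hx1 : x ≠ 1) : ∃ P : Sylow p G, Subgroup.centralizer ({x} : Set G) = P :=
  sylow_of_index h hp _ (index_centralizer h hx hx1)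

/-- `χ` lies over every nonprincipal irreducible character of `N`. -/
theorem inner_ne_zero [Fintype N] {μ : N → ℂ} (hμ : IsIrrCharacter N μ) (hμ1 : μ ≠ fun _ => 1) :
    classInner (fun n : N => (χ : G → ℂ) n) μ ≠ 0 := by
  classical
  letI := Fintype.ofFinite G
  obtain ⟨ψ, hψ, hne⟩ := exists_over N hμ
  by_cases hψχ : (⟨ψ, hψ⟩ : IrrCharacter G) = χ
  · have : ψ = (χ : G → ℂ) := congrArg Subtype.val hψχ
    rw [← this]; exact hne
  · exfalso
    apply hne
    have h1 := h.other _ hψχ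
    have h2 : (fun x : N => ψ x) = (ψ 1) • (fun _ : N => (1 : ℂ)) := by
      funext n
      simp only [Pi.smul_apply, smul_eq_mul, mul_one]
      exact h1 n n.2
    rw [h2, H18.CharOrtho.inner_smul_left, inner_irr_ne isIrrCharacter_one hμ (Ne.symm hμ1), mul_zero]

theorem inner_eq [Fintype N] {μ : N → ℂ} (hμ : IsIrrCharacter N μ) (hμ1 : μ ≠ fun _ => 1) :
    classInner (fun n : N => (χ : G → ℂ) n) μ = f * μ 1 := by
  classical
  have h1 : (fun n : N => (χ : G → ℂ) n) =
      (fun n : N => if n = 1 then (f : ℂ) * Nat.card N else 0) - (f : ℂ) • (fun _ : N => (1 : ℂ)) := by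
    funext n
    simp only [Pi.sub_apply, Pi.smul_apply, smul_eq_mul, mul_one]
    split_ifs with hz
    · rw [hz, OneMemClass.coe_one, ← coe_charDegree' χ, h.deg]
      have h1 : ((Nat.card N - 1 : ℕ) : ℂ) = (Nat.card N : ℂ) - 1 := by
        rw [Nat.cast_sub Nat.card_pos]; simp
      push_cast [h1]
      ring
    · rw [h.val n n.2 (fun h1 => hz (Subtype.ext h1))]; ring
  rw [h1, H18.CharOrtho.inner_sub_left, H18.CharOrtho.inner_smul_left,
    inner_irr_ne isIrrCharacter_one hμ (Ne.symm hμ1), mul_zero, sub_zero]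
  unfold classInner
  have h0 : (Nat.card N : ℂ) ≠ 0 := by exact_mod_cast Nat.card_pos.ne'
  rw [Finset.sum_eq_single (1 : N)]
  · simp only [if_true]
    rw [conj_char_one (isCharacter_of_isIrr hμ)]
    field_simp
  · intro b _ hb; simp only [if_neg hb, zero_mul]
  · intro h2; exact absurd (Finset.mem_univ _) h2

open H31.Clifford in
theorem index_inertia [hN : N.Normal] [Fintype G] [Fintype N] {p : ℕ} [hpf : Fact p.Prime]
    (hp : IsPGroup p N) {μ : N → ℂ}
    (hμ : IsIrrCharacter N μ) (hμ1 : μ ≠ fun _ => 1) : (inertia N μ).index = Nat.card N - 1 := by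
  classical
  have hc := comm h hp
  have hdeg : μ 1 = 1 := degree_one_of_comm (fun a b => hc.is_comm.comm a b) hμ
  have h1 := degree_eq N χ.2 hμ (inner_ne_zero h hμ hμ1)
  rw [inner_eq h hμ hμ1, hdeg, mul_one, mul_one, ← coe_charDegree' χ, h.deg] at h1
  have h2 : f * (Nat.card N - 1) = f * (inertia N μ).index := by exact_mod_cast h1
  exact (Nat.eq_of_mul_eq_mul_left h.f_pos h2).symm

end H82.Gagola
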