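import Cfsg.Agent.Lib.H82.Gagola3

/-!
# Characters vanishing on all but two conjugacy classes: centralizer orders, centre of a Sylow
-/

set_option autoImplicit false
set_option linter.style.haveILetI false

namespace H82.Gagola

open Cfsg H18.CharBasic H18.CharOrtho H18.CharInd H18.CharQuot H82.Deg H82.Simple H82.Quot
open scoped ComplexConjugate

universe u

variable {G : Type u} [Group G] [Finite G]
variable {χ : IrrCharacter G} {N : Subgroup G} {f : ℕ} (h : Gag χ N f)

include h

theorem card_centralizer_quot [N.Normal] {x : G} (hx : x ∉ N) :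
    Nat.card (Subgroup.centralizer ({x} : Set G)) =
      Nat.card (Subgroup.centralizer ({(x : G ⧸ N)} : Set (G ⧸ N))) := by
  rw [H82.Coset.card_centralizer_eq_iff]
  intro ψ hψ
  by_cases hψχ : ψ = χ
  · rw [hψχ]; exact h.zero x hx
  · exact absurd (h.other ψ hψχ) hψ

theorem dvd_card {p : ℕ} [hpf : Fact p.Prime] (hp : IsPGroup p N) : p ∣ Nat.card N := by
  haveI : Nontrivial N := (Subgroup.nontrivial_iff_ne_bot N).2 h.ne_bot
  obtain ⟨k, hk0, hk⟩ := (IsPGroup.nontrivial_iff_card hp).1 inferInstance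
  rw [hk]; exact dvd_pow_self p hk0.ne'

theorem center_le [N.Normal] {p : ℕ} [hpf : Fact p.Prime] (hp : IsPGroup p N) (P : Sylow p G) :
    (Subgroup.center ↥(P : Subgroup G)).map (P : Subgroup G).subtype ≤ N := by
  rintro _ ⟨z, hz, rfl⟩
  by_contra hzN
  have h1 := card_centralizer_quot h hzN
  have h2 : (P : Subgroup G) ≤ Subgroup.centralizer ({(z : G)} : Set G) := by
    intro g hg
    rw [Subgroup.mem_centralizer_singleton_iff]
    have h3 := Subgroup.mem_center_iff.1 hz ⟨g, hg⟩
    exact congrArg Subtype.val h3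
  have h3 : Nat.card (P : Subgroup G) ∣ N.index := by
    have h4 := Subgroup.card_dvd_of_le h2
    rw [show ((P : Subgroup G).subtype z) = (z : G) from rfl] at h1
    rw [h1] at h4
    exact h4.trans (Subgroup.card_subgroup_dvd_card _)
  have h4 : Nat.card (P : Subgroup G) * Nat.card N ∣ Nat.card (P : Subgroup G) * (P : Subgroup G).index := by
    rw [Subgroup.card_mul_index, ← N.card_mul_index, mul_comm]
    exact mul_dvd_mul_left _ h3
  have h5 : Nat.card N ∣ (P : Subgroup G).index := Nat.dvd_of_mul_dvd_mul_left Nat.card_pos h4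
  exact P.not_dvd_index ((dvd_card h hp).trans h5)

theorem center_eq_iff [hN : N.Normal] {p : ℕ} [hpf : Fact p.Prime] (hp : IsPGroup p N) (P : Sylow p G) :
    (Subgroup.center ↥(P : Subgroup G)).map (P : Subgroup G).subtype = N ↔
      (P : Subgroup G).Normal := by
  have hNP : N ≤ P := hp.le_sylow_of_normal P
  constructor
  · intro heq
    have hle : (P : Subgroup G) ≤ Subgroup.centralizer (N : Set G) := by
      intro g hg
      rw [Subgroup.mem_centralizer_iff]
      intro n hn
      rw [SetLike.mem_coe, ← heq] at hn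
      obtain ⟨z, hz, rfl⟩ := hn
      exact (congrArg Subtype.val (Subgroup.mem_center_iff.1 hz ⟨g, hg⟩)).symm
    obtain ⟨x, hx, hx1⟩ := exists_ne_one h
    obtain ⟨P', hP'⟩ := centralizer_sylow h hp hx hx1
    have hle2 : Subgroup.centralizer (N : Set G) ≤ (P' : Subgroup G) := by
      rw [← hP']
      exact Subgroup.centralizer_le (Set.singleton_subset_iff.2 hx)
    have h3 : (P' : Subgroup G) = P := P.is_maximal' P'.isPGroup' (hle.trans hle2)
    have h4 : (P : Subgroup G) = Subgroup.centralizer (N : Set G) :=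
      le_antisymm hle (h3 ▸ hle2)
    rw [h4]
    infer_instance
  · intro hPn
    refine le_antisymm (center_le h hp P) ?_
    haveI : ((Subgroup.center ↥(P : Subgroup G)).map (P : Subgroup G).subtype).Normal := by
      infer_instance
    apply le_of_normal h
    intro h1
    rw [Subgroup.map_eq_bot_iff_of_injective _ (Subgroup.subtype_injective _)] at h1
    have hPnt : Nontrivial ↥(P : Subgroup G) := by
      obtain ⟨x, hx, hx1⟩ := exists_ne_one h
      exact ⟨⟨x, hNP hx⟩, 1, fun h2 => hx1 (congrArg Subtype.val h2)⟩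
    haveI := P.isPGroup'.center_nontrivial
    exact (Subgroup.nontrivial_iff_ne_bot _).1 inferInstance h1

theorem exists_upper [hN : N.Normal] {p : ℕ} [hpf : Fact p.Prime] (hp : IsPGroup p N) (P : Sylow p G) :
    ∃ i : ℕ, Subgroup.upperCentralSeries ↥(P : Subgroup G) i = N.subgroupOf (P : Subgroup G) := by
  have hNP : N ≤ P := hp.le_sylow_of_normal P
  set M := N.subgroupOf (P : Subgroup G) with hM
  have hcardM : Nat.card M = Nat.card N := Nat.card_congr (Subgroup.subgroupOfEquivOfLe hNP).toEquiv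
  haveI : Group.IsNilpotent ↥(P : Subgroup G) := P.isPGroup'.isNilpotent
  obtain ⟨n, hn⟩ := Group.IsNilpotent.nilpotent (↥(P : Subgroup G))
  by_cases htop : M = ⊤
  · exact ⟨n, by rw [hn, htop]⟩
  have hex : ∃ j, ¬ Subgroup.upperCentralSeries ↥(P : Subgroup G) j ≤ M :=
    ⟨n, by rw [hn]; intro h1; exact htop (top_le_iff.1 h1)⟩
  classical
  obtain ⟨hj, hmin⟩ := Nat.find_spec hex |> fun h1 => (⟨h1, fun k (hk : k < Nat.find hex) => not_not.1 (Nat.find_min hex hk)⟩ :
    (¬ Subgroup.upperCentralSeries ↥(P : Subgroup G) (Nat.find hex) ≤ M) ∧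
      ∀ k < Nat.find hex, Subgroup.upperCentralSeries ↥(P : Subgroup G) k ≤ M)
  set j := Nat.find hex with hjdef
  have hj0 : j ≠ 0 := by
    intro h0
    rw [h0] at hj
    apply hj
    rw [Subgroup.upperCentralSeries_zero]
    exact bot_le
  obtain ⟨i, hi⟩ := Nat.exists_eq_succ_of_ne_zero hj0
  have hiM := hmin i (by omega)
  rw [hi] at hj
  refine ⟨i, ?_⟩
  set Zi := Subgroup.upperCentralSeries ↥(P : Subgroup G) i with hZi
  obtain ⟨z, hz, hzM⟩ := SetLike.not_le_iff_exists.1 hj
  have hzN : (z : G) ∉ N := fun h1 => hzM (Subgroup.mem_subgroupOf.2 h1)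
  have hzc : ∀ g : ↥(P : Subgroup G), z * g * z⁻¹ * g⁻¹ ∈ Zi := by
    intro g
    exact Subgroup.mem_upperCentralSeries_succ_iff.1 hz g
  -- the order of the centralizer
  have h1 := card_centralizer_quot h hzN
  set C := Subgroup.centralizer ({(z : G)} : Set G) with hC
  set D := (Subgroup.centralizer ({((z : G) : G ⧸ N)} : Set (G ⧸ N))).comap (QuotientGroup.mk' N) with hD
  have hPD : (P : Subgroup G) ≤ D := by
    intro g hg
    rw [hD, Subgroup.mem_comap, Subgroup.mem_centralizer_singleton_iff]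
    have h2 : z * ⟨g, hg⟩ * z⁻¹ * (⟨g, hg⟩ : ↥(P : Subgroup G))⁻¹ ∈ M := hiM (hzc ⟨g, hg⟩)
    rw [hM, Subgroup.mem_subgroupOf] at h2
    have h3 : ((z : G) * g * (z : G)⁻¹ * g⁻¹ : G) ∈ N := h2
    rw [← QuotientGroup.eq_one_iff] at h3
    have h4 : ((z : G) : G ⧸ N) * (g : G ⧸ N) * ((z : G) : G ⧸ N)⁻¹ * (g : G ⧸ N)⁻¹ = 1 := h3
    show (g : G ⧸ N) * ((z : G) : G ⧸ N) = ((z : G) : G ⧸ N) * (g : G ⧸ N)
    rw [mul_inv_eq_one, mul_inv_eq_iff_eq_mul] at h4
    exact h4.symm
  have hDcard : Nat.card D = Nat.card C * Nat.card N := by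
    have h2 : D.index = (Subgroup.centralizer ({((z : G) : G ⧸ N)} : Set (G ⧸ N))).index :=
      Subgroup.index_comap_of_surjective _ (QuotientGroup.mk'_surjective N)
    have h3 := D.card_mul_index
    have h4 := (Subgroup.centralizer ({((z : G) : G ⧸ N)} : Set (G ⧸ N))).card_mul_index
    have h5 := N.card_mul_index
    have h6 : Nat.card (G ⧸ N) = N.index := rfl
    rw [h2] at h3
    have h7 : 0 < (Subgroup.centralizer ({((z : G) : G ⧸ N)} : Set (G ⧸ N))).index :=
      Nat.pos_of_ne_zero Subgroup.index_ne_zero_of_finite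
    apply Nat.eq_of_mul_eq_mul_right h7
    rw [h3, h1, ← h5, ← h6, ← h4]
    ring
  -- |P| = |P ∩ C| |P : C_P(z)|
  set CP := Subgroup.centralizer ({z} : Set ↥(P : Subgroup G)) with hCP
  have hCPdvd : Nat.card CP ∣ Nat.card C := by
    have h2 : CP.map (P : Subgroup G).subtype ≤ C := by
      rintro _ ⟨g, hg, rfl⟩
      rw [hC, Subgroup.mem_centralizer_singleton_iff]
      have h3 := Subgroup.mem_centralizer_singleton_iff.1 hg
      exact congrArg Subtype.val h3
    have h3 := Subgroup.card_dvd_of_le h2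
    rwa [Nat.card_congr (CP.equivMapOfInjective _ (Subgroup.subtype_injective _)).symm.toEquiv] at h3
  obtain ⟨a, ha⟩ := IsPGroup.iff_card.1 (P.isPGroup'.to_subgroup CP)
  obtain ⟨b, hb⟩ := IsPGroup.iff_card.1 hp
  obtain ⟨c, hc⟩ := IsPGroup.iff_card.1 P.isPGroup'
  have h2 : Nat.card CP * Nat.card N ∣ Nat.card (P : Subgroup G) := by
    have h3 : Nat.card CP * Nat.card N ∣ Nat.card D := by
      rw [hDcard]; exact mul_dvd_mul_right hCPdvd _
    have h4 : Nat.card CP * Nat.card N ∣ Nat.card (P : Subgroup G) * (P : Subgroup G).index := by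
      rw [Subgroup.card_mul_index]
      exact h3.trans (Subgroup.card_subgroup_dvd_card D)
    have h5 : (Nat.card CP * Nat.card N).Coprime (P : Subgroup G).index := by
      rw [ha, hb, ← pow_add]
      exact Nat.Coprime.pow_left _ ((Nat.Prime.coprime_iff_not_dvd hpf.out).2 P.not_dvd_index)
    exact h5.dvd_of_dvd_mul_right h4
  have h3 : Nat.card N ≤ CP.index := by
    rw [← CP.card_mul_index] at h2
    exact Nat.le_of_dvd (Nat.pos_of_ne_zero Subgroup.index_ne_zero_of_finite)
      (Nat.dvd_of_mul_dvd_mul_left Nat.card_pos h2)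
  have h4 : CP.index ≤ Nat.card Zi := by
    rw [hCP, ← card_isConj_eq_index z]
    refine Nat.card_le_card_of_injective (fun y : {y : ↥(P : Subgroup G) // IsConj z y} =>
      (⟨z * y.1⁻¹, ?_⟩ : Zi)) ?_
    · obtain ⟨g, hg⟩ := isConj_iff.1 y.2
      have h5 := hzc g
      have h6 : z * y.1⁻¹ = z * g * z⁻¹ * g⁻¹ := by
        rw [← hg]; group
      rw [h6]; exact h5
    · intro y y' hyy
      have h5 : z * y.1⁻¹ = z * y'.1⁻¹ := congrArg Subtype.val hyy
      exact Subtype.ext (inv_injective (mul_left_cancel h5))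
  apply Subgroup.eq_of_le_of_card_ge hiM
  rw [hcardM]
  exact h3.trans h4

end H82.Gagola
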