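import Cfsg.Agent.Lib.H82.Gagola4
import Cfsg.Agent.Lib.H82.Frob
import Cfsg.Agent.Lib.H55.BaerSuzuki
import Cfsg.Agent.Lib.H1.Cores

/-!
# Characters vanishing on all but two conjugacy classes: the doubly transitive Frobenius case
-/

set_option autoImplicit false
set_option linter.style.haveILetI false

namespace H82.Gagola

open Cfsg H18.CharBasic H18.CharOrtho H18.CharInd H18.CharQuot H82.Deg H82.Simple H82.Quot
open scoped ComplexConjugate

universe u

variable {G : Type u} [Group G] [Finite G]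
variable {χ : IrrCharacter G} {N : Subgroup G} {f : ℕ} (h : Gag χ N f)

include h

/-- All elements of the coset `zN`, `z ∉ N`, are conjugate. -/
theorem isConj_coset [N.Normal] {z y : G} (hz : z ∉ N) (hy : y ∈ N) : IsConj z (z * y) := by
  apply H82.Coset.isConj_of_zero N z (z * y)
  · intro ψ hψ
    by_cases hψχ : ψ = χ
    · rw [hψχ]; exact h.zero z hz
    · exact absurd (h.other ψ hψχ) hψ
  · intro ψ hψ
    exact char_mul_right (isCharacter_of_isIrr ψ.2) (hψ y hy) z

/-- If `N = O_p(G)` then `N` is self-centralizing. -/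
theorem centralizer_le_of_core [hN : N.Normal] {p : ℕ} [hpf : Fact p.Prime] (hp : IsPGroup p N)
    (hcore : N = pCore p G) {g : G} (hg : ∀ x ∈ N, g * x = x * g) : g ∈ N := by
  have h1 : Subgroup.centralizer (N : Set G) ≤ pCore p G := by
    apply H1.Cores.le_pCore inferInstance
    obtain ⟨x, hx, hx1⟩ := exists_ne_one h
    obtain ⟨P, hP⟩ := centralizer_sylow h hp hx hx1
    have h2 : Subgroup.centralizer (N : Set G) ≤ P := by
      rw [← hP]; exact Subgroup.centralizer_le (Set.singleton_subset_iff.2 hx)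
    exact P.isPGroup'.to_le h2
  rw [← hcore] at h1
  apply h1
  rw [Subgroup.mem_centralizer_iff]
  intro x hx
  exact (hg x hx).symm

/-- The case `p` odd. -/
theorem f_eq_one_of_odd [hN : N.Normal] {p : ℕ} [hpf : Fact p.Prime] (hp : IsPGroup p N)
    (hcore : N = pCore p G) (hodd : p ≠ 2) : ¬ p ∣ f := by
  intro hpf'
  have hc := comm h hp
  have hcomm : ∀ a ∈ N, ∀ b ∈ N, a * b = b * a := fun a ha b hb =>
    congrArg Subtype.val (hc.is_comm.comm (⟨a, ha⟩ : N) ⟨b, hb⟩)
  -- an involution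
  have hNodd : ¬ 2 ∣ Nat.card N := by
    obtain ⟨m, hm⟩ := IsPGroup.iff_card.1 hp
    rw [hm]
    intro h1
    exact hodd ((Nat.prime_dvd_prime_iff_eq Nat.prime_two hpf.out).1
      (Nat.prime_two.dvd_of_dvd_pow h1)).symm
  have h2 : 2 ∣ Nat.card G := by
    rw [h.card]
    apply Dvd.dvd.mul_left
    omega
  haveI : Fact (Nat.Prime 2) := ⟨Nat.prime_two⟩
  obtain ⟨t, ht⟩ := exists_prime_orderOf_dvd_card' 2 h2
  have htt : t * t = 1 := by
    have := pow_orderOf_eq_one t
    rw [ht, pow_two] at this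
    exact this
  have htinv : t⁻¹ = t := inv_eq_of_mul_eq_one_right htt
  have ht1 : t ≠ 1 := by rintro rfl; rw [orderOf_one] at ht; omega
  have hfix : ∀ y ∈ N, t * y * t⁻¹ = y → y = 1 := by
    intro y hy hty
    by_contra hy1
    obtain ⟨P, hP⟩ := centralizer_sylow h hp hy hy1
    have h3 : t ∈ (P : Subgroup G) := by
      rw [← hP, Subgroup.mem_centralizer_singleton_iff]
      rwa [mul_inv_eq_iff_eq_mul] at hty
    obtain ⟨k, hk⟩ := P.isPGroup' ⟨t, h3⟩
    have h4 : t ^ p ^ k = 1 := congrArg Subtype.val hk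
    have h5 := orderOf_dvd_of_pow_eq_one h4
    rw [ht] at h5
    exact hodd ((Nat.prime_dvd_prime_iff_eq Nat.prime_two hpf.out).1
      (Nat.prime_two.dvd_of_dvd_pow h5)).symm
  have hinv : ∀ x ∈ N, t * x * t⁻¹ = x⁻¹ := by
    intro x hx
    have hx' : t * x * t⁻¹ ∈ N := hN.conj_mem x hx t
    have h3 := hfix (x * (t * x * t⁻¹)) (N.mul_mem hx hx') (by
      have h4 : t * (x * (t * x * t⁻¹)) * t⁻¹ = (t * x * t⁻¹) * ((t * t) * x * (t * t)⁻¹) := by group
      rw [h4, htt, inv_one, one_mul, mul_one]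
      exact hcomm _ hx' _ hx)
    exact eq_inv_of_mul_eq_one_right h3
  -- every `g` is in `N C_G(t)`
  have hdec : ∀ g : G, ∃ n ∈ N, ∃ c : G, t * c = c * t ∧ g = n * c := by
    intro g
    have h3 : t * g * t⁻¹ * g⁻¹ ∈ N := by
      apply centralizer_le_of_core h hp hcore
      intro x hx
      have h4 : ∀ x ∈ N, (t * g * t⁻¹ * g⁻¹) * x * (t * g * t⁻¹ * g⁻¹)⁻¹ = x := by
        intro x hx
        have h5 : g⁻¹ * x * g ∈ N := by
          have := hN.conj_mem x hx g⁻¹; rwa [inv_inv] at this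
        have h6 : t⁻¹ * (g⁻¹ * x * g) * t = (g⁻¹ * x * g)⁻¹ := by
          have := hinv _ h5
          rw [htinv] at this ⊢
          exact this
        calc (t * g * t⁻¹ * g⁻¹) * x * (t * g * t⁻¹ * g⁻¹)⁻¹
            = t * (g * (t⁻¹ * (g⁻¹ * x * g) * t) * g⁻¹) * t⁻¹ := by group
          _ = t * (g * (g⁻¹ * x * g)⁻¹ * g⁻¹) * t⁻¹ := by rw [h6]
          _ = t * x⁻¹ * t⁻¹ := by group
          _ = x := by rw [hinv _ (N.inv_mem hx), inv_inv]
      have h5 := h4 x hx
      rwa [mul_inv_eq_iff_eq_mul] at h5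
    -- square root in `N`
    obtain ⟨m, hm, hmm⟩ : ∃ m ∈ N, m * m = (g * t * g⁻¹ * t⁻¹) := by
      have h4 : g * t * g⁻¹ * t⁻¹ ∈ N := by
        have h5 := hN.conj_mem _ (N.inv_mem h3) t⁻¹
        have h6 : t⁻¹ * (t * g * t⁻¹ * g⁻¹)⁻¹ * t⁻¹⁻¹ = t⁻¹ * (g * t * g⁻¹ * t⁻¹) * t := by group
        rw [h6] at h5
        have h7 := hN.conj_mem _ h5 t
        have h8 : t * (t⁻¹ * (g * t * g⁻¹ * t⁻¹) * t) * t⁻¹ = g * t * g⁻¹ * t⁻¹ := by group
        rwa [h8] at h7
      have hcop : (Nat.card N).Coprime 2 := ((Nat.Prime.coprime_iff_not_dvd Nat.prime_two).2 hNodd).symm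
      refine ⟨((powCoprime hcop).symm ⟨_, h4⟩ : N), Subtype.prop _, ?_⟩
      have h5 := (powCoprime hcop).apply_symm_apply (⟨_, h4⟩ : N)
      rw [powCoprime_apply, pow_two] at h5
      exact congrArg Subtype.val h5
    refine ⟨m, hm, m⁻¹ * g, ?_, by group⟩
    -- `g t g⁻¹ = m² t = m t m⁻¹`
    have h4 : g * t * g⁻¹ = m * t * m⁻¹ := by
      have h5 : g * t * g⁻¹ = m * m * t := by rw [hmm]; group
      rw [h5]
      have h6 := hinv _ (N.inv_mem hm)
      rw [inv_inv] at h6
      calc m * m * t = m * (t * m⁻¹ * t⁻¹) * t := by rw [h6]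
        _ = m * t * m⁻¹ := by group
    have h5 : g * t = m * t * m⁻¹ * g := by rw [← h4]; group
    calc t * (m⁻¹ * g) = m⁻¹ * (m * t * m⁻¹ * g) := by group
      _ = m⁻¹ * g * t := by rw [← h5]; group
  set K := Subgroup.centralizer ({t} : Set G) with hK
  have hKN : N ⊓ K = ⊥ := by
    rw [eq_bot_iff]
    rintro y ⟨hy, hyK⟩
    rw [Subgroup.mem_bot]
    apply hfix y hy
    have hyK' := Subgroup.mem_centralizer_singleton_iff.1 (show y ∈ Subgroup.centralizer {t} from hyK)
    rw [← hyK']; group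
  have hcompl : Subgroup.IsComplement' N K := by
    apply Subgroup.isComplement'_of_disjoint_and_mul_eq_univ
    · exact disjoint_iff.2 hKN
    · ext g
      simp only [Set.mem_univ, iff_true]
      obtain ⟨n, hn, c, hc, rfl⟩ := hdec g
      exact Set.mul_mem_mul hn (Subgroup.mem_centralizer_singleton_iff.2 hc.symm)
  have hcardK : Nat.card K = f ^ 2 * (Nat.card N - 1) := by
    have h3 := hcompl.card_mul
    rw [h.card] at h3
    have h4 : 0 < Nat.card N := Nat.card_pos
    apply Nat.eq_of_mul_eq_mul_left h4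
    rw [h3]; ring
  have hpK : p ∣ Nat.card K := by
    rw [hcardK]
    exact Dvd.dvd.mul_right (hpf'.trans (dvd_pow_self f two_ne_zero)) _
  obtain ⟨⟨z, hzK⟩, hz'⟩ := exists_prime_orderOf_dvd_card' p hpK
  have hzord : orderOf z = p := by rw [← hz']; exact (Subgroup.orderOf_mk z hzK).symm
  have hz1 : z ≠ 1 := by
    rintro rfl
    rw [orderOf_one] at hzord
    exact hpf.out.one_lt.ne hzord
  have hzN : z ∉ N := by
    intro h3
    have : z ∈ N ⊓ K := ⟨h3, hzK⟩
    rw [hKN] at this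
    exact hz1 (Subgroup.mem_bot.1 this)
  have hcent := card_centralizer_quot h hzN
  -- a nontrivial fixed point in `N`
  obtain ⟨w, hwN, hw1, hwz⟩ : ∃ w ∈ N, w ≠ 1 ∧ z * w = w * z := by
    have hzp : IsPGroup p (Subgroup.zpowers z) := by
      apply IsPGroup.of_card (n := 1)
      rw [Nat.card_zpowers, hzord, pow_one]
    obtain ⟨P, hP⟩ := hzp.exists_le_sylow
    have hNP : N ≤ P := hp.le_sylow_of_normal P
    have hPnt : Nontrivial ↥(P : Subgroup G) := by
      obtain ⟨x, hx, hx1⟩ := exists_ne_one h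
      exact ⟨⟨x, hNP hx⟩, 1, fun h2 => hx1 (congrArg Subtype.val h2)⟩
    haveI := P.isPGroup'.center_nontrivial
    obtain ⟨w, hw⟩ := exists_ne (1 : Subgroup.center ↥(P : Subgroup G))
    refine ⟨w.1.1, center_le h hp P ⟨w.1, w.2, rfl⟩, ?_, ?_⟩
    · intro h3
      exact hw (Subtype.ext (Subtype.ext h3))
    · have h3 := Subgroup.mem_center_iff.1 w.2 ⟨z, hP (Subgroup.mem_zpowers z)⟩
      exact congrArg Subtype.val h3
  -- `C_{G/N}(zN)` lifts into `K`
  let e : Subgroup.centralizer ({(z : G ⧸ N)} : Set (G ⧸ N)) → Subgroup.centralizer ({z} : Set G) :=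
    fun q => ⟨(hdec q.1.out).choose_spec.2.choose, by
      obtain ⟨hn, hc⟩ := (hdec q.1.out).choose_spec
      set n := (hdec q.1.out).choose with hndef
      obtain ⟨hc1, hc2⟩ := hc.choose_spec
      set c := hc.choose with hcdef
      have hq : ((c : G) : G ⧸ N) = q.1 := by
        rw [← QuotientGroup.out_eq' q.1, hc2, QuotientGroup.mk_mul, (QuotientGroup.eq_one_iff n).2 hn,
          one_mul]
      have h3 := Subgroup.mem_centralizer_singleton_iff.1 q.2
      rw [← hq] at h3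
      have h4 : ((c * z * c⁻¹ * z⁻¹ : G) : G ⧸ N) = 1 := by
        rw [QuotientGroup.mk_mul, QuotientGroup.mk_mul, QuotientGroup.mk_mul, h3]
        simp
      rw [QuotientGroup.eq_one_iff] at h4
      have hcK : c ∈ K := Subgroup.mem_centralizer_singleton_iff.2 hc1.symm
      have h5 : c * z * c⁻¹ * z⁻¹ ∈ N ⊓ K :=
        ⟨h4, K.mul_mem (K.mul_mem (K.mul_mem hcK hzK) (K.inv_mem hcK)) (K.inv_mem hzK)⟩
      rw [hKN, Subgroup.mem_bot, mul_inv_eq_one, mul_inv_eq_iff_eq_mul] at h5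
      exact Subgroup.mem_centralizer_singleton_iff.2 h5⟩
  have heq : ∀ q, ((e q : G) : G ⧸ N) = q.1 := by
    intro q
    obtain ⟨hn, hc⟩ := (hdec q.1.out).choose_spec
    obtain ⟨hc1, hc2⟩ := (hdec q.1.out).choose_spec.2.choose_spec
    show (((hdec q.1.out).choose_spec.2.choose : G) : G ⧸ N) = q.1
    conv_rhs => rw [← QuotientGroup.out_eq' q.1, hc2, QuotientGroup.mk_mul,
      (QuotientGroup.eq_one_iff _).2 hn, one_mul]
  have heK : ∀ q, (e q : G) ∈ K := by
    intro q
    obtain ⟨hc1, hc2⟩ := (hdec q.1.out).choose_spec.2.choose_spec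
    exact Subgroup.mem_centralizer_singleton_iff.2 hc1.symm
  have hinj : Function.Injective e := by
    intro q q' hqq
    apply Subtype.ext
    rw [← heq q, ← heq q', hqq]
  have hsurj : Function.Surjective e := by
    have h3 : Function.Bijective e := (Nat.bijective_iff_injective_and_card e).2 ⟨hinj, hcent.symm⟩
    exact h3.2
  obtain ⟨q, hq⟩ := hsurj ⟨w, Subgroup.mem_centralizer_singleton_iff.2 hwz.symm⟩
  have h3 := heK q
  rw [hq] at h3
  have h4 : w ∈ N ⊓ K := ⟨hwN, h3⟩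
  rw [hKN] at h4
  exact hw1 (Subgroup.mem_bot.1 h4)

end H82.Gagola
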