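import Cfsg.Agent.Lib.H82.Gagola5

/-!
# Characters vanishing on all but two conjugacy classes: the doubly transitive Frobenius case
-/

set_option autoImplicit false
set_option linter.style.haveILetI false

namespace H82.Gagola

open Cfsg H18.CharBasic H18.CharOrtho H18.CharInd H18.CharQuot H82.Deg H82.Simple H82.Quot
open scoped ComplexConjugate Pointwise

universe u

variable {G : Type u} [Group G] [Finite G]
variable {χ : IrrCharacter G} {N : Subgroup G} {f : ℕ} (h : Gag χ N f)

include h

theorem sq_eq_one (hp : IsPGroup 2 N) : ∀ x ∈ N, x * x = 1 := by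
  obtain ⟨q, hq, hx⟩ := exists_prime h
  intro x hxN
  by_cases hx1 : x = 1
  · rw [hx1, mul_one]
  have h1 : orderOf x = q := orderOf_eq_prime (hx x hxN) hx1 (hp := ⟨hq⟩)
  obtain ⟨k, hk⟩ := hp ⟨x, hxN⟩
  have h2 : x ^ 2 ^ k = 1 := congrArg Subtype.val hk
  have h3 : q ∣ 2 := by
    have := orderOf_dvd_of_pow_eq_one h2
    rw [h1] at this
    exact hq.dvd_of_dvd_pow this
  have h4 : q = 2 := (Nat.prime_dvd_prime_iff_eq hq Nat.prime_two).1 h3
  rw [← pow_two, ← h4]
  exact hx x hxN

/-- The centralizer in `N` of an element `z ∉ N` with square in `N` is large. -/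
theorem card_lt_sq [hN : N.Normal] (hp : IsPGroup 2 N) (hcore : N = pCore 2 G) {z : G} (hz : z ∉ N)
    (hz2 : z * z ∈ N) :
    Nat.card N < Nat.card (N ⊓ Subgroup.centralizer ({z} : Set G) : Subgroup G) ^ 2 := by
  haveI : Fact (Nat.Prime 2) := ⟨Nat.prime_two⟩
  have hc := comm h hp
  have hcomm : ∀ a ∈ N, ∀ b ∈ N, a * b = b * a := fun a ha b hb =>
    congrArg Subtype.val (hc.is_comm.comm (⟨a, ha⟩ : N) ⟨b, hb⟩)
  have hsq := sq_eq_one h hp
  have hinv : ∀ x ∈ N, x⁻¹ = x := fun x hx => inv_eq_of_mul_eq_one_right (hsq x hx)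
  have hzN : ∀ y ∈ N, z⁻¹ * y * z ∈ N := by
    intro y hy
    have := hN.conj_mem y hy z⁻¹
    rwa [inv_inv] at this
  let T : N →* N :=
    { toFun := fun y => ⟨z⁻¹ * y * z * y, N.mul_mem (hzN y y.2) y.2⟩
      map_one' := by apply Subtype.ext; simp
      map_mul' := by
        intro a b
        apply Subtype.ext
        show z⁻¹ * (a * b : G) * z * (a * b) = (z⁻¹ * a * z * a) * (z⁻¹ * b * z * b)
        calc z⁻¹ * (a * b : G) * z * (a * b) = (z⁻¹ * a * z) * ((z⁻¹ * b * z) * a) * b := by group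
          _ = (z⁻¹ * a * z) * (a * (z⁻¹ * b * z)) * b := by rw [hcomm _ (hzN b b.2) _ a.2]
          _ = (z⁻¹ * a * z * a) * (z⁻¹ * b * z * b) := by group }
  have hT : ∀ y : N, (T y : G) = z⁻¹ * y * z * y := fun _ => rfl
  set C := (N ⊓ Subgroup.centralizer ({z} : Set G) : Subgroup G) with hC
  have hker : ∀ y : N, y ∈ T.ker ↔ (y : G) ∈ C := by
    intro y
    rw [MonoidHom.mem_ker]
    constructor
    · intro h1
      refine ⟨y.2, ?_⟩
      have h2 : z⁻¹ * (y : G) * z * y = 1 := congrArg Subtype.val h1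
      show (y : G) ∈ Subgroup.centralizer ({z} : Set G)
      rw [Subgroup.mem_centralizer_singleton_iff]
      have h3 : z⁻¹ * (y : G) * z = y := by
        rw [mul_eq_one_iff_eq_inv.1 h2, hinv _ y.2]
      calc (y : G) * z = z * (z⁻¹ * y * z) := by group
        _ = z * y := by rw [h3]
    · rintro ⟨_, h1⟩
      have h2 := Subgroup.mem_centralizer_singleton_iff.1 (show (y : G) ∈ Subgroup.centralizer ({z} : Set G) from h1)
      apply Subtype.ext
      rw [hT]
      have h3 : z⁻¹ * (y : G) * z = y := by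
        rw [mul_assoc, h2]; group
      rw [h3, hsq _ y.2]; rfl
  have hkercard : Nat.card T.ker = Nat.card C := by
    refine Nat.card_congr ⟨fun y => ⟨y.1, (hker y.1).1 y.2⟩, fun y => ⟨⟨y.1, y.2.1⟩, (hker ⟨y.1, y.2.1⟩).2 y.2⟩, ?_, ?_⟩
    · intro y; rfl
    · intro y; rfl
  have hzsq : (⟨z * z, hz2⟩ : N) ∈ T.ker := by
    rw [hker]
    refine ⟨hz2, ?_⟩
    show z * z ∈ Subgroup.centralizer ({z} : Set G)
    rw [Subgroup.mem_centralizer_singleton_iff]
    exact mul_assoc z z z
  have hrange : T.range ≤ T.ker := by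
    rintro _ ⟨y, rfl⟩
    rw [MonoidHom.mem_ker]
    apply Subtype.ext
    rw [hT, hT]
    show z⁻¹ * (z⁻¹ * (y : G) * z * y) * z * (z⁻¹ * y * z * y) = 1
    have h1 : (z * z)⁻¹ * (y : G) * (z * z) = y := by
      rw [mul_assoc, hcomm _ y.2 _ hz2]; group
    calc z⁻¹ * (z⁻¹ * (y : G) * z * y) * z * (z⁻¹ * y * z * y)
        = ((z * z)⁻¹ * (y : G) * (z * z)) * ((z⁻¹ * y * z) * (z⁻¹ * y * z)) * y := by group
      _ = y * 1 * y := by rw [h1, hsq _ (hzN y y.2)]
      _ = 1 := by rw [mul_one, hsq _ y.2]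
  -- `z²` is not in the range
  have hnot : (⟨z * z, hz2⟩ : N) ∉ T.range := by
    rintro ⟨y, hy⟩
    have h1 : z⁻¹ * (y : G) * z * y = z * z := congrArg Subtype.val hy
    -- `(zy)² = 1`
    have h2 : (z * y) * (z * y) = 1 := by
      calc (z * y) * (z * y) = z * z * (z⁻¹ * y * z * y) := by group
        _ = (z * z) * (z * z) := by rw [h1]
        _ = 1 := hsq _ hz2
    -- so all elements of `zN` are involutions
    have h3 : ∀ w ∈ N, (z * w) * (z * w) = 1 := by
      intro w hw
      have h4 : IsConj (z * y) (z * w) :=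
        (isConj_coset h hz y.2).symm.trans (isConj_coset h hz hw)
      obtain ⟨g, hg⟩ := isConj_iff.1 h4
      rw [← hg]
      calc g * (z * y) * g⁻¹ * (g * (z * y) * g⁻¹) = g * ((z * y) * (z * y)) * g⁻¹ := by group
        _ = 1 := by rw [h2]; group
    have h4 : z * z = 1 := by
      have := h3 1 N.one_mem
      rwa [mul_one] at this
    apply hz
    apply centralizer_le_of_core h hp hcore
    intro w hw
    have h5 := h3 w hw
    have h6 : z⁻¹ = z := inv_eq_of_mul_eq_one_right h4
    have h7 : z * w * z * w = 1 := by rw [← h5]; group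
    have h8 : z * w * z = w := by
      rw [mul_eq_one_iff_eq_inv.1 h7, hinv w hw]
    calc z * w = z * w * (z * z) := by rw [h4, mul_one]
      _ = z * w * z * z := by group
      _ = w * z := by rw [h8]
  have hlt : Nat.card T.range < Nat.card T.ker := by
    rcases lt_or_ge (Nat.card T.range) (Nat.card T.ker) with h1 | h1
    · exact h1
    · exact absurd (Subgroup.eq_of_le_of_card_ge hrange h1 ▸ hzsq) hnot
  have h1 : Nat.card T.ker * Nat.card T.range = Nat.card N := by
    rw [← Subgroup.index_ker]; exact T.ker.card_mul_index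
  rw [← h1, ← hkercard, pow_two]
  exact Nat.mul_lt_mul_of_pos_left hlt Nat.card_pos

theorem f_eq_one_of_two [hN : N.Normal] (hp : IsPGroup 2 N) (hcore : N = pCore 2 G) : ¬ 2 ∣ f := by
  intro hf
  haveI : Fact (Nat.Prime 2) := ⟨Nat.prime_two⟩
  have h2 : 2 ∣ Nat.card (G ⧸ N) := by
    have h1 := N.card_mul_index
    rw [h.card] at h1
    have h3 : N.index = f ^ 2 * (Nat.card N - 1) := by
      apply Nat.eq_of_mul_eq_mul_left (Nat.card_pos (α := N))
      rw [h1]; ring
    show 2 ∣ N.index
    rw [h3]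
    exact Dvd.dvd.mul_right (hf.trans (dvd_pow_self f two_ne_zero)) _
  obtain ⟨q, hq⟩ := exists_prime_orderOf_dvd_card' 2 h2
  obtain ⟨z, rfl⟩ := QuotientGroup.mk_surjective q
  have hzN : z ∉ N := by
    intro h3
    rw [(QuotientGroup.eq_one_iff z).2 h3, orderOf_one] at hq
    omega
  have hz2 : z * z ∈ N := by
    have h3 := pow_orderOf_eq_one (z : G ⧸ N)
    rw [hq, pow_two] at h3
    exact (QuotientGroup.eq_one_iff (z * z)).1 h3
  obtain ⟨M, hM, hMp, hzM⟩ := H55.BaerSuzuki.exists_normal (p := 2) z (by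
    intro g
    set w := g * z * g⁻¹ with hw
    have hwN : w ∉ N := by
      intro h3
      apply hzN
      have := hN.conj_mem _ h3 g⁻¹
      rw [hw] at this
      have h4 : g⁻¹ * (g * z * g⁻¹) * g⁻¹⁻¹ = z := by group
      rwa [h4] at this
    have hw2 : w * w ∈ N := by
      have h3 : w * w = g * (z * z) * g⁻¹ := by rw [hw]; group
      rw [h3]
      exact hN.conj_mem _ hz2 g
    have h3 := card_lt_sq h hp hcore hzN hz2
    have h4 := card_lt_sq h hp hcore hwN hw2
    set A := (N ⊓ Subgroup.centralizer ({z} : Set G) : Subgroup G) with hA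
    set B := (N ⊓ Subgroup.centralizer ({w} : Set G) : Subgroup G) with hB
    have h5 : ¬ A ⊓ B = ⊥ := by
      intro hbot
      have h6 : Nat.card A * Nat.card B ≤ Nat.card N := by
        rw [← Nat.card_prod]
        refine Nat.card_le_card_of_injective (fun ab : A × B => (⟨(ab.1 : G) * ab.2,
          N.mul_mem ab.1.2.1 ab.2.2.1⟩ : N)) ?_
        rintro ⟨a, b⟩ ⟨a', b'⟩ hab
        have h7 : (a : G) * b = a' * b' := congrArg Subtype.val hab
        have h8 : (a' : G)⁻¹ * a = b' * (b : G)⁻¹ := by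
          rw [inv_mul_eq_iff_eq_mul, ← mul_assoc, ← h7]; group
        have h9 : (a' : G)⁻¹ * a ∈ A ⊓ B :=
          ⟨A.mul_mem (A.inv_mem a'.2) a.2, by rw [h8]; exact B.mul_mem b'.2 (B.inv_mem b.2)⟩
        rw [hbot, Subgroup.mem_bot] at h9
        have h10 : (a : G) = a' := by rw [inv_mul_eq_one] at h9; exact h9.symm
        have h11 : (b : G) = b' := by
          rw [h10] at h7; exact mul_left_cancel h7
        exact Prod.ext (Subtype.ext h10) (Subtype.ext h11)
      have h7 : Nat.card N * Nat.card N < Nat.card A ^ 2 * Nat.card B ^ 2 :=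
        Nat.mul_lt_mul'' h3 h4
      have h8 : Nat.card A ^ 2 * Nat.card B ^ 2 ≤ Nat.card N * Nat.card N := by
        calc Nat.card A ^ 2 * Nat.card B ^ 2 = (Nat.card A * Nat.card B) * (Nat.card A * Nat.card B) := by ring
          _ ≤ Nat.card N * Nat.card N := Nat.mul_le_mul h6 h6
      omega
    obtain ⟨x, hx, hx1⟩ : ∃ x ∈ A ⊓ B, x ≠ 1 := by
      by_contra hcon
      push Not at hcon
      exact h5 (by rw [eq_bot_iff]; exact fun k hk => hcon k hk)
    obtain ⟨P, hP⟩ := centralizer_sylow h hp hx.1.1 hx1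
    have h6 : Subgroup.closure ({z, w} : Set G) ≤ P := by
      rw [Subgroup.closure_le]
      rintro y (rfl | rfl)
      · rw [SetLike.mem_coe, ← hP, Subgroup.mem_centralizer_singleton_iff]
        exact (Subgroup.mem_centralizer_singleton_iff.1 hx.1.2).symm
      · rw [SetLike.mem_coe, ← hP, Subgroup.mem_centralizer_singleton_iff]
        exact (Subgroup.mem_centralizer_singleton_iff.1 hx.2.2).symm
    exact P.isPGroup'.to_le h6)
  have h3 := H1.Cores.le_pCore hM hMp
  rw [← hcore] at h3
  exact hzN (h3 hzM)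

/-- `N = O_p(G)` forces `f = 1`. -/
theorem f_eq_one [hN : N.Normal] {p : ℕ} [hpf : Fact p.Prime] (hp : IsPGroup p N)
    (hcore : N = pCore p G) : f = 1 := by
  obtain ⟨k, hk⟩ := f_eq_pow h hp
  rcases Nat.eq_zero_or_pos k with h0 | h0
  · rw [hk, h0, pow_zero]
  · exfalso
    have h1 : p ∣ f := by rw [hk]; exact dvd_pow_self p h0.ne'
    by_cases h2 : p = 2
    · subst h2
      exact f_eq_one_of_two h hp hcore h1
    · exact f_eq_one_of_odd h hp hcore h2 h1

theorem frobenius_iff (hG : 2 < Nat.card G) [hN : N.Normal] {p : ℕ} [hpf : Fact p.Prime]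
    (hp : IsPGroup p N) :
    N = Cfsg.pCore p G ↔ ∃ H : Subgroup G, Cfsg.IsFrobeniusComplement H ∧
      Cfsg.frobeniusKernel H = (N : Set G) ∧ Nat.card H + 1 = Nat.card N := by
  constructor
  · intro hcore
    have hf := f_eq_one h hp hcore
    have hcardG : Nat.card G = Nat.card N * (Nat.card N - 1) := by
      rw [h.card, hf]; ring
    have hindex : N.index = Nat.card N - 1 := by
      apply Nat.eq_of_mul_eq_mul_left (Nat.card_pos (α := N))
      rw [N.card_mul_index, hcardG]
    have hcop : (Nat.card N).Coprime N.index := by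
      rw [hindex]
      obtain ⟨m, hm⟩ := IsPGroup.iff_card.1 hp
      rw [hm]
      apply Nat.Coprime.pow_left
      rw [Nat.Prime.coprime_iff_not_dvd hpf.out, ← hm]
      exact not_dvd_sub_one h hp
    obtain ⟨H, hH⟩ := Subgroup.exists_right_complement'_of_coprime hcop
    have hcardH : Nat.card H = Nat.card N - 1 := by
      rw [← hindex]; exact hH.symm.index_eq_card.symm
    have hpos := card_sub_one_pos h
    have hN2 : 2 < Nat.card N := by
      by_contra hle
      have h1 : Nat.card N = 2 := by omega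
      rw [h1] at hcardG
      omega
    have h1 := H82.Frob.isFrobenius N H (disjoint_iff.1 hH.disjoint) hH.sup_eq_top h.ne_bot (by
      intro htop
      have h2 : N.index = 1 := by rw [htop, Subgroup.index_top]
      omega) (by
      intro x hx hx1 g hg
      have h2 := card_centralizer h hx hx1
      rw [hf, one_pow, one_mul] at h2
      have hc := comm h hp
      have h3 : N ≤ Subgroup.centralizer ({x} : Set G) := by
        intro y hy
        rw [Subgroup.mem_centralizer_singleton_iff]
        exact congrArg Subtype.val (hc.is_comm.comm (⟨y, hy⟩ : N) ⟨x, hx⟩)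
      have h4 := Subgroup.eq_of_le_of_card_ge h3 h2.le
      rw [h4, Subgroup.mem_centralizer_singleton_iff]
      exact hg)
    exact ⟨H, h1.1, h1.2, by omega⟩
  · rintro ⟨H, hH, hk, hcard⟩
    apply le_antisymm (H1.Cores.le_pCore hN hp)
    intro g hg
    by_contra hgN
    have h1 : g ∉ frobeniusKernel H := by rw [hk]; exact hgN
    unfold frobeniusKernel at h1
    simp only [Set.mem_setOf_eq, not_or, not_forall, not_not] at h1
    obtain ⟨hg1, x, hx⟩ := h1
    apply hg1
    obtain ⟨k, hk'⟩ := H1.Cores.isPGroup_pCore p ⟨g, hg⟩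
    have h2 : g ^ p ^ k = 1 := congrArg Subtype.val hk'
    have h3 : g ^ Nat.card H = 1 := by
      have h4 : (⟨g, hx⟩ : (MulAut.conj x • H : Subgroup G)) ^ Nat.card (MulAut.conj x • H : Subgroup G) = 1 :=
        pow_card_eq_one'
      have h5 : Nat.card (MulAut.conj x • H : Subgroup G) = Nat.card H :=
        Nat.card_congr (Subgroup.equivSMul (MulAut.conj x) H).symm.toEquiv
      rw [h5] at h4
      exact congrArg Subtype.val h4
    have hcop : (p ^ k).Coprime (Nat.card H) := by
      apply Nat.Coprime.pow_left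
      rw [Nat.Prime.coprime_iff_not_dvd hpf.out]
      have := not_dvd_sub_one h hp
      rwa [show Nat.card H = Nat.card N - 1 by omega]
    have h4 : orderOf g ∣ 1 := by
      rw [← hcop.gcd_eq_one]
      exact Nat.dvd_gcd (orderOf_dvd_of_pow_eq_one h2) (orderOf_dvd_of_pow_eq_one h3)
    exact orderOf_eq_one_iff.1 (Nat.dvd_one.1 h4)

end H82.Gagola
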