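import Cfsg.Agent.Lib.H82.GalProd

/-!
# Faithful irreducible characters with irreducible product with a Galois conjugate: Fitting subgroup
-/

set_option autoImplicit false
set_option linter.style.haveILetI false

namespace H82.GalProd

open Cfsg Representation H18.CharBasic H18.CharOrtho H18.CharInd H18.CharQuot H31.Clifford
open H82.RM
open scoped ComplexConjugate commutatorElement

universe u

variable {G : Type u} [Group G]

/-- Elements of `F` centralising `F` modulo the centre. -/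
def MM (F : Subgroup G) : Subgroup G := F ⊓ ⨅ f ∈ F, SS f

theorem mem_MM {F : Subgroup G} {x : G} :
    x ∈ MM F ↔ x ∈ F ∧ ∀ f ∈ F, x * f * x⁻¹ * f⁻¹ ∈ Subgroup.center G := by
  simp only [MM, Subgroup.mem_inf, Subgroup.mem_iInf, mem_SS]

instance MM_normal (F : Subgroup G) [hF : F.Normal] : (MM F).Normal := by
  refine ⟨fun x hx g => ?_⟩
  rw [mem_MM] at hx ⊢
  refine ⟨hF.conj_mem x hx.1 g, fun f hf => ?_⟩
  have h1 := hx.2 (g⁻¹ * f * g) (by simpa using hF.conj_mem f hf g⁻¹)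
  have h2 : g * x * g⁻¹ * f * (g * x * g⁻¹)⁻¹ * f⁻¹ =
      g * (x * (g⁻¹ * f * g) * x⁻¹ * (g⁻¹ * f * g)⁻¹) * g⁻¹ := by group
  rw [h2]
  exact (inferInstance : (Subgroup.center G).Normal).conj_mem _ h1 g

theorem exists_MM (F : Subgroup G) (hF : Group.IsNilpotent F) (hne : ¬ F ≤ Subgroup.center G) :
    ∃ m ∈ MM F, m ∉ Subgroup.center G := by
  classical
  obtain ⟨n, hn⟩ := hF.nilpotent
  have hex : ∃ n : ℕ, ¬ (Subgroup.upperCentralSeries F n).map F.subtype ≤ Subgroup.center G := by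
    refine ⟨n, ?_⟩
    rw [hn, ← MonoidHom.range_eq_map, Subgroup.range_subtype]
    exact hne
  have h1 := Nat.find_spec hex
  have h2 : Nat.find hex ≠ 0 := by
    intro h0
    rw [h0, Subgroup.upperCentralSeries_zero, Subgroup.map_bot] at h1
    exact h1 bot_le
  obtain ⟨d, hd⟩ := Nat.exists_eq_succ_of_ne_zero h2
  have h3 := Nat.find_min hex (m := d) (by omega)
  rw [not_not] at h3
  rw [hd] at h1
  obtain ⟨x, hx, hxc⟩ := Set.not_subset.1 h1
  obtain ⟨y, hy, rfl⟩ := hx
  refine ⟨y, mem_MM.2 ⟨y.2, fun f hf => ?_⟩, hxc⟩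
  have h4 := Subgroup.mem_upperCentralSeries_succ_iff.1 hy ⟨f, hf⟩
  exact h3 ⟨_, h4, rfl⟩

section main

variable [Fintype G] {χ : G → ℂ} {k : ℕ}

omit [Fintype G] in
theorem pow_eq_self [Finite G] {l : Subgroup.center G →* ℂˣ} (hk : Nat.Coprime k (Nat.card G))
    (hχ : IsClassFunction G χ)
    (hl : ∀ (z : Subgroup.center G) (g : G), χ (z * g) = l z * χ g) (m : G) (s : SS m) :
    χ ((s : G) ^ k) = (mu l m s : ℂ) * χ ((s : G) ^ k) := by
  by_cases h0 : χ ((s : G) ^ k) = 0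
  · rw [h0, mul_zero]
  · have h1 := chi_mu hχ hl m (s ^ k)
    rw [Subgroup.coe_pow] at h1
    have h2 : (mu l m (s ^ k) : ℂ) = 1 := by
      have h3 : (mu l m (s ^ k) : ℂ) * χ ((s : G) ^ k) = 1 * χ ((s : G) ^ k) := by
        rw [one_mul]; exact h1.symm
      exact mul_right_cancel₀ h0 h3
    rw [map_pow, Units.val_eq_one] at h2
    have h3 : mu l m s ^ Nat.card G = 1 := by
      rw [← map_pow]
      have h4 : s ^ Nat.card G = 1 := by
        apply Subtype.ext
        rw [Subgroup.coe_pow, pow_card_eq_one', Subgroup.coe_one]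
      rw [h4, map_one]
    have h5 : orderOf (mu l m s) ∣ 1 := by
      rw [← hk]
      exact Nat.dvd_gcd (orderOf_dvd_of_pow_eq_one h2) (orderOf_dvd_of_pow_eq_one h3)
    rw [orderOf_eq_one_iff.1 (Nat.dvd_one.1 h5), Units.val_one, one_mul]

theorem fitting_le (hχ : IsIrrCharacter G χ) (hfaith : ∀ g : G, χ g = χ 1 → g = 1)
    (hk : Nat.Coprime k (Nat.card G)) (hirr : IsIrrCharacter G (fun g => χ g * χ (g ^ k)))
    (F : Subgroup G) [hFn : F.Normal] (hF : Group.IsNilpotent F) : F ≤ Subgroup.center G := by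
  classical
  by_contra hne
  obtain ⟨m, hm, hmZ⟩ := exists_MM F hF hne
  have hmF := (mem_MM.1 hm).1
  obtain ⟨l, hl⟩ := exists_central hχ
  have hχc := isCharacter_of_isIrr hχ
  have hlinj : ∀ z, l z = 1 → z = 1 := by
    intro z hz
    apply Subtype.ext
    apply hfaith
    have h1 := hl z 1
    rwa [mul_one, hz, Units.val_one, one_mul] at h1
  have hlinj' : ∀ z w, l z = l w → z = w := by
    intro z w h
    have h1 := hlinj (z * w⁻¹) (by rw [map_mul, map_inv, h, mul_inv_cancel])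
    exact mul_inv_eq_one.1 h1
  -- the centre of `M`
  have hA : ∀ a ∈ MM F, (∀ x ∈ MM F, x * a = a * x) → a ∈ Subgroup.center G := by
    intro a ha hac
    let A : Subgroup G := MM F ⊓ Subgroup.centralizer (MM F : Set G)
    have hAn : A.Normal := inferInstance
    have h1 : A ≤ Subgroup.center G := abelian_central hχ hfaith hk hirr A (by
      intro x hx y hy
      exact Subgroup.mem_centralizer_iff.1 hy.2 x hx.1)
    exact h1 ⟨ha, Subgroup.mem_centralizer_iff.2 (fun x hx => hac x hx)⟩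
  letI := Fintype.ofFinite (MM F)
  letI := Fintype.ofFinite (SS m)
  have hMS : MM F ≤ SS m := fun x hx => (mem_MM.1 hx).2 m hmF
  set θ : MM F → ℂ := fun x => (mu l m ⟨x, hMS x.2⟩ : ℂ) with hθdef
  have hθ : IsIrrCharacter (MM F) θ := isIrrCharacter_of_hom ((mu l m).comp (Subgroup.inclusion hMS))
  have hμ : IsIrrCharacter (SS m) (fun s => (mu l m s : ℂ)) := isIrrCharacter_of_hom (mu l m)
  have hT : ∀ g : G, g ∈ SS m ↔ conjFunN (MM F) g θ = θ := by
    intro g
    constructor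
    · intro hg
      funext x
      rw [cj_apply]
      show (mu l m ⟨g * x * g⁻¹, _⟩ : ℂ) = (mu l m ⟨x, _⟩ : ℂ)
      have h1 : (⟨g * x * g⁻¹, hMS ((MM_normal F).conj_mem x x.2 g)⟩ : SS m) =
          ⟨g, hg⟩ * ⟨x, hMS x.2⟩ * ⟨g, hg⟩⁻¹ := rfl
      rw [h1, map_mul, map_mul, map_inv, mul_comm (mu l m ⟨g, hg⟩), mul_inv_cancel_right]
    · intro hg
      have h1 : ∀ x : MM F, (x : G) * (g⁻¹ * m * g) * (x : G)⁻¹ * (g⁻¹ * m * g)⁻¹ =
          (x : G) * m * (x : G)⁻¹ * m⁻¹ := by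
        intro x
        have h2 := congrFun hg x
        rw [cj_apply] at h2
        have h3 := hlinj' _ _ (Units.ext h2)
        have h4 := congrArg Subtype.val h3
        have h5 : g * x * g⁻¹ * m * (g * x * g⁻¹)⁻¹ * m⁻¹ = x * m * (x : G)⁻¹ * m⁻¹ := h4
        have h6 : (x : G) * (g⁻¹ * m * g) * (x : G)⁻¹ * (g⁻¹ * m * g)⁻¹ =
            g⁻¹ * (g * x * g⁻¹ * m * (g * x * g⁻¹)⁻¹ * m⁻¹) * g := by group
        rw [h6, h5, mul_assoc, ← Subgroup.mem_center_iff.1 ((mem_MM.1 x.2).2 m hmF) g,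
          inv_mul_cancel_left]
      have h2 : g⁻¹ * m * g ∈ MM F := by
        have := (MM_normal F).conj_mem m hm g⁻¹
        rwa [inv_inv] at this
      have h3 : g⁻¹ * m * g * m⁻¹ ∈ Subgroup.center G := by
        apply hA _ (mul_mem h2 (inv_mem hm))
        intro x hx
        have h4 := h1 ⟨x, hx⟩
        simp only at h4
        have hc : x * m * x⁻¹ * m⁻¹ ∈ Subgroup.center G := (mem_MM.1 hx).2 m hmF
        set n := g⁻¹ * m * g with hn
        have h5 : x * n * x⁻¹ = (x * m * x⁻¹ * m⁻¹) * n := by rw [← h4]; group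
        have h6 : x * m * x⁻¹ = (x * m * x⁻¹ * m⁻¹) * m := by group
        have h7 : x * (n * m⁻¹) * x⁻¹ = n * m⁻¹ := by
          calc x * (n * m⁻¹) * x⁻¹ = (x * n * x⁻¹) * (x * m * x⁻¹)⁻¹ := by group
            _ = ((x * m * x⁻¹ * m⁻¹) * n) * ((x * m * x⁻¹ * m⁻¹) * m)⁻¹ := by rw [h5, ← h6]
            _ = (x * m * x⁻¹ * m⁻¹) * (n * m⁻¹) * (x * m * x⁻¹ * m⁻¹)⁻¹ := by group
            _ = (n * m⁻¹) * (x * m * x⁻¹ * m⁻¹) * (x * m * x⁻¹ * m⁻¹)⁻¹ := by
              rw [Subgroup.mem_center_iff.1 hc (n * m⁻¹)]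
            _ = n * m⁻¹ := by group
        exact mul_inv_eq_iff_eq_mul.1 h7
      have h4 : g⁻¹ ∈ SS m := by
        rw [mem_SS, inv_inv]
        exact h3
      rw [← inv_inv g]
      exact inv_mem h4
  have hres : classInner (resH hMS (fun s => (mu l m s : ℂ))) θ = 1 := inner_irr_self hθ
  obtain ⟨hβ, hβθ⟩ := corr_irr (MM F) (SS m) hMS hθ hT hμ (by rw [hres]; exact one_ne_zero)
  rw [hres] at hβθ
  have hθ1 : θ ≠ fun _ => 1 := by
    intro h
    apply hmZ
    apply hA m hm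
    intro x hx
    have h1 := congrFun h ⟨x, hx⟩
    have h2 := hlinj _ (Units.ext h1)
    have h3 : x * m * x⁻¹ * m⁻¹ = 1 := congrArg Subtype.val h2
    rw [mul_inv_eq_one, mul_inv_eq_iff_eq_mul] at h3
    exact h3
  have hβ1 : indFun (SS m) (fun s => (mu l m s : ℂ)) ≠ fun _ => 1 := by
    intro h
    rw [h] at hβθ
    have h1 : classInner (fun _ : MM F => (1 : ℂ)) θ = 0 := inner_irr_ne isIrrCharacter_one hθ hθ1.symm
    have h2 : (0 : ℂ) = 1 := h1.symm.trans hβθ
    exact zero_ne_one h2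
  have hpow := H78.Galois.isIrr_pow hk hχ
  have key : ∀ φ : G → ℂ, IsIrrCharacter G φ → (∀ s : SS m, φ s = (mu l m s : ℂ) * φ s) →
      classInner (fun g => φ g * conj (φ g)) (indFun (SS m) (fun s => (mu l m s : ℂ))) ≠ 0 := by
    intro φ hφ hφm
    rw [frobenius' (SS m) _ (isClassFunction_of_isCharacter (isCharacter_sq (isCharacter_of_isIrr hφ)))]
    have h1 : classInner (fun s : SS m => φ s * conj (φ s)) (fun s => (mu l m s : ℂ)) =
        classInner (fun s : SS m => φ s) (fun s : SS m => φ s) := by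
      simp only [classInner]
      congr 1
      refine Finset.sum_congr rfl fun s _ => ?_
      have h2 : φ s * (mu l m s : ℂ) = φ s := by rw [mul_comm]; exact (hφm s).symm
      rw [mul_assoc, ← map_mul, h2]
    rw [h1]
    intro h2
    have h3 := congrFun (inner_self_eq_zero.1 h2) 1
    exact irr_one_ne_zero hφ h3
  exact no_common (inner_sq hirr) (isCharacter_sq hχc) (isCharacter_sq (isCharacter_of_isIrr hpow))
    (inner_sq_one hχ) (inner_sq_one hpow) hβ hβ1
    (key χ hχ (fun s => chi_mu (isClassFunction_of_isIrr hχ) hl m s))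
    (key _ hpow (fun s => pow_eq_self hk (isClassFunction_of_isIrr hχ) hl m s))

end main

end H82.GalProd
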