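import Mathlib
import Cfsg.Agent.Lib.H77.GlaubP
import Cfsg.Agent.Lib.H77.Canon
import Cfsg.Agent.Lib.H31.Clifford
import Cfsg.Agent.Lib.H83.Gallagher

/-!
# Character correspondence for `p`-group actions on groups with a normal Sylow `p`-subgroup

Part 1: the data, and the case of an invariant character of the Sylow subgroup.
-/

set_option autoImplicit false
set_option linter.unusedSectionVars false
set_option linter.style.haveILetI false

namespace H82.IsNav

open Cfsg H18 H18.CharBasic H18.CharOrtho H18.CharInd H18.CharQuot H77.GlaubP H77.Canon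
open scoped ComplexConjugate

universe u

/-- The basic configuration. -/
structure Dat (p : ℕ) {K C S : Type u} [Group K] [Group C] [Group S]
    (φ : S →* MulAut K) (φC : S →* MulAut C) (ι : C →* K) (Q : Subgroup K) : Prop where
  hS : IsPGroup p S
  inj : Function.Injective ι
  eqv : ∀ s c, ι (φC s c) = φ s (ι c)
  qinv : ∀ s, ∀ q ∈ Q, φ s q ∈ Q
  mem : ∀ k, (∃ c, ι c = k) ↔ ∀ s, φ s k * k⁻¹ ∈ Q
  pg : IsPGroup p Q
  idx : ¬ p ∣ Q.index

section quot

variable {K C S : Type u} [Group K] [Group C] [Group S]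
  {p : ℕ} [hp : Fact p.Prime] {φ : S →* MulAut K} {φC : S →* MulAut C} {ι : C →* K}
  {Q : Subgroup K} [hQ : Q.Normal]

theorem qmap (hq : ∀ s, ∀ q ∈ Q, φ s q ∈ Q) (s : S) : Q.map ((φ s : K ≃* K) : K →* K) = Q := by
  apply le_antisymm
  · rintro _ ⟨q, hq', rfl⟩
    exact hq s q hq'
  · intro q hq'
    refine ⟨φ s⁻¹ q, hq _ q hq', ?_⟩
    show φ s (φ s⁻¹ q) = q
    rw [← MulAut.mul_apply, ← map_mul, mul_inv_cancel, map_one, MulAut.one_apply]

/-- The action on the quotient. -/
noncomputable def qAct (φ : S →* MulAut K) (Q : Subgroup K) [Q.Normal]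
    (hq : ∀ s, ∀ q ∈ Q, φ s q ∈ Q) : S →* MulAut (K ⧸ Q) where
  toFun s := QuotientGroup.congr Q Q (φ s) (qmap hq s)
  map_one' := by
    ext x
    induction x using QuotientGroup.induction_on with
    | _ x => simp [QuotientGroup.congr_mk]
  map_mul' s t := by
    ext x
    induction x using QuotientGroup.induction_on with
    | _ x => simp [QuotientGroup.congr_mk]

theorem qAct_mk (hq : ∀ s, ∀ q ∈ Q, φ s q ∈ Q) (s : S) (k : K) :
    qAct φ Q hq s (k : K ⧸ Q) = ((φ s k : K) : K ⧸ Q) := rfl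

/-- The fixed points in the quotient. -/
def fixQ (φ : S →* MulAut K) (Q : Subgroup K) [Q.Normal]
    (hq : ∀ s, ∀ q ∈ Q, φ s q ∈ Q) : Subgroup (K ⧸ Q) where
  carrier := {x | ∀ s, qAct φ Q hq s x = x}
  one_mem' := fun s => map_one _
  mul_mem' := fun {a b} ha hb s => by rw [map_mul, ha s, hb s]
  inv_mem' := fun {a} ha s => by rw [map_inv, ha s]

theorem mem_fixQ (hq : ∀ s, ∀ q ∈ Q, φ s q ∈ Q) (x : K ⧸ Q) :
    x ∈ fixQ φ Q hq ↔ ∀ s, qAct φ Q hq s x = x := Iff.rfl

theorem mk_mem_fixQ (hq : ∀ s, ∀ q ∈ Q, φ s q ∈ Q) (k : K) :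
    (k : K ⧸ Q) ∈ fixQ φ Q hq ↔ ∀ s, φ s k * k⁻¹ ∈ Q := by
  rw [mem_fixQ]
  refine forall_congr' fun s => ?_
  rw [qAct_mk, eq_comm, QuotientGroup.eq]
  constructor
  · intro h
    have h1 := hQ.conj_mem _ h k
    have h2 : k * (k⁻¹ * φ s k) * k⁻¹ = φ s k * k⁻¹ := by group
    rwa [h2] at h1
  · intro h
    have h1 := hQ.conj_mem _ h k⁻¹
    have h2 : k⁻¹ * (φ s k * k⁻¹) * k⁻¹⁻¹ = k⁻¹ * φ s k := by group
    rwa [h2] at h1

/-- The projection of `C` onto the fixed points. -/
def prC (h : Dat p φ φC ι Q) : C →* fixQ φ Q h.qinv where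
  toFun c := ⟨(ι c : K ⧸ Q), (mk_mem_fixQ h.qinv _).2 ((h.mem _).1 ⟨c, rfl⟩)⟩
  map_one' := by apply Subtype.ext; simp
  map_mul' a b := by apply Subtype.ext; simp

theorem prC_coe (h : Dat p φ φC ι Q) (c : C) : (prC h c : K ⧸ Q) = (ι c : K) := rfl

theorem prC_surj (h : Dat p φ φC ι Q) : Function.Surjective (prC h) := by
  rintro ⟨x, hx⟩
  induction x using QuotientGroup.induction_on with
  | _ k =>
    obtain ⟨c, hc⟩ := (h.mem k).2 ((mk_mem_fixQ h.qinv k).1 hx)
    exact ⟨c, Subtype.ext (by rw [prC_coe, hc])⟩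

theorem prC_act (h : Dat p φ φC ι Q) (s : S) (c : C) : prC h (φC s c) = prC h c := by
  apply Subtype.ext
  rw [prC_coe, prC_coe, h.eqv]
  exact (mem_fixQ h.qinv _).1 (prC h c).2 s

theorem prC_eq_one (h : Dat p φ φC ι Q) (c : C) : prC h c = 1 ↔ ι c ∈ Q := by
  rw [Subtype.ext_iff, prC_coe]
  exact QuotientGroup.eq_one_iff _

end quot

section surj

variable {A B : Type u} [Group A] [Group B] [Fintype A] [Fintype B]

/-- Inner products pulled back along a surjection. -/
theorem inner_comp_surj (f : A →* B) (hf : Function.Surjective f) (a b : B → ℂ) :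
    classInner (fun x => a (f x)) (fun x => b (f x)) = classInner a b := by
  classical
  have hcard : Nat.card A = Nat.card B * Nat.card f.ker := by
    rw [← f.ker.card_mul_index, Subgroup.index_ker, mul_comm]
    congr 1
    rw [MonoidHom.range_eq_top.2 hf]
    exact Subgroup.card_top
  have hk0 : (Nat.card f.ker : ℂ) ≠ 0 := card_ne_zero'
  have hsum : ∑ x : A, a (f x) * conj (b (f x)) = (Nat.card f.ker : ℂ) * ∑ y : B, a y * conj (b y) := by
    rw [← Finset.sum_fiberwise (s := Finset.univ) (g := f), Finset.mul_sum]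
    refine Finset.sum_congr rfl fun y _ => ?_
    have h1 : ∀ x ∈ Finset.univ.filter (fun x => f x = y), a (f x) * conj (b (f x)) =
        a y * conj (b y) := by
      intro x hx
      rw [(Finset.mem_filter.1 hx).2]
    rw [Finset.sum_congr rfl h1, Finset.sum_const, nsmul_eq_mul]
    congr 2
    obtain ⟨x0, rfl⟩ := hf y
    rw [Nat.card_eq_fintype_card]
    rw [← Fintype.card_subtype]
    refine Fintype.card_congr ?_
    refine ⟨fun x => ⟨x0⁻¹ * x.1, ?_⟩, fun k => ⟨x0 * k.1, ?_⟩, ?_, ?_⟩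
    · rw [MonoidHom.mem_ker, map_mul, map_inv, x.2, inv_mul_cancel]
    · rw [map_mul, (MonoidHom.mem_ker).1 k.2, mul_one]
    · intro x; apply Subtype.ext; simp
    · intro x; apply Subtype.ext; simp
  simp only [classInner]
  rw [hsum, hcard]
  push_cast
  rw [mul_inv, mul_assoc, inv_mul_cancel_left₀ hk0]

/-- An irreducible character constant on the kernel of a surjection factors through it. -/
theorem exists_descend (f : A →* B) (hf : Function.Surjective f) {χ : A → ℂ}
    (hχ : IsIrrCharacter A χ) (hk : ∀ x, f x = 1 → χ x = χ 1) :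
    ∃ η : IrrCharacter B, ∀ x, χ x = (η : B → ℂ) (f x) := by
  have hc := isCharacter_of_isIrr hχ
  have h1 := isIrrCharacter_deflate f.ker hχ (fun n hn => hk n hn)
  let e := QuotientGroup.quotientKerEquivOfSurjective f hf
  have h2 := (isIrrCharacter_mulEquiv e.symm).1 h1
  refine ⟨⟨_, h2⟩, fun x => ?_⟩
  show χ x = deflate f.ker χ (e.symm (f x))
  have h3 : e.symm (f x) = (x : A ⧸ f.ker) := by
    rw [MulEquiv.symm_apply_eq]
    rfl
  rw [h3, deflate_mk f.ker hc (fun n hn => hk n hn)]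

end surj

end H82.IsNav
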