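import Cfsg.Agent.Lib.H82.IsNav1
import Cfsg.Agent.Lib.H77.InvOver
import Cfsg.Agent.Lib.H77.PQuot

/-!
# Character correspondence for `p`-group actions on groups with a normal Sylow `p`-subgroup

Part 2: the case of an invariant character of the Sylow subgroup.
-/

set_option autoImplicit false
set_option linter.unusedSectionVars false
set_option linter.style.haveILetI false

namespace H82.IsNav

open Cfsg H18 H18.CharBasic H18.CharOrtho H18.CharInd H18.CharQuot H77.GlaubP H77.Canon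
open scoped ComplexConjugate

universe u

section side

variable {A B : Type u} [Group A] [Group B] [Fintype A] [Fintype B] (f : A →* B)
  (hf : Function.Surjective f) (N : Subgroup A) [hN : N.Normal] [Fintype N]
  (hker : ∀ x, f x = 1 ↔ x ∈ N) {t : A → ℂ} (ht : IsIrrCharacter A t)
  (htN : IsIrrCharacter N (fun n : N => t n))

include hker in
theorem side_mul (b : B → ℂ) (a n : A) (hn : n ∈ N) : b (f (a * n)) = b (f a) := by
  rw [map_mul, (hker n).2 hn, mul_one]

include hf hker ht htN in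
theorem side_exists {η : A → ℂ} (hη : IsIrrCharacter A η)
    (h : classInner (fun n : N => η n) (fun n : N => t n) ≠ 0) :
    ∃ b : IrrCharacter B, ∀ x, η x = (b : B → ℂ) (f x) * t x := by
  obtain ⟨β, hβ, hβN, h1⟩ := H83.Gallagher.exists_eq_mul ht N htN hη h
  obtain ⟨b, hb⟩ := exists_descend f hf hβ (fun x hx => hβN x ((hker x).1 hx))
  exact ⟨b, fun x => by rw [h1]; exact congrArg (· * t x) (hb x)⟩

include hf hker ht htN in
theorem side_irr (b : IrrCharacter B) : IsIrrCharacter A (fun x => (b : B → ℂ) (f x) * t x) := by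
  refine H83.Gallagher.isIrr_mul ht N htN (isIrrCharacter_comp f hf b.2) ?_
  intro n hn
  show (b : B → ℂ) (f n) = (b : B → ℂ) (f 1)
  rw [(hker n).2 hn, map_one]

include hker htN in
theorem side_over (b : IrrCharacter B) :
    classInner (fun n : N => (b : B → ℂ) (f n) * t n) (fun n : N => t n) = (b : B → ℂ) 1 := by
  have h1 : (fun n : N => (b : B → ℂ) (f n) * t n) = ((b : B → ℂ) 1) • (fun n : N => t n) := by
    funext n
    rw [(hker n).2 n.2]
    rfl
  rw [h1, CharOrtho.inner_smul_left, inner_irr_self htN, mul_one]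

include hf hker ht htN in
theorem side_inj {b b' : B → ℂ} (h : ∀ x, b (f x) * t x = b' (f x) * t x) : b = b' := by
  have h1 := H83.Gallagher.mul_inj ht N htN (β := fun x => b (f x)) (γ := fun x => b' (f x))
    (fun g n hn => side_mul f N hker b g n hn) (fun g n hn => side_mul f N hker b' g n hn) h
  funext y
  obtain ⟨x, rfl⟩ := hf y
  exact congrFun h1 x

include hf hker ht htN in
theorem side_inner (b c : B → ℂ) :
    classInner (fun x => b (f x) * t x) (fun x => c (f x) * t x) = classInner b c := by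
  rw [H83.Gallagher.inner_mul_mul ht N htN (α := fun x => b (f x)) (β := fun x => c (f x))
    (fun g n hn => side_mul f N hker b g n hn) (fun g n hn => side_mul f N hker c g n hn)]
  exact inner_comp_surj f hf b c

end side

section inv

variable {K C S : Type u} [Group K] [Group C] [Group S] [Fintype K] [Fintype C]
  {p : ℕ} [hp : Fact p.Prime] {φ : S →* MulAut K} {φC : S →* MulAut C} {ι : C →* K}
  {Q : Subgroup K} [hQ : Q.Normal]

/-- `θ` is invariant under the action. -/
def SInv (φ : S →* MulAut K) (Q : Subgroup K) (hq : ∀ s, ∀ q ∈ Q, φ s q ∈ Q) (θ : Q → ℂ) : Prop :=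
  ∀ s (q : Q), θ ⟨φ s q, hq s q q.2⟩ = θ q

omit hQ [Fintype C] in
theorem cop (h : Dat p φ φC ι Q) : (Nat.card Q).Coprime Q.index := by
  obtain ⟨n, hn⟩ := IsPGroup.iff_card.1 h.pg
  rw [hn]
  exact Nat.Coprime.pow_left _ ((Nat.Prime.coprime_iff_not_dvd hp.out).2 h.idx)

theorem detOrder_act (s : S) {t : K → ℂ} (ht : IsCharacter K t) :
    detOrder (fun k => t (φ s k)) = detOrder t := by
  rw [detOrder, detOrder]
  have h1 : detChar (fun k => t (φ s k)) = fun k => detChar t (φ s k) :=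
    funext fun k => DetChar.detChar_comp ((φ s : K ≃* K) : K →* K) ht k
  rw [h1, orderOf_eq_orderOf_iff]
  intro n
  constructor
  · intro h
    funext k
    have h2 := congrFun h (φ s⁻¹ k)
    have h3 : φ s (φ s⁻¹ k) = k := by
      rw [← MulAut.mul_apply, ← map_mul, mul_inv_cancel, map_one, MulAut.one_apply]
    simp only [Pi.pow_apply, h3] at h2
    exact h2
  · intro h
    funext k
    have h2 := congrFun h (φ s k)
    simpa using h2

/-- The canonical extension is invariant. -/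
theorem exists_ext (h : Dat p φ φC ι Q) (θ : IrrCharacter Q)
    (hK : ∀ k, conjFunN Q k (θ : Q → ℂ) = (θ : Q → ℂ)) (hS : SInv φ Q h.qinv (θ : Q → ℂ)) :
    ∃ t : IrrCharacter K, (∀ q : Q, (t : K → ℂ) q = (θ : Q → ℂ) q) ∧ Inv φ (t : K → ℂ) := by
  obtain ⟨t, ht1, ht2⟩ := canon_exists Q (cop h) θ (fun x n => congrFun (hK x) n)
  refine ⟨t, ht1, ?_⟩
  intro s
  have h1 : IsIrrCharacter K (fun k => (t : K → ℂ) (φ s k)) :=
    isIrrCharacter_comp (φ s).toMonoidHom (φ s).surjective t.2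
  have hd : (detOrder (t : K → ℂ)).Coprime Q.index := (cop h).coprime_dvd_left ht2
  have h2 := canon_unique Q (cop h) h1 t.2 θ (fun q => by
    have h3 := hS s q
    have h4 := ht1 ⟨φ s q, h.qinv s q q.2⟩
    rw [h3] at h4
    exact h4) ht1 (by rw [detOrder_act s (isCharacter_of_isIrr t.2)]; exact hd) hd
  intro g
  exact congrFun h2 g

/-- `χ` lies over `θ`. -/
def Over (Q : Subgroup K) [Fintype Q] (χ : K → ℂ) (θ : Q → ℂ) : Prop :=
  classInner (fun q : Q => χ q) θ ≠ 0

/-- `θ` transported to `C`. -/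
def trC (ι : C →* K) (Q : Subgroup K) (θ : Q → ℂ) : Q.comap ι → ℂ := fun x => θ ⟨ι x, x.2⟩


theorem comap_surj (h : Dat p φ φC ι Q) : Function.Surjective (ι.subgroupComap Q) := by
  intro q
  obtain ⟨c, hc⟩ := (h.mem (q : K)).2 (fun s => Q.mul_mem (h.qinv s q q.2) (Q.inv_mem q.2))
  exact ⟨⟨c, by rw [Subgroup.mem_comap, hc]; exact q.2⟩, Subtype.ext hc⟩

theorem irr_trC (h : Dat p φ φC ι Q) {θ : Q → ℂ} (hθ : IsIrrCharacter Q θ) :
    IsIrrCharacter (Q.comap ι) (trC ι Q θ) :=
  isIrrCharacter_comp (ι.subgroupComap Q) (comap_surj h) hθ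

theorem prC_ker (h : Dat p φ φC ι Q) (x : C) : prC h x = 1 ↔ x ∈ Q.comap ι := by
  rw [prC_eq_one, Subgroup.mem_comap]

theorem mk_ker (x : K) : QuotientGroup.mk' Q x = 1 ↔ x ∈ Q := by
  rw [QuotientGroup.mk'_apply, QuotientGroup.eq_one_iff]

theorem irr_tC (h : Dat p φ φC ι Q) {θ : Q → ℂ} (hθ : IsIrrCharacter Q θ) {t : K → ℂ}
    (ht : IsIrrCharacter K t) (ht1 : ∀ q : Q, t q = θ q) :
    IsIrrCharacter C (fun c => t (ι c)) ∧
      IsIrrCharacter (Q.comap ι) (fun n : Q.comap ι => t (ι n)) := by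
  have h1 : IsIrrCharacter (Q.comap ι) (fun n : Q.comap ι => t (ι n)) := by
    have h2 := irr_trC h hθ
    have h3 : (fun n : Q.comap ι => t (ι n)) = trC ι Q θ := by
      funext n
      exact ht1 ⟨ι n, n.2⟩
    rw [h3]; exact h2
  exact ⟨H77.InvOver.irr_of_restrict (Q.comap ι).subtype
    (isCharacter_comp ι (isCharacter_of_isIrr ht)) h1, h1⟩

/-- The multiplicity formula. -/
theorem mult_eq (h : Dat p φ φC ι Q) [Fintype (K ⧸ Q)] [Fintype (fixQ φ Q h.qinv)] {θ : Q → ℂ}
    (hθ : IsIrrCharacter Q θ) {t : K → ℂ}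
    (ht : IsIrrCharacter K t) (ht1 : ∀ q : Q, t q = θ q) {χ : IrrCharacter K}
    {β : IrrCharacter C} {b : IrrCharacter (K ⧸ Q)} {c : IrrCharacter (fixQ φ Q h.qinv)}
    (hb : ∀ x, (χ : K → ℂ) x = (b : K ⧸ Q → ℂ) (QuotientGroup.mk' Q x) * t x)
    (hc : ∀ x, (β : C → ℂ) x = (c : fixQ φ Q h.qinv → ℂ) (prC h x) * t (ι x)) :
    mult ι χ β = mult (fixQ φ Q h.qinv).subtype b c := by
  letI := Fintype.ofFinite (Q.comap ι)
  obtain ⟨h1, h2⟩ := irr_tC h hθ ht ht1
  have h3 := side_inner (prC h) (prC_surj h) (Q.comap ι) (prC_ker h) h1 h2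
    (fun x => (b : K ⧸ Q → ℂ) ((fixQ φ Q h.qinv).subtype x)) (c : fixQ φ Q h.qinv → ℂ)
  have h4 : (fun x => (b : K ⧸ Q → ℂ) ((fixQ φ Q h.qinv).subtype (prC h x)) * t (ι x)) =
      fun x => (χ : K → ℂ) (ι x) := by
    funext x
    rw [hb]
    rfl
  have h5 : (fun x => (c : fixQ φ Q h.qinv → ℂ) (prC h x) * t (ι x)) = (β : C → ℂ) :=
    funext fun x => (hc x).symm
  rw [h4, h5, mult_spec, mult_spec] at h3
  exact_mod_cast h3

end inv

end H82.IsNav
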