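import Cfsg.Agent.Lib.H82.IsNav2

/-!
# Character correspondence for `p`-group actions on groups with a normal Sylow `p`-subgroup

Part 3: the correspondence over an invariant character of the Sylow subgroup.
-/

set_option autoImplicit false
set_option linter.unusedSectionVars false
set_option linter.style.haveILetI false

namespace H82.IsNav

open Cfsg H18 H18.CharBasic H18.CharOrtho H18.CharInd H18.CharQuot H77.GlaubP H77.Canon
open scoped ComplexConjugate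

universe u

section gl

variable {G C S : Type u} [Group G] [Fintype G] [Group S] [Group C] [Fintype C]
  {p : ℕ} [hp : Fact p.Prime] (φ : S →* MulAut G) (hS : IsPGroup p S) (ι : C →* G)
  (hι : Function.Injective ι) (hC : ∀ g : G, (∃ c, ι c = g) ↔ ∀ s, φ s g = g)

include hS hι hC in
/-- degree congruence in the Glauberman correspondence -/
theorem gl_degree (hG : ¬ p ∣ Nat.card G) {χ : IrrCharacter G} (hχ : Inv φ χ.1)
    {β : IrrCharacter C} (h1 : ¬ p ∣ mult ι χ β) :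
    (charDegree (χ : G → ℂ) : ZMod p) = (mult ι χ β : ZMod p) * (charDegree (β : C → ℂ) : ZMod p) := by
  classical
  haveI : Fintype (IrrCharacter G) := Fintype.ofFinite _
  haveI : Fintype (IrrCharacter C) := Fintype.ofFinite _
  have h2 := mem_classFun_expand (f := fun c => χ.1 (ι c))
    (isClassFunction_of_isCharacter (isCharacter_comp ι (isCharacter_of_isIrr χ.2)))
  have h3 := congrFun h2 1
  simp only [map_one, Finset.sum_apply, Pi.smul_apply, smul_eq_mul, mult_spec] at h3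
  have h4 : charDegree (χ : G → ℂ) = ∑ γ : IrrCharacter C, mult ι χ γ * charDegree (γ : C → ℂ) := by
    have h5 : (charDegree (χ : G → ℂ) : ℂ) =
        ((∑ γ : IrrCharacter C, mult ι χ γ * charDegree (γ : C → ℂ) : ℕ) : ℂ) := by
      rw [H77.PQuot.cast_irr, h3]
      push_cast
      exact Finset.sum_congr rfl fun γ _ => by rw [H77.PQuot.cast_irr]
    exact_mod_cast h5
  rw [h4]
  push_cast
  rw [Finset.sum_eq_single β]
  · intro γ _ hγ
    have h6 : p ∣ mult ι χ γ := by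
      by_contra h7
      exact hγ (corr_unique φ hS ι hι hC hG hχ h1 h7).symm
    rw [(ZMod.natCast_eq_zero_iff _ _).2 h6, zero_mul]
  · intro h; exact absurd (Finset.mem_univ _) h

end gl

section inv

variable {K C S : Type u} [Group K] [Group C] [Group S] [Fintype K] [Fintype C]
  {p : ℕ} [hp : Fact p.Prime] {φ : S →* MulAut K} {φC : S →* MulAut C} {ι : C →* K}
  {Q : Subgroup K} [hQ : Q.Normal] [Fintype Q] [Fintype (Q.comap ι)]

/-- The conclusion of the correspondence over a fixed character `θ`. -/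
structure Corr (p : ℕ) (φ : S →* MulAut K) (φC : S →* MulAut C) (ι : C →* K) (Q : Subgroup K)
    [Fintype Q] [Fintype (Q.comap ι)] (θ : Q → ℂ) : Prop where
  ex : ∀ χ : IrrCharacter K, Inv φ (χ : K → ℂ) → Over Q (χ : K → ℂ) θ →
    ∃ β : IrrCharacter C, Inv φC (β : C → ℂ) ∧ Over (Q.comap ι) (β : C → ℂ) (trC ι Q θ) ∧
      ¬ p ∣ mult ι χ β
  ex' : ∀ β : IrrCharacter C, Inv φC (β : C → ℂ) → Over (Q.comap ι) (β : C → ℂ) (trC ι Q θ) →
    ∃ χ : IrrCharacter K, Inv φ (χ : K → ℂ) ∧ Over Q (χ : K → ℂ) θ ∧ ¬ p ∣ mult ι χ β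
  uniq : ∀ (χ χ' : IrrCharacter K) (β : IrrCharacter C), Inv φ (χ : K → ℂ) →
    Inv φ (χ' : K → ℂ) → Over Q (χ : K → ℂ) θ → Over Q (χ' : K → ℂ) θ →
    Over (Q.comap ι) (β : C → ℂ) (trC ι Q θ) → ¬ p ∣ mult ι χ β → ¬ p ∣ mult ι χ' β → χ = χ'
  uniq' : ∀ (χ : IrrCharacter K) (β β' : IrrCharacter C), Inv φ (χ : K → ℂ) →
    Over Q (χ : K → ℂ) θ → Over (Q.comap ι) (β : C → ℂ) (trC ι Q θ) →
    Over (Q.comap ι) (β' : C → ℂ) (trC ι Q θ) → ¬ p ∣ mult ι χ β → ¬ p ∣ mult ι χ β' → β = β'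
  one : ∀ (χ : IrrCharacter K) (β : IrrCharacter C), Inv φ (χ : K → ℂ) →
    Over Q (χ : K → ℂ) θ → Over (Q.comap ι) (β : C → ℂ) (trC ι Q θ) → ¬ p ∣ mult ι χ β →
    (mult ι χ β : ZMod p) = 1 ∨ (mult ι χ β : ZMod p) = -1
  deg : ∀ (χ : IrrCharacter K) (β : IrrCharacter C), Inv φ (χ : K → ℂ) →
    Over Q (χ : K → ℂ) θ → Over (Q.comap ι) (β : C → ℂ) (trC ι Q θ) → ¬ p ∣ mult ι χ β →
    (charDegree (χ : K → ℂ) : ZMod p) = (mult ι χ β : ZMod p) * (charDegree (β : C → ℂ) : ZMod p)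

theorem corr_inv (h : Dat p φ φC ι Q) (θ : IrrCharacter Q)
    (hK : ∀ k, conjFunN Q k (θ : Q → ℂ) = (θ : Q → ℂ)) (hS : SInv φ Q h.qinv (θ : Q → ℂ)) :
    Corr p φ φC ι Q (θ : Q → ℂ) := by
  classical
  haveI : Fintype (K ⧸ Q) := Fintype.ofFinite _
  haveI : Fintype (fixQ φ Q h.qinv) := Fintype.ofFinite _
  haveI : Fintype (IrrCharacter (K ⧸ Q)) := Fintype.ofFinite _
  haveI : Fintype (IrrCharacter (fixQ φ Q h.qinv)) := Fintype.ofFinite _
  obtain ⟨t, ht1, ht2⟩ := exists_ext h θ hK hS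
  obtain ⟨hC1, hC2⟩ := irr_tC h θ.2 t.2 ht1
  have htQ : (fun q : Q => (t : K → ℂ) q) = (θ : Q → ℂ) := funext ht1
  have htQi : IsIrrCharacter Q (fun q : Q => (t : K → ℂ) q) := by rw [htQ]; exact θ.2
  have htC : (fun q : Q.comap ι => (t : K → ℂ) (ι q)) = trC ι Q (θ : Q → ℂ) :=
    funext fun q => ht1 ⟨ι q, q.2⟩
  have hmk := QuotientGroup.mk'_surjective Q
  -- translation
  have hex1 : ∀ χ : IrrCharacter K, Over Q (χ : K → ℂ) (θ : Q → ℂ) →
      ∃ b : IrrCharacter (K ⧸ Q), ∀ x, (χ : K → ℂ) x =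
        (b : K ⧸ Q → ℂ) (QuotientGroup.mk' Q x) * (t : K → ℂ) x := fun χ hχ =>
    side_exists (QuotientGroup.mk' Q) hmk Q (mk_ker) t.2 htQi χ.2 (by rw [htQ]; exact hχ)
  have hex2 : ∀ β : IrrCharacter C, Over (Q.comap ι) (β : C → ℂ) (trC ι Q (θ : Q → ℂ)) →
      ∃ c : IrrCharacter (fixQ φ Q h.qinv), ∀ x, (β : C → ℂ) x =
        (c : fixQ φ Q h.qinv → ℂ) (prC h x) * (t : K → ℂ) (ι x) := fun β hβ =>
    side_exists (prC h) (prC_surj h) (Q.comap ι) (prC_ker h) hC1 hC2 β.2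
      (by rw [htC]; exact hβ)
  have hinv : ∀ (χ : IrrCharacter K) (b : IrrCharacter (K ⧸ Q)), (∀ x, (χ : K → ℂ) x =
        (b : K ⧸ Q → ℂ) (QuotientGroup.mk' Q x) * (t : K → ℂ) x) →
      (Inv φ (χ : K → ℂ) ↔ Inv (qAct φ Q h.qinv) (b : K ⧸ Q → ℂ)) := by
    intro χ b hb
    constructor
    · intro hi s
      have h1 : (fun y => (b : K ⧸ Q → ℂ) (qAct φ Q h.qinv s y)) = (b : K ⧸ Q → ℂ) := by
        refine side_inj (QuotientGroup.mk' Q) hmk Q (mk_ker) t.2 htQi (fun x => ?_)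
        have h2 := hi s x
        rw [hb, hb, ht2 s x] at h2
        exact h2
      intro g
      exact congrFun h1 g
    · intro hi s x
      rw [hb, hb, ht2 s x]
      exact congrArg (· * _) (hi s (x : K ⧸ Q))
  have hmult : ∀ (χ : IrrCharacter K) (b : IrrCharacter (K ⧸ Q)) (β : IrrCharacter C)
      (c : IrrCharacter (fixQ φ Q h.qinv)), (∀ x, (χ : K → ℂ) x =
        (b : K ⧸ Q → ℂ) (QuotientGroup.mk' Q x) * (t : K → ℂ) x) → (∀ x, (β : C → ℂ) x =
        (c : fixQ φ Q h.qinv → ℂ) (prC h x) * (t : K → ℂ) (ι x)) →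
      mult ι χ β = mult (fixQ φ Q h.qinv).subtype b c := fun χ b β c h1 h2 =>
    mult_eq h θ.2 t.2 ht1 h1 h2
  -- data for the Glauberman correspondence
  have hsub := (fixQ φ Q h.qinv).subtype_injective
  have hfix : ∀ g : K ⧸ Q, (∃ c, (fixQ φ Q h.qinv).subtype c = g) ↔
      ∀ s, qAct φ Q h.qinv s g = g :=
    fun g => ⟨fun ⟨c, hc⟩ => hc ▸ c.2, fun hg => ⟨⟨g, hg⟩, rfl⟩⟩
  have hidx : ¬ p ∣ Nat.card (K ⧸ Q) := h.idx
  have hover1 : ∀ b : IrrCharacter (K ⧸ Q), Over Q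
      (fun x => (b : K ⧸ Q → ℂ) (QuotientGroup.mk' Q x) * (t : K → ℂ) x) (θ : Q → ℂ) := by
    intro b
    have h1 := side_over (QuotientGroup.mk' Q) Q (mk_ker) htQi b
    rw [htQ] at h1
    unfold Over
    rw [h1]
    exact irr_one_ne_zero b.2
  have hover2 : ∀ c : IrrCharacter (fixQ φ Q h.qinv), Over (Q.comap ι)
      (fun x => (c : fixQ φ Q h.qinv → ℂ) (prC h x) * (t : K → ℂ) (ι x))
      (trC ι Q (θ : Q → ℂ)) := by
    intro c
    have h1 := side_over (t := fun x => (t : K → ℂ) (ι x)) (prC h) (Q.comap ι) (prC_ker h) hC2 c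
    rw [htC] at h1
    unfold Over
    rw [h1]
    exact irr_one_ne_zero c.2
  constructor
  · intro χ hχ ho
    obtain ⟨b, hb⟩ := hex1 χ ho
    obtain ⟨c, hc⟩ := exists_mult_not_dvd (p := p) (qAct φ Q h.qinv) h.hS
      (fixQ φ Q h.qinv).subtype hsub hfix hidx b
    refine ⟨⟨_, side_irr (prC h) (prC_surj h) (Q.comap ι) (prC_ker h) hC1 hC2 c⟩, ?_,
      hover2 c, ?_⟩
    · intro s x
      show (c : fixQ φ Q h.qinv → ℂ) (prC h (φC s x)) * (t : K → ℂ) (ι (φC s x)) =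
        (c : fixQ φ Q h.qinv → ℂ) (prC h x) * (t : K → ℂ) (ι x)
      rw [prC_act, h.eqv, ht2]
    · rw [hmult χ b _ c hb (fun x => rfl)]
      exact hc
  · intro β _ ho
    obtain ⟨c, hc⟩ := hex2 β ho
    obtain ⟨b, hb, hbc⟩ := exists_inv (p := p) (qAct φ Q h.qinv) h.hS
      (fixQ φ Q h.qinv).subtype hsub hfix hidx c
    refine ⟨⟨_, side_irr (QuotientGroup.mk' Q) hmk Q (mk_ker) t.2 htQi b⟩, ?_, hover1 b, ?_⟩
    · exact (hinv ⟨_, side_irr (QuotientGroup.mk' Q) hmk Q (mk_ker) t.2 htQi b⟩ b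
        (fun x => rfl)).2 hb
    · rw [hmult _ b β c (fun x => rfl) hc]
      exact hbc
  · intro χ χ' β hχ hχ' ho ho' hoβ h1 h2
    obtain ⟨b, hb⟩ := hex1 χ ho
    obtain ⟨b', hb'⟩ := hex1 χ' ho'
    obtain ⟨c, hc⟩ := hex2 β hoβ
    rw [hmult χ b β c hb hc] at h1
    rw [hmult χ' b' β c hb' hc] at h2
    have h3 := inv_unique (p := p) (qAct φ Q h.qinv) h.hS
      (fixQ φ Q h.qinv).subtype hsub hfix hidx ((hinv χ b hb).1 hχ) ((hinv χ' b' hb').1 hχ') h1 h2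
    apply Subtype.ext
    funext x
    rw [hb, hb', h3]
  · intro χ β β' hχ ho hoβ hoβ' h1 h2
    obtain ⟨b, hb⟩ := hex1 χ ho
    obtain ⟨c, hc⟩ := hex2 β hoβ
    obtain ⟨c', hc'⟩ := hex2 β' hoβ'
    rw [hmult χ b β c hb hc] at h1
    rw [hmult χ b β' c' hb hc'] at h2
    have h3 := corr_unique (p := p) (qAct φ Q h.qinv) h.hS
      (fixQ φ Q h.qinv).subtype hsub hfix hidx ((hinv χ b hb).1 hχ) h1 h2
    apply Subtype.ext
    funext x
    rw [hc, hc', h3]
  · intro χ β hχ ho hoβ h1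
    obtain ⟨b, hb⟩ := hex1 χ ho
    obtain ⟨c, hc⟩ := hex2 β hoβ
    rw [hmult χ b β c hb hc] at h1 ⊢
    rcases mult_modEq (p := p) (qAct φ Q h.qinv) h.hS
      (fixQ φ Q h.qinv).subtype hsub hfix hidx ((hinv χ b hb).1 hχ) h1 with h3 | h3
    · left
      have := (ZMod.intCast_eq_intCast_iff _ _ p).2 h3
      simpa using this
    · right
      have := (ZMod.intCast_eq_intCast_iff _ _ p).2 h3
      simpa using this
  · intro χ β hχ ho hoβ h1
    obtain ⟨b, hb⟩ := hex1 χ ho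
    obtain ⟨c, hc⟩ := hex2 β hoβ
    rw [hmult χ b β c hb hc] at h1 ⊢
    have h3 := gl_degree (p := p) (qAct φ Q h.qinv) h.hS
      (fixQ φ Q h.qinv).subtype hsub hfix hidx ((hinv χ b hb).1 hχ) h1
    have h4 : charDegree (χ : K → ℂ) = charDegree (b : K ⧸ Q → ℂ) * charDegree (t : K → ℂ) := by
      have : (charDegree (χ : K → ℂ) : ℂ) =
          ((charDegree (b : K ⧸ Q → ℂ) * charDegree (t : K → ℂ) : ℕ) : ℂ) := by
        push_cast
        rw [H77.PQuot.cast_irr, H77.PQuot.cast_irr, H77.PQuot.cast_irr, hb, map_one]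
      exact_mod_cast this
    have h5 : charDegree (β : C → ℂ) = charDegree (c : fixQ φ Q h.qinv → ℂ) *
        charDegree (t : K → ℂ) := by
      have : (charDegree (β : C → ℂ) : ℂ) =
          ((charDegree (c : fixQ φ Q h.qinv → ℂ) * charDegree (t : K → ℂ) : ℕ) : ℂ) := by
        push_cast
        rw [H77.PQuot.cast_irr, H77.PQuot.cast_irr, H77.PQuot.cast_irr, hc, map_one, map_one]
      exact_mod_cast this
    rw [h4, h5]
    push_cast
    rw [h3]
    ring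

end inv

end H82.IsNav
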