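import Cfsg.Agent.Lib.H82.IsNav3
import Cfsg.Agent.Lib.H77.SubChar

/-!
# Character correspondence for `p`-group actions on groups with a normal Sylow `p`-subgroup

Part 4: invariant constituents.
-/

set_option autoImplicit false
set_option linter.unusedSectionVars false
set_option linter.style.haveILetI false

namespace H82.IsNav

open Cfsg H18 H18.CharBasic H18.CharOrtho H18.CharInd H18.CharQuot H77.GlaubP H77.Canon
  H31.Clifford
open scoped ComplexConjugate

universe u

section act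

variable {K S : Type u} [Group K] [Group S]

/-- The action on an invariant subgroup. -/
def resAct (φ : S →* MulAut K) (T : Subgroup K) (h : ∀ s, ∀ t ∈ T, φ s t ∈ T) :
    S →* MulAut T where
  toFun s :=
    { toFun := fun t => ⟨φ s t, h s t t.2⟩
      invFun := fun t => ⟨φ s⁻¹ t, h s⁻¹ t t.2⟩
      left_inv := fun t => Subtype.ext (by simp)
      right_inv := fun t => Subtype.ext (by simp)
      map_mul' := fun a b => Subtype.ext (by simp) }
  map_one' := by ext t; simp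
  map_mul' s s' := by ext t; simp

theorem resAct_coe (φ : S →* MulAut K) (T : Subgroup K) (h : ∀ s, ∀ t ∈ T, φ s t ∈ T) (s : S)
    (t : T) : ((resAct φ T h s t : T) : K) = φ s t := rfl

theorem sInv_iff (φ : S →* MulAut K) (Q : Subgroup K) (h : ∀ s, ∀ t ∈ Q, φ s t ∈ Q)
    (θ : Q → ℂ) : SInv φ Q h θ ↔ Inv (resAct φ Q h) θ := Iff.rfl

end act

section const

variable {K S : Type u} [Group K] [Group S] [Fintype K]
  {p : ℕ} [hp : Fact p.Prime] {φ : S →* MulAut K} {Q : Subgroup K} [hQ : Q.Normal] [Fintype Q]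

theorem inner_act (hq : ∀ s, ∀ q ∈ Q, φ s q ∈ Q) {χ : K → ℂ} (hχ : Inv φ χ) (θ : Q → ℂ) (s : S) :
    classInner (fun q : Q => χ q) (fun q : Q => θ (resAct φ Q hq s q)) =
      classInner (fun q : Q => χ q) θ := by
  have h1 := classInner_mulEquiv (resAct φ Q hq s : Q ≃* Q) (fun q : Q => χ q) θ
  rw [← h1]
  congr 1
  funext q
  exact (hχ s q).symm

/-- An invariant irreducible character has an invariant constituent on `Q`. -/
theorem exists_inv_const (hS : IsPGroup p S) (hq : ∀ s, ∀ q ∈ Q, φ s q ∈ Q)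
    (hidx : ¬ p ∣ Q.index) {χ : K → ℂ} (hχi : IsIrrCharacter K χ) (hχ : Inv φ χ) :
    ∃ θ : IrrCharacter Q, Over Q χ (θ : Q → ℂ) ∧ SInv φ Q hq (θ : Q → ℂ) := by
  classical
  obtain ⟨θ0, hθ0, h0⟩ := exists_constituent_restrict Q hχi
  letI := irrAction Q (resAct φ Q hq)
  let X : SubMulAction S (IrrCharacter Q) :=
    { carrier := {θ | Over Q χ (θ : Q → ℂ)}
      smul_mem' := by
        intro s θ hθ
        show classInner (fun q : Q => χ q) (fun q : Q => (θ : Q → ℂ) (resAct φ Q hq s⁻¹ q)) ≠ 0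
        rw [inner_act hq hχ]
        exact hθ }
  have hcard : Nat.card X = (orb Q θ0).card := by
    have e1 : Nat.card X = Nat.card {η : Q → ℂ // η ∈ orb Q θ0} := by
      refine Nat.card_congr (Equiv.ofBijective (fun θ : X => (⟨(θ.1 : Q → ℂ), ?_⟩ :
        {η : Q → ℂ // η ∈ orb Q θ0})) ⟨?_, ?_⟩)
      · exact (mem_orb Q).2 (constituents_conj Q hχi hθ0 θ.1.2 h0 θ.2)
      · intro a b hab
        have h1 := congrArg Subtype.val hab
        exact Subtype.ext (Subtype.ext h1)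
      · rintro ⟨η, hη⟩
        have hηi := irr_of_mem_orb Q hθ0 hη
        obtain ⟨g, rfl⟩ := (mem_orb Q).1 hη
        refine ⟨⟨⟨_, hηi⟩, ?_⟩, rfl⟩
        show classInner (fun q : Q => χ q) (conjFunN Q g θ0) ≠ 0
        rw [inner_restrict_cj Q g (isClassFunction_of_isIrr hχi)]
        exact h0
    rw [e1]
    simp
  have hnd : ¬ p ∣ Nat.card X := by
    rw [hcard, card_orb]
    intro h1
    exact hidx (h1.trans (Subgroup.index_dvd_of_le (le_inertia Q (isClassFunction_of_isIrr hθ0))))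
  obtain ⟨θ, hθ⟩ := hS.nonempty_fixed_point_of_prime_not_dvd_card X hnd
  refine ⟨θ.1, θ.2, ?_⟩
  rw [sInv_iff]
  exact (irr_fixed_iff (resAct φ Q hq) θ.1).1 (fun s => congrArg Subtype.val (hθ s))

theorem mem_conj_act (hq : ∀ s, ∀ q ∈ Q, φ s q ∈ Q) {θ η : Q → ℂ} (hθ : SInv φ Q hq θ)
    (hη : SInv φ Q hq η) {k : K} (h : conjFunN Q k θ = η) (s : S) :
    conjFunN Q (φ s k) θ = η := by
  funext q
  obtain ⟨q', rfl⟩ := (resAct φ Q hq s).surjective q
  have h1 := hη s q'
  have h2 := congrFun h q'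
  rw [cj_apply] at h2
  show _ = η ⟨φ s q', _⟩
  rw [h1, ← h2, cj_apply]
  have h3 := hθ s ⟨k * q' * k⁻¹, hQ.conj_mem q' q'.2 k⟩
  rw [← h3]
  congr 1
  apply Subtype.ext
  show φ s k * φ s q' * (φ s k)⁻¹ = φ s (k * q' * k⁻¹)
  rw [map_mul, map_mul, map_inv]

theorem conj_mul_mem {θ : Q → ℂ} (hθ : IsClassFunction Q θ) (k : K) {q : K} (hq : q ∈ Q) :
    conjFunN Q (k * q) θ = conjFunN Q k θ := by
  rw [← cj_mul]
  exact cj_mem Q (cj_classFun Q k hθ) hq

/-- invariant conjugates are conjugate under a fixed coset -/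
theorem exists_fix_conj (hS : IsPGroup p S) (hq : ∀ s, ∀ q ∈ Q, φ s q ∈ Q)
    (hidx : ¬ p ∣ Q.index) {θ η : Q → ℂ} (hθi : IsIrrCharacter Q θ)
    (hθ : SInv φ Q hq θ) (hη : SInv φ Q hq η) {k0 : K} (h0 : conjFunN Q k0 θ = η) :
    ∃ k : K, conjFunN Q k θ = η ∧ ∀ s, φ s k * k⁻¹ ∈ Q := by
  classical
  have hcl := isClassFunction_of_isIrr hθi
  letI : MulAction S (K ⧸ Q) := MulAction.compHom (K ⧸ Q) (qAct φ Q hq)
  have hsm : ∀ (s : S) (k : K), s • (k : K ⧸ Q) = ((φ s k : K) : K ⧸ Q) := fun s k => rfl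
  let X : SubMulAction S (K ⧸ Q) :=
    { carrier := {x | ∃ k : K, (k : K ⧸ Q) = x ∧ conjFunN Q k θ = η}
      smul_mem' := by
        rintro s _ ⟨k, rfl, hk⟩
        exact ⟨φ s k, (hsm s k).symm, mem_conj_act hq hθ hη hk s⟩ }
  have hXmem : ∀ k : K, ((k : K ⧸ Q) ∈ X) → conjFunN Q k θ = η := by
    rintro k ⟨k', hk', hk⟩
    rw [QuotientGroup.eq] at hk'
    have h1 : k = k' * (k'⁻¹ * k) := by group
    rw [h1, conj_mul_mem hcl k' hk', hk]
  have hTmem : ∀ x : K ⧸ Q, x ∈ X ↔ x * (k0 : K ⧸ Q)⁻¹ ∈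
      (inertia Q θ).map (QuotientGroup.mk' Q) := by
    intro x
    induction x using QuotientGroup.induction_on with
    | _ k =>
      constructor
      · intro hk
        refine ⟨k * k0⁻¹, ?_, by simp⟩
        rw [SetLike.mem_coe, mem_inertia]
        have h1 := hXmem k hk
        rw [← cj_mul, h1, ← h0, cj_mul, mul_inv_cancel, cj_one]
      · rintro ⟨t, ht, hte⟩
        have ht' : conjFunN Q t θ = θ := ht
        refine ⟨t * k0, ?_, ?_⟩
        · have h2 : ((t * k0 : K) : K ⧸ Q) = (QuotientGroup.mk' Q t) * (k0 : K ⧸ Q) := rfl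
          rw [h2, hte, inv_mul_cancel_right]
        · rw [← cj_mul, ht', h0]
  have hcard : Nat.card X = Nat.card ((inertia Q θ).map (QuotientGroup.mk' Q)) := by
    refine Nat.card_congr (Equiv.subtypeEquiv (Equiv.mulRight (k0 : K ⧸ Q)⁻¹) ?_)
    intro x
    exact hTmem x
  have hnd : ¬ p ∣ Nat.card X := by
    rw [hcard]
    intro h1
    exact hidx (h1.trans (Subgroup.card_subgroup_dvd_card _))
  obtain ⟨x, hx⟩ := hS.nonempty_fixed_point_of_prime_not_dvd_card X hnd
  obtain ⟨k, hk⟩ := QuotientGroup.mk_surjective x.1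
  refine ⟨k, hXmem k (by rw [hk]; exact x.2), ?_⟩
  rw [← mk_mem_fixQ hq, mem_fixQ]
  intro s
  have h3 : s • x = x := hx s
  have h4 : s • x.1 = x.1 := congrArg Subtype.val h3
  rw [← hk] at h4
  exact h4

end const

section index

variable {K C S : Type u} [Group K] [Group C] [Group S] [Fintype K] [Fintype C]
  {p : ℕ} [hp : Fact p.Prime] {φ : S →* MulAut K} {φC : S →* MulAut C} {ι : C →* K}
  {Q : Subgroup K} [hQ : Q.Normal]

theorem index_modEq (h : Dat p φ φC ι Q) : Q.index ≡ (Q.comap ι).index [MOD p] := by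
  letI : MulAction S (K ⧸ Q) := MulAction.compHom (K ⧸ Q) (qAct φ Q h.qinv)
  have h1 := h.hS.card_modEq_card_fixedPoints (K ⧸ Q)
  have h2 : Nat.card (MulAction.fixedPoints S (K ⧸ Q)) = (Q.comap ι).index := by
    have h3 : (prC h).ker = Q.comap ι := by
      ext x
      rw [MonoidHom.mem_ker, prC_ker]
    rw [← h3, Subgroup.index_ker, MonoidHom.range_eq_top.2 (prC_surj h), Subgroup.card_top]
    rfl
  rw [h2] at h1
  exact h1

theorem index_comap_dvd (h : Dat p φ φC ι Q) : (Q.comap ι).index ∣ Q.index := by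
  have h3 : (prC h).ker = Q.comap ι := by
    ext x
    rw [MonoidHom.mem_ker, prC_ker]
  rw [← h3, Subgroup.index_ker, MonoidHom.range_eq_top.2 (prC_surj h), Subgroup.card_top]
  exact Subgroup.card_subgroup_dvd_card _

end index

end H82.IsNav
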