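import Cfsg.Agent.Lib.H82.IsNav4
import Cfsg.Agent.Lib.H77.CovFR

/-!
# Character correspondence for `p`-group actions on groups with a normal Sylow `p`-subgroup

Part 5: the correspondence over an arbitrary character, by Clifford theory.
-/

set_option autoImplicit false
set_option linter.unusedSectionVars false
set_option linter.style.haveILetI false

namespace H82.IsNav

open Cfsg H18 H18.CharBasic H18.CharOrtho H18.CharInd H18.CharQuot H77.GlaubP H77.Canon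
  H31.Clifford
open scoped ComplexConjugate

universe u

section clif

variable {K S : Type u} [Group K] [Group S] [Fintype K]
  {p : ℕ} [hp : Fact p.Prime] {φ : S →* MulAut K} {Q : Subgroup K} [hQ : Q.Normal] [Fintype Q]

theorem inertia_inv (hq : ∀ s, ∀ q ∈ Q, φ s q ∈ Q) {θ : Q → ℂ} (hθ : SInv φ Q hq θ) :
    ∀ s, ∀ t ∈ inertia Q θ, φ s t ∈ inertia Q θ :=
  fun s _ ht => mem_conj_act hq hθ hθ ht s

omit hp hQ [Fintype Q] in
theorem ind_act {T : Subgroup K} (hT : ∀ s, ∀ t ∈ T, φ s t ∈ T) (ψ : T → ℂ) (s : S) (g : K) :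
    indFun T ψ (φ s g) = indFun T (fun t => ψ (resAct φ T hT s t)) g := by
  classical
  rw [indFun, indFun]
  congr 1
  refine (Fintype.sum_equiv (φ s).toEquiv _ _ fun x => ?_).symm
  show extendByZero T (fun t => ψ (resAct φ T hT s t)) (x⁻¹ * g * x) =
    extendByZero T ψ ((φ s x)⁻¹ * φ s g * φ s x)
  rw [← map_inv, ← map_mul, ← map_mul]
  by_cases h : x⁻¹ * g * x ∈ T
  · rw [ext_mem T _ h, ext_mem T _ (hT s _ h)]
    rfl
  · rw [ext_notMem T _ h, ext_notMem]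
    intro h2
    apply h
    have h3 := hT s⁻¹ _ h2
    have h4 : φ s⁻¹ (φ s (x⁻¹ * g * x)) = x⁻¹ * g * x := by simp
    rwa [h4] at h3

omit hp in
theorem exists_clif {θ : Q → ℂ} (hθ : IsIrrCharacter Q θ) {T : Subgroup K} [Fintype T]
    (hQT : Q ≤ T) (hT : ∀ g : K, g ∈ T ↔ conjFunN Q g θ = θ) {χ : K → ℂ}
    (hχ : IsIrrCharacter K χ) (ho : Over Q χ θ) :
    ∃ ψ : IrrCharacter T, classInner (resH hQT (ψ : T → ℂ)) θ ≠ 0 ∧
      indFun T (ψ : T → ℂ) = χ := by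
  obtain ⟨ψ, h1, h2⟩ := H77.CovFR.exists_between Q hQT hχ hθ ho
  exact ⟨ψ, h2, (corr_core Q T hQT hθ hT ψ.2 h2 hχ h1).1⟩

omit hp in
theorem inner_resH_act (hq : ∀ s, ∀ q ∈ Q, φ s q ∈ Q) {θ : Q → ℂ} (hS : SInv φ Q hq θ)
    {T : Subgroup K} (hQT : Q ≤ T) (hTi : ∀ s, ∀ t ∈ T, φ s t ∈ T) (ψ : T → ℂ) (s : S) :
    classInner (resH hQT (fun t => ψ (resAct φ T hTi s t))) θ = classInner (resH hQT ψ) θ := by
  have h1 := classInner_mulEquiv (resAct φ Q hq s : Q ≃* Q) (resH hQT ψ) θ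
  rw [← h1]
  congr 1
  funext q
  exact (hS s q).symm

omit hp in
theorem clif_inv (hq : ∀ s, ∀ q ∈ Q, φ s q ∈ Q) {θ : Q → ℂ} (hθ : IsIrrCharacter Q θ)
    (hS : SInv φ Q hq θ) {T : Subgroup K} [Fintype T]
    (hQT : Q ≤ T) (hT : ∀ g : K, g ∈ T ↔ conjFunN Q g θ = θ)
    (hTi : ∀ s, ∀ t ∈ T, φ s t ∈ T) {ψ : T → ℂ} (hψ : IsIrrCharacter T ψ)
    (ho : classInner (resH hQT ψ) θ ≠ 0) : Inv φ (indFun T ψ) ↔ Inv (resAct φ T hTi) ψ := by
  constructor
  · intro hi s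
    have hψ' : IsIrrCharacter T (fun t => ψ (resAct φ T hTi s t)) :=
      isIrrCharacter_comp (resAct φ T hTi s).toMonoidHom (resAct φ T hTi s).surjective hψ
    have h1 := corr_inj Q T hQT hθ hT hψ' hψ (by rw [inner_resH_act hq hS]; exact ho) ho (by
      funext g
      rw [← ind_act hTi ψ s g]
      exact hi s g)
    intro t
    exact congrFun h1 t
  · intro hi s g
    rw [ind_act hTi]
    congr 1
    congr 1
    funext t
    exact hi s t

end clif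

section gen

variable {K C S : Type u} [Group K] [Group C] [Group S] [Fintype K] [Fintype C]
  {p : ℕ} [hp : Fact p.Prime] {φ : S →* MulAut K} {φC : S →* MulAut C} {ι : C →* K}
  {Q : Subgroup K} [hQ : Q.Normal] [Fintype Q] [Fintype (Q.comap ι)]

theorem comap_inv (h : Dat p φ φC ι Q) {T : Subgroup K} (hT : ∀ s, ∀ t ∈ T, φ s t ∈ T) :
    ∀ s, ∀ c ∈ T.comap ι, φC s c ∈ T.comap ι := by
  intro s c hc
  rw [Subgroup.mem_comap, h.eqv]
  exact hT s _ hc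

theorem dat_T (h : Dat p φ φC ι Q) {T : Subgroup K} (hT : ∀ s, ∀ t ∈ T, φ s t ∈ T) :
    Dat p (resAct φ T hT) (resAct φC (T.comap ι) (comap_inv h hT)) (ι.subgroupComap T)
      (Q.subgroupOf T) where
  hS := h.hS
  inj := fun a b hab => Subtype.ext (h.inj (congrArg Subtype.val hab))
  eqv := fun s c => Subtype.ext (h.eqv s c)
  qinv := fun s q hq => h.qinv s q hq
  mem := fun k => by
    constructor
    · rintro ⟨c, hc⟩ s
      exact (h.mem (k : K)).1 ⟨c, congrArg Subtype.val hc⟩ s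
    · intro h1
      obtain ⟨c, hc⟩ := (h.mem (k : K)).2 h1
      exact ⟨⟨c, by rw [Subgroup.mem_comap, hc]; exact k.2⟩, Subtype.ext hc⟩
  pg := h.pg.comap_of_injective T.subtype T.subtype_injective
  idx := fun h1 => h.idx (h1.trans (Subgroup.relIndex_dvd_index_of_normal Q T))

theorem conj_trC (θ : Q → ℂ) (c : C) :
    conjFunN (Q.comap ι) c (trC ι Q θ) = trC ι Q (conjFunN Q (ι c) θ) := by
  funext x
  show θ _ = θ _
  congr 1
  apply Subtype.ext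
  show ι (c * x * c⁻¹) = ι c * ι x * (ι c)⁻¹
  simp

theorem trC_inj (h : Dat p φ φC ι Q) {θ η : Q → ℂ} (h1 : trC ι Q θ = trC ι Q η) : θ = η := by
  funext q
  obtain ⟨x, rfl⟩ := comap_surj h q
  exact congrFun h1 x

theorem inner_trC (h : Dat p φ φC ι Q) (f : K → ℂ) (θ : Q → ℂ) :
    classInner (fun x : Q.comap ι => f (ι x)) (trC ι Q θ) = classInner (fun q : Q => f q) θ :=
  inner_comp_surj (ι.subgroupComap Q) (comap_surj h) (fun q : Q => f q) θ

theorem mem_comap_inertia (h : Dat p φ φC ι Q) {θ : Q → ℂ} {T : Subgroup K}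
    (hT : ∀ g : K, g ∈ T ↔ conjFunN Q g θ = θ) (c : C) :
    c ∈ T.comap ι ↔ conjFunN (Q.comap ι) c (trC ι Q θ) = trC ι Q θ := by
  rw [Subgroup.mem_comap, hT, conj_trC]
  constructor
  · intro h1; rw [h1]
  · intro h1; exact trC_inj h h1

theorem sinv_trC (h : Dat p φ φC ι Q) {θ : Q → ℂ} (hS : SInv φ Q h.qinv θ) :
    SInv φC (Q.comap ι) (comap_inv h h.qinv) (trC ι Q θ) := by
  intro s x
  have h1 := hS s ⟨ι x, x.2⟩
  show θ ⟨ι (φC s x), _⟩ = θ ⟨ι x, _⟩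
  rw [← h1]
  congr 1
  apply Subtype.ext
  exact h.eqv s x

/-- The multiplicity of Clifford correspondents. -/
theorem mult_clif (h : Dat p φ φC ι Q) {θ : Q → ℂ} (hθ : IsIrrCharacter Q θ) {T : Subgroup K}
    [Fintype T] [Fintype (T.comap ι)] (hQT : Q ≤ T) (hQT' : Q.comap ι ≤ T.comap ι)
    (hT : ∀ g : K, g ∈ T ↔ conjFunN Q g θ = θ)
    (ψ : IrrCharacter T) (ψ' : IrrCharacter (T.comap ι)) (χ : IrrCharacter K) (β : IrrCharacter C)
    (h1 : classInner (resH hQT (ψ : T → ℂ)) θ ≠ 0)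
    (h2 : classInner (resH hQT' (ψ' : T.comap ι → ℂ)) (trC ι Q θ) ≠ 0)
    (hχ : indFun T (ψ : T → ℂ) = χ) (hβ : indFun (T.comap ι) (ψ' : T.comap ι → ℂ) = β) :
    mult ι χ β = mult (ι.subgroupComap T) ψ ψ' := by
  have hχc := isCharacter_of_isIrr χ.2
  have e1 := mult_spec ι χ β
  rw [← hβ, frobenius' (T.comap ι) _
    (isClassFunction_of_isCharacter (isCharacter_comp ι hχc))] at e1
  obtain ⟨_, h4⟩ := corr_irr Q T hQT hθ hT ψ.2 h1
  rw [hχ] at h4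
  have h5 : classInner (fun t : T => (χ : K → ℂ) t) (ψ : T → ℂ) ≠ 0 := by
    rw [← frobenius' T _ (isClassFunction_of_isIrr χ.2), hχ, inner_irr_self χ.2]
    exact one_ne_zero
  have hr := isCharacter_sub_constituent (isCharacter_restrict T hχc) ψ.2 h5
  set r : T → ℂ := (fun t : T => (χ : K → ℂ) t) - (ψ : T → ℂ) with hrdef
  have hr0 : classInner (resH hQT r) θ = 0 := by
    have h6 : resH hQT r = (fun q : Q => (χ : K → ℂ) q) - resH hQT (ψ : T → ℂ) := by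
      funext q
      rfl
    rw [h6, CharOrtho.inner_sub_left, h4, sub_self]
  have hrc := isCharacter_comp (ι.subgroupComap T) hr
  have h7 : classInner (fun x => r (ι.subgroupComap T x)) (ψ' : T.comap ι → ℂ) = 0 := by
    by_contra hne
    have h8 := H77.SubChar.restrict_trans (MonoidHom.id (T.comap ι))
      (Subgroup.inclusion hQT') hrc ψ'.2 (isCharacter_of_isIrr (irr_trC h hθ)) hne h2
    apply h8
    have h9 := inner_comp_surj (ι.subgroupComap Q) (comap_surj h) (resH hQT r) θ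
    rw [hr0] at h9
    exact h9
  have h8 : (fun x : T.comap ι => (χ : K → ℂ) (ι x)) =
      (fun x : T.comap ι => r (ι.subgroupComap T x)) +
        fun x : T.comap ι => (ψ : T → ℂ) (ι.subgroupComap T x) := by
    funext x
    show _ = ((χ : K → ℂ) (ι.subgroupComap T x) - (ψ : T → ℂ) (ι.subgroupComap T x)) +
      (ψ : T → ℂ) (ι.subgroupComap T x)
    rw [sub_add_cancel]
    rfl
  rw [h8, CharOrtho.inner_add_left, h7, zero_add, mult_spec] at e1
  exact_mod_cast e1.symm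

theorem over_T' (h : Dat p φ φC ι Q) {θ : Q → ℂ} {T : Subgroup K}
    [Fintype T] [Fintype (T.comap ι)] (hQT : Q ≤ T) (hQT' : Q.comap ι ≤ T.comap ι)
    [Fintype ((Q.subgroupOf T).comap (ι.subgroupComap T))] (ψ' : T.comap ι → ℂ) :
    Over ((Q.subgroupOf T).comap (ι.subgroupComap T)) ψ'
      (trC (ι.subgroupComap T) (Q.subgroupOf T) (thT Q T θ)) ↔
      classInner (resH hQT' ψ') (trC ι Q θ) ≠ 0 := by
  let g : ((Q.subgroupOf T).comap (ι.subgroupComap T)) →* Q.comap ι :=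
    { toFun := fun x => ⟨x.1.1, x.2⟩
      map_one' := rfl
      map_mul' := fun a b => rfl }
  have hg : Function.Surjective g := by
    intro x
    exact ⟨⟨⟨x.1, hQT' x.2⟩, x.2⟩, rfl⟩
  have h1 := inner_comp_surj g hg (resH hQT' ψ') (trC ι Q θ)
  have h2 : (fun x : ((Q.subgroupOf T).comap (ι.subgroupComap T)) => resH hQT' ψ' (g x)) =
      fun x : ((Q.subgroupOf T).comap (ι.subgroupComap T)) => ψ' (x : T.comap ι) := rfl
  have h3 : (fun x : ((Q.subgroupOf T).comap (ι.subgroupComap T)) => trC ι Q θ (g x)) =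
      trC (ι.subgroupComap T) (Q.subgroupOf T) (thT Q T θ) := rfl
  unfold Over
  rw [← h1, h2, h3]

theorem over_T {θ : Q → ℂ} {T : Subgroup K}
    [Fintype T] (hQT : Q ≤ T) [Fintype (Q.subgroupOf T)] (ψ : T → ℂ) :
    Over (Q.subgroupOf T) ψ (thT Q T θ) ↔ classInner (resH hQT ψ) θ ≠ 0 := by
  unfold Over
  rw [inner_thT Q T hQT]

theorem index_T (h : Dat p φ φC ι Q) {T : Subgroup K} (hQT : Q ≤ T)
    (hQT' : Q.comap ι ≤ T.comap ι) (hT : ∀ s, ∀ t ∈ T, φ s t ∈ T) :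
    (T.index : ZMod p) = ((T.comap ι).index : ZMod p) := by
  letI := Fintype.ofFinite T
  letI := Fintype.ofFinite (T.comap ι)
  have h1 := (ZMod.natCast_eq_natCast_iff _ _ p).2 (index_modEq h)
  have h2 := (ZMod.natCast_eq_natCast_iff _ _ p).2 (index_modEq (dat_T h hT))
  have h3 : (Q.subgroupOf T).index * T.index = Q.index := Subgroup.relIndex_mul_index hQT
  have h4 : ((Q.subgroupOf T).comap (ι.subgroupComap T)).index * (T.comap ι).index =
      (Q.comap ι).index := by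
    have e : (Q.subgroupOf T).comap (ι.subgroupComap T) = (Q.comap ι).subgroupOf (T.comap ι) := by
      ext x
      rw [Subgroup.mem_comap, Subgroup.mem_subgroupOf, Subgroup.mem_subgroupOf,
        Subgroup.mem_comap]
      exact Iff.rfl
    rw [e]
    exact Subgroup.relIndex_mul_index hQT'
  rw [← h3, ← h4] at h1
  push_cast at h1
  rw [h2] at h1
  have h5 : (((Q.subgroupOf T).comap (ι.subgroupComap T)).index : ZMod p) ≠ 0 := by
    rw [← h2]
    intro h6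
    exact (dat_T h hT).idx ((ZMod.natCast_eq_zero_iff _ _).1 h6)
  exact mul_left_cancel₀ h5 h1

theorem corr_gen (h : Dat p φ φC ι Q) (θ : IrrCharacter Q) (hS : SInv φ Q h.qinv (θ : Q → ℂ)) :
    Corr p φ φC ι Q (θ : Q → ℂ) := by
  classical
  have hcl := isClassFunction_of_isIrr θ.2
  set T := inertia Q (θ : Q → ℂ) with hTdef
  have hT : ∀ g : K, g ∈ T ↔ conjFunN Q g (θ : Q → ℂ) = (θ : Q → ℂ) := fun g => Iff.rfl
  have hQT : Q ≤ T := le_inertia Q hcl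
  have hQT' : Q.comap ι ≤ T.comap ι := Subgroup.comap_mono hQT
  have hTi : ∀ s, ∀ t ∈ T, φ s t ∈ T := inertia_inv h.qinv hS
  have hT' := mem_comap_inertia h hT
  have hS' := sinv_trC h hS
  have hθ' := irr_trC h θ.2
  have hTi' := comap_inv h hTi
  letI := Fintype.ofFinite T
  letI := Fintype.ofFinite (T.comap ι)
  letI := Fintype.ofFinite (Q.subgroupOf T)
  letI := Fintype.ofFinite ((Q.subgroupOf T).comap (ι.subgroupComap T))
  have hD := dat_T h hTi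
  have hθT := irr_thT Q T hQT θ.2
  have hcorr := corr_inv hD ⟨_, hθT⟩ (fun k => by
    show conjFunN (Q.subgroupOf T) k (thT Q T (θ : Q → ℂ)) = thT Q T (θ : Q → ℂ)
    rw [cj_thT, (hT k).1 k.2]) (fun s q => hS s ⟨q, q.2⟩)
  -- Clifford correspondents
  have hK : ∀ χ : IrrCharacter K, Over Q (χ : K → ℂ) (θ : Q → ℂ) → ∃ ψ : IrrCharacter T,
      classInner (resH hQT (ψ : T → ℂ)) (θ : Q → ℂ) ≠ 0 ∧ indFun T (ψ : T → ℂ) = χ :=
    fun χ ho => exists_clif θ.2 hQT hT χ.2 ho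
  have hC : ∀ β : IrrCharacter C, Over (Q.comap ι) (β : C → ℂ) (trC ι Q (θ : Q → ℂ)) →
      ∃ ψ : IrrCharacter (T.comap ι),
      classInner (resH hQT' (ψ : T.comap ι → ℂ)) (trC ι Q (θ : Q → ℂ)) ≠ 0 ∧
        indFun (T.comap ι) (ψ : T.comap ι → ℂ) = β :=
    fun β ho => exists_clif hθ' hQT' hT' β.2 ho
  have hdeg : ∀ (χ : IrrCharacter K) (ψ : IrrCharacter T), indFun T (ψ : T → ℂ) = χ →
      charDegree (χ : K → ℂ) = T.index * charDegree (ψ : T → ℂ) := by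
    intro χ ψ hψ
    have : (charDegree (χ : K → ℂ) : ℂ) = ((T.index * charDegree (ψ : T → ℂ) : ℕ) : ℂ) := by
      push_cast
      rw [H77.PQuot.cast_irr, H77.PQuot.cast_irr, ← hψ, indFun_one]
    exact_mod_cast this
  have hdeg' : ∀ (β : IrrCharacter C) (ψ : IrrCharacter (T.comap ι)),
      indFun (T.comap ι) (ψ : T.comap ι → ℂ) = β →
      charDegree (β : C → ℂ) = (T.comap ι).index * charDegree (ψ : T.comap ι → ℂ) := by
    intro β ψ hψ
    have : (charDegree (β : C → ℂ) : ℂ) =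
        (((T.comap ι).index * charDegree (ψ : T.comap ι → ℂ) : ℕ) : ℂ) := by
      push_cast
      rw [H77.PQuot.cast_irr, H77.PQuot.cast_irr, ← hψ, indFun_one]
    exact_mod_cast this
  constructor
  · intro χ hχ ho
    obtain ⟨ψ, h1, h2⟩ := hK χ ho
    have h3 : Inv (resAct φ T hTi) (ψ : T → ℂ) :=
      (clif_inv h.qinv θ.2 hS hQT hT hTi ψ.2 h1).1 (by rw [h2]; exact hχ)
    obtain ⟨ψ', h4, h5, h6⟩ := hcorr.ex ψ h3 ((over_T hQT _).2 h1)
    have h7 := (over_T' h hQT hQT' _).1 h5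
    obtain ⟨h8, h9⟩ := corr_irr (Q.comap ι) (T.comap ι) hQT' hθ' hT' ψ'.2 h7
    refine ⟨⟨_, h8⟩, (clif_inv (comap_inv h h.qinv) hθ' hS' hQT' hT' hTi' ψ'.2 h7).2 h4, ?_, ?_⟩
    · show classInner _ _ ≠ 0
      rw [h9]
      exact h7
    · rw [mult_clif h θ.2 hQT hQT' hT ψ ψ' χ ⟨_, h8⟩ h1 h7 h2 rfl]
      exact h6
  · intro β hβ ho
    obtain ⟨ψ', h1, h2⟩ := hC β ho
    have h3 : Inv (resAct φC (T.comap ι) hTi') (ψ' : T.comap ι → ℂ) :=
      (clif_inv (comap_inv h h.qinv) hθ' hS' hQT' hT' hTi' ψ'.2 h1).1 (by rw [h2]; exact hβ)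
    obtain ⟨ψ, h4, h5, h6⟩ := hcorr.ex' ψ' h3 ((over_T' h hQT hQT' _).2 h1)
    have h7 := (over_T hQT _).1 h5
    obtain ⟨h8, h9⟩ := corr_irr Q T hQT θ.2 hT ψ.2 h7
    refine ⟨⟨_, h8⟩, (clif_inv h.qinv θ.2 hS hQT hT hTi ψ.2 h7).2 h4, ?_, ?_⟩
    · show classInner _ _ ≠ 0
      rw [h9]
      exact h7
    · rw [mult_clif h θ.2 hQT hQT' hT ψ ψ' ⟨_, h8⟩ β h7 h1 rfl h2]
      exact h6
  · intro χ χ' β hχ hχ' ho ho' hoβ h1 h2
    obtain ⟨ψ, a1, a2⟩ := hK χ ho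
    obtain ⟨ψ1, b1, b2⟩ := hK χ' ho'
    obtain ⟨ψ', c1, c2⟩ := hC β hoβ
    rw [mult_clif h θ.2 hQT hQT' hT ψ ψ' χ β a1 c1 a2 c2] at h1
    rw [mult_clif h θ.2 hQT hQT' hT ψ1 ψ' χ' β b1 c1 b2 c2] at h2
    have h3 := hcorr.uniq ψ ψ1 ψ'
      ((clif_inv h.qinv θ.2 hS hQT hT hTi ψ.2 a1).1 (by rw [a2]; exact hχ))
      ((clif_inv h.qinv θ.2 hS hQT hT hTi ψ1.2 b1).1 (by rw [b2]; exact hχ'))
      ((over_T hQT _).2 a1) ((over_T hQT _).2 b1) ((over_T' h hQT hQT' _).2 c1) h1 h2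
    apply Subtype.ext
    rw [← a2, ← b2, h3]
  · intro χ β β' hχ ho hoβ hoβ' h1 h2
    obtain ⟨ψ, a1, a2⟩ := hK χ ho
    obtain ⟨ψ', c1, c2⟩ := hC β hoβ
    obtain ⟨ψ1', d1, d2⟩ := hC β' hoβ'
    rw [mult_clif h θ.2 hQT hQT' hT ψ ψ' χ β a1 c1 a2 c2] at h1
    rw [mult_clif h θ.2 hQT hQT' hT ψ ψ1' χ β' a1 d1 a2 d2] at h2
    have h3 := hcorr.uniq' ψ ψ' ψ1'
      ((clif_inv h.qinv θ.2 hS hQT hT hTi ψ.2 a1).1 (by rw [a2]; exact hχ))
      ((over_T hQT _).2 a1) ((over_T' h hQT hQT' _).2 c1) ((over_T' h hQT hQT' _).2 d1) h1 h2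
    apply Subtype.ext
    rw [← c2, ← d2, h3]
  · intro χ β hχ ho hoβ h1
    obtain ⟨ψ, a1, a2⟩ := hK χ ho
    obtain ⟨ψ', c1, c2⟩ := hC β hoβ
    rw [mult_clif h θ.2 hQT hQT' hT ψ ψ' χ β a1 c1 a2 c2] at h1 ⊢
    exact hcorr.one ψ ψ'
      ((clif_inv h.qinv θ.2 hS hQT hT hTi ψ.2 a1).1 (by rw [a2]; exact hχ))
      ((over_T hQT _).2 a1) ((over_T' h hQT hQT' _).2 c1) h1
  · intro χ β hχ ho hoβ h1
    obtain ⟨ψ, a1, a2⟩ := hK χ ho
    obtain ⟨ψ', c1, c2⟩ := hC β hoβ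
    rw [mult_clif h θ.2 hQT hQT' hT ψ ψ' χ β a1 c1 a2 c2] at h1 ⊢
    have h3 := hcorr.deg ψ ψ'
      ((clif_inv h.qinv θ.2 hS hQT hT hTi ψ.2 a1).1 (by rw [a2]; exact hχ))
      ((over_T hQT _).2 a1) ((over_T' h hQT hQT' _).2 c1) h1
    rw [hdeg χ ψ a2, hdeg' β ψ' c2]
    push_cast
    rw [h3, index_T h hQT hQT' hTi]
    ring

end gen

end H82.IsNav
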