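import Cfsg.Agent.Lib.H82.IsNav5

/-!
# Character correspondence for `p`-group actions on groups with a normal Sylow `p`-subgroup

Part 6: the correspondence.
-/

set_option autoImplicit false
set_option linter.unusedSectionVars false
set_option linter.style.haveILetI false

namespace H82.IsNav

open Cfsg H18 H18.CharBasic H18.CharOrtho H18.CharInd H18.CharQuot H77.GlaubP H77.Canon
  H31.Clifford
open scoped ComplexConjugate

universe u

variable {K C S : Type u} [Group K] [Group C] [Group S] [Fintype K] [Fintype C]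
  {p : ℕ} [hp : Fact p.Prime] {φ : S →* MulAut K} {φC : S →* MulAut C} {ι : C →* K}
  {Q : Subgroup K} [hQ : Q.Normal] [Fintype Q] [Fintype (Q.comap ι)]

theorem const_C (h : Dat p φ φC ι Q) {β : C → ℂ} (hβ : IsIrrCharacter C β) (hi : Inv φC β) :
    ∃ θ : IrrCharacter Q, SInv φ Q h.qinv (θ : Q → ℂ) ∧
      Over (Q.comap ι) β (trC ι Q (θ : Q → ℂ)) := by
  obtain ⟨η, h1, h2⟩ := exists_inv_const (Q := Q.comap ι) h.hS (comap_inv h h.qinv)
    (fun hd => h.idx (hd.trans (index_comap_dvd h))) hβ hi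
  let e : Q.comap ι ≃* Q := MulEquiv.ofBijective (ι.subgroupComap Q)
    ⟨fun a b hab => Subtype.ext (h.inj (congrArg Subtype.val hab)), comap_surj h⟩
  have he : ∀ x, e x = ⟨ι x, x.2⟩ := fun x => rfl
  have hθ : IsIrrCharacter Q (fun q => (η : Q.comap ι → ℂ) (e.symm q)) :=
    isIrrCharacter_comp e.symm.toMonoidHom e.symm.surjective η.2
  have htr : trC ι Q (fun q => (η : Q.comap ι → ℂ) (e.symm q)) = η := by
    funext x
    show (η : Q.comap ι → ℂ) (e.symm (e x)) = _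
    rw [e.symm_apply_apply]
  refine ⟨⟨_, hθ⟩, ?_, by rw [htr]; exact h1⟩
  intro s q
  obtain ⟨x, rfl⟩ := e.surjective q
  show (η : Q.comap ι → ℂ) (e.symm ⟨φ s (e x), _⟩) = (η : Q.comap ι → ℂ) (e.symm (e x))
  have h3 : (⟨φ s (e x), h.qinv s _ (e x).2⟩ : Q) = e ⟨φC s x, comap_inv h h.qinv s x x.2⟩ := by
    apply Subtype.ext
    exact (h.eqv s x).symm
  rw [h3, e.symm_apply_apply, e.symm_apply_apply]
  exact h2 s x

theorem over_K (h : Dat p φ φC ι Q) {χ : IrrCharacter K} {β : IrrCharacter C} {θ : Q → ℂ}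
    (hθ : IsIrrCharacter Q θ) (hm : mult ι χ β ≠ 0)
    (ho : Over (Q.comap ι) (β : C → ℂ) (trC ι Q θ)) : Over Q (χ : K → ℂ) θ := by
  have h1 : classInner (fun c => (χ : K → ℂ) (ι c)) (β : C → ℂ) ≠ 0 := by
    rw [mult_spec]; exact_mod_cast hm
  have h2 := H77.SubChar.restrict_trans ι (Q.comap ι).subtype (isCharacter_of_isIrr χ.2) β.2
    (isCharacter_of_isIrr (irr_trC h hθ)) h1 ho
  unfold Over
  rw [← inner_trC h]
  exact h2

theorem over_C (h : Dat p φ φC ι Q) {χ : IrrCharacter K} {β : IrrCharacter C} {θ : Q → ℂ}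
    (hθ : IsIrrCharacter Q θ) (hS : SInv φ Q h.qinv θ) (hβ : Inv φC (β : C → ℂ))
    (hm : mult ι χ β ≠ 0)
    (ho : Over Q (χ : K → ℂ) θ) : Over (Q.comap ι) (β : C → ℂ) (trC ι Q θ) := by
  obtain ⟨η, h1, h2⟩ := const_C h β.2 hβ
  have h3 := over_K h η.2 hm h2
  obtain ⟨g, hg⟩ := constituents_conj Q χ.2 hθ η.2 ho h3
  obtain ⟨k, hk1, hk2⟩ := exists_fix_conj h.hS h.qinv h.idx hθ hS h1 hg.symm
  obtain ⟨c, rfl⟩ := (h.mem k).2 hk2
  unfold Over at h2 ⊢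
  rw [← hk1, ← conj_trC, inner_restrict_cj _ _ (isClassFunction_of_isIrr β.2)] at h2
  exact h2

theorem ne_zero_of_not_dvd {m : ℕ} (h : ¬ p ∣ m) : m ≠ 0 := by
  rintro rfl; exact h (dvd_zero p)

theorem final_ex (h : Dat p φ φC ι Q) (χ : IrrCharacter K) (hχ : Inv φ (χ : K → ℂ)) :
    ∃ β : IrrCharacter C, Inv φC (β : C → ℂ) ∧ ¬ p ∣ mult ι χ β := by
  obtain ⟨θ, h1, h2⟩ := exists_inv_const h.hS h.qinv h.idx χ.2 hχ
  obtain ⟨β, h3, _, h4⟩ := (corr_gen h θ h2).ex χ hχ h1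
  exact ⟨β, h3, h4⟩

theorem final_ex' (h : Dat p φ φC ι Q) (β : IrrCharacter C) (hβ : Inv φC (β : C → ℂ)) :
    ∃ χ : IrrCharacter K, Inv φ (χ : K → ℂ) ∧ ¬ p ∣ mult ι χ β := by
  obtain ⟨θ, h1, h2⟩ := const_C h β.2 hβ
  obtain ⟨χ, h3, _, h4⟩ := (corr_gen h θ h1).ex' β hβ h2
  exact ⟨χ, h3, h4⟩

theorem final_uniq (h : Dat p φ φC ι Q) {χ χ' : IrrCharacter K} {β : IrrCharacter C}
    (hχ : Inv φ (χ : K → ℂ)) (hχ' : Inv φ (χ' : K → ℂ)) (hβ : Inv φC (β : C → ℂ))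
    (h1 : ¬ p ∣ mult ι χ β) (h2 : ¬ p ∣ mult ι χ' β) : χ = χ' := by
  obtain ⟨θ, h3, h4⟩ := const_C h β.2 hβ
  exact (corr_gen h θ h3).uniq χ χ' β hχ hχ' (over_K h θ.2 (ne_zero_of_not_dvd h1) h4)
    (over_K h θ.2 (ne_zero_of_not_dvd h2) h4) h4 h1 h2

theorem final_uniq' (h : Dat p φ φC ι Q) {χ : IrrCharacter K} {β β' : IrrCharacter C}
    (hχ : Inv φ (χ : K → ℂ)) (hβ : Inv φC (β : C → ℂ)) (hβ' : Inv φC (β' : C → ℂ))
    (h1 : ¬ p ∣ mult ι χ β) (h2 : ¬ p ∣ mult ι χ β') : β = β' := by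
  obtain ⟨θ, h3, h4⟩ := exists_inv_const h.hS h.qinv h.idx χ.2 hχ
  exact (corr_gen h θ h4).uniq' χ β β' hχ h3 (over_C h θ.2 h4 hβ (ne_zero_of_not_dvd h1) h3)
    (over_C h θ.2 h4 hβ' (ne_zero_of_not_dvd h2) h3) h1 h2

theorem final_one (h : Dat p φ φC ι Q) {χ : IrrCharacter K} {β : IrrCharacter C}
    (hχ : Inv φ (χ : K → ℂ)) (hβ : Inv φC (β : C → ℂ))
    (h1 : ¬ p ∣ mult ι χ β) : (mult ι χ β : ZMod p) = 1 ∨ (mult ι χ β : ZMod p) = -1 := by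
  obtain ⟨θ, h3, h4⟩ := const_C h β.2 hβ
  exact (corr_gen h θ h3).one χ β hχ (over_K h θ.2 (ne_zero_of_not_dvd h1) h4) h4 h1

theorem final_deg (h : Dat p φ φC ι Q) {χ : IrrCharacter K} {β : IrrCharacter C}
    (hχ : Inv φ (χ : K → ℂ)) (hβ : Inv φC (β : C → ℂ))
    (h1 : ¬ p ∣ mult ι χ β) : (charDegree (χ : K → ℂ) : ZMod p) =
      (mult ι χ β : ZMod p) * (charDegree (β : C → ℂ) : ZMod p) := by
  obtain ⟨θ, h3, h4⟩ := const_C h β.2 hβ
  exact (corr_gen h θ h3).deg χ β hχ (over_K h θ.2 (ne_zero_of_not_dvd h1) h4) h4 h1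

end H82.IsNav
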