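import Cfsg.Agent.Lib.H80.FS4

/-!
# Maximal Brauer pairs: the extended first main theorem
-/

set_option autoImplicit false
set_option linter.style.haveILetI false

namespace H82.MaxPair

open H80.GA H80.GB H80.GD H80.GE H80.GH

variable {k G : Type*} [Field k] [Group G] [Finite G] {p : ℕ} [hp : Fact p.Prime] [CharP k p]
  [Algebra (ZMod p) k] [Algebra.IsAlgebraic (ZMod p) k]

theorem fwd_aux {b e : MonoidAlgebra k G} {Q : Subgroup G} (h : IsMax p ⊤ b Q e) :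
    IsDef p (CH ⊤ Q) e (CH Q Q) ∧ IsDef p (ST ⊤ Q e) e Q := by
  have hpair := h.of.pair
  have hself : SLE p ⊤ Q e Q e := Relation.ReflTransGen.refl
  have heq : ∀ x : G, SLE p ⊤ (cs x Q) (cj x e) Q e → cs x Q = Q ∧ cj x e = e := by
    intro x hx
    have h1 : cs x Q ≤ Q := SLE.le' hpair hx
    have h2 : cs x Q = Q := by
      apply Subgroup.eq_of_le_of_card_ge h1
      exact (Nat.card_congr (Q.equivMapOfInjective _ (MulAut.conj x).injective).toEquiv).le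
    rw [h2] at hx
    exact ⟨h2, SLE.unique hpair hx hself⟩
  constructor
  · obtain ⟨x, -, hx, hd⟩ := exists_conj_cp h h.of
    obtain ⟨h1, h2⟩ := heq x hx
    rw [h1, h2] at hd
    exact hd
  · obtain ⟨x, -, hx, hd⟩ := exists_conj_np h h.of
    obtain ⟨h1, h2⟩ := heq x hx
    rw [h1, h2] at hd
    have hNQ : NH Q Q = Q := inf_eq_left.2 Subgroup.le_normalizer
    rw [hNQ] at hd
    exact hd

theorem fwd [IsAlgClosed k] {b e : MonoidAlgebra k G} {Q : Subgroup G} (h : IsMax p ⊤ b Q e)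
    {g : G} (hg : g ∈ ST ⊤ Q e) (hgp : ∃ n : ℕ, orderOf g = p ^ n) : g ∈ Q ⊔ CH ⊤ Q := by
  have hpair := h.of.pair
  obtain ⟨-, hT⟩ := fwd_aux h
  set T := ST ⊤ Q e with hTdef
  have hTN : T ≤ Subgroup.normalizer (Q : Set G) := fun x hx => (mem_ST.1 hx).2.1
  have hCT : CH ⊤ Q ≤ T := CH_le_ST hpair.blk.mem.1
  have hCeq : CH ⊤ Q = Subgroup.centralizer (Q : Set G) := H80.BR3.CH_top Q
  have hTNC : T ≤ Subgroup.normalizer (CH ⊤ Q : Set G) := by
    rw [hCeq]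
    exact hTN.trans (H80.BR5.normalizer_cent_le Q)
  have hQT : Q ≤ T := hT.le
  haveI hQn : (Q.subgroupOf T).Normal :=
    Subgroup.normal_subgroupOf_of_le_normalizer hTN
  haveI hCn : ((CH ⊤ Q).subgroupOf T).Normal :=
    Subgroup.normal_subgroupOf_of_le_normalizer hTNC
  haveI : (Q.subgroupOf T ⊔ (CH ⊤ Q).subgroupOf T).Normal := inferInstance
  set N := Q.subgroupOf T ⊔ (CH ⊤ Q).subgroupOf T with hN
  have h1 := H80.GK.cover_sylow (p := p) hCT hTNC hpair.blk (isBlk_ST hpair) hT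
    (QuotientGroup.mk' N) (fun c hc => (QuotientGroup.eq_one_iff c).2
      ((le_sup_right : (CH ⊤ Q).subgroupOf T ≤ N) (Subgroup.mem_subgroupOf.2 hc)))
  have h2 : (Q.subgroupOf T).map (QuotientGroup.mk' N) = ⊥ := by
    rw [eq_bot_iff]
    rintro _ ⟨x, hx, rfl⟩
    exact (QuotientGroup.eq_one_iff x).2 ((le_sup_left : Q.subgroupOf T ≤ N) hx)
  rw [h2, Subgroup.relIndex_bot_left] at h1
  have h3 : (QuotientGroup.mk' N).range = ⊤ :=
    MonoidHom.range_eq_top.2 (QuotientGroup.mk'_surjective N)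
  rw [h3, Subgroup.card_top] at h1
  have h4 : ((⟨g, hg⟩ : T) : T ⧸ N) = 1 := by
    obtain ⟨n, hn⟩ := hgp
    have h5 : orderOf ((⟨g, hg⟩ : T) : T ⧸ N) ∣ p ^ n := by
      rw [← hn]
      have h6 : orderOf ((⟨g, hg⟩ : T) : T ⧸ N) ∣ orderOf (⟨g, hg⟩ : T) :=
        orderOf_map_dvd (QuotientGroup.mk' N) _
      rwa [Subgroup.orderOf_mk] at h6
    obtain ⟨m, -, hm⟩ := (Nat.dvd_prime_pow hp.out).1 h5
    rw [← orderOf_eq_one_iff, hm]
    rcases Nat.eq_zero_or_pos m with h | h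
    · rw [h, pow_zero]
    · exfalso
      apply h1
      have h7 : orderOf ((⟨g, hg⟩ : T) : T ⧸ N) ∣ Nat.card (T ⧸ N) := orderOf_dvd_natCard _
      rw [hm] at h7
      exact (dvd_pow_self p h.ne').trans h7
  rw [QuotientGroup.eq_one_iff] at h4
  have h5 : N.map T.subtype ≤ Q ⊔ CH ⊤ Q := by
    rw [hN, Subgroup.map_sup]
    have h6 : ∀ K : Subgroup G, (K.subgroupOf T).map T.subtype ≤ K := by
      rintro K _ ⟨x, hx, rfl⟩
      exact hx
    exact sup_le_sup (h6 _) (h6 _)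
  exact h5 ⟨_, h4, rfl⟩

theorem bwd {b e : MonoidAlgebra k G} {Q : Subgroup G} (hof : PairOf p ⊤ b Q e)
    (hZ : IsDef p (CH ⊤ Q) e (CH Q Q))
    (hst : ∀ g ∈ ST ⊤ Q e, (∃ n : ℕ, orderOf g = p ^ n) → g ∈ Q ⊔ CH ⊤ Q) : IsMax p ⊤ b Q e := by
  refine ⟨hof, fun R f hR => ?_⟩
  have hle : SLE p ⊤ Q e R f := hR.sle
  obtain ⟨D, hD1, hD2⟩ := exists_def_ge_cp hR.pairP hle
  -- `D ≤ Z(Q)`
  have hDZ : D ≤ CH Q Q := by
    obtain ⟨h, hh, hDh⟩ := hZ.max D hD2.le hD2.pgr hD2.ne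
    have h1 : cs h (CH Q Q) = CH Q Q := by
      have h2 : ∀ {h : G}, h ∈ CH ⊤ Q → cs h (CH Q Q) ≤ CH Q Q := by
        intro h hh x hx
        rw [mem_cs] at hx
        have h3 : h⁻¹ * x * h ∈ Q := hx.2
        have h4 := Subgroup.mem_centralizer_iff.1 hh.1 _ h3
        have h5 : x = h⁻¹ * x * h := by
          have h6 : h * (h⁻¹ * x * h) = x * h := by group
          rw [← h4] at h6
          exact (mul_right_cancel h6).symm
        rwa [h5]
      apply le_antisymm (h2 hh)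
      intro x hx
      rw [mem_cs]
      have h3 : h⁻¹ * x * h = h⁻¹ * x * h⁻¹⁻¹ := by group
      rw [h3]
      have h4 : h⁻¹ ∈ CH ⊤ Q := inv_mem hh
      exact h2 h4 (conj_mem_cs.2 hx)
    rwa [h1] at hDh
  apply le_antisymm _ hR.le
  intro x hx
  have hxT : x ∈ ST ⊤ Q e := ⟨Subgroup.mem_top _, hR.norm hx, hR.fx x hx⟩
  have hxp : ∃ n : ℕ, orderOf x = p ^ n := by
    obtain ⟨n, hn⟩ := IsPGroup.iff_orderOf.1 hR.pairP.pgr ⟨x, hx⟩
    exact ⟨n, by rw [← hn]; exact (Subgroup.orderOf_mk _ hx).symm⟩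
  have h1 := hst x hxT hxp
  have hCN : CH ⊤ Q ≤ Subgroup.normalizer (Q : Set G) := CH_le_normalizer
  have h2 : x ∈ ((Q ⊔ CH ⊤ Q : Subgroup G) : Set G) := h1
  rw [Subgroup.coe_mul_of_right_le_normalizer_left _ _ hCN] at h2
  obtain ⟨q, hq, c, hc, rfl⟩ := h2
  have h3 : c ∈ R := by
    have h4 : c = q⁻¹ * (q * c) := by group
    rw [h4]
    exact R.mul_mem (R.inv_mem (hR.le hq)) hx
  have h4 : c ∈ CH R Q := ⟨hc.1, h3⟩
  exact Q.mul_mem hq (hDZ (hD1 h4)).2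

end H82.MaxPair
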