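import Cfsg.Agent.Lib.H82.Cliff
import Cfsg.Agent.Lib.H83.RealOver
import Cfsg.Agent.Lib.H83.FSMult

/-!
# Real constituents with indicator one of a permutation character
-/

set_option autoImplicit false
set_option linter.style.haveILetI false

namespace H82.PermReal

open Cfsg H18.CharBasic H18.CharOrtho H18.CharInd H18.CharQuot H31.Clifford
open H82.Deg H82.Simple H82.Quot H82.Cliff H83.FSMult
open scoped ComplexConjugate Pointwise

universe u

variable {G : Type u} [Group G]

/-- If a character takes its degree at `k`, so do its constituents. -/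
theorem constituent_ker [Fintype G] {π χ : G → ℂ} (hπ : IsCharacter G π) (hχ : IsIrrCharacter G χ)
    (h : classInner π χ ≠ 0) {k : G} (hk : π k = π 1) : χ k = χ 1 := by
  have h1 := isCharacter_sub_constituent hπ hχ h
  have h2 := char_norm_le h1 k
  have h3 := char_norm_le (isCharacter_of_isIrr hχ) k
  have h4 : (χ k).re = (χ 1).re := by
    have h5 := Complex.re_le_norm ((π - χ) k)
    have h6 := Complex.re_le_norm (χ k)
    have h7 : (χ k).re + ((π - χ) k).re = (χ 1).re + ((π - χ) 1).re := by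
      simp only [Pi.sub_apply, Complex.sub_re, hk]; ring
    linarith
  have h5 : (χ k).im = 0 := by
    have h6 : ‖χ k‖ ^ 2 = (χ k).re ^ 2 + (χ k).im ^ 2 := by
      rw [← Complex.normSq_eq_norm_sq, Complex.normSq_apply]; ring
    have h7 : ‖χ k‖ ^ 2 ≤ (χ 1).re ^ 2 := by
      apply pow_le_pow_left₀ (norm_nonneg _) h3
    rw [h6, h4] at h7
    nlinarith [sq_nonneg (χ k).im]
  apply Complex.ext h4
  obtain ⟨n, hn⟩ := exists_degree (isCharacter_of_isIrr hχ)
  rw [h5, hn]; simp

/-- The permutation character. -/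
theorem perm_isCharacter [Fintype G] (H : Subgroup G) :
    IsCharacter G (indFun H (fun _ : H => (1 : ℂ))) := isCharacter_ind H isCharacter_one

theorem ext_one [Fintype G] (H : Subgroup G) [DecidablePred (· ∈ H)] (x : G) :
    extendByZero H (fun _ : H => (1 : ℂ)) x = if x ∈ H then 1 else 0 := by
  split_ifs with h
  · rw [ext_mem H _ h]
  · rw [ext_notMem H _ h]

theorem perm_core [Fintype G] (H : Subgroup G) {k : G} (hk : k ∈ H.normalCore) :
    indFun H (fun _ : H => (1 : ℂ)) k = indFun H (fun _ : H => (1 : ℂ)) 1 := by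
  rw [indFun_apply, indFun_apply]
  congr 1
  refine Finset.sum_congr rfl fun x _ => ?_
  have h1 : x⁻¹ * k * x ∈ H := by
    have := hk x⁻¹
    rwa [inv_inv] at this
  rw [ext_mem H _ h1, ext_mem H _ (by simp : x⁻¹ * 1 * x ∈ H)]

/-- The count of square roots. -/
theorem sum_perm_sq [Fintype G] (H : Subgroup G) [DecidablePred (· ∈ H)] :
    (Nat.card G : ℂ)⁻¹ * ∑ g : G, indFun H (fun _ : H => (1 : ℂ)) (g * g) =
      (Nat.card H : ℂ)⁻¹ * ((Finset.univ.filter (fun y : G => y * y ∈ H)).card : ℂ) := by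
  have hG0 : (Nat.card G : ℂ) ≠ 0 := by exact_mod_cast Nat.card_pos.ne'
  simp only [indFun_apply]
  rw [← Finset.mul_sum, Finset.sum_comm]
  have h1 : ∀ x : G, ∑ g : G, extendByZero H (fun _ : H => (1 : ℂ)) (x⁻¹ * (g * g) * x) =
      ((Finset.univ.filter (fun y : G => y * y ∈ H)).card : ℂ) := by
    intro x
    rw [← Equiv.sum_comp (MulAut.conj x).toEquiv]
    have h2 : ∀ g : G, extendByZero H (fun _ : H => (1 : ℂ))
        (x⁻¹ * ((MulAut.conj x).toEquiv g * (MulAut.conj x).toEquiv g) * x) =
        if g * g ∈ H then 1 else 0 := by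
      intro g
      rw [← ext_one]
      congr 1
      show x⁻¹ * ((x * g * x⁻¹) * (x * g * x⁻¹)) * x = g * g
      group
    rw [Finset.sum_congr rfl fun g _ => h2 g, ← Finset.sum_filter, Finset.sum_const, nsmul_eq_mul,
      mul_one]
  rw [Finset.sum_congr rfl fun x _ => h1 x, Finset.sum_const, nsmul_eq_mul, Finset.card_univ,
    ← Nat.card_eq_fintype_card]
  field_simp

theorem sum_expand [Fintype G] [Fintype (IrrCharacter G)] {π : G → ℂ} (hπ : IsCharacter G π) :
    (Nat.card G : ℂ)⁻¹ * ∑ g : G, π (g * g) =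
      ∑ χ : IrrCharacter G, classInner π (χ : G → ℂ) * nu (χ : G → ℂ) := by
  have h1 := mem_classFun_expand (isClassFunction_of_isCharacter hπ)
  have h2 : ∀ g : G, π (g * g) = ∑ χ : IrrCharacter G, classInner π (χ : G → ℂ) * (χ : G → ℂ) (g * g) := by
    intro g
    conv_lhs => rw [h1]
    rw [Finset.sum_apply]
    rfl
  simp_rw [h2]
  rw [Finset.sum_comm, Finset.mul_sum]
  refine Finset.sum_congr rfl fun χ _ => ?_
  rw [nu_eq, ← Finset.mul_sum]
  ring

theorem inner_perm_triv [Fintype G] (H : Subgroup G) :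
    classInner (indFun H (fun _ : H => (1 : ℂ))) (triv G : G → ℂ) = 1 := by
  classical
  letI := Fintype.ofFinite H
  rw [frobenius H _ (isClassFunction_of_isIrr (triv G).2)]
  exact inner_irr_self (triv H).2

theorem nu_triv [Fintype G] : nu (triv G : G → ℂ) = 1 := by
  rw [nu_eq]
  simp only [triv_apply, Finset.sum_const, nsmul_eq_mul, mul_one, Finset.card_univ,
    ← Nat.card_eq_fintype_card]
  have hG0 : (Nat.card G : ℂ) ≠ 0 := by exact_mod_cast Nat.card_pos.ne'
  exact inv_mul_cancel₀ hG0

/-- If the principal character is the only constituent of indicator one, then `y² ∈ H → y ∈ H`. -/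
theorem sq_mem [Fintype G] (H : Subgroup G)
    (h : ∀ χ : IrrCharacter G, classInner (indFun H (fun _ : H => (1 : ℂ))) (χ : G → ℂ) ≠ 0 →
      nu (χ : G → ℂ) = 1 → χ = triv G) : ∀ y : G, y * y ∈ H → y ∈ H := by
  classical
  letI := Fintype.ofFinite (IrrCharacter G)
  have hπ := perm_isCharacter H
  have h1 := sum_perm_sq H
  rw [sum_expand hπ, ← Finset.add_sum_erase _ _ (Finset.mem_univ (triv G)), inner_perm_triv,
    nu_triv, one_mul] at h1
  -- the other terms are nonpositive integers
  have h2 : ∃ n : ℕ, ∑ χ ∈ Finset.univ.erase (triv G),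
      classInner (indFun H (fun _ : H => (1 : ℂ))) (χ : G → ℂ) * nu (χ : G → ℂ) = -(n : ℂ) := by
    have key : ∀ χ ∈ Finset.univ.erase (triv G), ∃ n : ℕ,
        classInner (indFun H (fun _ : H => (1 : ℂ))) (χ : G → ℂ) * nu (χ : G → ℂ) = -(n : ℂ) := by
      intro χ hχ
      obtain ⟨m, hm⟩ := inner_char_natCast hπ (isCharacter_of_isIrr χ.2)
      rcases nu_cases χ.2 with h3 | h3 | h3
      · exact ⟨0, by rw [h3]; simp⟩
      · have h4 : classInner (indFun H (fun _ : H => (1 : ℂ))) (χ : G → ℂ) = 0 := by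
          by_contra h5
          exact Finset.ne_of_mem_erase hχ (h χ h5 h3)
        exact ⟨0, by rw [h4]; simp⟩
      · exact ⟨m, by rw [h3, hm]; ring⟩
    choose! n hn using key
    refine ⟨∑ χ ∈ Finset.univ.erase (triv G), n χ, ?_⟩
    rw [Finset.sum_congr rfl hn, Finset.sum_neg_distrib]
    push_cast; rfl
  obtain ⟨n, hn⟩ := h2
  rw [hn] at h1
  have hH0 : (Nat.card H : ℂ) ≠ 0 := by exact_mod_cast Nat.card_pos.ne'
  have h3 : ((Finset.univ.filter (fun y : G => y * y ∈ H)).card : ℂ) + (Nat.card H : ℂ) * n =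
      Nat.card H := by
    have h4 : (Nat.card H : ℂ) * (1 + -(n : ℂ)) =
        (Nat.card H : ℂ) * ((Nat.card H : ℂ)⁻¹ * ((Finset.univ.filter (fun y : G => y * y ∈ H)).card : ℂ)) := by
      rw [h1]
    rw [mul_inv_cancel_left₀ hH0] at h4
    linear_combination -h4
  have h4 : (Finset.univ.filter (fun y : G => y * y ∈ H)).card ≤ Nat.card H := by
    have h5 : (Finset.univ.filter (fun y : G => y * y ∈ H)).card + Nat.card H * n = Nat.card H := by
      exact_mod_cast h3
    omega
  have h5 : (Finset.univ.filter (fun y : G => y ∈ H)) ⊆ (Finset.univ.filter (fun y : G => y * y ∈ H)) := by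
    intro y hy
    rw [Finset.mem_filter] at hy ⊢
    exact ⟨Finset.mem_univ _, H.mul_mem hy.2 hy.2⟩
  have h6 : Nat.card H = (Finset.univ.filter (fun y : G => y ∈ H)).card := by
    rw [Nat.card_eq_fintype_card, Fintype.card_subtype]
  have h7 := Finset.eq_of_subset_of_card_le h5 (by rw [← h6]; exact h4)
  intro y hy
  have h8 : y ∈ (Finset.univ.filter (fun y : G => y * y ∈ H)) := by
    rw [Finset.mem_filter]; exact ⟨Finset.mem_univ _, hy⟩
  rw [← h7, Finset.mem_filter] at h8
  exact h8.2

/-- If `y² ∈ H → y ∈ H` then the core of `H` has odd index. -/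
theorem odd_index [Finite G] (H : Subgroup G) (h : ∀ y : G, y * y ∈ H → y ∈ H) :
    Odd H.normalCore.index := by
  haveI : Fact (Nat.Prime 2) := ⟨Nat.prime_two⟩
  rw [← Nat.not_even_iff_odd, even_iff_two_dvd]
  obtain ⟨P⟩ : Nonempty (Sylow 2 G) := inferInstance
  have h1 : (P : Subgroup G) ≤ H.normalCore := by
    intro y hy a
    -- `a y a⁻¹` is a `2`-element
    have h2 : ∀ (n : ℕ) (x : G), x ^ 2 ^ n = 1 → x ∈ H := by
      intro n
      induction n with
      | zero => intro x hx; rw [pow_zero, pow_one] at hx; rw [hx]; exact H.one_mem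
      | succ n ih =>
        intro x hx
        apply h
        apply ih
        rw [← pow_two, ← pow_mul, ← pow_succ']
        exact hx
    obtain ⟨n, hn⟩ := P.isPGroup' ⟨y, hy⟩
    have h3 : y ^ 2 ^ n = 1 := congrArg Subtype.val hn
    apply h2 n
    rw [conj_pow, h3]; simp
  intro h2
  exact P.not_dvd_index (h2.trans (Subgroup.index_dvd_of_le h1))

theorem main [Fintype G] (H : Subgroup G) :
    Nat.card {χ : IrrCharacter G // classInner (indFun H (fun _ : H => (1 : ℂ))) (χ : G → ℂ) ≠ 0 ∧
      (∀ g : G, (starRingEnd ℂ) ((χ : G → ℂ) g) = (χ : G → ℂ) g) ∧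
      (Nat.card G : ℂ)⁻¹ * ∑ g : G, (χ : G → ℂ) (g * g) = 1} = 1 ↔ Odd H.normalCore.index := by
  classical
  constructor
  · intro hcard
    apply odd_index
    apply sq_mem
    intro χ hχ hnu
    rw [Nat.card_eq_one_iff_unique] at hcard
    obtain ⟨⟨hsub⟩, _⟩ := hcard
    have h1 := hsub ⟨χ, hχ, by
        intro g
        exact Complex.conj_eq_iff_im.2 (real_of_nu χ.2 (by rw [hnu]; exact one_ne_zero) g),
        by rw [← nu_eq]; exact hnu⟩
      ⟨triv G, by rw [inner_perm_triv]; exact one_ne_zero, by intro g; simp [triv_apply],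
        by rw [← nu_eq]; exact nu_triv⟩
    exact congrArg Subtype.val h1
  · intro hodd
    rw [Nat.card_eq_one_iff_unique]
    refine ⟨⟨?_⟩, ⟨⟨triv G, by rw [inner_perm_triv]; exact one_ne_zero,
      by intro g; simp [triv_apply], by rw [← nu_eq]; exact nu_triv⟩⟩⟩
    have key : ∀ χ : IrrCharacter G, classInner (indFun H (fun _ : H => (1 : ℂ))) (χ : G → ℂ) ≠ 0 →
        (∀ g : G, (starRingEnd ℂ) ((χ : G → ℂ) g) = (χ : G → ℂ) g) → χ = triv G := by
      intro χ hχ hreal
      set K := H.normalCore with hK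
      letI := Fintype.ofFinite K
      obtain ⟨χ₀, _, _, huniq⟩ := H83.RealOver.exists_unique_real K hodd (isIrrCharacter_one (G := K))
        (fun _ => by simp)
      have h1 : χ = χ₀ := by
        apply huniq χ (fun g => Complex.conj_eq_iff_im.1 (hreal g))
        have h2 : (fun n : K => (χ : G → ℂ) n) = ((χ : G → ℂ) 1) • (fun _ : K => (1 : ℂ)) := by
          funext n
          simp only [Pi.smul_apply, smul_eq_mul, mul_one]
          exact constituent_ker (perm_isCharacter H) χ.2 hχ (perm_core H n.2)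
        rw [h2, H18.CharOrtho.inner_smul_left, inner_irr_self isIrrCharacter_one, mul_one]
        exact irr_one_ne_zero χ.2
      have h2 : triv G = χ₀ := by
        apply huniq (triv G) (fun g => by simp [triv_apply])
        have h3 : (fun n : K => (triv G : G → ℂ) n) = fun _ => 1 := rfl
        rw [h3, inner_irr_self isIrrCharacter_one]
        exact one_ne_zero
      rw [h1, h2]
    rintro ⟨χ, h1, h2, h3⟩ ⟨ψ, h4, h5, h6⟩
    exact Subtype.ext ((key χ h1 h2).trans (key ψ h4 h5).symm)

end H82.PermReal
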