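import Cfsg.Agent.Lib.H82.Const
import Cfsg.Agent.Lib.H82.Frob

/-!
# Faithful irreducible characters of prime codegree
-/

set_option autoImplicit false
set_option linter.style.haveILetI false

namespace H82.PrimeCodeg

open Cfsg H18.CharBasic H18.CharOrtho H18.CharInd H18.CharQuot H82.Deg H82.Simple H82.Cliff H82.Const
  H31.Clifford

universe u

variable {G : Type u} [Group G]

theorem exists_normal [Finite G] (χ : IrrCharacter G) (p : ℕ) (hp : p.Prime)
    (hcod : Nat.card G = p * charDegree (χ : G → ℂ)) (h1 : charDegree (χ : G → ℂ) ≠ 1) :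
    ∃ P : Subgroup G, P.Normal ∧ Nat.card P = p ∧ P.index = charDegree (χ : G → ℂ) ∧
      (charDegree (χ : G → ℂ)).Coprime p ∧ ∀ x ∈ P, x ≠ 1 → ∀ g : G, g * x = x * g → g ∈ P := by
  classical
  haveI : Fact p.Prime := ⟨hp⟩
  letI := Fintype.ofFinite G
  set m := charDegree (χ : G → ℂ) with hm
  have hmpos : 0 < m := charDegree_pos χ
  have hne : (χ : G → ℂ) ≠ fun _ => 1 := by
    intro h
    apply h1
    rw [hm]; exact charDegree_eq_of (by rw [h]; simp)
  have hlt := ne_one_degree_sq_lt χ hne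
  rw [← hm, hcod] at hlt
  have hmp : m < p := by nlinarith
  have hcop : m.Coprime p := (Nat.coprime_of_lt_prime hmpos.ne' hmp hp).symm
  obtain ⟨P⟩ : Nonempty (Sylow p G) := inferInstance
  have hPcard : Nat.card P = p := by
    rw [P.card_eq_multiplicity, hcod, Nat.factorization_mul hp.ne_zero hmpos.ne']
    rw [Finsupp.add_apply, hp.factorization_self,
      Nat.factorization_eq_zero_of_not_dvd ((Nat.Prime.coprime_iff_not_dvd hp).1 hcop.symm)]
    simp
  have hPidx : (P : Subgroup G).index = m := by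
    have := (P : Subgroup G).card_mul_index
    rw [hPcard, hcod] at this
    exact Nat.eq_of_mul_eq_mul_left hp.pos this
  have hsyl : Nat.card (Sylow p G) = 1 := by
    have h2 := card_sylow_modEq_one p G
    have h3 : Nat.card (Sylow p G) ∣ m := by rw [← hPidx]; exact P.card_dvd_index
    have h4 := Nat.le_of_dvd hmpos h3
    have h5 : Nat.card (Sylow p G) < p := lt_of_le_of_lt h4 hmp
    rw [Nat.ModEq, Nat.mod_eq_of_lt h5, Nat.mod_eq_of_lt hp.one_lt] at h2
    exact h2
  haveI : Subsingleton (Sylow p G) := (Nat.card_eq_one_iff_unique.1 hsyl).1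
  have hPn : (P : Subgroup G).Normal := Sylow.normal_of_subsingleton P
  refine ⟨P, hPn, hPcard, hPidx, hcop, ?_⟩
  letI := Fintype.ofFinite P
  -- the constituent
  obtain ⟨θ, hθ⟩ := exists_below (P : Subgroup G) χ
  rw [liesOver_iff] at hθ
  have hPcyc : IsCyclic P := isCyclic_of_prime_card hPcard
  have hθ1 : charDegree (θ : P → ℂ) = 1 :=
    charDegree_eq_of (by
      rw [degree_one_of_comm hPcyc.commutative.is_comm.comm θ.2]; simp)
  have hind : indFun (P : Subgroup G) (θ : P → ℂ) = (χ : G → ℂ) := by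
    refine eq_of_constituent_of_degree (isCharacter_ind _ (isCharacter_of_isIrr θ.2)) χ.2 ?_ ?_
    · rw [classInner_ne_zero_symm, frobenius' _ _ (isClassFunction_of_isIrr χ.2)]
      exact hθ
    · rw [charDegree_ind _ (isCharacter_of_isIrr θ.2), hPidx, hθ1, mul_one]
  have hnorm := norm_ind (P : Subgroup G) θ.2
  rw [hind, inner_irr_self χ.2, mul_one] at hnorm
  have hcardT : Nat.card P = Nat.card (inertia (P : Subgroup G) (θ : P → ℂ)) := by exact_mod_cast hnorm
  have hT : (P : Subgroup G) = inertia (P : Subgroup G) (θ : P → ℂ) :=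
    Subgroup.eq_of_le_of_card_ge (le_inertia _ (isClassFunction_of_isIrr θ.2)) hcardT.ge
  intro x hx hx1 g hg
  rw [hT, mem_inertia_iff]
  intro h
  refine congrArg (θ : P → ℂ) (Subtype.ext ?_)
  show g * (h : G) * g⁻¹ = h
  have hxz : h ∈ Subgroup.zpowers (⟨x, hx⟩ : P) := by
    refine mem_zpowers_of_prime_card hPcard ?_
    intro h2
    exact hx1 (congrArg Subtype.val h2)
  obtain ⟨k, hk⟩ := hxz
  have hk' : (h : G) = x ^ k := by rw [← hk]; rfl
  rw [hk']
  have hc : Commute g x := hg
  rw [(hc.zpow_right k).eq, mul_inv_cancel_right]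

theorem main [Finite G] (χ : IrrCharacter G) (p : ℕ) (hp : p.Prime)
    (hcod : Nat.card G = p * charDegree (χ : G → ℂ)) :
    (IsCyclic G ∧ Nat.card G = p) ∨
      ∃ H : Subgroup G, IsFrobeniusComplement H ∧ Nat.card ↥(frobeniusKernel H) = p := by
  haveI : Fact p.Prime := ⟨hp⟩
  by_cases h1 : charDegree (χ : G → ℂ) = 1
  · left
    rw [h1, mul_one] at hcod
    exact ⟨isCyclic_of_prime_card hcod, hcod⟩
  · right
    obtain ⟨P, hP, hPcard, hPidx, hcop, hcent⟩ := exists_normal χ p hp hcod h1
    obtain ⟨H, hH⟩ := Subgroup.exists_right_complement'_of_coprime (N := P)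
      (by rw [hPcard, hPidx]; exact hcop.symm)
    have hinf : P ⊓ H = ⊥ := hH.isCompl.inf_eq_bot
    have hsup : P ⊔ H = ⊤ := hH.isCompl.sup_eq_top
    obtain ⟨h2, h3⟩ := Frob.isFrobenius P H hinf hsup
      (by
        rintro rfl
        rw [Subgroup.card_bot] at hPcard
        exact hp.one_lt.ne hPcard)
      (by
        rintro rfl
        rw [Subgroup.index_top] at hPidx
        exact h1 hPidx.symm)
      hcent
    refine ⟨H, h2, ?_⟩
    rw [h3]
    exact hPcard

end H82.PrimeCodeg
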