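import Cfsg.Agent.Lib.H82.Cliff
import Cfsg.Agent.Lib.H82.BZero
import Cfsg.Agent.Lib.H82.Const

/-!
# Simple groups with a character of prime degree: self-centralizing Sylow subgroups of prime order
-/

set_option autoImplicit false
set_option linter.style.haveILetI false

namespace H82.PrimeDeg

open Cfsg H18.CharBasic H18.CharOrtho H18.CharInd H18.CharQuot H31.Clifford
open H82.Deg H82.Simple H82.Quot H82.Cliff H82.Const
open scoped ComplexConjugate commutatorElement

universe u

section central

variable {C : Type u} [Group C]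

/-- Constituents of a character that is regular on a central subgroup are linear. -/
theorem degree_one_of_central [Fintype C] (Z : Subgroup C) (hZ : Z ≤ Subgroup.center C) {χ : C → ℂ}
    (hχ : IsCharacter C χ) (h1 : χ 1 = Nat.card Z) (h0 : ∀ z ∈ Z, z ≠ 1 → χ z = 0) {ψ : C → ℂ}
    (hψ : IsIrrCharacter C ψ) (hne : classInner χ ψ ≠ 0) : charDegree ψ = 1 := by
  classical
  letI := Fintype.ofFinite Z
  haveI : Z.Normal := ⟨fun n hn g => by
    have h2 := Subgroup.mem_center_iff.1 (hZ hn) g
    rw [h2, mul_inv_cancel_right]; exact hn⟩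
  obtain ⟨lam, hlam, hlne⟩ := exists_constituent_restrict Z hψ
  have hlam1 : lam 1 = 1 := by
    apply degree_one_of_comm _ hlam
    intro a b
    apply Subtype.ext
    exact Subgroup.mem_center_iff.1 (hZ b.2) a
  have horb : orb Z lam = {lam} := by
    ext φ
    rw [mem_orb, Finset.mem_singleton]
    constructor
    · rintro ⟨g, rfl⟩
      funext n
      rw [cj_apply]
      congr 1
      apply Subtype.ext
      show g * (n : C) * g⁻¹ = n
      rw [Subgroup.mem_center_iff.1 (hZ n.2) g, mul_inv_cancel_right]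
    · rintro rfl
      exact ⟨1, (cj_one Z _).symm⟩
  have h2 := restrict_eq Z hψ hlam hlne
  rw [horb, Finset.sum_singleton] at h2
  have h3 := congrFun h2 1
  simp only [Pi.smul_apply, smul_eq_mul, hlam1, mul_one, OneMemClass.coe_one] at h3
  obtain ⟨e, he⟩ := inner_char_natCast (isCharacter_restrict Z (isCharacter_of_isIrr hψ))
    (isCharacter_of_isIrr hlam)
  rw [he] at h3
  -- multiplicity of `lam` in `χ`
  have h4 : classInner (fun z : Z => χ z) lam = 1 := by
    unfold classInner
    have hc0 : (Nat.card Z : ℂ) ≠ 0 := by exact_mod_cast Nat.card_pos.ne'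
    rw [Finset.sum_eq_single (1 : Z)]
    · simp only [OneMemClass.coe_one, h1, hlam1, map_one, mul_one]
      exact inv_mul_cancel₀ hc0
    · intro z _ hz
      simp only [h0 z z.2 (fun h => hz (Subtype.ext h)), zero_mul]
    · intro h; exact absurd (Finset.mem_univ _) h
  have h5 := isCharacter_sub_constituent hχ hψ hne
  obtain ⟨r, hr⟩ := inner_char_natCast (isCharacter_restrict Z h5) (isCharacter_of_isIrr hlam)
  have h6 : (fun z : Z => χ z) = (fun z : Z => (χ - ψ) z) + (fun z : Z => ψ z) := by
    funext z; simp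
  rw [h6, H18.CharOrtho.inner_add_left, hr, he] at h4
  have h7 : r + e = 1 := by exact_mod_cast h4
  have h8 : e ≠ 0 := by
    rintro rfl
    exact irr_one_ne_zero hψ (by rw [h3]; simp)
  have h9 : e = 1 := by omega
  exact charDegree_eq_of (by rw [h3, h9])

theorem eq_of_commutator [Fintype C] {χ : C → ℂ} (hχ : IsCharacter C χ)
    (h : ∀ ψ : IrrCharacter C, classInner χ (ψ : C → ℂ) ≠ 0 → charDegree (ψ : C → ℂ) = 1) {x : C}
    (hx : x ∈ commutator C) : χ x = χ 1 := by
  classical
  letI := Fintype.ofFinite (IrrCharacter C)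
  have h1 := mem_classFun_expand (isClassFunction_of_isCharacter hχ)
  have h2 := congrFun h1 x
  have h3 := congrFun h1 1
  rw [h2, h3, Finset.sum_apply, Finset.sum_apply]
  refine Finset.sum_congr rfl fun ψ _ => ?_
  by_cases h0 : classInner χ (ψ : C → ℂ) = 0
  · rw [h0, zero_smul]; rfl
  · obtain ⟨f, hf⟩ := exists_hom_of_degree_one (isCharacter_of_isIrr ψ.2) (by
      rw [← coe_charDegree' ψ, h ψ h0]; simp)
    have h4 : f x = 1 := Abelianization.commutator_subset_ker f hx
    simp only [Pi.smul_apply, hf, h4, map_one]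

/-- A subgroup on which a character vanishes off the identity has order dividing the degree. -/
theorem card_dvd_of_vanish [Finite C] {χ : C → ℂ} (hχ : IsCharacter C χ) (H : Subgroup C)
    (h0 : ∀ z ∈ H, z ≠ 1 → χ z = 0) : Nat.card H ∣ charDegree χ := by
  classical
  letI := Fintype.ofFinite H
  obtain ⟨r, hr⟩ := inner_char_natCast (isCharacter_restrict H hχ) (isCharacter_one (G := H))
  unfold classInner at hr
  have hc0 : (Nat.card H : ℂ) ≠ 0 := by exact_mod_cast Nat.card_pos.ne'
  rw [Finset.sum_eq_single (1 : H)] at hr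
  · simp only [OneMemClass.coe_one, map_one, mul_one] at hr
    rw [← coe_charDegree hχ] at hr
    have h1 : (charDegree χ : ℂ) = Nat.card H * r := by
      rw [← hr, mul_inv_cancel_left₀ hc0]
    exact ⟨r, by exact_mod_cast h1⟩
  · intro z _ hz
    simp only [h0 z z.2 (fun h => hz (Subtype.ext h)), zero_mul]
  · intro h; exact absurd (Finset.mem_univ _) h

end central

section simple

variable {S : Type u} [Group S]

/-- In a nonabelian simple group with an irreducible character of prime degree `q`, a Sylow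
`q`-subgroup has order `q` and is self-centralizing. -/
theorem sylow_of_degree [Finite S] [IsSimpleGroup S] (hnp : ¬ (Nat.card S).Prime)
    {χ : IrrCharacter S} {q : ℕ} [hq : Fact q.Prime] (hχ : charDegree (χ : S → ℂ) = q)
    (P : Sylow q S) : Nat.card (P : Subgroup S) = q ∧
      Subgroup.centralizer ((P : Subgroup S) : Set S) = P := by
  classical
  letI := Fintype.ofFinite S
  have hχ1 : χ ≠ triv S := by
    rintro rfl
    rw [charDegree_triv] at hχ
    exact hq.out.one_lt.ne hχ
  have hker : ker χ = ⊥ := ker_eq_bot_of_simple inferInstance hχ1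
  have hfaith : ∀ x : S, (χ : S → ℂ) x = (χ : S → ℂ) 1 → x = 1 := by
    intro x hx
    have : x ∈ ker χ := mem_ker.2 hx
    rw [hker] at this
    exact Subgroup.mem_bot.1 this
  have hchar := isCharacter_of_isIrr χ.2
  -- vanishing
  have hvan : ∀ x : S, x ≠ 1 → (P : Subgroup S) ≤ Subgroup.centralizer ({x} : Set S) →
      (χ : S → ℂ) x = 0 := by
    intro x hx hPx
    apply H82.BZero.eq_zero_of_coprime hnp hχ1 hx
    rw [hχ]
    apply (Nat.Prime.coprime_iff_not_dvd hq.out).2
    intro h1
    exact P.not_dvd_index (h1.trans (Subgroup.index_dvd_of_le hPx))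
  have hqS : q ∣ Nat.card S := by rw [← hχ]; exact degree_dvd_card χ
  have hPnt : Nontrivial (P : Subgroup S) := by
    rw [Subgroup.nontrivial_iff_ne_bot]
    exact P.ne_bot_of_dvd_card hqS
  haveI := P.isPGroup'.center_nontrivial
  set Z := (Subgroup.center (P : Subgroup S)).map (P : Subgroup S).subtype with hZ
  have hZbot : Z ≠ ⊥ := by
    intro h1
    rw [hZ, Subgroup.map_eq_bot_iff_of_injective _ (Subgroup.subtype_injective _)] at h1
    exact (Subgroup.nontrivial_iff_ne_bot _).1 inferInstance h1
  have hPZ : ∀ z ∈ Z, (P : Subgroup S) ≤ Subgroup.centralizer ({z} : Set S) := by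
    rintro _ ⟨z, hz, rfl⟩ g hg
    rw [Subgroup.mem_centralizer_singleton_iff]
    exact congrArg Subtype.val (Subgroup.mem_center_iff.1 hz ⟨g, hg⟩)
  have hZvan : ∀ z ∈ Z, z ≠ 1 → (χ : S → ℂ) z = 0 := fun z hz hz1 => hvan z hz1 (hPZ z hz)
  have hcardZ : Nat.card Z = q := by
    have h1 := card_dvd_of_vanish hchar Z hZvan
    rw [hχ] at h1
    rcases (Nat.dvd_prime hq.out).1 h1 with h2 | h2
    · exact absurd (Subgroup.card_eq_one.1 h2) hZbot
    · exact h2
  -- the centralizer of `Z`
  set C := Subgroup.centralizer (Z : Set S) with hC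
  have hPC : (P : Subgroup S) ≤ C := by
    intro g hg
    rw [hC, Subgroup.mem_centralizer_iff]
    intro z hz
    exact (Subgroup.mem_centralizer_singleton_iff.1 (hPZ z hz hg)).symm
  have hZP : Z ≤ P := Subgroup.map_subtype_le _
  have hZC : Z ≤ C := hZP.trans hPC
  have hCab : ∀ a ∈ C, ∀ b ∈ C, a * b = b * a := by
    letI := Fintype.ofFinite C
    have hcen : Z.subgroupOf C ≤ Subgroup.center C := by
      intro z hz
      rw [Subgroup.mem_center_iff]
      intro g
      apply Subtype.ext
      exact (Subgroup.mem_centralizer_iff.1 g.2 z (Subgroup.mem_subgroupOf.1 hz)).symm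
    have hcardZ' : Nat.card (Z.subgroupOf C) = q := by
      rw [Nat.card_congr (Subgroup.subgroupOfEquivOfLe hZC).toEquiv, hcardZ]
    have h1 : ∀ ψ : IrrCharacter C, classInner (fun c : C => (χ : S → ℂ) c) (ψ : C → ℂ) ≠ 0 →
        charDegree (ψ : C → ℂ) = 1 := by
      intro ψ hψ
      apply degree_one_of_central (Z.subgroupOf C) hcen (isCharacter_restrict C hchar) _ _ ψ.2 hψ
      · rw [hcardZ', ← hχ, coe_charDegree' χ]; rfl
      · intro z hz hz1
        exact hZvan z (Subgroup.mem_subgroupOf.1 hz) (fun h => hz1 (Subtype.ext h))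
    intro a ha b hb
    have h2 : ⁅(⟨a, ha⟩ : C), ⟨b, hb⟩⁆ ∈ commutator C :=
      Subgroup.commutator_mem_commutator (Subgroup.mem_top _) (Subgroup.mem_top _)
    have h3 := eq_of_commutator (isCharacter_restrict C hchar) h1 h2
    have h4 := hfaith _ h3
    have h5 : a * b * a⁻¹ * b⁻¹ = 1 := h4
    rw [mul_inv_eq_one, mul_inv_eq_iff_eq_mul] at h5
    exact h5
  have hPZeq : (P : Subgroup S) = Z := by
    apply le_antisymm _ hZP
    intro g hg
    refine ⟨⟨g, hg⟩, ?_, rfl⟩
    rw [SetLike.mem_coe, Subgroup.mem_center_iff]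
    intro x
    apply Subtype.ext
    exact hCab x (hPC x.2) g (hPC hg)
  refine ⟨by rw [hPZeq, hcardZ], ?_⟩
  have hCvan : ∀ c ∈ C, c ≠ 1 → (χ : S → ℂ) c = 0 := by
    intro c hc hc1
    apply hvan c hc1
    intro g hg
    rw [Subgroup.mem_centralizer_singleton_iff]
    exact hCab g (hPC hg) c hc
  have h1 := card_dvd_of_vanish hchar C hCvan
  rw [hχ] at h1
  have h2 : Nat.card C ≤ Nat.card (P : Subgroup S) := by
    rw [hPZeq, hcardZ]; exact Nat.le_of_dvd hq.out.pos h1
  have h3 := Subgroup.eq_of_le_of_card_ge hPC h2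
  rw [hPZeq]
  rw [hPZeq] at h3
  exact h3.symm

end simple

end H82.PrimeDeg
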