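import Cfsg.Agent.Lib.H82.PrimeDeg
import Cfsg.Agent.Lib.H78.Galois
import Cfsg.Agent.Lib.H18.CharPerm

/-!
# Galois conjugation and conjugacy classes for a self-centralizing Sylow subgroup of prime order
-/

set_option autoImplicit false
set_option linter.style.haveILetI false

namespace H82.PrimeDeg

open Cfsg H18.CharBasic H18.CharOrtho H18.CharInd H18.CharQuot H18.CharPerm H31.Clifford
open H82.Deg H82.Simple H82.Quot H82.Cliff H82.Const H78.Galois
open scoped ComplexConjugate Pointwise

universe u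

variable {S : Type u} [Group S]

theorem exists_conj_mem [Finite S] {q : ℕ} [hq : Fact q.Prime] (P : Sylow q S)
    (hcard : Nat.card (P : Subgroup S) = q)
    (hcent : Subgroup.centralizer ((P : Subgroup S) : Set S) = P) {x : S} (hx : q ∣ orderOf x) :
    ∃ h : S, h⁻¹ * x * h ∈ (P : Subgroup S) := by
  set y := x ^ (orderOf x / q) with hy
  have hoy : orderOf y = q := orderOf_pow_orderOf_div (orderOf_pos x).ne' hx
  have hyp : IsPGroup q (Subgroup.zpowers y) := by
    apply IsPGroup.of_card (n := 1)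
    rw [Nat.card_zpowers, hoy, pow_one]
  obtain ⟨Q, hQ⟩ := hyp.exists_le_sylow
  obtain ⟨h, hh⟩ := MulAction.exists_smul_eq S P Q
  have hyQ : y ∈ (Q : Subgroup S) := hQ (Subgroup.mem_zpowers y)
  rw [← hh] at hyQ
  have hyP : h⁻¹ * y * h ∈ (P : Subgroup S) := by
    have h1 : y ∈ MulAut.conj h • (P : Subgroup S) := hyQ
    rw [Subgroup.mem_pointwise_smul_iff_inv_smul_mem, ← map_inv, MulAut.smul_def,
      MulAut.conj_apply, inv_inv] at h1
    exact h1
  refine ⟨h, ?_⟩
  set y' := h⁻¹ * y * h with hy'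
  have hoy' : orderOf y' = q := by
    have : y' = MulAut.conj h⁻¹ y := by rw [MulAut.conj_apply, inv_inv]
    rw [this, MulEquiv.orderOf_eq, hoy]
  have hgen : Subgroup.zpowers y' = P := by
    apply Subgroup.eq_of_le_of_card_ge (Subgroup.zpowers_le.2 hyP)
    rw [Nat.card_zpowers, hoy', hcard]
  rw [← hcent, Subgroup.mem_centralizer_iff]
  intro z hz
  rw [SetLike.mem_coe, ← hgen, Subgroup.mem_zpowers_iff] at hz
  obtain ⟨m, rfl⟩ := hz
  have hcomm : Commute (h⁻¹ * x * h) y' := by
    show (h⁻¹ * x * h) * (h⁻¹ * y * h) = (h⁻¹ * y * h) * (h⁻¹ * x * h)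
    have h2 : x * y = y * x := by rw [hy]; exact (Commute.self_pow x _).eq
    calc (h⁻¹ * x * h) * (h⁻¹ * y * h) = h⁻¹ * (x * y) * h := by group
      _ = h⁻¹ * (y * x) * h := by rw [h2]
      _ = (h⁻¹ * y * h) * (h⁻¹ * x * h) := by group
  exact ((hcomm.zpow_right m).eq).symm

theorem exists_conj_pow [Finite S] {q : ℕ} [hq : Fact q.Prime] (P : Sylow q S)
    (hcard : Nat.card (P : Subgroup S) = q)
    (hcent : Subgroup.centralizer ((P : Subgroup S) : Set S) = P) {g : S}
    (hg : g ∈ (P : Subgroup S)) (hg1 : g ≠ 1) {x : S} (hx : q ∣ orderOf x) :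
    orderOf g = q ∧ ∃ i : ℕ, ¬ q ∣ i ∧ IsConj x (g ^ i) := by
  have hog : orderOf g = q := by
    have h1 : orderOf g ∣ q := by
      rw [← hcard]; exact Subgroup.orderOf_dvd_natCard _ hg
    rcases (Nat.dvd_prime hq.out).1 h1 with h2 | h2
    · exact absurd (orderOf_eq_one_iff.1 h2) hg1
    · exact h2
  refine ⟨hog, ?_⟩
  obtain ⟨h, hh⟩ := exists_conj_mem P hcard hcent hx
  have hgen : Subgroup.zpowers g = P := by
    apply Subgroup.eq_of_le_of_card_ge (Subgroup.zpowers_le.2 hg)
    rw [Nat.card_zpowers, hog, hcard]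
  rw [← hgen, ← mem_powers_iff_mem_zpowers, Submonoid.mem_powers_iff] at hh
  obtain ⟨i, hi⟩ := hh
  refine ⟨i, ?_, ?_⟩
  · intro hqi
    have h1 : g ^ i = 1 := by rw [← orderOf_dvd_iff_pow_eq_one, hog]; exact hqi
    rw [h1] at hi
    have h2 : x = 1 := by
      have : x = h * (h⁻¹ * x * h) * h⁻¹ := by group
      rw [this, ← hi]; group
    rw [h2, orderOf_one] at hx
    exact hq.out.one_lt.ne' (Nat.dvd_one.1 hx)
  · rw [hi, isConj_iff]
    exact ⟨h⁻¹, by rw [inv_inv]⟩

/-- Galois fixed characters and fixed classes. -/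
theorem card_fixed [Finite S] {k : ℕ} (hk : Nat.Coprime k (Nat.card S)) :
    Nat.card {χ : IrrCharacter S // powIrr hk χ = χ} =
      Nat.card {C : ConjClasses S // IsConj (C.out ^ k) C.out} := by
  classical
  obtain ⟨l, hl⟩ : ∃ l : ℕ, ∀ x : S, (x ^ k) ^ l = x := by
    by_cases h1 : 1 < Nat.card S
    · obtain ⟨m, _, hm⟩ := Nat.exists_mul_mod_eq_one_of_coprime hk h1
      refine ⟨m, fun x => ?_⟩
      rw [← pow_mul]
      have h2 : k * m ≡ 1 [MOD Nat.card S] := by
        rw [Nat.ModEq, hm, Nat.mod_eq_of_lt h1]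
      have h3 : k * m ≡ 1 [MOD orderOf x] := h2.of_dvd (orderOf_dvd_natCard x)
      conv_rhs => rw [← pow_one x]
      exact pow_eq_pow_iff_modEq.2 h3
    · have h2 : Nat.card S = 1 := by
        have : 0 < Nat.card S := Nat.card_pos
        omega
      haveI : Subsingleton S := (Nat.card_eq_one_iff_unique.1 h2).1
      exact ⟨1, fun x => Subsingleton.elim _ _⟩
  have hl' : ∀ x : S, (x ^ l) ^ k = x := fun x => by rw [← pow_mul, mul_comm, pow_mul, hl]
  have hconjpow : ∀ {x y : S} (m : ℕ), IsConj x y → IsConj (x ^ m) (y ^ m) := by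
    intro x y m h
    obtain ⟨c, hc⟩ := isConj_iff.1 h
    exact isConj_iff.2 ⟨c, by rw [← hc, conj_pow]⟩
  let β : ConjClasses S → ConjClasses S := fun C => ConjClasses.mk (C.out ^ l)
  have hout : ∀ C : ConjClasses S, ConjClasses.mk C.out = C := fun C => Quotient.out_eq C
  have hβinj : Function.Injective β := by
    intro C D h
    have h1 : IsConj (C.out ^ l) (D.out ^ l) := ConjClasses.mk_eq_mk_iff_isConj.1 h
    have h2 := hconjpow k h1
    rw [hl', hl'] at h2
    rw [← hout C, ← hout D]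
    exact ConjClasses.mk_eq_mk_iff_isConj.2 h2
  have hβ : Function.Bijective β := Finite.injective_iff_bijective.1 hβinj
  rw [brauer_permutation (powIrr hk) β hβ]
  · apply Nat.card_congr
    apply Equiv.subtypeEquivRight
    intro C
    constructor
    · intro h
      have h1 : ConjClasses.mk (C.out ^ l) = ConjClasses.mk C.out := by rw [hout]; exact h
      have h2 := hconjpow k (ConjClasses.mk_eq_mk_iff_isConj.1 h1)
      rw [hl'] at h2
      exact h2.symm
    · intro h
      have h2 := hconjpow l h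
      rw [hl] at h2
      show ConjClasses.mk (C.out ^ l) = C
      conv_rhs => rw [← hout C]
      exact ConjClasses.mk_eq_mk_iff_isConj.2 h2.symm
  · intro χ g g' h
    rw [powIrr_apply]
    have h1 : IsConj g' ((ConjClasses.mk g).out ^ l) := ConjClasses.mk_eq_mk_iff_isConj.1 h
    have h2 := hconjpow k h1
    rw [hl'] at h2
    have h3 : IsConj (ConjClasses.mk g).out g := ConjClasses.mk_eq_mk_iff_isConj.1 (hout _)
    exact classFunction_isConj (isClassFunction_of_isIrr χ.2) (h2.trans h3)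

end H82.PrimeDeg
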