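import Cfsg.Agent.Lib.H82.BZero
import Cfsg.Agent.Lib.H82.Cliff

/-!
# A group whose irreducible character degrees involve at most two primes is solvable
-/

set_option autoImplicit false
set_option linter.style.haveILetI false

namespace H82.TwoPrimes

open Cfsg H18.CharBasic H18.CharOrtho H18.CharInd H18.CharQuot H82.Deg H82.Simple H82.Cliff
open scoped ComplexConjugate

universe u

/-- The simple case. -/
theorem simple_case {G : Type u} [Group G] [Finite G] [IsSimpleGroup G] (p q : ℕ)
    (h : ∀ r ∈ degreePrimes G, r = p ∨ r = q) : (Nat.card G).Prime := by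
  classical
  by_contra hnp
  letI := Fintype.ofFinite (IrrCharacter G)
  -- there is a nonprincipal character
  have hex : ∃ χ : IrrCharacter G, χ ≠ triv G := by
    by_contra hcon
    push Not at hcon
    have h1 := sum_degree_sq_nat (G := G)
    rw [Finset.sum_congr rfl (g := fun _ => 1) (fun χ _ => by rw [hcon χ, charDegree_triv]; rfl)] at h1
    have h2 : Fintype.card (IrrCharacter G) = 1 := by
      rw [Fintype.card_eq_one_iff]; exact ⟨triv G, hcon⟩
    simp only [Finset.sum_const, Finset.card_univ, h2, smul_eq_mul, mul_one] at h1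
    have h3 : Nontrivial G := inferInstance
    have := Finite.one_lt_card (α := G)
    omega
  obtain ⟨χ₀, hχ₀⟩ := hex
  have hne1 := BZero.degree_ne_one hnp hχ₀
  obtain ⟨s, hs, hsd⟩ := Nat.exists_prime_and_dvd hne1
  have hsmem : s ∈ degreePrimes G := ⟨hs, _, ⟨χ₀, rfl⟩, hsd⟩
  have hsG := degreePrimes_dvd_card hsmem
  -- the other prime
  obtain ⟨t, ht⟩ : ∃ t : ℕ, ∀ r ∈ degreePrimes G, r = s ∨ r = t := by
    rcases h s hsmem with h1 | h1
    · exact ⟨q, fun r hr => by rw [h1]; exact h r hr⟩
    · exact ⟨p, fun r hr => by rw [h1]; exact (h r hr).symm⟩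
  haveI : Fact s.Prime := ⟨hs⟩
  -- a nontrivial element of the centre of a Sylow `s`-subgroup
  obtain ⟨P⟩ : Nonempty (Sylow s G) := inferInstance
  have hPcard : Nat.card P ≠ 1 := by
    rw [P.card_eq_multiplicity]
    have : 0 < (Nat.card G).factorization s := hs.factorization_pos_of_dvd Nat.card_pos.ne' hsG
    exact (Nat.one_lt_pow this.ne' hs.one_lt).ne'
  haveI hPnt : Nontrivial P := by
    rw [← Finite.one_lt_card_iff_nontrivial]
    have : 0 < Nat.card P := Nat.card_pos
    omega
  haveI := P.2.center_nontrivial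
  obtain ⟨z, hz⟩ := exists_ne (1 : Subgroup.center P)
  have hz1 : ((z : P) : G) ≠ 1 := by
    intro h1
    apply hz
    apply Subtype.ext
    apply Subtype.ext
    exact h1
  have hPle : (P : Subgroup G) ≤ Subgroup.centralizer ({((z : P) : G)} : Set G) := by
    intro x hx
    rw [Subgroup.mem_centralizer_singleton_iff]
    have := (Subgroup.mem_center_iff.1 z.2) ⟨x, hx⟩
    exact congrArg Subtype.val this
  have hidx : ¬ s ∣ (Subgroup.centralizer ({((z : P) : G)} : Set G)).index := by
    intro h1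
    exact P.not_dvd_index (h1.trans (Subgroup.index_dvd_of_le hPle))
  have hsum := sum_degree_mul hz1
  rw [← Finset.add_sum_erase _ _ (Finset.mem_univ (triv G))] at hsum
  have h0 : (triv G : G → ℂ) 1 * (triv G : G → ℂ) ((z : P) : G) = 1 := by simp [triv]
  rw [h0] at hsum
  have hkey : ∀ χ : IrrCharacter G, χ ≠ triv G → ∃ a : ℂ, IsIntegral ℤ a ∧
      (χ : G → ℂ) 1 * (χ : G → ℂ) ((z : P) : G) = t * a := by
    intro χ hχ
    by_cases htd : t ∣ charDegree (χ : G → ℂ)
    · obtain ⟨k, hk⟩ := htd
      refine ⟨k * (χ : G → ℂ) ((z : P) : G), ?_, ?_⟩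
      · exact (isIntegral_algebraMap (R := ℤ) (A := ℂ) (x := (k : ℤ))).mul
          (char_isIntegral (isCharacter_of_isIrr χ.2) _)
      · rw [← coe_charDegree' χ, hk]; push_cast; ring
    · refine ⟨0, isIntegral_zero, ?_⟩
      rw [BZero.eq_zero_of_coprime hnp hχ hz1, mul_zero, mul_zero]
      apply Nat.Coprime.symm
      rw [Nat.Coprime, Nat.eq_one_iff_not_exists_prime_dvd]
      intro r hr hrd
      have hr1 : r ∣ charDegree (χ : G → ℂ) := hrd.trans (Nat.gcd_dvd_right _ _)
      have hr2 := hrd.trans (Nat.gcd_dvd_left _ _)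
      rcases ht r ⟨hr, _, ⟨χ, rfl⟩, hr1⟩ with h1 | h1
      · rw [h1] at hr2; exact hidx hr2
      · rw [h1] at hr1; exact htd hr1
  choose! a ha1 ha2 using hkey
  rw [Finset.sum_congr rfl (g := fun χ => (t : ℂ) * a χ)
    (fun χ hχ => ha2 χ (Finset.ne_of_mem_erase hχ)), ← Finset.mul_sum] at hsum
  have h4 : IsIntegral ℤ (∑ χ ∈ Finset.univ.erase (triv G), a χ) :=
    IsIntegral.sum _ fun χ hχ => ha1 χ (Finset.ne_of_mem_erase hχ)
  have ht0 : t ≠ 0 := by
    rintro rfl
    simp at hsum
  have ht0' : (t : ℂ) ≠ 0 := by exact_mod_cast ht0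
  have h5 : (1 : ℂ) / (t : ℂ) = - ∑ χ ∈ Finset.univ.erase (triv G), a χ := by
    field_simp
    linear_combination hsum
  have h6 : IsIntegral ℤ (((1 : ℕ) : ℂ) / (t : ℂ)) := by
    rw [Nat.cast_one, h5]; exact h4.neg
  have h7 := dvd_of_isIntegral_div ht0 h6
  -- so `t = 1`; then all nonprincipal characters vanish
  have ht1 : t = 1 := Nat.dvd_one.1 h7
  have h8 : ∀ χ : IrrCharacter G, χ ≠ triv G → (χ : G → ℂ) 1 * (χ : G → ℂ) ((z : P) : G) = 0 := by
    intro χ hχ
    rw [BZero.eq_zero_of_coprime hnp hχ hz1, mul_zero]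
    apply Nat.Coprime.symm
    rw [Nat.Coprime, Nat.eq_one_iff_not_exists_prime_dvd]
    intro r hr hrd
    have hr1 : r ∣ charDegree (χ : G → ℂ) := hrd.trans (Nat.gcd_dvd_right _ _)
    have hr2 := hrd.trans (Nat.gcd_dvd_left _ _)
    rcases ht r ⟨hr, _, ⟨χ, rfl⟩, hr1⟩ with h1 | h1
    · rw [h1] at hr2; exact hidx hr2
    · rw [ht1] at h1; exact hr.one_lt.ne' h1
  have h9 : ∑ χ ∈ Finset.univ.erase (triv G), (t : ℂ) * a χ = 0 := by
    refine Finset.sum_eq_zero fun χ hχ => ?_
    rw [← ha2 χ (Finset.ne_of_mem_erase hχ)]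
    exact h8 χ (Finset.ne_of_mem_erase hχ)
  rw [← Finset.mul_sum] at h9
  rw [h9] at hsum
  simp at hsum

theorem isSolvable (p q : ℕ) : ∀ (n : ℕ) (G : Type u) [Group G] [Finite G], Nat.card G = n →
    (∀ r ∈ degreePrimes G, r = p ∨ r = q) → Group.IsSolvable G := by
  intro n
  induction n using Nat.strong_induction_on with
  | _ n ih =>
  intro G _ _ hcard h
  by_cases htriv : Subsingleton G
  · infer_instance
  rw [not_subsingleton_iff_nontrivial] at htriv
  by_cases hsimple : IsSimpleGroup G
  · have hp := simple_case p q h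
    haveI : Fact (Nat.card G).Prime := ⟨hp⟩
    have hcyc : IsCyclic G := isCyclic_of_prime_card rfl
    have hcomm : ∀ a b : G, a * b = b * a := hcyc.commutative.is_comm.comm
    exact Group.isSolvable_of_comm hcomm
  · have hex : ∃ N : Subgroup G, N.Normal ∧ N ≠ ⊥ ∧ N ≠ ⊤ := by
      by_contra hcon
      push Not at hcon
      apply hsimple
      exact ⟨fun H hH => by
        by_cases h1 : H = ⊥
        · exact Or.inl h1
        · exact Or.inr (hcon H hH h1)⟩
    obtain ⟨N, hN, hbot, htop⟩ := hex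
    have hcardN : Nat.card N < n := by
      rw [← hcard]
      have := N.card_mul_index
      have h1 : N.index ≠ 1 := fun h1 => htop (Subgroup.index_eq_one.1 h1)
      have h2 : 0 < N.index := Nat.pos_of_ne_zero Subgroup.index_ne_zero_of_finite
      have h3 : 0 < Nat.card N := Nat.card_pos
      have h4 : 2 ≤ N.index := by omega
      nlinarith
    have hcardQ : Nat.card (G ⧸ N) < n := by
      rw [← hcard]
      have := N.card_mul_index
      have h1 : Nat.card N ≠ 1 := fun h1 => hbot (Subgroup.card_eq_one.1 h1)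
      have h3 : 0 < Nat.card N := Nat.card_pos
      have h2 : 0 < N.index := Nat.pos_of_ne_zero Subgroup.index_ne_zero_of_finite
      have h4 : 2 ≤ Nat.card N := by omega
      change N.index < _
      nlinarith
    haveI := ih _ hcardN N rfl (fun r hr => h r (degreePrimes_normal N hr))
    haveI := ih _ hcardQ (G ⧸ N) rfl (fun r hr => h r (degreePrimes_quot N hr))
    exact Group.isSolvable_of_ker_le_range N.subtype (QuotientGroup.mk' N) (by
      rw [QuotientGroup.ker_mk', Subgroup.range_subtype])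

end H82.TwoPrimes
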