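import Cfsg.Agent.Lib.H82.PrimeDeg2
import Cfsg.Agent.Lib.H82.TwoPrimes

/-!
# Groups whose nonlinear irreducible characters have prime degree
-/

set_option autoImplicit false
set_option linter.style.haveILetI false

namespace H82.PrimeDeg

open Cfsg H18.CharBasic H18.CharOrtho H18.CharInd H18.CharQuot H18.CharPerm H31.Clifford
open H82.Deg H82.Simple H82.Quot H82.Cliff H82.Const H78.Galois
open scoped ComplexConjugate Pointwise

universe u

/-- Primitive roots. -/
theorem exists_primitive (q : ℕ) [hq : Fact q.Prime] :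
    ∃ r : ℕ, ¬ q ∣ r ∧ ∀ i : ℕ, ¬ q ∣ i → ∃ j : ℕ, i ≡ r ^ j [MOD q] := by
  obtain ⟨u, hu⟩ := IsCyclic.exists_generator (α := (ZMod q)ˣ)
  refine ⟨(u : ZMod q).val, ?_, ?_⟩
  · intro h
    have h1 : ((u : ZMod q).val : ZMod q) = 0 := (ZMod.natCast_eq_zero_iff _ _).2 h
    rw [ZMod.natCast_zmod_val] at h1
    exact u.ne_zero h1
  · intro i hi
    have hcop : i.Coprime q := Nat.Coprime.symm ((Nat.Prime.coprime_iff_not_dvd hq.out).2 hi)
    have h1 := hu (ZMod.unitOfCoprime i hcop)
    rw [← mem_powers_iff_mem_zpowers, Submonoid.mem_powers_iff] at h1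
    obtain ⟨j, hj⟩ := h1
    refine ⟨j, ?_⟩
    rw [← ZMod.natCast_eq_natCast_iff]
    push_cast
    rw [ZMod.natCast_zmod_val]
    have h2 := congrArg (fun v : (ZMod q)ˣ => (v : ZMod q)) hj
    simp only [Units.val_pow_eq_pow_val, ZMod.coe_unitOfCoprime] at h2
    exact h2.symm

variable {S : Type u} [Group S]

theorem isConj_pow {x y : S} (m : ℕ) (h : IsConj x y) : IsConj (x ^ m) (y ^ m) := by
  obtain ⟨c, hc⟩ := isConj_iff.1 h
  exact isConj_iff.2 ⟨c, by rw [← hc, conj_pow]⟩

theorem card_sub {α : Type*} [Fintype α] (p : α → Prop) [DecidablePred p] :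
    Nat.card {x // p x} = (Finset.univ.filter p).card := by
  rw [Nat.card_eq_fintype_card, Fintype.card_subtype]

theorem same_degree_of_moved [Finite S] {q : ℕ} [hq : Fact q.Prime] {k : ℕ}
    (hk : Nat.Coprime k (Nat.card S)) {g : S}
    (hF1 : ∀ x : S, ¬ q ∣ orderOf x → x ^ k = x)
    (hF2 : ∀ x : S, q ∣ orderOf x → ∃ j : ℕ, IsConj x (g ^ k ^ j))
    {χ ψ : IrrCharacter S} (hχ : powIrr hk χ ≠ χ) (hψ : powIrr hk ψ ≠ ψ) :
    charDegree (χ : S → ℂ) = charDegree (ψ : S → ℂ) := by
  classical
  letI := Fintype.ofFinite (IrrCharacter S)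
  letI := Fintype.ofFinite (ConjClasses S)
  have hout : ∀ C : ConjClasses S, ConjClasses.mk C.out = C := fun C => Quotient.out_eq C
  have hexl : ∃ l : ℕ, ∀ x : S, (x ^ k) ^ l = x := by
    by_cases h1 : 1 < Nat.card S
    · obtain ⟨m, _, hm⟩ := Nat.exists_mul_mod_eq_one_of_coprime hk h1
      refine ⟨m, fun x => ?_⟩
      rw [← pow_mul]
      have h2 : k * m ≡ 1 [MOD Nat.card S] := by
        rw [Nat.ModEq, hm, Nat.mod_eq_of_lt h1]
      have h3 : k * m ≡ 1 [MOD orderOf x] := h2.of_dvd (orderOf_dvd_natCard x)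
      conv_rhs => rw [← pow_one x]
      exact pow_eq_pow_iff_modEq.2 h3
    · have h2 : Nat.card S = 1 := by
        have : 0 < Nat.card S := Nat.card_pos
        omega
      haveI : Subsingleton S := (Nat.card_eq_one_iff_unique.1 h2).1
      exact ⟨1, fun x => Subsingleton.elim _ _⟩
  obtain ⟨l, hl⟩ := hexl
  -- cancel powers of `k`
  have hcancel : ∀ (i : ℕ) {x y : S}, IsConj (x ^ k ^ i) (y ^ k ^ i) → IsConj x y := by
    intro i
    induction i with
    | zero => intro x y h; simpa using h
    | succ i ih =>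
      intro x y h
      rw [pow_succ, pow_mul, pow_mul] at h
      have h1 := isConj_pow l h
      rw [hl, hl] at h1
      exact ih h1
  -- the least period
  have hexT : ∃ j : ℕ, 0 < j ∧ IsConj (g ^ k ^ j) g := by
    refine ⟨Nat.totient (Nat.card S), Nat.totient_pos.2 Nat.card_pos, ?_⟩
    have h1 := Nat.ModEq.pow_totient hk
    have h2 : k ^ Nat.totient (Nat.card S) ≡ 1 [MOD orderOf g] := h1.of_dvd (orderOf_dvd_natCard g)
    have h3 : g ^ k ^ Nat.totient (Nat.card S) = g := by
      conv_rhs => rw [← pow_one g]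
      exact pow_eq_pow_iff_modEq.2 h2
    rw [h3]
  obtain ⟨hT0, hT⟩ := Nat.find_spec hexT
  have hTmin : ∀ j, 0 < j → j < Nat.find hexT → ¬ IsConj (g ^ k ^ j) g := by
    intro j hj hjT h
    exact Nat.find_min hexT hjT ⟨hj, h⟩
  set T := Nat.find hexT with hTdef
  -- reduce exponents modulo `T`
  have hmod : ∀ j : ℕ, ∃ i < T, IsConj (g ^ k ^ j) (g ^ k ^ i) := by
    intro j
    induction j using Nat.strong_induction_on with
    | _ j ih =>
      by_cases hj : j < T
      · exact ⟨j, hj, IsConj.refl _⟩
      · push Not at hj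
        obtain ⟨i, hi, h1⟩ := ih (j - T) (by omega)
        refine ⟨i, hi, ?_⟩
        have h2 : g ^ k ^ j = (g ^ k ^ T) ^ k ^ (j - T) := by
          rw [← pow_mul, ← pow_add]; congr 2; omega
        rw [h2]
        exact (isConj_pow _ hT).trans h1
  -- fixed classes
  have hfixC : ∀ d, 0 < d → d < T → ∀ C : ConjClasses S,
      IsConj (C.out ^ k ^ d) C.out ↔ IsConj (C.out ^ k) C.out := by
    intro d hd hdT C
    constructor
    · intro h
      by_cases hx : q ∣ orderOf C.out
      · exfalso
        obtain ⟨i, hi⟩ := hF2 _ hx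
        have h1 := isConj_pow (k ^ d) hi
        have h2 : IsConj ((g ^ k ^ d) ^ k ^ i) (g ^ k ^ i) := by
          have h3 : (g ^ k ^ i) ^ k ^ d = (g ^ k ^ d) ^ k ^ i := by
            rw [← pow_mul, ← pow_mul, mul_comm]
          rw [h3] at h1
          exact h1.symm.trans (h.trans hi)
        exact hTmin d hd hdT (hcancel i h2)
      · rw [hF1 _ hx]
    · intro h
      clear hd hdT
      induction d with
      | zero => rw [pow_zero, pow_one]
      | succ d ih =>
        rw [pow_succ, pow_mul]
        exact (isConj_pow k ih).trans h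
  -- the finite sets
  set A : Finset (ConjClasses S) := Finset.univ.filter (fun C => ¬ IsConj (C.out ^ k) C.out) with hA
  set X : Finset (IrrCharacter S) := Finset.univ.filter (fun χ => powIrr hk χ ≠ χ) with hX
  have hAT : A.card ≤ T := by
    have h1 : A ⊆ (Finset.range T).image (fun i => ConjClasses.mk (g ^ k ^ i)) := by
      intro C hC
      rw [hA, Finset.mem_filter] at hC
      have hx : q ∣ orderOf C.out := by
        by_contra hx
        apply hC.2
        rw [hF1 _ hx]
      obtain ⟨j, hj⟩ := hF2 _ hx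
      obtain ⟨i, hi, h2⟩ := hmod j
      rw [Finset.mem_image]
      refine ⟨i, Finset.mem_range.2 hi, ?_⟩
      rw [← hout C]
      exact ConjClasses.mk_eq_mk_iff_isConj.2 (hj.trans h2).symm
    calc A.card ≤ _ := Finset.card_le_card h1
      _ ≤ _ := Finset.card_image_le
      _ = T := Finset.card_range T
  have hcardfix : ∀ d : ℕ, Nat.card {χ : IrrCharacter S // powIrr (hk.pow_left d) χ = χ} =
      Nat.card {C : ConjClasses S // IsConj (C.out ^ k ^ d) C.out} := fun d => card_fixed (hk.pow_left d)
  have hXA : X.card = A.card := by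
    have h1 := card_fixed hk
    rw [card_sub (fun χ : IrrCharacter S => powIrr hk χ = χ),
      card_sub (fun C : ConjClasses S => IsConj (C.out ^ k) C.out)] at h1
    have h2 := Finset.card_filter_add_card_filter_not (s := (Finset.univ : Finset (IrrCharacter S)))
      (fun χ => powIrr hk χ = χ)
    have h3 := Finset.card_filter_add_card_filter_not (s := (Finset.univ : Finset (ConjClasses S)))
      (fun C => IsConj (C.out ^ k) C.out)
    have h4 : (Finset.univ : Finset (IrrCharacter S)).card = (Finset.univ : Finset (ConjClasses S)).card := by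
      rw [Finset.card_univ, Finset.card_univ, ← Nat.card_eq_fintype_card, ← Nat.card_eq_fintype_card]
      exact card_irr_eq_card_conjClasses S
    have h5 : X.card = (Finset.univ.filter (fun χ : IrrCharacter S => ¬ powIrr hk χ = χ)).card := rfl
    have h6 : A.card = (Finset.univ.filter (fun C : ConjClasses S => ¬ IsConj (C.out ^ k) C.out)).card := rfl
    omega
  have hiter : ∀ (i : ℕ) (χ : IrrCharacter S), (powIrr hk)^[i] χ = powIrr (hk.pow_left i) χ := by
    intro i χ
    apply Subtype.ext
    funext x
    rw [powIrr_iterate, powIrr_apply]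
  have hXsub : (Finset.range T).image (fun i => (powIrr hk)^[i] χ) ⊆ X := by
    intro φ hφ
    rw [Finset.mem_image] at hφ
    obtain ⟨i, _, rfl⟩ := hφ
    rw [hX, Finset.mem_filter]
    refine ⟨Finset.mem_univ _, fun h => hχ ?_⟩
    have h1 : (powIrr hk)^[i] (powIrr hk χ) = (powIrr hk)^[i] χ := by
      rw [← Function.iterate_succ_apply, Function.iterate_succ_apply']
      exact h
    exact (powIrr_injective hk).iterate i h1
  have hinj : Set.InjOn (fun i => (powIrr hk)^[i] χ) (Finset.range T : Set ℕ) := by
    have key : ∀ i j : ℕ, i < j → j < T → (powIrr hk)^[i] χ ≠ (powIrr hk)^[j] χ := by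
      intro i j hij hjT h
      have h1 : (powIrr hk)^[j - i] χ = χ := by
        have h2 : (powIrr hk)^[j] χ = (powIrr hk)^[i] ((powIrr hk)^[j - i] χ) := by
          rw [← Function.iterate_add_apply]; congr 2; omega
        rw [h2] at h
        exact ((powIrr_injective hk).iterate i h).symm
      have hd0 : 0 < j - i := by omega
      have hdT : j - i < T := by omega
      rw [hiter] at h1
      -- the fixed sets agree
      have h3 : Nat.card {χ : IrrCharacter S // powIrr (hk.pow_left (j - i)) χ = χ} =
          Nat.card {χ : IrrCharacter S // powIrr hk χ = χ} := by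
        rw [hcardfix, card_fixed hk]
        exact Nat.card_congr (Equiv.subtypeEquivRight (hfixC _ hd0 hdT))
      rw [card_sub (fun χ : IrrCharacter S => powIrr hk χ = χ),
        card_sub (fun χ : IrrCharacter S => powIrr (hk.pow_left (j - i)) χ = χ)] at h3
      have h4 : (Finset.univ.filter fun χ : IrrCharacter S => powIrr hk χ = χ) ⊆
          (Finset.univ.filter fun χ : IrrCharacter S => powIrr (hk.pow_left (j - i)) χ = χ) := by
        intro φ hφ
        rw [Finset.mem_filter] at hφ ⊢
        refine ⟨Finset.mem_univ _, ?_⟩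
        rw [← hiter]
        exact Function.iterate_fixed hφ.2 _
      have h5 := Finset.eq_of_subset_of_card_le h4 h3.le
      have h6 : χ ∈ (Finset.univ.filter fun χ : IrrCharacter S => powIrr hk χ = χ) := by
        rw [h5, Finset.mem_filter]; exact ⟨Finset.mem_univ _, h1⟩
      rw [Finset.mem_filter] at h6
      exact hχ h6.2
    intro i hi j hj hij
    simp only [Finset.coe_range, Set.mem_Iio] at hi hj
    rcases lt_trichotomy i j with h | h | h
    · exact absurd hij (key i j h hj)
    · exact h
    · exact absurd hij.symm (key j i h hi)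
  have hcardim : ((Finset.range T).image (fun i => (powIrr hk)^[i] χ)).card = T := by
    rw [Finset.card_image_of_injOn hinj, Finset.card_range]
  have hXeq : (Finset.range T).image (fun i => (powIrr hk)^[i] χ) = X := by
    apply Finset.eq_of_subset_of_card_le hXsub
    rw [hcardim, hXA]; exact hAT
  have hψX : ψ ∈ X := by rw [hX, Finset.mem_filter]; exact ⟨Finset.mem_univ _, hψ⟩
  rw [← hXeq, Finset.mem_image] at hψX
  obtain ⟨i, _, rfl⟩ := hψX
  show _ = charDegree (((powIrr hk)^[i] χ : IrrCharacter S) : S → ℂ)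
  rw [hiter, charDegree_powIrr]

end H82.PrimeDeg
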