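import Cfsg.Agent.Lib.H82.PrimeDeg3
import Cfsg.Agent.Lib.H82.Rel5

/-!
# Groups whose nonlinear irreducible characters have prime degree: main theorem
-/

set_option autoImplicit false
set_option linter.style.haveILetI false

namespace H82.PrimeDeg

open Cfsg H18.CharBasic H18.CharOrtho H18.CharInd H18.CharQuot H18.CharPerm H31.Clifford
open H82.Deg H82.Simple H82.Quot H82.Cliff H82.Const H78.Galois
open scoped ComplexConjugate Pointwise

universe u

variable {S : Type u} [Group S]

/-- A character of degree `s < q`, constant on the nonidentity elements of a subgroup of order `q`,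
has degree `q - 1` or contains the subgroup in its kernel. -/
theorem const_case [Finite S] {q : ℕ} [hq : Fact q.Prime] (P : Subgroup S) (hP : Nat.card P = q)
    (χ : IrrCharacter S) (hs : charDegree (χ : S → ℂ) < q) {c : ℂ}
    (hc : ∀ x ∈ P, x ≠ 1 → (χ : S → ℂ) x = c) :
    charDegree (χ : S → ℂ) = q - 1 ∨ c = (χ : S → ℂ) 1 := by
  classical
  letI := Fintype.ofFinite S
  letI := Fintype.ofFinite P
  haveI : IsCyclic P := isCyclic_of_prime_card hP
  haveI : Nontrivial P := by
    rw [← Finite.one_lt_card_iff_nontrivial, hP]; exact hq.out.one_lt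
  obtain ⟨x, hx⟩ := exists_ne (1 : P)
  have hnc : x ∉ commutator P := by
    have h1 : commutator P = ⊥ := by
      rw [_root_.commutator, Subgroup.commutator_eq_bot_iff_le_centralizer]
      intro a _
      rw [Subgroup.mem_centralizer_iff]
      intro b _
      exact IsCyclic.commutative.is_comm.comm b a
    rw [h1, Subgroup.mem_bot]
    exact hx
  obtain ⟨μ, hμ⟩ := exists_hom_ne_one hnc
  have hμ1 : (fun z : P => (μ z : ℂ)) ≠ fun _ => 1 := by
    intro h
    exact hμ (Units.ext (congrFun h x))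
  have hcard0 : (Nat.card P : ℂ) ≠ 0 := by exact_mod_cast Nat.card_pos.ne'
  set s := charDegree (χ : S → ℂ) with hsdef
  have hfun : (fun z : P => (χ : S → ℂ) z) =
      (fun z : P => if z = 1 then ((s : ℂ) - c) else 0) + c • (fun _ : P => (1 : ℂ)) := by
    funext z
    simp only [Pi.add_apply, Pi.smul_apply, smul_eq_mul, mul_one]
    split_ifs with hz
    · rw [hz, OneMemClass.coe_one, ← coe_charDegree' χ]; ring
    · rw [hc z z.2 (fun h => hz (Subtype.ext h))]; ring
  have hinner : ∀ φ : P → ℂ, φ 1 = 1 → classInner (fun z : P => if z = 1 then ((s : ℂ) - c) else 0) φ =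
      ((s : ℂ) - c) / Nat.card P := by
    intro φ hφ
    unfold classInner
    rw [Finset.sum_eq_single (1 : P)]
    · simp only [if_true, hφ, map_one, mul_one]
      field_simp
    · intro b _ hb; simp only [if_neg hb, zero_mul]
    · intro h2; exact absurd (Finset.mem_univ _) h2
  have hchar := isCharacter_restrict P (isCharacter_of_isIrr χ.2)
  obtain ⟨a, ha⟩ := inner_char_natCast hchar (isCharacter_one (G := P))
  obtain ⟨b, hb⟩ := inner_char_natCast hchar (isCharacter_of_isIrr (isIrrCharacter_of_hom μ))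
  rw [hfun, H18.CharOrtho.inner_add_left, H18.CharOrtho.inner_smul_left, hinner _ rfl,
    inner_irr_self isIrrCharacter_one, mul_one] at ha
  rw [hfun, H18.CharOrtho.inner_add_left, H18.CharOrtho.inner_smul_left, hinner _ (by simp),
    inner_irr_ne isIrrCharacter_one (isIrrCharacter_of_hom μ) (Ne.symm hμ1), mul_zero, add_zero] at hb
  rw [hb] at ha
  rw [hP] at hb
  have hq0 : (q : ℂ) ≠ 0 := by exact_mod_cast hq.out.ne_zero
  rw [div_eq_iff hq0] at hb
  -- `s = a + (q-1) b`
  have h1 : (s : ℂ) + b = a + q * b := by linear_combination hb + ha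
  have h2 : s + b = a + q * b := by exact_mod_cast h1
  rcases Nat.eq_zero_or_pos b with h3 | h3
  · right
    rw [h3, Nat.cast_zero, zero_mul, sub_eq_zero] at hb
    rw [← hb, hsdef, coe_charDegree' χ]
  · left
    have hq1 := hq.out.one_lt
    obtain ⟨t, ht⟩ : ∃ t, q = t + 1 := ⟨q - 1, by omega⟩
    rw [ht] at h2 hs ⊢
    have h4 : s = a + t * b := by nlinarith
    have h5 : t ≤ t * b := Nat.le_mul_of_pos_right t h3
    omega

theorem simple_false [Finite S] [IsSimpleGroup S] (hnp : ¬ (Nat.card S).Prime)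
    (hdeg : ∀ χ : IrrCharacter S, χ ≠ triv S → (charDegree (χ : S → ℂ)).Prime) : False := by
  classical
  letI := Fintype.ofFinite (IrrCharacter S)
  -- a degree at least five
  obtain ⟨χ₀, hχ₀, hd₀⟩ : ∃ χ : IrrCharacter S, χ ≠ triv S ∧ 5 ≤ charDegree (χ : S → ℂ) := by
    by_contra hcon
    push Not at hcon
    apply hnp
    apply H82.TwoPrimes.simple_case 2 3
    rintro r ⟨hr, d, ⟨χ, rfl⟩, hrd⟩
    have hχ : χ ≠ triv S := by
      rintro rfl
      rw [charDegree_triv] at hrd
      exact hr.one_lt.ne' (Nat.dvd_one.1 hrd)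
    have h1 := hdeg χ hχ
    have h2 := hcon χ hχ
    have h3 : r = charDegree (χ : S → ℂ) := (Nat.prime_dvd_prime_iff_eq hr h1).1 hrd
    rw [h3]
    have h4 := h1.two_le
    have h5 : charDegree (χ : S → ℂ) ≠ 4 := by
      intro h6; rw [h6] at h1; exact absurd h1 (by norm_num)
    omega
  -- maximal degree
  obtain ⟨χm, hχm, hmax⟩ := Finset.exists_max_image
    (Finset.univ.filter (fun χ : IrrCharacter S => χ ≠ triv S))
    (fun χ => charDegree (χ : S → ℂ)) ⟨χ₀, by simp [hχ₀]⟩
  rw [Finset.mem_filter] at hχm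
  set q := charDegree (χm : S → ℂ) with hq
  have hqp : q.Prime := hdeg χm hχm.2
  haveI := Fact.mk hqp
  have hq5 : 5 ≤ q := hd₀.trans (hmax χ₀ (by simp [hχ₀]))
  obtain ⟨P⟩ : Nonempty (Sylow q S) := inferInstance
  obtain ⟨hPcard, hPcent⟩ := sylow_of_degree hnp hq.symm P
  -- the exponent
  have hcardS : Nat.card S = q * (P : Subgroup S).index := by
    rw [← (P : Subgroup S).card_mul_index, hPcard]
  have hcop : q.Coprime (P : Subgroup S).index :=
    (Nat.Prime.coprime_iff_not_dvd hqp).2 P.not_dvd_index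
  obtain ⟨r, hr, hri⟩ := exists_primitive q
  obtain ⟨k, hk1, hk2⟩ := Nat.chineseRemainder hcop r 1
  have hkq : k.Coprime q := by
    rw [Nat.coprime_comm, Nat.Prime.coprime_iff_not_dvd hqp]
    intro h
    apply hr
    exact (Nat.modEq_zero_iff_dvd.1 (hk1.symm.trans (Nat.modEq_zero_iff_dvd.2 h)))
  have hkn : k.Coprime (P : Subgroup S).index := by
    have h1 := Nat.ModEq.gcd_eq hk2
    rw [Nat.gcd_one_left] at h1
    exact h1
  have hk : Nat.Coprime k (Nat.card S) := by
    rw [hcardS]; exact Nat.Coprime.mul_right hkq hkn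
  haveI hPnt : Nontrivial (P : Subgroup S) := by
    rw [← Finite.one_lt_card_iff_nontrivial, hPcard]; exact hqp.one_lt
  obtain ⟨⟨g, hgP⟩, hg1'⟩ := exists_ne (1 : (P : Subgroup S))
  have hg1 : g ≠ 1 := fun h => hg1' (Subtype.ext h)
  have hog : orderOf g = q := by
    have h1 : orderOf g ∣ q := by
      rw [← hPcard]; exact Subgroup.orderOf_dvd_natCard _ hgP
    rcases (Nat.dvd_prime hqp).1 h1 with h2 | h2
    · exact absurd (orderOf_eq_one_iff.1 h2) hg1
    · exact h2
  have hpowk : ∀ i : ℕ, ¬ q ∣ i → ∃ j : ℕ, g ^ i = g ^ k ^ j := by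
    intro i hi
    obtain ⟨j, hj⟩ := hri i hi
    refine ⟨j, ?_⟩
    rw [pow_eq_pow_iff_modEq, hog]
    exact hj.trans (hk1.symm.pow j)
  have hF1 : ∀ x : S, ¬ q ∣ orderOf x → x ^ k = x := by
    intro x hx
    have h1 : orderOf x ∣ (P : Subgroup S).index := by
      have h2 : orderOf x ∣ q * (P : Subgroup S).index := by
        rw [← hcardS]; exact orderOf_dvd_natCard x
      exact (Nat.Coprime.symm ((Nat.Prime.coprime_iff_not_dvd hqp).2 hx)).dvd_of_dvd_mul_left h2
    conv_rhs => rw [← pow_one x]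
    exact pow_eq_pow_iff_modEq.2 (hk2.of_dvd h1)
  have hF2 : ∀ x : S, q ∣ orderOf x → ∃ j : ℕ, IsConj x (g ^ k ^ j) := by
    intro x hx
    obtain ⟨_, i, hi, hxi⟩ := exists_conj_pow P hPcard hPcent hgP hg1 hx
    obtain ⟨j, hj⟩ := hpowk i hi
    exact ⟨j, by rw [← hj]; exact hxi⟩
  -- characters of other degree are moved
  have hmoved : ∀ χ : IrrCharacter S, χ ≠ triv S → charDegree (χ : S → ℂ) ≠ q → powIrr hk χ ≠ χ := by
    intro χ hχ hne hfix
    have hlt : charDegree (χ : S → ℂ) < q := lt_of_le_of_ne (hmax χ (by simp [hχ])) hne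
    have hvals : ∀ x ∈ (P : Subgroup S), x ≠ 1 → (χ : S → ℂ) x = (χ : S → ℂ) g := by
      intro x hx hx1
      have hgen : Subgroup.zpowers g = P := by
        apply Subgroup.eq_of_le_of_card_ge (Subgroup.zpowers_le.2 hgP)
        rw [Nat.card_zpowers, hog, hPcard]
      rw [← hgen, ← mem_powers_iff_mem_zpowers, Submonoid.mem_powers_iff] at hx
      obtain ⟨i, rfl⟩ := hx
      have hi : ¬ q ∣ i := by
        intro h; apply hx1; rw [← orderOf_dvd_iff_pow_eq_one, hog]; exact h
      obtain ⟨j, hj⟩ := hpowk i hi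
      rw [hj]
      have h1 := Function.iterate_fixed hfix j
      have h2 := congrFun (congrArg Subtype.val h1) g
      rw [powIrr_iterate] at h2
      exact h2
    rcases const_case (P : Subgroup S) hPcard χ hlt hvals with h | h
    · have h1 := hdeg χ hχ
      rw [h] at h1
      have h2 : Odd q := hqp.odd_of_ne_two (by omega)
      obtain ⟨m, hm⟩ := h2
      have h3 : 2 ∣ q - 1 := ⟨m, by omega⟩
      have h4 := (Nat.prime_dvd_prime_iff_eq Nat.prime_two h1).1 h3
      omega
    · have h1 : g ∈ ker χ := mem_ker.2 h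
      rw [ker_eq_bot_of_simple inferInstance hχ] at h1
      exact hg1 (Subgroup.mem_bot.1 h1)
  -- conclude
  apply hnp
  by_cases hex : ∃ χ : IrrCharacter S, χ ≠ triv S ∧ charDegree (χ : S → ℂ) ≠ q
  · obtain ⟨χ, hχ, hne⟩ := hex
    apply H82.TwoPrimes.simple_case (charDegree (χ : S → ℂ)) q
    rintro p ⟨hp, d, ⟨ψ, rfl⟩, hpd⟩
    have hψ : ψ ≠ triv S := by
      rintro rfl
      rw [charDegree_triv] at hpd
      exact hp.one_lt.ne' (Nat.dvd_one.1 hpd)
    have h3 : p = charDegree (ψ : S → ℂ) := (Nat.prime_dvd_prime_iff_eq hp (hdeg ψ hψ)).1 hpd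
    by_cases h4 : charDegree (ψ : S → ℂ) = q
    · right; rw [h3, h4]
    · left
      rw [h3]
      exact (same_degree_of_moved hk hF1 hF2 (hmoved χ hχ hne) (hmoved ψ hψ h4)).symm
  · push Not at hex
    apply H82.TwoPrimes.simple_case q q
    rintro p ⟨hp, d, ⟨ψ, rfl⟩, hpd⟩
    have hψ : ψ ≠ triv S := by
      rintro rfl
      rw [charDegree_triv] at hpd
      exact hp.one_lt.ne' (Nat.dvd_one.1 hpd)
    have h3 : p = charDegree (ψ : S → ℂ) := (Nat.prime_dvd_prime_iff_eq hp (hdeg ψ hψ)).1 hpd
    left; rw [h3]; exact hex ψ hψ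

/-- If all nonlinear irreducible characters have prime degree then the group is solvable. -/
theorem isSolvable : ∀ (n : ℕ) (G : Type u) [Group G] [Finite G], Nat.card G = n →
    (∀ d ∈ charDegrees G, d = 1 ∨ d.Prime) → Group.IsSolvable G := by
  intro n
  induction n using Nat.strong_induction_on with
  | _ n ih =>
  intro G _ _ hcard h
  by_cases htriv : Subsingleton G
  · infer_instance
  rw [not_subsingleton_iff_nontrivial] at htriv
  by_cases hsimple : IsSimpleGroup G
  · by_cases hp : (Nat.card G).Prime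
    · haveI : Fact (Nat.card G).Prime := ⟨hp⟩
      have hcyc : IsCyclic G := isCyclic_of_prime_card rfl
      have hcomm : ∀ a b : G, a * b = b * a := hcyc.commutative.is_comm.comm
      exact Group.isSolvable_of_comm hcomm
    · exact (simple_false hp fun χ hχ =>
        (h _ ⟨χ, rfl⟩).resolve_left (H82.BZero.degree_ne_one hp hχ)).elim
  · have hex : ∃ N : Subgroup G, N.Normal ∧ N ≠ ⊥ ∧ N ≠ ⊤ := by
      by_contra hcon
      push Not at hcon
      apply hsimple
      exact ⟨fun H hH => by
        by_cases h1 : H = ⊥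
        · exact Or.inl h1
        · exact Or.inr (hcon H hH h1)⟩
    obtain ⟨N, hN, hbot, htop⟩ := hex
    have hcardN : Nat.card N < n := by
      rw [← hcard]
      have := N.card_mul_index
      have h1 : N.index ≠ 1 := fun h1 => htop (Subgroup.index_eq_one.1 h1)
      have h2 : 0 < N.index := Nat.pos_of_ne_zero Subgroup.index_ne_zero_of_finite
      have h3 : 0 < Nat.card N := Nat.card_pos
      have h4 : 2 ≤ N.index := by omega
      nlinarith
    have hcardQ : Nat.card (G ⧸ N) < n := by
      rw [← hcard]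
      have := N.card_mul_index
      have h1 : Nat.card N ≠ 1 := fun h1 => hbot (Subgroup.card_eq_one.1 h1)
      have h3 : 0 < Nat.card N := Nat.card_pos
      have h2 : 0 < N.index := Nat.pos_of_ne_zero Subgroup.index_ne_zero_of_finite
      have h4 : 2 ≤ Nat.card N := by omega
      change N.index < _
      nlinarith
    haveI := ih _ hcardN N rfl (by
      rintro d ⟨θ, rfl⟩
      obtain ⟨χ, hχ⟩ := exists_liesOver N θ
      have h1 := degree_dvd_of_liesOver' N χ θ hχ
      rcases h _ ⟨χ, rfl⟩ with h2 | h2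
      · rw [h2] at h1; exact Or.inl (Nat.dvd_one.1 h1)
      · rcases (Nat.dvd_prime h2).1 h1 with h3 | h3
        · exact Or.inl h3
        · right; rw [h3]; exact h2)
    haveI := ih _ hcardQ (G ⧸ N) rfl (by
      rintro d ⟨χ, rfl⟩
      exact h _ ⟨⟨_, isIrrCharacter_inflate N χ.2⟩, rfl⟩)
    exact Group.isSolvable_of_ker_le_range N.subtype (QuotientGroup.mk' N) (by
      rw [QuotientGroup.ker_mk', Subgroup.range_subtype])

/-- Connected prime degrees are equal. -/
theorem eq_of_conn {V : Set ℕ} (hV : ∀ d ∈ V, d.Prime) {a b : ℕ} (h : H82.Rel.Conn V a b) : a = b := by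
  obtain ⟨ha, hb, ⟨w⟩⟩ := h
  have key : ∀ {x y : V}, (commonDivisorGraph.induce V).Walk x y → x.1 = y.1 := by
    intro x y w
    induction w with
    | nil => rfl
    | @cons u v w hadj _ ih =>
      exfalso
      rw [SimpleGraph.comap_adj] at hadj
      have h1 : 1 < Nat.gcd u.1 v.1 := hadj.2
      have h2 : (u.1).Coprime v.1 := (Nat.coprime_primes (hV _ u.2) (hV _ v.2)).2 hadj.1
      rw [h2.gcd_eq_one] at h1
      exact lt_irrefl _ h1
  exact key w

theorem card_charDegrees_le {G : Type u} [Group G] [Finite G]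
    (h : ∀ d ∈ charDegrees G, d = 1 ∨ d.Prime) : Nat.card ↥(charDegrees G) ≤ 3 := by
  classical
  haveI := isSolvable _ G rfl h
  have hfin : (charDegrees G).Finite := by
    have : charDegrees G = Set.range (fun χ : IrrCharacter G => charDegree (χ : G → ℂ)) := rfl
    rw [this]; exact Set.finite_range _
  rw [Nat.card_coe_set_eq, Set.ncard_eq_toFinset_card _ hfin]
  by_contra hcon
  push Not at hcon
  have h1 : 2 < (hfin.toFinset.erase 1).card := by
    have := Finset.pred_card_le_card_erase (s := hfin.toFinset) (a := 1)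
    omega
  rw [Finset.two_lt_card_iff] at h1
  obtain ⟨a, b, c, ha, hb, hc, hab, hac, hbc⟩ := h1
  simp only [Finset.mem_erase, Set.Finite.mem_toFinset] at ha hb hc
  have ha' := H82.Rel.mem_rel_commutator.2 ⟨ha.2, ha.1⟩
  have hb' := H82.Rel.mem_rel_commutator.2 ⟨hb.2, hb.1⟩
  have hc' := H82.Rel.mem_rel_commutator.2 ⟨hc.2, hc.1⟩
  have hm := H82.Rel.solvable_card_lin (H82.Rel.commutator_ne_bot_of_rel ha')
  have hV : ∀ d ∈ relCharDegrees (commutator G), d.Prime := by
    intro d hd
    have h2 := H82.Rel.mem_rel_commutator.1 hd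
    exact (h d h2.1).resolve_left h2.2
  rcases H82.Rel.three le_rfl hm ha' hb' hc' with h2 | h2 | h2
  · exact hab (eq_of_conn hV h2)
  · exact hac (eq_of_conn hV h2)
  · exact hbc (eq_of_conn hV h2)

end H82.PrimeDeg
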