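import Mathlib
import Cfsg.Agent.Lib.H82.RM1
import Cfsg.Agent.Lib.H77.CentralInv
import Cfsg.Agent.Lib.H4.CenterIndex
import Cfsg.Agent.Lib.H77.IndDef

/-!
# Counting characters over a central character by commuting pairs; Clifford correspondence count
-/

set_option autoImplicit false
set_option linter.unusedSectionVars false
set_option linter.style.haveILetI false

namespace H82.RM

open Cfsg H18.CharBasic H18.CharOrtho H18.CharInd H18.CharQuot H31.Clifford
open scoped ComplexConjugate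

universe u v w

theorem conj_hom {Z : Type u} [Group Z] [Finite Z] (m : Z →* ℂˣ) (z : Z) :
    conj (m z : ℂ) = ((m z⁻¹ : ℂˣ) : ℂ) := by
  have h1 : (m z : ℂ) ^ (Nat.card Z) = 1 := by
    rw [← Units.val_pow_eq_pow_val, ← map_pow, pow_card_eq_one', map_one, Units.val_one]
  have h2 : ‖(m z : ℂ)‖ = 1 := Complex.norm_eq_one_of_pow_eq_one h1 Nat.card_pos.ne'
  have h3 : (m z : ℂ) * conj (m z : ℂ) = 1 := by
    rw [Complex.mul_conj, Complex.normSq_eq_norm_sq, h2]; norm_num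
  have h4 : (m z : ℂ) * ((m z⁻¹ : ℂˣ) : ℂ) = 1 := by
    rw [← Units.val_mul, ← map_mul, mul_inv_cancel, map_one, Units.val_one]
  exact mul_left_cancel₀ (m z).ne_zero (h3.trans h4.symm)

theorem count_central {B : Type u} [Group B] [Fintype B] (Z : Subgroup B) (hZ : Z ≤ Subgroup.center B)
    (m : Z →* ℂˣ) :
    (Nat.card {δ : IrrCharacter B // ∀ z : Z, (δ : B → ℂ) z = (δ : B → ℂ) 1 * m z} : ℂ) *
      ((Nat.card B : ℂ) * Nat.card Z) =
    ∑ x : B, ∑ y : B, extendByZero Z (fun z => (m z : ℂ)) (x * y * x⁻¹ * y⁻¹) := by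
  classical
  letI := Fintype.ofFinite Z
  letI := Fintype.ofFinite (IrrCharacter B)
  have hcen : ∀ z ∈ Z, ∀ x : B, z * x = x * z := fun z hz x =>
    (Subgroup.mem_center_iff.mp (hZ hz) x).symm
  -- the indicator
  have hind : ∀ δ : IrrCharacter B, ∑ z : Z, conj (m z : ℂ) * ((δ : B → ℂ) z / (δ : B → ℂ) 1) =
      if (∀ z : Z, (δ : B → ℂ) z = (δ : B → ℂ) 1 * m z) then (Nat.card Z : ℂ) else 0 := by
    intro δ
    have h1 := irr_one_ne_zero δ.2
    split_ifs with h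
    · rw [Finset.sum_congr rfl (g := fun _ => (1 : ℂ))]
      · simp [Nat.card_eq_fintype_card]
      · intro z _
        rw [h z, mul_div_cancel_left₀ _ h1, conj_hom, ← Units.val_mul, ← map_mul, inv_mul_cancel,
          map_one, Units.val_one]
    · push Not at h
      obtain ⟨z₀, hz₀⟩ := h
      set S := ∑ z : Z, conj (m z : ℂ) * ((δ : B → ℂ) z / (δ : B → ℂ) 1) with hS
      have h2 : S = (conj (m z₀ : ℂ) * ((δ : B → ℂ) z₀ / (δ : B → ℂ) 1)) * S := by
        rw [hS, Finset.mul_sum]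
        rw [← Equiv.sum_comp (Equiv.mulLeft z₀)]
        refine Finset.sum_congr rfl fun z _ => ?_
        have h3 := H77.CentralInv.central_mul δ.2 (hcen z₀ z₀.2) (z : B)
        rw [Equiv.coe_mulLeft, Subgroup.coe_mul, h3, map_mul, Units.val_mul, map_mul]
        field_simp
      have h3 : (1 - conj (m z₀ : ℂ) * ((δ : B → ℂ) z₀ / (δ : B → ℂ) 1)) * S = 0 := by
        rw [sub_mul, one_mul, ← h2, sub_self]
      rcases mul_eq_zero.mp h3 with h4 | h4
      · exfalso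
        apply hz₀
        have h5 : conj (m z₀ : ℂ) * (m z₀ : ℂ) = 1 := by
          rw [conj_hom, ← Units.val_mul, ← map_mul, inv_mul_cancel, map_one, Units.val_one]
        have h6 : conj (m z₀ : ℂ) * ((δ : B → ℂ) z₀ / (δ : B → ℂ) 1) = 1 := (sub_eq_zero.mp h4).symm
        have h7 : conj (m z₀ : ℂ) ≠ 0 := left_ne_zero_of_mul_eq_one h5
        have h8 : (δ : B → ℂ) z₀ / (δ : B → ℂ) 1 = m z₀ :=
          mul_left_cancel₀ h7 (h6.trans h5.symm)
        rw [← h8]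
        field_simp
      · exact h4
  have hcount : (Nat.card {δ : IrrCharacter B // ∀ z : Z, (δ : B → ℂ) z = (δ : B → ℂ) 1 * m z} : ℂ) *
      Nat.card Z = ∑ δ : IrrCharacter B, ∑ z : Z, conj (m z : ℂ) * ((δ : B → ℂ) z / (δ : B → ℂ) 1) := by
    rw [Finset.sum_congr rfl (fun δ _ => hind δ), ← Finset.sum_filter, Finset.sum_const,
      nsmul_eq_mul, Nat.card_eq_fintype_card, Fintype.card_subtype]
  have hconv : ∀ (δ : IrrCharacter B) (z : B), (Nat.card B : ℂ) * ((δ : B → ℂ) z / (δ : B → ℂ) 1) =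
      ∑ x : B, (δ : B → ℂ) x * conj ((δ : B → ℂ) (z⁻¹ * x)) := by
    intro δ z
    have h1 := H77.Conv.sum_mul_irr (isClassFunction_of_isIrr δ.2) δ.2 z
    rw [inner_irr_self δ.2, one_mul] at h1
    rw [← mul_div_assoc, ← h1]
    refine Finset.sum_congr rfl fun x _ => ?_
    rw [← char_inv (isCharacter_of_isIrr δ.2)]
    congr 2
    group
  have h1 : (Nat.card {δ : IrrCharacter B // ∀ z : Z, (δ : B → ℂ) z = (δ : B → ℂ) 1 * m z} : ℂ) *
      ((Nat.card B : ℂ) * Nat.card Z) =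
      ∑ z : Z, ∑ x : B, conj (m z : ℂ) * (Nat.card {y : B // y * x * y⁻¹ = (z : B)⁻¹ * x} : ℂ) := by
    rw [mul_comm (Nat.card B : ℂ), ← mul_assoc, hcount, Finset.sum_mul]
    have h2 : ∀ δ : IrrCharacter B,
        (∑ z : Z, conj (m z : ℂ) * ((δ : B → ℂ) z / (δ : B → ℂ) 1)) * (Nat.card B : ℂ) =
        ∑ z : Z, ∑ x : B, conj (m z : ℂ) * ((δ : B → ℂ) x * conj ((δ : B → ℂ) ((z : B)⁻¹ * x))) := by
      intro δ
      rw [Finset.sum_mul]
      refine Finset.sum_congr rfl fun z _ => ?_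
      rw [mul_assoc, mul_comm _ (Nat.card B : ℂ), hconv, Finset.mul_sum]
    rw [Finset.sum_congr rfl (fun δ _ => h2 δ), Finset.sum_comm]
    refine Finset.sum_congr rfl fun z _ => ?_
    rw [Finset.sum_comm]
    refine Finset.sum_congr rfl fun x _ => ?_
    rw [← Finset.mul_sum, H77.Conv.column_transporter]
  rw [h1, Finset.sum_comm]
  have h3 : ∀ x : B, ∑ z : Z, conj (m z : ℂ) * (Nat.card {y : B // y * x * y⁻¹ = (z : B)⁻¹ * x} : ℂ) =
      ∑ y : B, extendByZero Z (fun z => (m z : ℂ)) (y * x * y⁻¹ * x⁻¹) := by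
    intro x
    have h4 : ∀ z : Z, (Nat.card {y : B // y * x * y⁻¹ = (z : B)⁻¹ * x} : ℂ) =
        ∑ y : B, if y * x * y⁻¹ * x⁻¹ = (z : B)⁻¹ then (1 : ℂ) else 0 := by
      intro z
      rw [← Finset.sum_filter, Finset.sum_const, nsmul_eq_mul, mul_one, Nat.card_eq_fintype_card,
        Fintype.card_subtype]
      congr 2
      ext y
      simp only [Finset.mem_filter, Finset.mem_univ, true_and]
      exact mul_inv_eq_iff_eq_mul.symm
    rw [Finset.sum_congr rfl (fun z _ => by rw [h4 z, Finset.mul_sum]), Finset.sum_comm]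
    refine Finset.sum_congr rfl fun y _ => ?_
    by_cases hy : y * x * y⁻¹ * x⁻¹ ∈ Z
    · rw [ext_mem Z _ hy]
      have hy' : (y * x * y⁻¹ * x⁻¹)⁻¹ ∈ Z := Z.inv_mem hy
      rw [Finset.sum_eq_single (⟨(y * x * y⁻¹ * x⁻¹)⁻¹, hy'⟩ : Z)]
      · simp only [inv_inv, if_true, mul_one]
        rw [conj_hom]
        congr 3
        apply Subtype.ext
        simp
      · intro z _ hz
        rw [if_neg, mul_zero]
        intro h5
        apply hz
        apply Subtype.ext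
        show (z : B) = (y * x * y⁻¹ * x⁻¹)⁻¹
        rw [h5, inv_inv]
      · intro h5
        exact absurd (Finset.mem_univ _) h5
    · rw [ext_notMem Z _ hy]
      apply Finset.sum_eq_zero
      intro z _
      rw [if_neg, mul_zero]
      intro h5
      exact hy (h5 ▸ Z.inv_mem z.2)
  rw [Finset.sum_congr rfl (fun x _ => h3 x), Finset.sum_comm]

theorem ndvd_mul {p : ℕ} (hp : p.Prime ∨ p = 0) {a b : ℕ} :
    ¬ p ∣ a * b ↔ ¬ p ∣ a ∧ ¬ p ∣ b := by
  rcases hp with hp | rfl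
  · rw [hp.dvd_mul, not_or]
  · rw [zero_dvd_iff, zero_dvd_iff, zero_dvd_iff, Nat.mul_eq_zero, not_or]

/-- Clifford correspondence, counting version. -/
theorem cnt_inertia {p : ℕ} (hp : p.Prime ∨ p = 0) {G : Type u} [Group G] [Finite G] (L : Subgroup G)
    [L.Normal] {ν : L → ℂ} (hν : IsIrrCharacter L ν) (T : Subgroup G) (hLT : L ≤ T)
    (hT : ∀ g : G, g ∈ T ↔ conjFunN L g ν = ν) (hidx : ¬ p ∣ T.index) :
    cnt p L.subtype ν = cnt p (Subgroup.inclusion hLT) ν := by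
  classical
  letI := Fintype.ofFinite G
  letI := Fintype.ofFinite L
  letI := Fintype.ofFinite T
  have hdeg : ∀ ψ : IrrCharacter T, IsIrrCharacter G (indFun T (ψ : T → ℂ)) →
      charDegree (indFun T (ψ : T → ℂ)) = T.index * charDegree (ψ : T → ℂ) := by
    intro ψ _
    apply H77.PQuot.charDegree_eq_of
    rw [indFun_one]
    push_cast
    rw [H77.PQuot.cast_irr]
  have hund : ∀ ψ : T → ℂ, Und (Subgroup.inclusion hLT) ψ ν ↔ classInner (resH hLT ψ) ν ≠ 0 :=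
    fun ψ => und_iff (Subgroup.inclusion hLT) ψ ν
  unfold cnt
  symm
  have hex : ∀ ψ : {χ : IrrCharacter T // ¬ p ∣ charDegree (χ : T → ℂ) ∧
      Und (Subgroup.inclusion hLT) (χ : T → ℂ) ν},
      ∃ χ : {χ : IrrCharacter G // ¬ p ∣ charDegree (χ : G → ℂ) ∧ Und L.subtype (χ : G → ℂ) ν},
        (χ.1 : G → ℂ) = indFun T (ψ.1 : T → ℂ) := by
    rintro ⟨ψ, hψ1, hψ2⟩
    have hc := (hund ψ).1 hψ2
    obtain ⟨h1, h2⟩ := corr_irr L T hLT hν hT ψ.2 hc
    refine ⟨⟨⟨indFun T (ψ : T → ℂ), h1⟩, ?_, ?_⟩, rfl⟩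
    · show ¬ p ∣ charDegree (indFun T (ψ : T → ℂ))
      rw [hdeg ψ h1, ndvd_mul hp]
      exact ⟨hidx, hψ1⟩
    · rw [und_iff]
      intro h3
      exact hc (h2.symm.trans h3)
  choose Φ hΦ using hex
  refine Nat.card_congr (Equiv.ofBijective Φ ⟨?_, ?_⟩)
  · intro ψ ψ' h
    have h1 : indFun T (ψ.1 : T → ℂ) = indFun T (ψ'.1 : T → ℂ) := by
      rw [← hΦ, ← hΦ, h]
    have h2 : classInner (resH hLT (ψ.1 : T → ℂ)) ν ≠ 0 := (hund (ψ.1 : T → ℂ)).1 ψ.2.2
    have h3 : classInner (resH hLT (ψ'.1 : T → ℂ)) ν ≠ 0 := (hund (ψ'.1 : T → ℂ)).1 ψ'.2.2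
    apply Subtype.ext
    apply Subtype.ext
    exact corr_inj L T hLT hν hT ψ.1.2 ψ'.1.2 h2 h3 h1
  · rintro ⟨χ, hχ1, hχ2⟩
    have hχ2' : classInner (fun l : L => (χ : G → ℂ) l) ν ≠ 0 :=
      (und_iff L.subtype (χ : G → ℂ) ν).1 hχ2
    obtain ⟨ψ, hψ, hψν, hind, _⟩ := H4.CenterIndex.exists_corr L χ.2 hν hχ2' T hLT hT
    have h1 : charDegree (indFun T ψ) = T.index * charDegree ψ :=
      hdeg ⟨ψ, hψ⟩ (by rw [show indFun T ψ = χ from hind]; exact χ.2)
    have h2 : ¬ p ∣ charDegree ψ := by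
      intro hd
      apply hχ1
      rw [← hind, h1]
      exact Dvd.dvd.mul_left hd _
    refine ⟨⟨⟨ψ, hψ⟩, h2, (hund ψ).2 hψν⟩, ?_⟩
    apply Subtype.ext
    apply Subtype.ext
    rw [hΦ]
    exact hind

end H82.RM
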