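import Mathlib
import Cfsg.Agent.Lib.H82.RM3

/-!
# The commutator pairing inside a group
-/

set_option autoImplicit false
set_option linter.unusedSectionVars false
set_option linter.style.haveILetI false

namespace H82.RM

open Cfsg H18.CharBasic H18.CharOrtho H18.CharQuot
open scoped ComplexConjugate

universe u v w

variable {Γ : Type u} [Group Γ] [Finite Γ] {K : Subgroup Γ}

/-- conjugation automorphism -/
def cjA (K : Subgroup Γ) (x : Γ) (hx : x ∈ Subgroup.normalizer (K : Set Γ)) : MulAut K :=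
  K.normalizerMonoidHom ⟨x, hx⟩

theorem cjA_coe {x : Γ} (hx : x ∈ Subgroup.normalizer (K : Set Γ)) (k : K) :
    ((cjA K x hx k : K) : Γ) = x * k * x⁻¹ := rfl

theorem cjA_mul {x y : Γ} (hx : x ∈ Subgroup.normalizer (K : Set Γ))
    (hy : y ∈ Subgroup.normalizer (K : Set Γ)) (hxy : x * y ∈ Subgroup.normalizer (K : Set Γ)) :
    cjA K (x * y) hxy = cjA K x hx * cjA K y hy := by
  ext k
  rw [MulAut.mul_apply, cjA_coe, cjA_coe, cjA_coe]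
  group

theorem cjA_inv {x : Γ} (hx : x ∈ Subgroup.normalizer (K : Set Γ))
    (hx' : x⁻¹ ∈ Subgroup.normalizer (K : Set Γ)) : cjA K x⁻¹ hx' = (cjA K x hx)⁻¹ := by
  rw [eq_inv_iff_mul_eq_one]
  ext k
  rw [MulAut.mul_apply, cjA_coe, cjA_coe]
  simp [mul_assoc]

theorem cjA_mem {x : Γ} (hxK : x ∈ K) (hx : x ∈ Subgroup.normalizer (K : Set Γ)) :
    cjA K x hx = MulAut.conj ⟨x, hxK⟩ := by
  ext k
  rfl

theorem cjA_comm {x y : Γ} (hx : x ∈ Subgroup.normalizer (K : Set Γ))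
    (hy : y ∈ Subgroup.normalizer (K : Set Γ)) (hk : x * y * x⁻¹ * y⁻¹ ∈ K) :
    cjA K x hx * cjA K y hy * (cjA K x hx)⁻¹ * (cjA K y hy)⁻¹ = MulAut.conj ⟨_, hk⟩ := by
  have hN := Subgroup.normalizer (K : Set Γ)
  have hxy := (Subgroup.normalizer (K : Set Γ)).mul_mem hx hy
  have hx' := (Subgroup.normalizer (K : Set Γ)).inv_mem hx
  have hy' := (Subgroup.normalizer (K : Set Γ)).inv_mem hy
  have h3 := (Subgroup.normalizer (K : Set Γ)).mul_mem hxy hx'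
  have h4 := (Subgroup.normalizer (K : Set Γ)).mul_mem h3 hy'
  rw [← cjA_mem hk h4, cjA_mul h3 hy' h4, cjA_mul hxy hx' h3, cjA_mul hx hy hxy, cjA_inv hx hx',
    cjA_inv hy hy']

/-- `x` normalizes `K` and fixes `θ`. -/
def Stab (K : Subgroup Γ) (θ : K → ℂ) (x : Γ) : Prop :=
  ∃ hx : x ∈ Subgroup.normalizer (K : Set Γ), ∀ k, θ (cjA K x hx k) = θ k

theorem Stab.mul {θ : K → ℂ} {x y : Γ} (hx : Stab K θ x) (hy : Stab K θ y) : Stab K θ (x * y) := by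
  obtain ⟨h1, h2⟩ := hx
  obtain ⟨h3, h4⟩ := hy
  refine ⟨(Subgroup.normalizer (K : Set Γ)).mul_mem h1 h3, fun k => ?_⟩
  rw [cjA_mul h1 h3, MulAut.mul_apply, h2, h4]

theorem Stab.inv {θ : K → ℂ} {x : Γ} (hx : Stab K θ x) : Stab K θ x⁻¹ := by
  obtain ⟨h1, h2⟩ := hx
  refine ⟨(Subgroup.normalizer (K : Set Γ)).inv_mem h1, fun k => ?_⟩
  rw [cjA_inv h1]
  rw [← h2 ((cjA K x h1)⁻¹ k), MulAut.apply_inv_self]

theorem Stab.one {θ : K → ℂ} : Stab K θ 1 := by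
  refine ⟨(Subgroup.normalizer (K : Set Γ)).one_mem, fun k => ?_⟩
  congr 1
  apply Subtype.ext
  rw [cjA_coe]; simp

theorem Stab.pow {θ : K → ℂ} {x : Γ} (hx : Stab K θ x) (n : ℕ) : Stab K θ (x ^ n) := by
  induction n with
  | zero => rw [pow_zero]; exact Stab.one
  | succ n ih => rw [pow_succ]; exact ih.mul hx

theorem Stab.zpow {θ : K → ℂ} {x : Γ} (hx : Stab K θ x) (n : ℤ) : Stab K θ (x ^ n) := by
  cases n with
  | ofNat n => rw [Int.ofNat_eq_natCast, zpow_natCast]; exact hx.pow n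
  | negSucc n => rw [zpow_negSucc]; exact (hx.pow _).inv

theorem mem_normalizer_self {x : Γ} (hx : x ∈ K) : x ∈ Subgroup.normalizer (K : Set Γ) :=
  Subgroup.le_normalizer hx

theorem Stab.of_mem {θ : K → ℂ} (hθ : IsClassFunction K θ) {x : Γ} (hx : x ∈ K) : Stab K θ x := by
  refine ⟨mem_normalizer_self hx, fun k => ?_⟩
  rw [cjA_mem hx]
  exact hθ k ⟨x, hx⟩

/-- The pairing inside a group. -/
def Pr (K : Subgroup Γ) (θ : K → ℂ) (x y : Γ) (z : ℂˣ) : Prop :=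
  ∃ (hx : x ∈ Subgroup.normalizer (K : Set Γ)) (hy : y ∈ Subgroup.normalizer (K : Set Γ))
    (hk : x * y * x⁻¹ * y⁻¹ ∈ K), PR θ (cjA K x hx) (cjA K y hy) ⟨_, hk⟩ z

theorem Pr.exists {θ : K → ℂ} (hθ : IsIrrCharacter K θ) {x y : Γ} (hx : Stab K θ x) (hy : Stab K θ y)
    (hk : x * y * x⁻¹ * y⁻¹ ∈ K) : ∃ z, Pr K θ x y z := by
  obtain ⟨h1, h2⟩ := hx
  obtain ⟨h3, h4⟩ := hy
  obtain ⟨z, hz⟩ := PR.exists hθ h2 h4 (cjA_comm h1 h3 hk)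
  exact ⟨z, h1, h3, hk, hz⟩

theorem Pr.unique {θ : K → ℂ} (hθ : IsIrrCharacter K θ) {x y : Γ} (hx : Stab K θ x) (hy : Stab K θ y)
    {z z' : ℂˣ} (h : Pr K θ x y z) (h' : Pr K θ x y z') : z = z' := by
  obtain ⟨_, h2⟩ := hx
  obtain ⟨_, h4⟩ := hy
  obtain ⟨_, _, _, h5⟩ := h
  obtain ⟨_, _, _, h6⟩ := h'
  exact PR.unique hθ h2 h4 h5 h6

theorem Pr.mul_left {θ : K → ℂ} (hθ : IsIrrCharacter K θ) {x x' y : Γ} (hx : Stab K θ x)
    (hx' : Stab K θ x') (hy : Stab K θ y) {z z' : ℂˣ} (h : Pr K θ x y z) (h' : Pr K θ x' y z') :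
    Pr K θ (x * x') y (z * z') := by
  obtain ⟨_, g1⟩ := hx
  obtain ⟨_, g2⟩ := hx'
  obtain ⟨_, g3⟩ := hy
  obtain ⟨h1, h2, h3, h4⟩ := h
  obtain ⟨k1, _, k3, k4⟩ := h'
  have hm := (Subgroup.normalizer (K : Set Γ)).mul_mem h1 k1
  have e1 : x * x' * y * (x * x')⁻¹ * y⁻¹ = x * (x' * y * x'⁻¹ * y⁻¹) * x⁻¹ * (x * y * x⁻¹ * y⁻¹) := by
    group
  have hmem : x * x' * y * (x * x')⁻¹ * y⁻¹ ∈ K := by
    rw [e1]
    exact K.mul_mem ((Subgroup.mem_normalizer_iff.mp h1 _).mp k3) h3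
  refine ⟨hm, h2, hmem, ?_⟩
  have h5 := PR.mul_left hθ g1 g2 g3 h4 k4
  rw [cjA_mul h1 k1]
  convert h5 using 1
  apply Subtype.ext
  rw [Subgroup.coe_mul, cjA_coe]
  exact e1

theorem Pr.swap {θ : K → ℂ} (hθ : IsIrrCharacter K θ) {x y : Γ} (hx : Stab K θ x)
    (hy : Stab K θ y) {z : ℂˣ} (h : Pr K θ x y z) : Pr K θ y x z⁻¹ := by
  obtain ⟨_, g1⟩ := hx
  obtain ⟨_, g3⟩ := hy
  obtain ⟨h1, h2, h3, h4⟩ := h
  have e1 : y * x * y⁻¹ * x⁻¹ = (x * y * x⁻¹ * y⁻¹)⁻¹ := by group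
  refine ⟨h2, h1, by rw [e1]; exact K.inv_mem h3, ?_⟩
  convert PR.swap hθ g1 g3 h4 using 1
  apply Subtype.ext
  rw [Subgroup.coe_inv]
  exact e1

theorem Pr.self {θ : K → ℂ} (hθ : IsIrrCharacter K θ) {x : Γ} (hx : Stab K θ x) : Pr K θ x x 1 := by
  obtain ⟨h1, h2⟩ := hx
  have e1 : x * x * x⁻¹ * x⁻¹ = 1 := by group
  refine ⟨h1, h1, by rw [e1]; exact K.one_mem, ?_⟩
  convert PR.self hθ h2 using 1
  exact Subtype.ext e1

theorem Pr.mem_left {θ : K → ℂ} (hθ : IsIrrCharacter K θ) {k y : Γ} (hk : k ∈ K)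
    (hy : Stab K θ y) : Pr K θ k y 1 := by
  obtain ⟨h1, h2⟩ := hy
  have e1 : k * y * k⁻¹ * y⁻¹ = k * (y * k⁻¹ * y⁻¹) := by group
  refine ⟨mem_normalizer_self hk, h1, ?_, ?_⟩
  · rw [e1]
    exact K.mul_mem hk ((Subgroup.mem_normalizer_iff.mp h1 _).mp (K.inv_mem hk))
  · rw [cjA_mem hk]
    convert PR.conj_left hθ h2 ⟨k, hk⟩ using 1
    apply Subtype.ext
    rw [Subgroup.coe_mul, cjA_coe, Subgroup.coe_inv]
    exact e1

theorem Pr.mem_right {θ : K → ℂ} (hθ : IsIrrCharacter K θ) {k y : Γ} (hk : k ∈ K)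
    (hy : Stab K θ y) : Pr K θ y k 1 := by
  have h1 := (Pr.mem_left hθ hk hy).swap hθ (Stab.of_mem (isClassFunction_of_isIrr hθ) hk) hy
  rwa [inv_one] at h1

theorem Pr.mul_right {θ : K → ℂ} (hθ : IsIrrCharacter K θ) {x y y' : Γ} (hx : Stab K θ x)
    (hy : Stab K θ y) (hy' : Stab K θ y') {z z' : ℂˣ} (h : Pr K θ x y z) (h' : Pr K θ x y' z') :
    Pr K θ x (y * y') (z * z') := by
  have h1 := Pr.mul_left hθ hy hy' hx (h.swap hθ hx hy) (h'.swap hθ hx hy')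
  have h2 := h1.swap hθ (hy.mul hy') hx
  rwa [← mul_inv, inv_inv] at h2

theorem Pr.mul_mem {θ : K → ℂ} (hθ : IsIrrCharacter K θ) {x y k l : Γ} (hx : Stab K θ x)
    (hy : Stab K θ y) (hk : k ∈ K) (hl : l ∈ K) {z : ℂˣ} (h : Pr K θ x y z) :
    Pr K θ (x * k) (y * l) z := by
  have hcf := isClassFunction_of_isIrr hθ
  have h1 := Pr.mul_left hθ hx (Stab.of_mem hcf hk) hy h (Pr.mem_left hθ hk hy)
  have h2 := Pr.mul_right hθ (hx.mul (Stab.of_mem hcf hk)) hy (Stab.of_mem hcf hl) h1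
    (Pr.mem_right hθ hl (hx.mul (Stab.of_mem hcf hk)))
  rwa [mul_one, mul_one] at h2

theorem Pr.one_left {θ : K → ℂ} (hθ : IsIrrCharacter K θ) {y : Γ} (hy : Stab K θ y) :
    Pr K θ 1 y 1 := Pr.mem_left hθ K.one_mem hy

theorem Pr.pow_left {θ : K → ℂ} (hθ : IsIrrCharacter K θ) {x y : Γ} (hx : Stab K θ x)
    (hy : Stab K θ y) {z : ℂˣ} (h : Pr K θ x y z) (n : ℕ) : Pr K θ (x ^ n) y (z ^ n) := by
  induction n with
  | zero => rw [pow_zero, pow_zero]; exact Pr.one_left hθ hy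
  | succ n ih =>
    rw [pow_succ, pow_succ]
    exact Pr.mul_left hθ (hx.pow n) hx hy ih h

theorem Pr.inv_left {θ : K → ℂ} (hθ : IsIrrCharacter K θ) {x y : Γ} (hx : Stab K θ x)
    (hy : Stab K θ y) {z : ℂˣ} (h : Pr K θ x y z) : Pr K θ x⁻¹ y z⁻¹ := by
  obtain ⟨h1, h2, h3, _⟩ := id h
  have e1 : x⁻¹ * y * x⁻¹⁻¹ * y⁻¹ = x⁻¹ * (x * y * x⁻¹ * y⁻¹)⁻¹ * x⁻¹⁻¹ := by group
  have hmem : x⁻¹ * y * x⁻¹⁻¹ * y⁻¹ ∈ K := by
    rw [e1]
    exact (Subgroup.mem_normalizer_iff.mp ((Subgroup.normalizer (K : Set Γ)).inv_mem h1) _).mp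
      (K.inv_mem h3)
  obtain ⟨z', hz'⟩ := Pr.exists hθ hx.inv hy hmem
  have h4 := Pr.mul_left hθ hx.inv hx hy hz' h
  rw [inv_mul_cancel] at h4
  have h5 := Pr.unique hθ Stab.one hy h4 (Pr.one_left hθ hy)
  rwa [← eq_inv_iff_mul_eq_one.mpr h5]

theorem Pr.zpow_left {θ : K → ℂ} (hθ : IsIrrCharacter K θ) {x y : Γ} (hx : Stab K θ x)
    (hy : Stab K θ y) {z : ℂˣ} (h : Pr K θ x y z) (n : ℤ) : Pr K θ (x ^ n) y (z ^ n) := by
  cases n with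
  | ofNat n => rw [Int.ofNat_eq_natCast, zpow_natCast, zpow_natCast]; exact h.pow_left hθ hx hy n
  | negSucc n =>
    rw [zpow_negSucc, zpow_negSucc]
    exact (h.pow_left hθ hx hy _).inv_left hθ (hx.pow _) hy

theorem Pr.restrict {θ : K → ℂ} (hθ : IsIrrCharacter K θ) {K₁ : Subgroup Γ} (hle : K₁ ≤ K)
    (hθ₁ : IsIrrCharacter K₁ (fun k => θ ⟨k, hle k.2⟩)) {x y : Γ} (hx : Stab K θ x)
    (hy : Stab K θ y) (hx₁ : x ∈ Subgroup.normalizer (K₁ : Set Γ))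
    (hy₁ : y ∈ Subgroup.normalizer (K₁ : Set Γ)) (hk : x * y * x⁻¹ * y⁻¹ ∈ K₁) {z : ℂˣ}
    (h : Pr K θ x y z) : Pr K₁ (fun k => θ ⟨k, hle k.2⟩) x y z := by
  obtain ⟨_, g1⟩ := hx
  obtain ⟨_, g3⟩ := hy
  obtain ⟨h1, h2, h3, h4⟩ := h
  refine ⟨hx₁, hy₁, hk, ?_⟩
  exact PR.restrict (Subgroup.inclusion hle) hθ hθ₁ (fun k => rfl) (fun k => rfl) g1 g3 h4

end H82.RM
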