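import Mathlib
import Cfsg.Agent.Lib.H82.RM4
import Cfsg.Agent.Lib.H19.ProjExt3
import Cfsg.Agent.Lib.H77.CopSub
import Cfsg.Agent.Lib.H77.CopOver
import Cfsg.Agent.Lib.H82.RM2

/-!
# Glauberman correspondents inside a group; the central step
-/

set_option autoImplicit false
set_option linter.unusedSectionVars false
set_option linter.style.haveILetI false

namespace H82.RM

open Cfsg H18.CharBasic H18.CharOrtho H18.CharQuot H18.CharInd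
open scoped ComplexConjugate

universe u v w

variable {Γ : Type u} [Group Γ] [Finite Γ]

/-- `θ'` has multiplicity prime to `p` in the restriction of `θ`. -/
def Cor (p : ℕ) {C K : Subgroup Γ} (hCK : C ≤ K) (θ : K → ℂ) (θ' : C → ℂ) : Prop :=
  ∃ n : ℕ, ¬ p ∣ n ∧ ∑ᶠ c : C, θ ⟨c, hCK c.2⟩ * conj (θ' c) = n * Nat.card C

theorem cor_iff {p : ℕ} {C K : Subgroup Γ} [Fintype C] (hCK : C ≤ K) (θ : K → ℂ) (θ' : C → ℂ) :
    Cor p hCK θ θ' ↔ ∃ n : ℕ, ¬ p ∣ n ∧ classInner (fun c : C => θ ⟨c, hCK c.2⟩) θ' = n := by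
  have h0 : (Nat.card C : ℂ) ≠ 0 := card_ne_zero'
  unfold Cor classInner
  refine exists_congr fun n => and_congr_right fun _ => ?_
  rw [finsum_eq_sum_of_fintype]
  constructor
  · intro h
    rw [h]
    field_simp
  · intro h
    rw [← h]
    field_simp

theorem cor_mult {p : ℕ} {C K : Subgroup Γ} [Fintype C] [Fintype K] (hCK : C ≤ K)
    (θ : IrrCharacter K) (θ' : IrrCharacter C) :
    Cor p hCK (θ : K → ℂ) (θ' : C → ℂ) ↔ ¬ p ∣ H77.GlaubP.mult (Subgroup.inclusion hCK) θ θ' := by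
  rw [cor_iff]
  have h1 := H77.GlaubP.mult_spec (Subgroup.inclusion hCK) θ θ'
  constructor
  · rintro ⟨n, hn, h⟩
    have h2 : (n : ℂ) = H77.GlaubP.mult (Subgroup.inclusion hCK) θ θ' := h.symm.trans h1
    have h3 : n = H77.GlaubP.mult (Subgroup.inclusion hCK) θ θ' := by exact_mod_cast h2
    rwa [← h3]
  · intro h
    exact ⟨_, h, h1⟩

theorem cor_self_eq {p : ℕ} {K : Subgroup Γ} {θ θ' : K → ℂ} (hθ : IsIrrCharacter K θ)
    (hθ' : IsIrrCharacter K θ') (h : Cor p (le_refl K) θ θ') : θ = θ' := by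
  letI := Fintype.ofFinite K
  obtain ⟨n, hn, h1⟩ := (cor_iff (le_refl K) θ θ').1 h
  by_contra hne
  have h2 : classInner (fun c : K => θ ⟨c, (le_refl K) c.2⟩) θ' = 0 := inner_irr_ne hθ hθ' hne
  rw [h2] at h1
  have h3 : n = 0 := by exact_mod_cast h1.symm
  exact hn (h3 ▸ dvd_zero p)

/-- An intermediate correspondent exists. -/
theorem cor_mid {p : ℕ} {C C₁ K : Subgroup Γ} (h1 : C ≤ C₁) (h2 : C₁ ≤ K) {θ : K → ℂ} {θ' : C → ℂ}
    (hθ : IsIrrCharacter K θ) (hθ' : IsIrrCharacter C θ') (h : Cor p (h1.trans h2) θ θ')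
    : ∃ φ : C₁ → ℂ, IsIrrCharacter C₁ φ ∧ Cor p h2 θ φ ∧ Cor p h1 φ θ' := by
  classical
  letI := Fintype.ofFinite K
  letI := Fintype.ofFinite C₁
  letI := Fintype.ofFinite C
  letI := Fintype.ofFinite (IrrCharacter C₁)
  obtain ⟨n, hn, hn'⟩ := (cor_iff (h1.trans h2) θ θ').1 h
  have hres : IsCharacter C₁ (fun c : C₁ => θ ⟨c, h2 c.2⟩) :=
    isCharacter_comp (Subgroup.inclusion h2) (isCharacter_of_isIrr hθ)
  have hexp := mem_classFun_expand (isClassFunction_of_isCharacter hres)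
  have hres' : ∀ φ : IrrCharacter C₁, IsCharacter C (fun c : C => (φ : C₁ → ℂ) ⟨c, h1 c.2⟩) :=
    fun φ => isCharacter_comp (Subgroup.inclusion h1) (isCharacter_of_isIrr φ.2)
  choose a ha using fun φ : IrrCharacter C₁ => inner_char_natCast hres (isCharacter_of_isIrr φ.2)
  choose b hb using fun φ : IrrCharacter C₁ => inner_char_natCast (hres' φ) (isCharacter_of_isIrr hθ')
  have hsum : (n : ℂ) = ∑ φ : IrrCharacter C₁, (a φ : ℂ) * b φ := by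
    rw [← hn']
    have h3 : (fun c : C => θ ⟨c, (h1.trans h2) c.2⟩) =
        ∑ φ : IrrCharacter C₁, (a φ : ℂ) • (fun c : C => (φ : C₁ → ℂ) ⟨c, h1 c.2⟩) := by
      funext c
      have h4 := congrFun hexp ⟨c, h1 c.2⟩
      simp only [Finset.sum_apply, Pi.smul_apply, smul_eq_mul, ha] at h4 ⊢
      exact h4
    rw [h3, inner_sum_left]
    refine Finset.sum_congr rfl fun φ _ => ?_
    rw [H18.CharOrtho.inner_smul_left, hb]
  have hsum' : n = ∑ φ : IrrCharacter C₁, a φ * b φ := by exact_mod_cast hsum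
  by_contra hcon
  push Not at hcon
  apply hn
  rw [hsum']
  refine Finset.dvd_sum fun φ _ => ?_
  by_cases hpa : p ∣ a φ
  · exact Dvd.dvd.mul_right hpa _
  · by_cases hpb : p ∣ b φ
    · exact Dvd.dvd.mul_left hpb _
    · exact absurd ((cor_iff h1 _ _).2 ⟨b φ, hpb, hb φ⟩)
        (hcon φ φ.2 ((cor_iff h2 _ _).2 ⟨a φ, hpa, ha φ⟩))

theorem norm_of_le {K Q : Subgroup Γ} (hQK : Q ≤ Subgroup.normalizer (K : Set Γ)) :
    ∀ s ∈ Q, ∀ g ∈ K, s * g * s⁻¹ ∈ K := fun s hs g hg =>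
  (Subgroup.mem_normalizer_iff.mp (hQK hs) g).mp hg

theorem inv_of_stab {K Q : Subgroup Γ} (hQK : Q ≤ Subgroup.normalizer (K : Set Γ)) {θ : K → ℂ}
    (h : ∀ q ∈ Q, Stab K θ q) : H77.GlaubP.Inv (H77.CopSub.conjHom K Q (norm_of_le hQK)) θ := by
  intro s g
  obtain ⟨_, h1⟩ := h s s.2
  exact h1 g

theorem stab_of_inv' {K Q : Subgroup Γ} (hQK : Q ≤ Subgroup.normalizer (K : Set Γ)) {θ : K → ℂ}
    (h : H77.GlaubP.Inv (H77.CopSub.conjHom K Q (norm_of_le hQK)) θ) : ∀ q ∈ Q, Stab K θ q :=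
  fun q hq => ⟨hQK hq, fun k => h ⟨q, hq⟩ k⟩

theorem cor_unique {p : ℕ} [Fact p.Prime] {K Q C : Subgroup Γ} (hQ : IsPGroup p Q)
    (hQK : Q ≤ Subgroup.normalizer (K : Set Γ)) (hC : C = K ⊓ Subgroup.centralizer (Q : Set Γ))
    (hCK : C ≤ K) (hK : ¬ p ∣ Nat.card K) {θ : K → ℂ} (hθ : IsIrrCharacter K θ)
    (hinv : ∀ q ∈ Q, Stab K θ q) {θ' θ'' : C → ℂ} (hθ' : IsIrrCharacter C θ')
    (hθ'' : IsIrrCharacter C θ'') (h1 : Cor p hCK θ θ') (h2 : Cor p hCK θ θ'') : θ' = θ'' := by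
  letI := Fintype.ofFinite K
  letI := Fintype.ofFinite C
  have h3 := (cor_mult hCK ⟨θ, hθ⟩ ⟨θ', hθ'⟩).1 h1
  have h4 := (cor_mult hCK ⟨θ, hθ⟩ ⟨θ'', hθ''⟩).1 h2
  letI : Fintype (IrrCharacter K) := Fintype.ofFinite _
  have h5 := H77.GlaubP.corr_unique (H77.CopSub.conjHom K Q (norm_of_le hQK)) hQ
    (Subgroup.inclusion hCK) (Subgroup.inclusion_injective hCK)
    (H77.CopSub.hC_iff K Q (norm_of_le hQK) hC hCK) hK (χ := ⟨θ, hθ⟩) (inv_of_stab hQK hinv) h3 h4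
  exact congrArg Subtype.val h5

theorem cor_exists {p : ℕ} [Fact p.Prime] {K Q C : Subgroup Γ} (hQ : IsPGroup p Q)
    (hQK : Q ≤ Subgroup.normalizer (K : Set Γ)) (hC : C = K ⊓ Subgroup.centralizer (Q : Set Γ))
    (hCK : C ≤ K) (hK : ¬ p ∣ Nat.card K) {θ : K → ℂ} (hθ : IsIrrCharacter K θ) :
    ∃ θ' : C → ℂ, IsIrrCharacter C θ' ∧ Cor p hCK θ θ' := by
  letI := Fintype.ofFinite K
  letI := Fintype.ofFinite C
  letI : Fintype (IrrCharacter K) := Fintype.ofFinite _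
  obtain ⟨β, hβ⟩ := H77.GlaubP.exists_mult_not_dvd (H77.CopSub.conjHom K Q (norm_of_le hQK)) hQ
    (Subgroup.inclusion hCK) (Subgroup.inclusion_injective hCK)
    (H77.CopSub.hC_iff K Q (norm_of_le hQK) hC hCK) hK ⟨θ, hθ⟩
  exact ⟨β, β.2, (cor_mult hCK ⟨θ, hθ⟩ β).2 hβ⟩

theorem cor_exists_inv {p : ℕ} [Fact p.Prime] {K Q C : Subgroup Γ} (hQ : IsPGroup p Q)
    (hQK : Q ≤ Subgroup.normalizer (K : Set Γ)) (hC : C = K ⊓ Subgroup.centralizer (Q : Set Γ))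
    (hCK : C ≤ K) (hK : ¬ p ∣ Nat.card K) {θ' : C → ℂ} (hθ' : IsIrrCharacter C θ') :
    ∃ θ : K → ℂ, IsIrrCharacter K θ ∧ (∀ q ∈ Q, Stab K θ q) ∧ Cor p hCK θ θ' := by
  letI := Fintype.ofFinite K
  letI := Fintype.ofFinite C
  letI : Fintype (IrrCharacter K) := Fintype.ofFinite _
  obtain ⟨χ, hχ, hm⟩ := H77.GlaubP.exists_inv (H77.CopSub.conjHom K Q (norm_of_le hQK)) hQ
    (Subgroup.inclusion hCK) (Subgroup.inclusion_injective hCK)
    (H77.CopSub.hC_iff K Q (norm_of_le hQK) hC hCK) hK ⟨θ', hθ'⟩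
  exact ⟨χ, χ.2, stab_of_inv' hQK hχ, (cor_mult hCK χ ⟨θ', hθ'⟩).2 hm⟩

theorem cor_inv_unique {p : ℕ} [Fact p.Prime] {K Q C : Subgroup Γ} (hQ : IsPGroup p Q)
    (hQK : Q ≤ Subgroup.normalizer (K : Set Γ)) (hC : C = K ⊓ Subgroup.centralizer (Q : Set Γ))
    (hCK : C ≤ K) (hK : ¬ p ∣ Nat.card K) {θ θ₁ : K → ℂ} (hθ : IsIrrCharacter K θ)
    (hθ₁ : IsIrrCharacter K θ₁) (hinv : ∀ q ∈ Q, Stab K θ q) (hinv₁ : ∀ q ∈ Q, Stab K θ₁ q)
    {θ' : C → ℂ} (hθ' : IsIrrCharacter C θ') (h1 : Cor p hCK θ θ') (h2 : Cor p hCK θ₁ θ') :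
    θ = θ₁ := by
  letI := Fintype.ofFinite K
  letI := Fintype.ofFinite C
  have h3 := (cor_mult hCK ⟨θ, hθ⟩ ⟨θ', hθ'⟩).1 h1
  have h4 := (cor_mult hCK ⟨θ₁, hθ₁⟩ ⟨θ', hθ'⟩).1 h2
  letI : Fintype (IrrCharacter K) := Fintype.ofFinite _
  have h5 := H77.GlaubP.inv_unique (H77.CopSub.conjHom K Q (norm_of_le hQK)) hQ
    (Subgroup.inclusion hCK) (Subgroup.inclusion_injective hCK)
    (H77.CopSub.hC_iff K Q (norm_of_le hQK) hC hCK) hK (χ := ⟨θ, hθ⟩) (ψ := ⟨θ₁, hθ₁⟩)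
    (inv_of_stab hQK hinv) (inv_of_stab hQK hinv₁) h3 h4
  exact congrArg Subtype.val h5

theorem irr_cjA {K : Subgroup Γ} {θ : K → ℂ} (hθ : IsIrrCharacter K θ) {v : Γ}
    (hv : v ∈ Subgroup.normalizer (K : Set Γ)) : IsIrrCharacter K (fun k => θ (cjA K v hv k)) :=
  (isIrrCharacter_mulEquiv (cjA K v hv)).1 hθ

theorem cor_cjA {p : ℕ} {C K : Subgroup Γ} (hCK : C ≤ K) {θ : K → ℂ} {θ' : C → ℂ} {v : Γ}
    (hvK : v ∈ Subgroup.normalizer (K : Set Γ)) (hvC : v ∈ Subgroup.normalizer (C : Set Γ))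
    (h : Cor p hCK θ θ') :
    Cor p hCK (fun k => θ (cjA K v hvK k)) (fun c => θ' (cjA C v hvC c)) := by
  obtain ⟨n, hn, h1⟩ := h
  refine ⟨n, hn, ?_⟩
  rw [← h1]
  exact finsum_comp_equiv (cjA C v hvC).toEquiv (f := fun c : C => θ ⟨c, hCK c.2⟩ * conj (θ' c))

theorem stab_corr {p : ℕ} [Fact p.Prime] {K Q C : Subgroup Γ} (hQ : IsPGroup p Q)
    (hQK : Q ≤ Subgroup.normalizer (K : Set Γ)) (hC : C = K ⊓ Subgroup.centralizer (Q : Set Γ))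
    (hCK : C ≤ K) (hK : ¬ p ∣ Nat.card K) {θ : K → ℂ} (hθ : IsIrrCharacter K θ)
    (hinv : ∀ q ∈ Q, Stab K θ q) {θ' : C → ℂ} (hθ' : IsIrrCharacter C θ')
    (h1 : Cor p hCK θ θ') {v : Γ} (hvC : v ∈ Subgroup.normalizer (C : Set Γ)) (hv : Stab K θ v) :
    Stab C θ' v := by
  obtain ⟨hvK, hv2⟩ := hv
  have h2 := cor_cjA hCK hvK hvC h1
  have h3 : (fun k => θ (cjA K v hvK k)) = θ := funext hv2
  rw [h3] at h2
  have h4 := cor_unique hQ hQK hC hCK hK hθ hinv hθ' (irr_cjA hθ' hvC) h1 h2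
  exact ⟨hvC, fun k => (congrFun h4 k).symm⟩

end H82.RM
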