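import Mathlib
import Cfsg.Agent.Lib.H82.RM7

/-!
# The central step of the comparison of pairings
-/

set_option autoImplicit false
set_option linter.unusedSectionVars false
set_option linter.style.haveILetI false

namespace H82.RM

open Cfsg H18.CharBasic H18.CharOrtho H18.CharQuot H18.CharInd
open scoped ComplexConjugate

universe u v w

variable {Γ : Type u} [Group Γ] [Finite Γ]

/-- the stabilizer as a subgroup -/
def stS (K : Subgroup Γ) (θ : K → ℂ) : Subgroup Γ where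
  carrier := {x | Stab K θ x}
  one_mem' := Stab.one
  mul_mem' := fun ha hb => Stab.mul ha hb
  inv_mem' := fun ha => Stab.inv ha

theorem mem_stS {K : Subgroup Γ} {θ : K → ℂ} {x : Γ} : x ∈ stS K θ ↔ Stab K θ x := Iff.rfl

theorem sup_elem {K : Subgroup Γ} {x : Γ} (hx : x ∈ Subgroup.normalizer (K : Set Γ)) {g : Γ}
    (hg : g ∈ K ⊔ Subgroup.zpowers x) : ∃ k ∈ K, ∃ n : ℤ, g = k * x ^ n := by
  let S : Subgroup Γ :=
    { carrier := {g | ∃ k ∈ K, ∃ n : ℤ, g = k * x ^ n}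
      one_mem' := ⟨1, K.one_mem, 0, by simp⟩
      mul_mem' := by
        rintro _ _ ⟨k, hk, n, rfl⟩ ⟨l, hl, m, rfl⟩
        refine ⟨k * (x ^ n * l * (x ^ n)⁻¹), K.mul_mem hk ?_, n + m, ?_⟩
        · exact (Subgroup.mem_normalizer_iff.mp
            ((Subgroup.normalizer (K : Set Γ)).zpow_mem hx n) l).mp hl
        · rw [zpow_add]; group
      inv_mem' := by
        rintro _ ⟨k, hk, n, rfl⟩
        refine ⟨x ^ (-n) * k⁻¹ * (x ^ (-n))⁻¹, ?_, -n, ?_⟩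
        · exact (Subgroup.mem_normalizer_iff.mp
            ((Subgroup.normalizer (K : Set Γ)).zpow_mem hx (-n)) k⁻¹).mp (K.inv_mem hk)
        · group }
  have h1 : K ⊔ Subgroup.zpowers x ≤ S := by
    apply sup_le
    · intro k hk; exact ⟨k, hk, 0, by simp⟩
    · rw [Subgroup.zpowers_le]; exact ⟨1, K.one_mem, 1, by simp⟩
  exact h1 hg

section cyc

variable {K K₁ : Subgroup Γ} (hle : K ≤ K₁) (hKn : K₁ ≤ Subgroup.normalizer (K : Set Γ))

include hKn in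
theorem normal_sub : (K.subgroupOf K₁).Normal := by
  constructor
  intro n hn g
  rw [Subgroup.mem_subgroupOf] at hn ⊢
  exact (Subgroup.mem_normalizer_iff.mp (hKn g.2) _).mp hn

include hKn in
theorem cyc_quot {x : Γ} (hx : x ∈ K₁) (hK₁ : K₁ = K ⊔ Subgroup.zpowers x) (g : K₁) :
    ∃ n : ℤ, (g * (⟨x, hx⟩ : K₁) ^ (-n)) ∈ K.subgroupOf K₁ := by
  have h1 : (g : Γ) ∈ K ⊔ Subgroup.zpowers x := hK₁ ▸ g.2
  obtain ⟨k, hk, n, hn⟩ := sup_elem (hKn hx) h1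
  refine ⟨n, ?_⟩
  rw [Subgroup.mem_subgroupOf]
  show (g : Γ) * (((⟨x, hx⟩ : K₁) ^ (-n) : K₁) : Γ) ∈ K
  rw [Subgroup.coe_zpow, hn]
  have : k * x ^ n * x ^ (-n) = k := by group
  rw [this]
  exact hk

include hKn in
/-- Over an invariant character with cyclic quotient every character is an extension. -/
theorem cyc_ext {x : Γ} (hx : x ∈ K₁) (hK₁ : K₁ = K ⊔ Subgroup.zpowers x) {θ : K → ℂ}
    (hθ : IsIrrCharacter K θ) (hs : Stab K θ x) {η : K₁ → ℂ} (hη : IsIrrCharacter K₁ η)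
    (hover : ∑ᶠ k : K, η ⟨k, hle k.2⟩ * conj (θ k) ≠ 0) : ∀ k : K, η ⟨k, hle k.2⟩ = θ k := by
  classical
  haveI := normal_sub hKn
  letI := Fintype.ofFinite K
  letI := Fintype.ofFinite K₁
  letI : Fintype (K.subgroupOf K₁) := Fintype.ofFinite _
  let e : K.subgroupOf K₁ ≃* K := Subgroup.subgroupOfEquivOfLe hle
  have hst : ∀ g : K₁, Stab K θ g := by
    intro g
    have h1 : K₁ ≤ stS K θ := by
      rw [hK₁]
      apply sup_le
      · intro k hk; exact Stab.of_mem (isClassFunction_of_isIrr hθ) hk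
      · rw [Subgroup.zpowers_le]; exact hs
    exact h1 g.2
  have hθ' : IsIrrCharacter (K.subgroupOf K₁) (fun k => θ (e k)) := (isIrrCharacter_mulEquiv e).1 hθ
  obtain ⟨d, ρ, hρ, hρc⟩ := id hθ'
  have hcyc : IsCyclic (K₁ ⧸ K.subgroupOf K₁) := by
    refine ⟨⟨((⟨x, hx⟩ : K₁) : K₁ ⧸ K.subgroupOf K₁), ?_⟩⟩
    intro u
    obtain ⟨g, rfl⟩ := QuotientGroup.mk_surjective u
    obtain ⟨n, hn⟩ := cyc_quot hKn hx hK₁ g
    refine ⟨n, ?_⟩
    have h1 := (QuotientGroup.eq_one_iff _).mpr hn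
    rw [QuotientGroup.mk_mul, QuotientGroup.mk_zpow, zpow_neg, mul_inv_eq_one] at h1
    exact h1.symm
  obtain ⟨σ, hσ⟩ := H19.ProjExt3.extend_of_cyclic ρ hρ hcyc (by
    intro g n
    rw [hρc]
    show θ (e (MulAut.conjNormal g n)) = θ (e n)
    obtain ⟨h1, h2⟩ := hst g
    exact h2 (e n))
  obtain ⟨χ₀, hχ₀, hχ₀'⟩ := H19.ProjExt3.char_of_extension ρ hρ hρc σ hσ
  have hχ₀N : IsIrrCharacter (K.subgroupOf K₁) (fun n : K.subgroupOf K₁ => χ₀ n) := by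
    rw [show (fun n : K.subgroupOf K₁ => χ₀ n) = fun k => θ (e k) from funext hχ₀']
    exact hθ'
  have hne : classInner (fun n : K.subgroupOf K₁ => η n) (fun n : K.subgroupOf K₁ => χ₀ n) ≠ 0 := by
    have h1 : (fun n : K.subgroupOf K₁ => η n) = fun n => (fun k : K => η ⟨k, hle k.2⟩) (e n) := rfl
    rw [h1, show (fun n : K.subgroupOf K₁ => χ₀ n) = fun k => θ (e k) from funext hχ₀',
      classInner_mulEquiv e (fun k : K => η ⟨k, hle k.2⟩) θ]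
    unfold classInner
    rw [finsum_eq_sum_of_fintype] at hover
    exact mul_ne_zero (inv_ne_zero card_ne_zero') hover
  obtain ⟨γ, hγ, hγk, hγe⟩ := H83.Gallagher.exists_eq_mul hχ₀ (K.subgroupOf K₁) hχ₀N hη hne
  have hγ1 : γ 1 = 1 := by
    obtain ⟨δ, hδ, hδa⟩ := exists_factor (QuotientGroup.mk' (K.subgroupOf K₁))
      (QuotientGroup.mk'_surjective _) hγ (by
        intro k hk
        rw [QuotientGroup.ker_mk'] at hk
        exact hγk k hk)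
    have hcomm : ∀ a b : K₁ ⧸ K.subgroupOf K₁, a * b = b * a := by
      intro a b
      obtain ⟨g, hg⟩ := hcyc.exists_generator
      obtain ⟨i, rfl⟩ := Subgroup.mem_zpowers_iff.mp (hg a)
      obtain ⟨j, rfl⟩ := Subgroup.mem_zpowers_iff.mp (hg b)
      rw [← zpow_add, ← zpow_add, add_comm]
    rw [hδa, map_one]
    exact degree_one_of_comm hcomm hδ
  intro k
  have h2 := congrFun hγe (e.symm k : K₁)
  have h3 : ((e.symm k : K.subgroupOf K₁) : K₁) = ⟨k, hle k.2⟩ := rfl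
  have h4 := hχ₀' (e.symm k)
  rw [e.apply_symm_apply] at h4
  rw [h3] at h2 h4
  rw [h2, h4, hγk ⟨k, hle k.2⟩ (e.symm k).2, hγ1, one_mul]

include hKn in
/-- Conjugation by `y` twists an extension by a linear character with value `z` at `x`. -/
theorem twist {x y : Γ} (hx : x ∈ K₁) {θ : K → ℂ} (hθ : IsIrrCharacter K θ)
    (hsy : Stab K θ y) {η : K₁ → ℂ} (hη : IsIrrCharacter K₁ η)
    (hηθ : ∀ k : K, η ⟨k, hle k.2⟩ = θ k) (hy : y ∈ Subgroup.normalizer (K₁ : Set Γ)) {z : ℂˣ}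
    (h : Pr K θ x y z) :
    ∃ β : K₁ →* ℂˣ, (∀ k : K, β ⟨k, hle k.2⟩ = 1) ∧ β ⟨x, hx⟩ = z ∧
      ∀ g : K₁, η (cjA K₁ y hy g) = (β g : ℂ) * η g := by
  classical
  haveI := normal_sub hKn
  letI := Fintype.ofFinite K
  letI := Fintype.ofFinite K₁
  letI : Fintype (K.subgroupOf K₁) := Fintype.ofFinite _
  let e : K.subgroupOf K₁ ≃* K := Subgroup.subgroupOfEquivOfLe hle
  have hηe : ∀ n : K.subgroupOf K₁, η n = θ (e n) := fun n => hηθ (e n)
  have hηN : IsIrrCharacter (K.subgroupOf K₁) (fun n : K.subgroupOf K₁ => η n) := by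
    rw [show (fun n : K.subgroupOf K₁ => η n) = fun k => θ (e k) from funext hηe]
    exact (isIrrCharacter_mulEquiv e).1 hθ
  have hηy : IsIrrCharacter K₁ (fun g => η (cjA K₁ y hy g)) := irr_cjA hη hy
  obtain ⟨hyK, hyθ⟩ := id hsy
  have hres : (fun n : K.subgroupOf K₁ => η (cjA K₁ y hy n)) = fun n : K.subgroupOf K₁ => η n := by
    funext n
    have h1 : (cjA K₁ y hy (n : K₁) : K₁) = ⟨(cjA K y hyK (e n) : K), hle (cjA K y hyK (e n)).2⟩ := rfl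
    rw [h1, hηθ, hyθ, hηe]
  obtain ⟨γ, hγ, hγk, hγe⟩ := H83.Gallagher.exists_eq_mul hη (K.subgroupOf K₁) hηN hηy (by
    show classInner (fun n : K.subgroupOf K₁ => η (cjA K₁ y hy n)) _ ≠ 0
    rw [hres, inner_irr_self hηN]
    exact one_ne_zero)
  have hγ1 : γ 1 = 1 := by
    have h1 := congrFun hγe 1
    simp only [map_one] at h1
    exact (mul_right_cancel₀ (irr_one_ne_zero hη) (h1.symm.trans (one_mul _).symm))
  obtain ⟨β, rfl⟩ := exists_hom_of_degree_one (isCharacter_of_isIrr hγ) hγ1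
  have hβK : ∀ k : K, β ⟨k, hle k.2⟩ = 1 := by
    intro k
    apply Units.ext
    have h1 := hγk ⟨k, hle k.2⟩ (e.symm k).2
    simp only [map_one] at h1
    exact h1
  refine ⟨β, hβK, ?_, fun g => congrFun hγe g⟩
  -- the value at `x`
  obtain ⟨n, hn, hne⟩ := H83.Gallagher.exists_ne_zero hη (K.subgroupOf K₁) hηN ⟨x, hx⟩
  obtain ⟨hxK, hyK', hk, hPR⟩ := h
  obtain ⟨d, R, hR, hRη⟩ := id hη
  let ρ : Representation ℂ K (Fin d → ℂ) := R.comp (Subgroup.inclusion hle)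
  have hρu : ∀ k : K, ρ.toHomUnits k = R.toHomUnits ⟨k, hle k.2⟩ := fun k => Units.ext rfl
  have hρχ : ρ.character = θ := by
    funext k
    have h6 : ρ.character k = R.character ⟨k, hle k.2⟩ := rfl
    rw [h6, hRη, hηθ]
  have hρ : ρ.IsIrreducible := by
    apply H83.Gallagher.isIrreducible_of_norm_one
    rw [hρχ]
    exact inner_irr_self hθ
  set X := R.toHomUnits ⟨x, hx⟩ with hX
  have hIX : IA ρ (cjA K x hxK) X := by
    intro k
    rw [hρu, hρu, hX, ← map_inv, ← map_mul, ← map_mul]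
    rfl
  obtain ⟨Y, hIY⟩ := exists_IA ρ hρ (cjA K y hyK') (fun k => by rw [hρχ]; exact hyθ k)
  have hcomm := hPR d ρ hρ hρχ X Y hIX hIY
  let n' : K := e ⟨n, hn⟩
  have hn' : n = ⟨n', hle n'.2⟩ := rfl
  -- operator identity
  have hc1 : Y * X * Y⁻¹ = (sc d z)⁻¹ * (ρ.toHomUnits ⟨_, hk⟩)⁻¹ * X := by
    have h1 : X⁻¹ * (X * Y * X⁻¹ * Y⁻¹) = X⁻¹ * (sc d z * ρ.toHomUnits ⟨_, hk⟩) := by rw [hcomm]
    have h2 : Y * X * Y⁻¹ = (X⁻¹ * (X * Y * X⁻¹ * Y⁻¹))⁻¹ := by group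
    rw [h2, h1, mul_inv_rev, mul_inv_rev, inv_inv, ← map_inv (sc d), sc_comm, map_inv]
  have hop : R.toHomUnits (cjA K₁ y hy (⟨x, hx⟩ * n)) = sc d z * (Y * R.toHomUnits (⟨x, hx⟩ * n) * Y⁻¹) := by
    have h1 : cjA K₁ y hy (⟨x, hx⟩ * n) =
        (⟨(x * y * x⁻¹ * y⁻¹), hle hk⟩ : K₁)⁻¹ * ⟨x, hx⟩ * ⟨(cjA K y hyK' n' : K), hle (cjA K y hyK' n').2⟩ := by
      apply Subtype.ext
      rw [cjA_coe, Subgroup.coe_mul, Subgroup.coe_mul, Subgroup.coe_mul, Subgroup.coe_inv]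
      show y * (x * n) * y⁻¹ = (x * y * x⁻¹ * y⁻¹)⁻¹ * x * (y * n * y⁻¹)
      group
    rw [h1, map_mul, map_mul, map_inv, ← hρu (cjA K y hyK' n'), ← hIY n']
    have h2 : R.toHomUnits (⟨(x * y * x⁻¹ * y⁻¹), hle hk⟩ : K₁) = ρ.toHomUnits ⟨_, hk⟩ :=
      (hρu ⟨x * y * x⁻¹ * y⁻¹, hk⟩).symm
    have h3 : R.toHomUnits (⟨x, hx⟩ * n) = X * ρ.toHomUnits n' := by
      rw [map_mul, hρu]; rfl
    rw [h2, h3, ← hX]
    have h4 : (ρ.toHomUnits ⟨_, hk⟩)⁻¹ * X = sc d z * (Y * X * Y⁻¹) := by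
      rw [hc1, mul_assoc (sc d z)⁻¹, mul_inv_cancel_left]
    rw [h4]
    group
  have htr : η (cjA K₁ y hy (⟨x, hx⟩ * n)) = (z : ℂ) * η (⟨x, hx⟩ * n) := by
    rw [← hRη]
    have h1 : R (cjA K₁ y hy (⟨x, hx⟩ * n)) = (z : ℂ) • ((Y : Module.End ℂ (Fin d → ℂ)) *
        R (⟨x, hx⟩ * n) * ((Y⁻¹ : UU d) : Module.End ℂ (Fin d → ℂ))) := by
      have h2 := congrArg (fun u : UU d => (u : Module.End ℂ (Fin d → ℂ))) hop
      simp only [Units.val_mul, sc_coe, smul_mul_assoc, one_mul] at h2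
      exact h2
    simp only [Representation.character, h1, map_smul, smul_eq_mul]
    rw [LinearMap.trace_mul_comm, ← mul_assoc, Units.inv_mul, one_mul]
  have h5 := congrFun hγe (⟨x, hx⟩ * n)
  simp only at h5
  rw [htr] at h5
  have h6 : (z : ℂ) = β (⟨x, hx⟩ * n) := mul_right_cancel₀ hne h5
  rw [map_mul, hn', hβK, mul_one] at h6
  exact (Units.ext h6).symm

end cyc

theorem normalizer_inf {A B : Subgroup Γ} {y : Γ} (hA : y ∈ Subgroup.normalizer (A : Set Γ))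
    (hB : y ∈ Subgroup.normalizer (B : Set Γ)) : y ∈ Subgroup.normalizer ((A ⊓ B : Subgroup Γ) : Set Γ) := by
  rw [Subgroup.mem_normalizer_iff] at *
  intro g
  rw [Subgroup.mem_inf, Subgroup.mem_inf, hA g, hB g]

theorem mem_normalizer_of_conj {A : Subgroup Γ} {y : Γ} (h : ∀ a ∈ A, y * a * y⁻¹ ∈ A) :
    y ∈ Subgroup.normalizer (A : Set Γ) := by
  have h1 : A.map (MulAut.conj y).toMonoidHom ≤ A := by
    rintro _ ⟨a, ha, rfl⟩
    exact h a ha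
  have h2 : A.map (MulAut.conj y).toMonoidHom = A := by
    apply Subgroup.eq_of_le_of_card_ge h1
    exact (Nat.card_congr (A.equivMapOfInjective (MulAut.conj y).toMonoidHom
      (MulAut.conj y).injective).toEquiv).le
  rw [Subgroup.mem_normalizer_iff]
  intro g
  refine ⟨h g, fun hg => ?_⟩
  have h3 : y * g * y⁻¹ ∈ A.map (MulAut.conj y).toMonoidHom := by rw [h2]; exact hg
  obtain ⟨a, ha, hae⟩ := h3
  have h4 : y * a * y⁻¹ = y * g * y⁻¹ := hae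
  have h5 : a = g := mul_left_cancel (mul_right_cancel h4)
  rwa [← h5]

/-- The pairing of `θ` and of its correspondent agree at `(x, y)` if `x` centralizes the
operator group. -/
theorem central_step {p : ℕ} [Fact p.Prime] {K Q C : Subgroup Γ} (hQ : IsPGroup p Q)
    (hQK : Q ≤ Subgroup.normalizer (K : Set Γ)) (hC : C = K ⊓ Subgroup.centralizer (Q : Set Γ))
    (hCK : C ≤ K) {x y : Γ} (hxQ : x ∈ Subgroup.centralizer (Q : Set Γ))
    (hKx : ¬ p ∣ Nat.card (K ⊔ Subgroup.zpowers x : Subgroup Γ)) {θ : K → ℂ} {θ' : C → ℂ}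
    (hθ : IsIrrCharacter K θ) (hθ' : IsIrrCharacter C θ') (hinv : ∀ q ∈ Q, Stab K θ q)
    (hcor : Cor p hCK θ θ') (hsx : Stab K θ x) (hsy : Stab K θ y) (hsx' : Stab C θ' x)
    (hsy' : Stab C θ' y) {z z' : ℂˣ} (h : Pr K θ x y z) (h' : Pr C θ' x y z') :
    z = z' := by
  classical
  have hp : p.Prime := Fact.out
  obtain ⟨hxK, _⟩ := id hsx
  obtain ⟨hyK, _⟩ := id hsy
  obtain ⟨hxC, _⟩ := id hsx'
  obtain ⟨hyC, _⟩ := id hsy'
  obtain ⟨_, _, hk, _⟩ := id h'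
  have hkK : x * y * x⁻¹ * y⁻¹ ∈ K := hCK hk
  set K₁ : Subgroup Γ := K ⊔ Subgroup.zpowers x with hK₁
  have hleK : K ≤ K₁ := le_sup_left
  have hxK₁ : x ∈ K₁ := le_sup_right (a := K) (Subgroup.mem_zpowers x)
  have hKnK : K₁ ≤ Subgroup.normalizer (K : Set Γ) := by
    apply sup_le Subgroup.le_normalizer
    rw [Subgroup.zpowers_le]; exact hxK
  set C₁ : Subgroup Γ := K₁ ⊓ Subgroup.centralizer (Q : Set Γ) with hC₁
  have hCC₁ : C ≤ C₁ := by
    rw [hC]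
    exact inf_le_inf_right _ hleK
  have hC₁K : C₁ ≤ K₁ := inf_le_left
  have hxC₁ : x ∈ C₁ := ⟨hxK₁, hxQ⟩
  -- `C₁ = C ⊔ ⟨x⟩`
  have hC₁' : C₁ = C ⊔ Subgroup.zpowers x := by
    apply le_antisymm
    · rintro g ⟨hg1, hg2⟩
      obtain ⟨k, hk, n, rfl⟩ := sup_elem hxK hg1
      have h1 : k ∈ Subgroup.centralizer (Q : Set Γ) := by
        have h2 := (Subgroup.centralizer (Q : Set Γ)).mul_mem hg2
          ((Subgroup.centralizer (Q : Set Γ)).zpow_mem hxQ (-n))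
        have h3 : k * x ^ n * x ^ (-n) = k := by group
        rwa [h3] at h2
      have h2 : k ∈ C := by rw [hC]; exact ⟨hk, h1⟩
      exact (C ⊔ Subgroup.zpowers x).mul_mem (le_sup_left (b := Subgroup.zpowers x) h2)
        (le_sup_right (a := C) ((Subgroup.zpowers x).zpow_mem (Subgroup.mem_zpowers x) n))
    · apply sup_le hCC₁
      rw [Subgroup.zpowers_le]; exact hxC₁
  have hCnC : C₁ ≤ Subgroup.normalizer (C : Set Γ) := by
    rw [hC₁']
    apply sup_le Subgroup.le_normalizer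
    rw [Subgroup.zpowers_le]; exact hxC
  have hQK₁ : Q ≤ Subgroup.normalizer (K₁ : Set Γ) := by
    intro q hq
    apply mem_normalizer_of_conj
    intro g hg
    obtain ⟨k, hk, n, rfl⟩ := sup_elem hxK hg
    have h1 : q * (k * x ^ n) * q⁻¹ = (q * k * q⁻¹) * x ^ n := by
      have h2 := Subgroup.mem_centralizer_iff.mp
        ((Subgroup.centralizer (Q : Set Γ)).zpow_mem hxQ n) q⁻¹ (Q.inv_mem hq)
      calc q * (k * x ^ n) * q⁻¹ = q * k * (x ^ n * q⁻¹) := by group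
        _ = q * k * (q⁻¹ * x ^ n) := by rw [h2]
        _ = _ := by group
    rw [h1]
    refine K₁.mul_mem (hleK ?_) (K₁.zpow_mem hxK₁ n)
    exact (Subgroup.mem_normalizer_iff.mp (hQK hq) k).mp hk
  have hyx : y * x * y⁻¹ = (x * y * x⁻¹ * y⁻¹)⁻¹ * x := by group
  have hynorm : ∀ (A : Subgroup Γ) (hA : y ∈ Subgroup.normalizer (A : Set Γ))
      (hAx : x ∈ Subgroup.normalizer (A : Set Γ)) (hkA : x * y * x⁻¹ * y⁻¹ ∈ A),
      y ∈ Subgroup.normalizer ((A ⊔ Subgroup.zpowers x : Subgroup Γ) : Set Γ) := by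
    intro A hA hAx hkA
    apply mem_normalizer_of_conj
    intro g hg
    obtain ⟨k, hk, n, rfl⟩ := sup_elem hAx hg
    have h1 : y * (k * x ^ n) * y⁻¹ = (y * k * y⁻¹) * (y * x * y⁻¹) ^ n := by
      rw [conj_zpow]; group
    rw [h1, hyx]
    refine (A ⊔ Subgroup.zpowers x).mul_mem (le_sup_left (b := Subgroup.zpowers x) ?_)
      ((A ⊔ Subgroup.zpowers x).zpow_mem ?_ n)
    · exact (Subgroup.mem_normalizer_iff.mp hA k).mp hk
    · exact (A ⊔ Subgroup.zpowers x).mul_mem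
        (le_sup_left (b := Subgroup.zpowers x) (A.inv_mem hkA))
        (le_sup_right (a := A) (Subgroup.mem_zpowers x))
  have hyK₁ : y ∈ Subgroup.normalizer (K₁ : Set Γ) := hynorm K hyK hxK hkK
  have hyC₁ : y ∈ Subgroup.normalizer (C₁ : Set Γ) := by
    rw [hC₁']; exact hynorm C hyC hxC hk
  -- the extension `η`
  letI : Fintype K₁ := Fintype.ofFinite _
  letI : Fintype C₁ := Fintype.ofFinite _
  letI : Fintype C := Fintype.ofFinite _
  letI : Fintype K := Fintype.ofFinite _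
  haveI := normal_sub hKnK
  letI : Fintype (K.subgroupOf K₁) := Fintype.ofFinite _
  let e : K.subgroupOf K₁ ≃* K := Subgroup.subgroupOfEquivOfLe hleK
  have hcop : (Nat.card K₁).Coprime (Nat.card Q) := by
    obtain ⟨n, hn⟩ := IsPGroup.iff_card.mp hQ
    rw [hn]
    exact Nat.Coprime.pow_right n ((Nat.Prime.coprime_iff_not_dvd hp).mpr hKx).symm
  obtain ⟨η, hηinv, hηover⟩ := H77.CopOver.exists_over_inv (Nat.card Q) Q rfl
    (by
      haveI := hQ.isNilpotent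
      infer_instance) K₁ hcop (H77.CopSub.conjHom K₁ Q (norm_of_le hQK₁)) (K.subgroupOf K₁)
    (by
      intro s k hk
      rw [Subgroup.mem_subgroupOf] at hk ⊢
      exact (Subgroup.mem_normalizer_iff.mp (hQK s.2) _).mp hk)
    ⟨fun k => θ (e k), (isIrrCharacter_mulEquiv e).1 hθ⟩ (by
      intro s k
      obtain ⟨_, h1⟩ := hinv s s.2
      exact h1 (e k))
  have hηover' : ∑ᶠ k : K, (η : K₁ → ℂ) ⟨k, hleK k.2⟩ * conj (θ k) ≠ 0 := by
    have h1 : classInner (fun x : K.subgroupOf K₁ => (η : K₁ → ℂ) x) (fun k => θ (e k)) =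
        classInner (fun k : K => (η : K₁ → ℂ) ⟨k, hleK k.2⟩) θ :=
      classInner_mulEquiv e (fun k : K => (η : K₁ → ℂ) ⟨k, hleK k.2⟩) θ
    rw [finsum_eq_sum_of_fintype]
    intro h2
    apply hηover
    show classInner (fun x : K.subgroupOf K₁ => (η : K₁ → ℂ) x) (fun k => θ (e k)) = 0
    rw [h1]
    unfold classInner
    rw [h2, mul_zero]
  have hηθ := cyc_ext hleK hKnK hxK₁ hK₁ hθ hsx η.2 hηover'
  -- the correspondent `η'`
  have hcor₁ : Cor p (hCC₁.trans hC₁K) (η : K₁ → ℂ) θ' := by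
    obtain ⟨n, hn, h1⟩ := hcor
    refine ⟨n, hn, ?_⟩
    rw [← h1]
    apply finsum_congr
    intro c
    have := hηθ ⟨c, hCK c.2⟩
    rw [← this]
  obtain ⟨η', hη', hcη, hcη'⟩ := cor_mid hCC₁ hC₁K η.2 hθ' hcor₁
  have hη'θ : ∀ c : C, η' ⟨c, hCC₁ c.2⟩ = θ' c := by
    apply cyc_ext hCC₁ hCnC hxC₁ hC₁' hθ' hsx' hη'
    obtain ⟨n, hn, h1⟩ := hcη'
    rw [h1]
    apply mul_ne_zero _ card_ne_zero'
    intro h0
    have h2 : n = 0 := by exact_mod_cast h0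
    exact hn (h2 ▸ dvd_zero p)
  obtain ⟨β, hβK, hβx, hβ⟩ := twist hleK hKnK hxK₁ hθ hsy η.2 hηθ hyK₁ h
  obtain ⟨β', hβK', hβx', hβ'⟩ := twist hCC₁ hCnC hxC₁ hθ' hsy' hη' hη'θ hyC₁ h'
  -- compare
  let βr : C₁ →* ℂˣ := (β.comp (Subgroup.inclusion hC₁K))⁻¹ * β'
  have hψ : IsIrrCharacter C₁ (fun g => (βr g : ℂ) * η' g) := isIrrCharacter_hom_mul βr hη'
  have hcψ : Cor p hC₁K (η : K₁ → ℂ) (fun g => (βr g : ℂ) * η' g) := by
    have h1 := cor_cjA hC₁K hyK₁ hyC₁ hcη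
    obtain ⟨n, hn, h2⟩ := h1
    refine ⟨n, hn, ?_⟩
    rw [← h2]
    apply finsum_congr
    intro c
    show (η : K₁ → ℂ) ⟨c, hC₁K c.2⟩ * conj ((βr c : ℂ) * η' c) =
      (η : K₁ → ℂ) (cjA K₁ y hyK₁ ⟨c, hC₁K c.2⟩) * conj (η' (cjA C₁ y hyC₁ c))
    rw [hβ, hβ']
    have h3 : ((βr c : ℂˣ) : ℂ) = conj (β ⟨c, hC₁K c.2⟩ : ℂ) * (β' c : ℂ) := by
      rw [conj_hom]
      show (((β (Subgroup.inclusion hC₁K c))⁻¹ * β' c : ℂˣ) : ℂ) = _
      rw [Units.val_mul, map_inv]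
      rfl
    rw [h3]
    simp only [map_mul, Complex.conj_conj]
    ring
  have heq := cor_unique hQ hQK₁ hC₁ hC₁K hKx η.2 (stab_of_inv' hQK₁ hηinv) hη' hψ hcη hcψ
  haveI := normal_sub hCnC
  letI : Fintype (C.subgroupOf C₁) := Fintype.ofFinite _
  let e' : C.subgroupOf C₁ ≃* C := Subgroup.subgroupOfEquivOfLe hCC₁
  have hη'N : IsIrrCharacter (C.subgroupOf C₁) (fun n : C.subgroupOf C₁ => η' n) := by
    rw [show (fun n : C.subgroupOf C₁ => η' n) = fun k => θ' (e' k) from funext fun n => hη'θ (e' n)]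
    exact (isIrrCharacter_mulEquiv e').1 hθ'
  obtain ⟨n, hn, hne⟩ := H83.Gallagher.exists_ne_zero hη' (C.subgroupOf C₁) hη'N ⟨x, hxC₁⟩
  have h5 : η' (⟨x, hxC₁⟩ * n) = (βr (⟨x, hxC₁⟩ * n) : ℂ) * η' (⟨x, hxC₁⟩ * n) :=
    congrFun heq (⟨x, hxC₁⟩ * n)
  have h6 : (βr (⟨x, hxC₁⟩ * n) : ℂ) = 1 := by
    have h7 : (βr (⟨x, hxC₁⟩ * n) : ℂ) * η' (⟨x, hxC₁⟩ * n) = 1 * η' (⟨x, hxC₁⟩ * n) := by
      rw [one_mul]; exact h5.symm
    exact mul_right_cancel₀ hne h7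
  have h7 : βr (⟨x, hxC₁⟩ * n) = 1 := Units.ext h6
  have h8 : βr n = 1 := by
    show (β (Subgroup.inclusion hC₁K n))⁻¹ * β' n = 1
    have h9 : n = ⟨(e' ⟨n, hn⟩ : C), hCC₁ (e' ⟨n, hn⟩).2⟩ := rfl
    have h10 : β (Subgroup.inclusion hC₁K n) = 1 := hβK ⟨n, hCK (Subgroup.mem_subgroupOf.mp hn)⟩
    have h11 : β' n = 1 := hβK' ⟨n, Subgroup.mem_subgroupOf.mp hn⟩
    rw [h10, h11]; simp
  rw [map_mul, h8, mul_one] at h7
  have h9 : (β ⟨x, hxK₁⟩)⁻¹ * β' ⟨x, hxC₁⟩ = 1 := h7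
  rw [hβx, hβx'] at h9
  exact inv_mul_eq_one.mp h9

end H82.RM
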