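import Mathlib
import Cfsg.Agent.Lib.H82.RM8
import Cfsg.Agent.Lib.H1.Coprime

/-!
# The pairings of a character and of its Glauberman correspondent agree
-/

set_option autoImplicit false
set_option linter.unusedSectionVars false
set_option linter.style.haveILetI false
set_option linter.deprecated false

namespace H82.RM

open Cfsg H18.CharBasic H18.CharOrtho H18.CharQuot H18.CharInd
open scoped ComplexConjugate

universe u v w

theorem irr_cyclic {W : Type u} [CommGroup W] [Finite W] (A : Subgroup (MulAut W))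
    (hA : ∀ a ∈ A, ∀ b ∈ A, a * b = b * a)
    (hirr : ∀ U : Subgroup W, (∀ a ∈ A, ∀ u ∈ U, a u ∈ U) → U = ⊥ ∨ U = ⊤) : IsCyclic A := by
  classical
  haveI : Finite A := by
    haveI : Finite (MulAut W) := inferInstance
    infer_instance
  rcases subsingleton_or_nontrivial W with hW | hW
  · haveI : Subsingleton A := ⟨fun a b => by
      apply Subtype.ext
      ext w
      exact Subsingleton.elim _ _⟩
    infer_instance
  let cj : A →* AddMonoid.End (Additive W) :=
    { toFun := fun a => MonoidHom.toAdditive (a : MulAut W).toMonoidHom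
      map_one' := rfl
      map_mul' := fun a b => rfl }
  have hcjv : ∀ (a : A) (w : Additive W), cj a w = Additive.ofMul ((a : MulAut W) w.toMul) :=
    fun a w => rfl
  have hcomm : ∀ a ∈ Set.range cj, ∀ b ∈ Set.range cj, a * b = b * a := by
    rintro _ ⟨a, rfl⟩ _ ⟨b, rfl⟩
    rw [← map_mul, ← map_mul]
    congr 1
    exact Subtype.ext (hA a a.2 b b.2)
  let R := Subring.closure (Set.range cj)
  letI iR : CommRing R := Subring.closureCommRingOfComm hcomm
  have hcjR : ∀ a, cj a ∈ R := fun a => Subring.subset_closure ⟨a, rfl⟩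
  have hRcomm : ∀ (r : R) (a : A), (r : AddMonoid.End (Additive W)) * cj a = cj a * r := by
    intro r a
    have := mul_comm r ⟨cj a, hcjR a⟩
    exact congrArg Subtype.val this
  have hker : ∀ r : R, r ≠ 0 → ∀ u : Additive W, (r : AddMonoid.End (Additive W)) u = 0 → u = 0 := by
    intro r hr u hu
    let U : Subgroup W :=
      { carrier := {g | (r : AddMonoid.End (Additive W)) (Additive.ofMul g) = 0}
        mul_mem' := by
          intro a b ha hb
          show (r : AddMonoid.End (Additive W)) (Additive.ofMul (a * b)) = 0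
          rw [ofMul_mul, map_add, show (r : AddMonoid.End (Additive W)) (Additive.ofMul a) = 0 from ha,
            show (r : AddMonoid.End (Additive W)) (Additive.ofMul b) = 0 from hb, add_zero]
        one_mem' := by
          show (r : AddMonoid.End (Additive W)) (Additive.ofMul 1) = 0
          rw [ofMul_one, map_zero]
        inv_mem' := by
          intro a ha
          show (r : AddMonoid.End (Additive W)) (Additive.ofMul a⁻¹) = 0
          rw [ofMul_inv, map_neg, show (r : AddMonoid.End (Additive W)) (Additive.ofMul a) = 0 from ha,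
            neg_zero] }
    rcases hirr U (by
      intro a ha g hg
      have h2 := DFunLike.congr_fun (hRcomm r ⟨a, ha⟩) (Additive.ofMul g)
      have h3 : (r : AddMonoid.End (Additive W)) (cj ⟨a, ha⟩ (Additive.ofMul g)) =
        cj ⟨a, ha⟩ ((r : AddMonoid.End (Additive W)) (Additive.ofMul g)) := h2
      show (r : AddMonoid.End (Additive W)) (Additive.ofMul (a g)) = 0
      rw [show (r : AddMonoid.End (Additive W)) (Additive.ofMul g) = 0 from hg, map_zero] at h3
      exact h3) with h | h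
    · have h1 : u.toMul ∈ U := hu
      rw [h, Subgroup.mem_bot] at h1
      exact Additive.toMul.injective h1
    · exfalso
      apply hr
      apply Subtype.ext
      ext v
      have h1 : v.toMul ∈ U := by rw [h]; trivial
      exact h1
  obtain ⟨w0, hw0⟩ := exists_ne (1 : W)
  haveI : Nontrivial R := ⟨⟨0, 1, by
    intro h
    apply hw0
    have h1 := congrArg (fun r : R => (r : AddMonoid.End (Additive W)) (Additive.ofMul w0)) h
    exact (Additive.ofMul.injective h1).symm⟩⟩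
  haveI : NoZeroDivisors R := ⟨by
    intro r s hrs
    by_contra hcon
    push Not at hcon
    apply hcon.2
    apply Subtype.ext
    ext v
    apply hker r hcon.1
    have h1 := congrArg (fun r : R => (r : AddMonoid.End (Additive W)) v) hrs
    exact h1⟩
  haveI : IsDomain R := NoZeroDivisors.to_isDomain R
  let f : A →* R :=
    { toFun := fun a => ⟨cj a, hcjR a⟩
      map_one' := Subtype.ext (map_one cj)
      map_mul' := fun a b => Subtype.ext (map_mul cj a b) }
  have hf : Function.Injective f := by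
    intro a b hab
    apply Subtype.ext
    ext w
    have h1 := congrArg (fun r : R => (r : AddMonoid.End (Additive W)) (Additive.ofMul w)) hab
    exact Additive.ofMul.injective h1
  exact isCyclic_of_subgroup_isDomain f hf

theorem exists_coprime {A : Type u} [Group A] (hc : IsCyclic A) (a b : A) :
    ∃ i j : ℤ, IsCoprime i j ∧ a ^ i * b ^ j = 1 := by
  obtain ⟨c, hc⟩ := hc.exists_generator
  obtain ⟨s, rfl⟩ := Subgroup.mem_zpowers_iff.mp (hc a)
  obtain ⟨t, rfl⟩ := Subgroup.mem_zpowers_iff.mp (hc b)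
  by_cases h : s = 0 ∧ t = 0
  · refine ⟨1, 0, isCoprime_one_left, ?_⟩
    rw [h.1]; simp
  · have hg : 0 < Int.gcd s t := by
      rw [Nat.pos_iff_ne_zero]
      intro h0
      exact h (Int.gcd_eq_zero_iff.mp h0)
    have hg' : (Int.gcd s t : ℤ) ≠ 0 := by exact_mod_cast hg.ne'
    obtain ⟨s', hs'⟩ : (Int.gcd s t : ℤ) ∣ s := Int.gcd_dvd_left ..
    obtain ⟨t', ht'⟩ : (Int.gcd s t : ℤ) ∣ t := Int.gcd_dvd_right ..
    have hcop : IsCoprime s' t' := by
      have h1 := Int.gcd_eq_gcd_ab s t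
      refine ⟨Int.gcdA s t, Int.gcdB s t, ?_⟩
      apply mul_left_cancel₀ hg'
      rw [mul_one]
      calc (Int.gcd s t : ℤ) * (Int.gcdA s t * s' + Int.gcdB s t * t')
          = (Int.gcd s t * s') * Int.gcdA s t + (Int.gcd s t * t') * Int.gcdB s t := by ring
        _ = s * Int.gcdA s t + t * Int.gcdB s t := by rw [← hs', ← ht']
        _ = _ := h1.symm
    refine ⟨t', -s', hcop.symm.neg_right, ?_⟩
    rw [← zpow_mul, ← zpow_mul, ← zpow_add]
    have h2 : s * t' + t * -s' = 0 := by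
      calc s * t' + t * -s' = (Int.gcd s t * s') * t' + (Int.gcd s t * t') * -s' := by rw [← hs', ← ht']
        _ = 0 := by ring
    rw [h2, zpow_zero]

variable {Γ : Type u} [Group Γ] [Finite Γ]

theorem normalizer_commutator {P : Subgroup Γ} {v : Γ} (hv : v ∈ Subgroup.normalizer (P : Set Γ)) :
    v ∈ Subgroup.normalizer ((⁅P, P⁆ : Subgroup Γ) : Set Γ) := by
  apply mem_normalizer_of_conj
  intro a ha
  have h1 : (⁅P, P⁆ : Subgroup Γ).map (MulAut.conj v).toMonoidHom = ⁅P, P⁆ := by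
    rw [Subgroup.map_commutator]
    have h2 : P.map (MulAut.conj v).toMonoidHom = P := by
      apply Subgroup.eq_of_le_of_card_ge
      · rintro _ ⟨b, hb, rfl⟩
        exact (Subgroup.mem_normalizer_iff.mp hv b).mp hb
      · exact (Nat.card_congr (P.equivMapOfInjective (MulAut.conj v).toMonoidHom
          (MulAut.conj v).injective).toEquiv).le
    rw [h2]
  rw [← h1]
  exact ⟨a, ha, rfl⟩

/-- A chief factor on which a two-generator combination acts trivially. -/
theorem exists_P1 {p : ℕ} [Fact p.Prime] {P V : Subgroup Γ} (hP : IsPGroup p P) (hP1 : P ≠ ⊥)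
    (hVP : V ≤ Subgroup.normalizer (P : Set Γ))
    (hVV : ∀ v ∈ V, ∀ w ∈ V, v * w * v⁻¹ * w⁻¹ ∈ Subgroup.centralizer (P : Set Γ))
    {x y : Γ} (hx : x ∈ V) (hy : y ∈ V) :
    ∃ P₁ : Subgroup Γ, P₁ < P ∧ P ≤ Subgroup.normalizer (P₁ : Set Γ) ∧
      V ≤ Subgroup.normalizer (P₁ : Set Γ) ∧ ∃ i j : ℤ, IsCoprime i j ∧
        ∀ q ∈ P, (x ^ i * y ^ j) * q * (x ^ i * y ^ j)⁻¹ * q⁻¹ ∈ P₁ := by
  classical
  have hlt : ⁅P, P⁆ < P := by
    haveI : Nontrivial P := (Subgroup.nontrivial_iff_ne_bot P).mpr hP1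
    haveI := hP.isNilpotent
    have h1 : commutator P < ⊤ := IsSolvable.commutator_lt_top_of_nontrivial P
    refine lt_of_le_of_ne (Subgroup.commutator_le.mpr fun a ha b hb =>
        P.mul_mem (P.mul_mem (P.mul_mem ha hb) (P.inv_mem ha)) (P.inv_mem hb)) ?_
    · intro h2
      apply h1.ne
      rw [eq_top_iff]
      intro q _
      have h3 : (q : Γ) ∈ (commutator P).map P.subtype := by
        rw [commutator_def, Subgroup.map_commutator, ← MonoidHom.range_eq_map, Subgroup.range_subtype, h2]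
        exact q.2
      obtain ⟨q', hq', hqq⟩ := h3
      rwa [← Subtype.ext (hqq : (q' : Γ) = q)]
  let 𝒮 : Set (Subgroup Γ) := {R | ⁅P, P⁆ ≤ R ∧ R < P ∧ V ≤ Subgroup.normalizer (R : Set Γ)}
  have hfin : 𝒮.Finite := Set.toFinite _
  have hne : 𝒮.Nonempty := ⟨⁅P, P⁆, le_rfl, hlt, fun v hv => normalizer_commutator (hVP hv)⟩
  obtain ⟨P₁, hP₁max⟩ := hfin.exists_maximal hne
  obtain ⟨hc, hP₁lt, hVP₁⟩ := hP₁max.prop
  have hPP₁ : P ≤ Subgroup.normalizer (P₁ : Set Γ) := by
    intro q hq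
    apply mem_normalizer_of_conj
    intro a ha
    have h1 : q * a * q⁻¹ * a⁻¹ ∈ P₁ := hc (Subgroup.commutator_mem_commutator hq (hP₁lt.le ha))
    have h2 : q * a * q⁻¹ = (q * a * q⁻¹ * a⁻¹) * a := by group
    rw [h2]
    exact P₁.mul_mem h1 ha
  refine ⟨P₁, hP₁lt, hPP₁, hVP₁, ?_⟩
  haveI hn : (P₁.subgroupOf P).Normal := normal_sub hPP₁
  letI : CommGroup (P ⧸ P₁.subgroupOf P) :=
    { (inferInstance : Group (P ⧸ P₁.subgroupOf P)) with
      mul_comm := by
        intro a b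
        obtain ⟨a, rfl⟩ := QuotientGroup.mk_surjective a
        obtain ⟨b, rfl⟩ := QuotientGroup.mk_surjective b
        show ((a * b : P) : P ⧸ P₁.subgroupOf P) = ((b * a : P) : P ⧸ P₁.subgroupOf P)
        rw [QuotientGroup.eq, Subgroup.mem_subgroupOf]
        have h1 : (((a * b)⁻¹ * (b * a) : P) : Γ) = ((b : Γ)⁻¹ * (a : Γ)⁻¹ * (b : Γ)⁻¹⁻¹ * (a : Γ)⁻¹⁻¹) := by
          push_cast; group
        rw [h1]
        exact hc (Subgroup.commutator_mem_commutator (P.inv_mem b.2) (P.inv_mem a.2)) }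
  have hmapeq : ∀ v : V, (P₁.subgroupOf P).map (cjA P v (hVP v.2)).toMonoidHom = P₁.subgroupOf P := by
    intro v
    apply Subgroup.eq_of_le_of_card_ge
    · rintro _ ⟨b, hb, rfl⟩
      rw [SetLike.mem_coe, Subgroup.mem_subgroupOf] at hb
      rw [Subgroup.mem_subgroupOf]
      exact (Subgroup.mem_normalizer_iff.mp (hVP₁ v.2) b).mp hb
    · exact (Nat.card_congr ((P₁.subgroupOf P).equivMapOfInjective
        (cjA P v (hVP v.2)).toMonoidHom (cjA P v (hVP v.2)).injective).toEquiv).le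
  let act : V →* MulAut (P ⧸ P₁.subgroupOf P) :=
    { toFun := fun v => QuotientGroup.congr _ _ (cjA P v (hVP v.2)) (hmapeq v)
      map_one' := by
        ext q
        obtain ⟨q, rfl⟩ := QuotientGroup.mk_surjective q
        show (((cjA P ((1 : V) : Γ) _ q : P)) : P ⧸ P₁.subgroupOf P) = (q : P ⧸ P₁.subgroupOf P)
        congr 1
        apply Subtype.ext
        rw [cjA_coe]; simp
      map_mul' := fun v w => by
        ext q
        obtain ⟨q, rfl⟩ := QuotientGroup.mk_surjective q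
        show (((cjA P ((v * w : V) : Γ) _ q : P)) : P ⧸ P₁.subgroupOf P) =
          ((cjA P v _ (cjA P w _ q) : P) : P ⧸ P₁.subgroupOf P)
        congr 1
        apply Subtype.ext
        rw [cjA_coe, cjA_coe, cjA_coe, Subgroup.coe_mul]
        group }
  have hact : ∀ (v : V) (q : P), act v (q : P ⧸ P₁.subgroupOf P) =
      ((cjA P v (hVP v.2) q : P) : P ⧸ P₁.subgroupOf P) := fun v q => rfl
  have hcyc : IsCyclic act.range := by
    apply irr_cyclic
    · rintro _ ⟨v, rfl⟩ _ ⟨w, rfl⟩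
      ext q
      obtain ⟨q, rfl⟩ := QuotientGroup.mk_surjective q
      rw [MulAut.mul_apply, MulAut.mul_apply, hact, hact, hact, hact]
      congr 1
      apply Subtype.ext
      rw [cjA_coe, cjA_coe, cjA_coe, cjA_coe]
      have h1 : (w : Γ) * (v * q * (v : Γ)⁻¹) * (w : Γ)⁻¹ ∈ P :=
        (Subgroup.mem_normalizer_iff.mp (hVP w.2) _).mp
          ((Subgroup.mem_normalizer_iff.mp (hVP v.2) _).mp q.2)
      have h2 := Subgroup.mem_centralizer_iff.mp (hVV v v.2 w w.2) _ h1
      calc (v : Γ) * (w * q * (w : Γ)⁻¹) * (v : Γ)⁻¹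
          = ((v : Γ) * w * (v : Γ)⁻¹ * (w : Γ)⁻¹) * ((w : Γ) * (v * q * (v : Γ)⁻¹) * (w : Γ)⁻¹) *
            ((v : Γ) * w * (v : Γ)⁻¹ * (w : Γ)⁻¹)⁻¹ := by group
        _ = _ := by rw [← h2]; group
    · intro U hU
      let R : Subgroup Γ := (U.comap (QuotientGroup.mk' (P₁.subgroupOf P))).map P.subtype
      have hRP : R ≤ P := by
        rintro _ ⟨q, _, rfl⟩; exact q.2
      have hP₁R : P₁ ≤ R := by
        intro a ha
        refine ⟨⟨a, hP₁lt.le ha⟩, ?_, rfl⟩
        rw [SetLike.mem_coe, Subgroup.mem_comap]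
        have h1 : (QuotientGroup.mk' (P₁.subgroupOf P)) ⟨a, hP₁lt.le ha⟩ = 1 :=
          (QuotientGroup.eq_one_iff _).mpr ha
        rw [h1]; exact U.one_mem
      have hVR : V ≤ Subgroup.normalizer (R : Set Γ) := by
        intro v hv
        apply mem_normalizer_of_conj
        rintro _ ⟨q, hq, rfl⟩
        refine ⟨cjA P v (hVP hv) q, ?_, rfl⟩
        rw [SetLike.mem_coe, Subgroup.mem_comap] at hq ⊢
        exact hU (act ⟨v, hv⟩) ⟨_, rfl⟩ _ hq
      by_cases hR : R = P
      · right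
        rw [eq_top_iff]
        intro u _
        obtain ⟨q, rfl⟩ := QuotientGroup.mk_surjective u
        have h1 : (q : Γ) ∈ R := by rw [hR]; exact q.2
        obtain ⟨q', hq', hqq⟩ := h1
        have h2 : q' = q := Subtype.ext hqq
        rw [h2] at hq'
        exact hq'
      · left
        have h1 : R ∈ 𝒮 := ⟨hc.trans hP₁R, lt_of_le_of_ne hRP hR, hVR⟩
        have h2 : R = P₁ := le_antisymm (hP₁max.le_of_ge h1 hP₁R) hP₁R
        rw [eq_bot_iff]
        intro u hu
        obtain ⟨q, rfl⟩ := QuotientGroup.mk_surjective u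
        rw [Subgroup.mem_bot, QuotientGroup.eq_one_iff, Subgroup.mem_subgroupOf, ← h2]
        exact ⟨q, hu, rfl⟩
  obtain ⟨i, j, hij, h1⟩ := exists_coprime hcyc ⟨act ⟨x, hx⟩, _, rfl⟩ ⟨act ⟨y, hy⟩, _, rfl⟩
  refine ⟨i, j, hij, ?_⟩
  have h2 : act (⟨x, hx⟩ ^ i * ⟨y, hy⟩ ^ j) = 1 := by
    rw [map_mul, map_zpow, map_zpow]
    exact congrArg Subtype.val h1
  intro q hq
  have h3 : act (⟨x, hx⟩ ^ i * ⟨y, hy⟩ ^ j) ((⟨q, hq⟩ : P) : P ⧸ P₁.subgroupOf P) =
      ((⟨q, hq⟩ : P) : P ⧸ P₁.subgroupOf P) := by rw [h2]; rfl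
  rw [hact, QuotientGroup.eq, Subgroup.mem_subgroupOf] at h3
  have h4 : ((cjA P ((⟨x, hx⟩ ^ i * ⟨y, hy⟩ ^ j : V) : Γ) (hVP (⟨x, hx⟩ ^ i * ⟨y, hy⟩ ^ j : V).2) ⟨q, hq⟩ : P) : Γ) =
      (x ^ i * y ^ j) * q * (x ^ i * y ^ j)⁻¹ := rfl
  have h5 : (((cjA P ((⟨x, hx⟩ ^ i * ⟨y, hy⟩ ^ j : V) : Γ) (hVP (⟨x, hx⟩ ^ i * ⟨y, hy⟩ ^ j : V).2) ⟨q, hq⟩)⁻¹ *
      ⟨q, hq⟩ : P) : Γ) = ((x ^ i * y ^ j) * q * (x ^ i * y ^ j)⁻¹)⁻¹ * q := by
    rw [Subgroup.coe_mul, Subgroup.coe_inv, h4]
  rw [h5] at h3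
  have h6 := (Subgroup.mem_normalizer_iff.mp (hPP₁ hq) _).mp (P₁.inv_mem h3)
  have h7 : q * ((((x ^ i * y ^ j) * q * (x ^ i * y ^ j)⁻¹)⁻¹ * q))⁻¹ * q⁻¹ =
      (x ^ i * y ^ j) * q * (x ^ i * y ^ j)⁻¹ * q⁻¹ := by group
  rwa [h7] at h6

end H82.RM
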