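import Mathlib
import Cfsg.Agent.Lib.H82.RM9

/-!
# The pairings of a character and of its Glauberman correspondent agree: induction
-/

set_option autoImplicit false
set_option linter.unusedSectionVars false
set_option linter.style.haveILetI false

namespace H82.RM

open Cfsg H18.CharBasic H18.CharOrtho H18.CharQuot H18.CharInd
open scoped ComplexConjugate

universe u v w

variable {Γ : Type u} [Group Γ] [Finite Γ]

theorem normalizer_centralizer' {P : Subgroup Γ} {v : Γ} (hv : v ∈ Subgroup.normalizer (P : Set Γ)) :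
    v ∈ Subgroup.normalizer ((Subgroup.centralizer (P : Set Γ) : Subgroup Γ) : Set Γ) := by
  apply mem_normalizer_of_conj
  intro c hc
  rw [Subgroup.mem_centralizer_iff] at hc ⊢
  intro h hh
  have h1 : v⁻¹ * h * v⁻¹⁻¹ ∈ P :=
    (Subgroup.mem_normalizer_iff.mp ((Subgroup.normalizer (P : Set Γ)).inv_mem hv) h).mp hh
  have h2 := hc _ h1
  calc h * (v * c * v⁻¹) = v * ((v⁻¹ * h * v⁻¹⁻¹) * c) * v⁻¹ := by group
    _ = v * (c * (v⁻¹ * h * v⁻¹⁻¹)) * v⁻¹ := by rw [h2]
    _ = _ := by group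

theorem chain {p : ℕ} [hpf : Fact p.Prime] (n : ℕ) : ∀ (P : Subgroup Γ), Nat.card P ≤ n → IsPGroup p P →
    ∀ (K V C : Subgroup Γ) (hCK : C ≤ K), P ≤ Subgroup.normalizer (K : Set Γ) →
    V ≤ Subgroup.normalizer (K : Set Γ) → V ≤ Subgroup.normalizer (P : Set Γ) →
    ¬ p ∣ Nat.card (K ⊔ V : Subgroup Γ) → C = K ⊓ Subgroup.centralizer (P : Set Γ) →
    (∀ v ∈ V, ∀ w ∈ V, v * w * v⁻¹ * w⁻¹ ∈ C) →
    ∀ (θ : K → ℂ) (θ' : C → ℂ), IsIrrCharacter K θ → IsIrrCharacter C θ' → Cor p hCK θ θ' →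
    (∀ q ∈ P, Stab K θ q) → (∀ v ∈ V, Stab K θ v) →
    ∀ x ∈ V, ∀ y ∈ V, ∀ z : ℂˣ, Pr K θ x y z → Pr C θ' x y z := by
  induction n with
  | zero =>
    intro P hPn
    exact absurd hPn (by have := Nat.card_pos (α := P); omega)
  | succ n ih =>
  intro P hPn hP K V C hCK hPK hVK hVP hcard hC hVV θ θ' hθ hθ' hcor hPinv hVinv x hx y hy z hz
  have hp : p.Prime := hpf.out
  have hKp : ¬ p ∣ Nat.card K := fun h => hcard (h.trans (Subgroup.card_dvd_of_le le_sup_left))
  by_cases hP1 : P = ⊥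
  · -- trivial case
    have hCK' : C = K := by
      rw [hC, hP1, inf_eq_left]
      intro k _
      rw [Subgroup.mem_centralizer_iff]
      intro h hh
      have h1 : h = 1 := by simpa using hh
      rw [h1, one_mul, mul_one]
    subst hCK'
    rw [cor_self_eq hθ hθ' hcor] at hz
    exact hz
  have hVC : ∀ v ∈ V, v ∈ Subgroup.normalizer (C : Set Γ) := by
    intro v hv
    rw [hC]
    exact normalizer_inf (hVK hv) (normalizer_centralizer' (hVP hv))
  have hstabC : ∀ v ∈ V, Stab C θ' v := fun v hv =>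
    stab_corr hP hPK hC hCK hKp hθ hPinv hθ' hcor (hVC v hv) (hVinv v hv)
  have hVcen : ∀ v ∈ V, ∀ w ∈ V, v * w * v⁻¹ * w⁻¹ ∈ Subgroup.centralizer (P : Set Γ) := by
    intro v hv w hw
    have h1 := hVV v hv w hw
    rw [hC] at h1
    exact h1.2
  obtain ⟨P₁, hP₁lt, hPP₁, hVP₁, i, j, hij, hact⟩ := exists_P1 hP hP1 hVP hVcen hx hy
  have hP₁ : IsPGroup p P₁ := hP.to_le hP₁lt.le
  have hP₁K : P₁ ≤ Subgroup.normalizer (K : Set Γ) := hP₁lt.le.trans hPK
  set C₁ : Subgroup Γ := K ⊓ Subgroup.centralizer (P₁ : Set Γ) with hC₁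
  have hC₁K : C₁ ≤ K := inf_le_left
  have hCC₁ : C ≤ C₁ := by
    rw [hC]
    exact inf_le_inf_left _ (Subgroup.centralizer_le (by exact_mod_cast hP₁lt.le))
  obtain ⟨φ, hφ, hc1, hc2⟩ := cor_mid hCC₁ hC₁K hθ hθ' hcor
  have hP₁card : Nat.card P₁ ≤ n := by
    have h1 : Nat.card P₁ < Nat.card P := by
      by_contra hcon
      exact hP₁lt.ne (Subgroup.eq_of_le_of_card_ge hP₁lt.le (not_lt.mp hcon))
    omega
  have hPr1 := ih P₁ hP₁card hP₁ K V C₁ hC₁K hP₁K hVK hVP₁ hcard rfl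
    (fun v hv w hw => hCC₁ (hVV v hv w hw)) θ φ hθ hφ hc1 (fun q hq => hPinv q (hP₁lt.le hq)) hVinv
  have hstab1 : ∀ v, v ∈ Subgroup.normalizer (K : Set Γ) → v ∈ Subgroup.normalizer (P₁ : Set Γ) →
      Stab K θ v → Stab C₁ φ v := by
    intro v hvK hvP₁ hv
    exact stab_corr hP₁ hP₁K hC₁ hC₁K hKp hθ (fun q hq => hPinv q (hP₁lt.le hq)) hφ hc1
      (normalizer_inf hvK (normalizer_centralizer' hvP₁)) hv
  have hV1 : ∀ v ∈ V, Stab C₁ φ v := fun v hv => hstab1 v (hVK hv) (hVP₁ hv) (hVinv v hv)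
  have hPQ1 : ∀ q ∈ P, Stab C₁ φ q := fun q hq => hstab1 q (hPK hq) (hPP₁ hq) (hPinv q hq)
  -- the central step
  set w : Γ := x ^ i * y ^ j with hw
  have hwV : w ∈ V := V.mul_mem (V.zpow_mem hx i) (V.zpow_mem hy j)
  have hcentral : ∀ v ∈ V, ∀ a b : ℂˣ, Pr C₁ φ w v a → Pr C θ' w v b → a = b := by
    intro v hv a b ha hb
    set Q : Subgroup Γ := P ⊓ Subgroup.centralizer ({w} : Set Γ) with hQdef
    have hwQ : w ∈ Subgroup.centralizer (Q : Set Γ) := by
      rw [Subgroup.mem_centralizer_iff]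
      rintro q ⟨_, hq⟩
      exact Subgroup.mem_centralizer_singleton_iff.mp hq
    have hQp : IsPGroup p Q := hP.to_le inf_le_left
    have hPle : P ≤ P₁ ⊔ Q := by
      intro q hq
      have hwp : (Nat.card (Subgroup.zpowers w)).Coprime (Nat.card P₁) := by
        obtain ⟨m, hm⟩ := IsPGroup.iff_card.mp hP₁
        rw [hm]
        apply Nat.Coprime.pow_right
        have h1 : ¬ p ∣ Nat.card (Subgroup.zpowers w) := by
          intro h
          apply hcard
          refine h.trans (Subgroup.card_dvd_of_le ?_)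
          rw [Subgroup.zpowers_le]
          exact le_sup_right (a := K) hwV
        exact ((Nat.Prime.coprime_iff_not_dvd hp).mpr h1).symm
      have hwN : Subgroup.zpowers w ≤ Subgroup.normalizer (P₁ : Set Γ) := by
        rw [Subgroup.zpowers_le]; exact hVP₁ hwV
      have hsolv : Group.IsSolvable (Subgroup.zpowers w) := by infer_instance
      have hzp : ∀ a ∈ Subgroup.zpowers w, q⁻¹ * a * q * a⁻¹ ∈ P₁ := by
        -- the set of `a` normalizing and acting trivially is a subgroup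
        let S : Subgroup Γ :=
          { carrier := {a | a ∈ Subgroup.normalizer (P : Set Γ) ∧
              a ∈ Subgroup.normalizer (P₁ : Set Γ) ∧ ∀ q ∈ P, a * q * a⁻¹ * q⁻¹ ∈ P₁}
            one_mem' := ⟨Subgroup.one_mem _, Subgroup.one_mem _, fun q _ => by simp [P₁.one_mem]⟩
            mul_mem' := by
              rintro a b ⟨ha1, ha2, ha3⟩ ⟨hb1, hb2, hb3⟩
              refine ⟨Subgroup.mul_mem _ ha1 hb1, Subgroup.mul_mem _ ha2 hb2, fun q hq => ?_⟩
              have h1 : a * b * q * (a * b)⁻¹ * q⁻¹ = (a * (b * q * b⁻¹) * a⁻¹ * (b * q * b⁻¹)⁻¹) *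
                  (b * q * b⁻¹ * q⁻¹) := by group
              rw [h1]
              exact P₁.mul_mem (ha3 _ ((Subgroup.mem_normalizer_iff.mp hb1 q).mp hq)) (hb3 q hq)
            inv_mem' := by
              rintro a ⟨ha1, ha2, ha3⟩
              refine ⟨Subgroup.inv_mem _ ha1, Subgroup.inv_mem _ ha2, fun q hq => ?_⟩
              have hq' : a⁻¹ * q * a⁻¹⁻¹ ∈ P :=
                (Subgroup.mem_normalizer_iff.mp (Subgroup.inv_mem _ ha1) q).mp hq
              have h1 : a⁻¹ * q * a⁻¹⁻¹ * q⁻¹ = (a * (a⁻¹ * q * a⁻¹⁻¹) * a⁻¹ * (a⁻¹ * q * a⁻¹⁻¹)⁻¹)⁻¹ := by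
                group
              rw [h1]
              exact P₁.inv_mem (ha3 _ hq') }
        have h1 : Subgroup.zpowers w ≤ S := by
          rw [Subgroup.zpowers_le]
          exact ⟨hVP hwV, hVP₁ hwV, hact⟩
        intro a ha
        obtain ⟨_, _, h2⟩ := h1 ha
        have h3 := (Subgroup.mem_normalizer_iff.mp (hPP₁ (P.inv_mem hq)) _).mp (h2 q hq)
        have h4 : q⁻¹ * (a * q * a⁻¹ * q⁻¹) * q⁻¹⁻¹ = q⁻¹ * a * q * a⁻¹ := by group
        rwa [h4] at h3
      obtain ⟨c, hc, hcq⟩ := H1.Coprime.exists_fixed_in_coset (Subgroup.zpowers w) P₁ hwN hwp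
        (Or.inl hsolv) q hzp
      have hcP : c ∈ P := by
        have h1 := P.mul_mem hq (hP₁lt.le hcq)
        rwa [mul_inv_cancel_left] at h1
      have hcQ : c ∈ Q := by
        refine ⟨hcP, ?_⟩
        show c ∈ Subgroup.centralizer ({w} : Set Γ)
        rw [Subgroup.mem_centralizer_singleton_iff]
        have h1 := Subgroup.mem_centralizer_iff.mp hc w (Subgroup.mem_zpowers w)
        exact h1.symm
      have h1 : q = c * (q⁻¹ * c)⁻¹ := by group
      rw [h1]
      exact (P₁ ⊔ Q).mul_mem (le_sup_right (a := P₁) hcQ) (le_sup_left (b := Q) (P₁.inv_mem hcq))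
    have hCeq : C = C₁ ⊓ Subgroup.centralizer (Q : Set Γ) := by
      apply le_antisymm
      · apply le_inf hCC₁
        rw [hC]
        exact inf_le_right.trans (Subgroup.centralizer_le (by exact_mod_cast inf_le_left))
      · rintro c ⟨⟨hc1, hc2⟩, hc3⟩
        rw [hC]
        refine ⟨hc1, ?_⟩
        show c ∈ Subgroup.centralizer (P : Set Γ)
        have h1 : P₁ ⊔ Q ≤ Subgroup.centralizer ({c} : Set Γ) := by
          apply sup_le
          · intro q hq
            rw [Subgroup.mem_centralizer_singleton_iff]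
            exact (Subgroup.mem_centralizer_iff.mp hc2 q hq)
          · intro q hq
            rw [Subgroup.mem_centralizer_singleton_iff]
            exact (Subgroup.mem_centralizer_iff.mp hc3 q hq)
        rw [Subgroup.mem_centralizer_iff]
        intro q hq
        exact Subgroup.mem_centralizer_singleton_iff.mp (h1 (hPle hq))
    have hQC₁ : Q ≤ Subgroup.normalizer (C₁ : Set Γ) := by
      intro q hq
      exact normalizer_inf (hPK hq.1) (normalizer_centralizer' (hPP₁ hq.1))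
    refine central_step hQp hQC₁ hCeq hCC₁ hwQ ?_ hφ hθ' (fun q hq => hPQ1 q hq.1) hc2 (hV1 w hwV)
      (hV1 v hv) (hstabC w hwV) (hstabC v hv) ha hb
    intro h
    apply hcard
    refine h.trans (Subgroup.card_dvd_of_le ?_)
    apply sup_le (hC₁K.trans le_sup_left)
    rw [Subgroup.zpowers_le]
    exact le_sup_right (a := K) hwV
  -- compare at `x, y`
  have hz1 : Pr C₁ φ x y z := hPr1 x hx y hy z hz
  obtain ⟨z', hz'⟩ := Pr.exists hθ' (hstabC x hx) (hstabC y hy) (hVV x hx y hy)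
  have key : ∀ (A : Subgroup Γ) (ψ : A → ℂ) (hψ : IsIrrCharacter A ψ) (hA : ∀ v ∈ V, Stab A ψ v)
      (a : ℂˣ), Pr A ψ x y a → Pr A ψ w y (a ^ i) ∧ Pr A ψ w x (a⁻¹ ^ j) := by
    intro A ψ hψ hA a ha
    constructor
    · have h1 := ha.zpow_left hψ (hA x hx) (hA y hy) i
      have h2 := (Pr.self hψ (hA y hy)).zpow_left hψ (hA y hy) (hA y hy) j
      have h3 := Pr.mul_left hψ ((hA x hx).zpow i) ((hA y hy).zpow j) (hA y hy) h1 h2
      rwa [one_zpow, mul_one] at h3
    · have h1 := (Pr.self hψ (hA x hx)).zpow_left hψ (hA x hx) (hA x hx) i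
      have h2 := (ha.swap hψ (hA x hx) (hA y hy)).zpow_left hψ (hA y hy) (hA x hx) j
      have h3 := Pr.mul_left hψ ((hA x hx).zpow i) ((hA y hy).zpow j) (hA x hx) h1 h2
      rwa [one_zpow, one_mul] at h3
  obtain ⟨k1, k2⟩ := key C₁ φ hφ hV1 z hz1
  obtain ⟨k3, k4⟩ := key C θ' hθ' hstabC z' hz'
  have e1 := hcentral y hy _ _ k1 k3
  have e2 := hcentral x hx _ _ k2 k4
  have e2' : z ^ j = z' ^ j := by
    rw [inv_zpow, inv_zpow] at e2
    exact inv_injective e2
  obtain ⟨a, b, hab⟩ := hij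
  have e3 : z = z' := by
    calc z = z ^ (a * i + b * j) := by rw [hab, zpow_one]
      _ = (z ^ i) ^ a * (z ^ j) ^ b := by rw [zpow_add, mul_comm a i, mul_comm b j, zpow_mul, zpow_mul]
      _ = (z' ^ i) ^ a * (z' ^ j) ^ b := by rw [e1, e2']
      _ = z' ^ (a * i + b * j) := by rw [zpow_add, mul_comm a i, mul_comm b j, zpow_mul, zpow_mul]
      _ = z' := by rw [hab, zpow_one]
  rw [e3]
  exact hz'

end H82.RM
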