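import Mathlib
import Cfsg.Agent.Lib.H82.RM2
import Cfsg.Agent.Lib.H19.CharExt

/-!
# Transport of counts, double counting, invariant constituents
-/

set_option autoImplicit false
set_option linter.unusedSectionVars false
set_option linter.style.haveILetI false

namespace H82.RM

open Cfsg H18.CharBasic H18.CharOrtho H18.CharQuot H18.CharInd H31.Clifford
open scoped ComplexConjugate

universe u v w

section transport

variable {G : Type u} [Group G] {L₁ L₂ H₁ H₂ : Type u} [Group L₁] [Group L₂] [Group H₁] [Group H₂]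

/-- two injective homomorphisms with the same range -/
noncomputable def eqR (j₁ : H₁ →* G) (j₂ : H₂ →* G) (h₁ : Function.Injective j₁)
    (h₂ : Function.Injective j₂) (h : j₁.range = j₂.range) : H₁ ≃* H₂ :=
  ((MonoidHom.ofInjective h₁).trans (MulEquiv.subgroupCongr h)).trans (MonoidHom.ofInjective h₂).symm

theorem eqR_apply (j₁ : H₁ →* G) (j₂ : H₂ →* G) (h₁ : Function.Injective j₁)
    (h₂ : Function.Injective j₂) (h : j₁.range = j₂.range) (x : H₁) :
    j₂ (eqR j₁ j₂ h₁ h₂ h x) = j₁ x := by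
  unfold eqR
  have h3 := (MonoidHom.ofInjective h₂).apply_symm_apply
    (((MonoidHom.ofInjective h₁).trans (MulEquiv.subgroupCongr h)) x)
  exact congrArg Subtype.val h3

theorem cnt_transport (p : ℕ) (f₁ : L₁ →* H₁) (f₂ : L₂ →* H₂) (hf₁ : Function.Injective f₁)
    (hf₂ : Function.Injective f₂) (j₁ : H₁ →* G) (j₂ : H₂ →* G) (hj₁ : Function.Injective j₁)
    (hj₂ : Function.Injective j₂) (hH : j₁.range = j₂.range)
    (hL : (j₁.comp f₁).range = (j₂.comp f₂).range) {ν₁ : L₁ → ℂ} {ν₂ : L₂ → ℂ}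
    (hν : ∀ l₁ l₂, j₁ (f₁ l₁) = j₂ (f₂ l₂) → ν₁ l₁ = ν₂ l₂) : cnt p f₁ ν₁ = cnt p f₂ ν₂ := by
  let eH := eqR j₁ j₂ hj₁ hj₂ hH
  let eL := eqR (j₁.comp f₁) (j₂.comp f₂) (hj₁.comp hf₁) (hj₂.comp hf₂) hL
  have h1 : ∀ l, j₂ (f₂ (eL l)) = j₁ (f₁ l) := fun l =>
    eqR_apply (j₁.comp f₁) (j₂.comp f₂) (hj₁.comp hf₁) (hj₂.comp hf₂) hL l
  have h2 : ∀ l, eH (f₁ l) = f₂ (eL l) := by
    intro l
    apply hj₂
    rw [h1]
    exact eqR_apply _ _ _ _ _ _
  have h3 : ν₁ = fun l => ν₂ (eL l) := by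
    funext l
    exact hν l (eL l) (h1 l).symm
  rw [h3]
  rw [← cnt_congr_left p eL f₂ ν₂]
  exact (cnt_congr_of p eH f₁ (f₂.comp eL.toMonoidHom) h2 (fun l => ν₂ (eL l))).symm

end transport

theorem double_key {X : Type v} {Y : Type w} [Finite X] [Fintype Y] (R : X → Y → Prop) (w : Y → ℕ)
    (h1 : ∀ x, ∃ y, R x y) (h2 : ∀ x y, R x y → Nat.card {y' // R x y'} = w y) :
    (Nat.card X : ℚ) = ∑ y : Y, (Nat.card {x // R x y} : ℚ) / w y := by
  classical
  letI := Fintype.ofFinite X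
  have h5 : ∀ y : Y, (Nat.card {x // R x y} : ℚ) / w y = ∑ x : X, if R x y then 1 / (w y : ℚ) else 0 := by
    intro y
    rw [← Finset.sum_filter, Finset.sum_const, nsmul_eq_mul, Nat.card_eq_fintype_card,
      Fintype.card_subtype, mul_one_div]
  rw [Finset.sum_congr rfl (fun y _ => h5 y), Finset.sum_comm]
  have h6 : ∀ x : X, ∑ y : Y, (if R x y then 1 / (w y : ℚ) else 0) = 1 := by
    intro x
    obtain ⟨y₀, hy₀⟩ := h1 x
    have hw0 : (w y₀ : ℚ) ≠ 0 := by
      rw [← h2 x y₀ hy₀]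
      haveI : Nonempty {y' // R x y'} := ⟨⟨y₀, hy₀⟩⟩
      exact_mod_cast Nat.card_pos.ne'
    have h7 : ∀ y : Y, (if R x y then 1 / (w y : ℚ) else 0) = if R x y then 1 / (w y₀ : ℚ) else 0 := by
      intro y
      split_ifs with h
      · rw [← h2 x y h, ← h2 x y₀ hy₀]
      · rfl
    rw [Finset.sum_congr rfl (fun y _ => h7 y), ← Finset.sum_filter, Finset.sum_const, nsmul_eq_mul,
      ← Fintype.card_subtype, ← Nat.card_eq_fintype_card, h2 x y₀ hy₀]
    field_simp
  rw [Finset.sum_congr rfl (fun x _ => h6 x)]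
  simp [Nat.card_eq_fintype_card]

theorem double_count {X : Type v} {X' Y : Type w} {Y' : Type u} [Finite X] [Finite X'] [Finite Y] [Finite Y']
    (R : X → Y → Prop) (R' : X' → Y' → Prop) (E : Y ≃ Y') (w : Y → ℕ) (w' : Y' → ℕ)
    (h1 : ∀ x, ∃ y, R x y) (h1' : ∀ x, ∃ y, R' x y)
    (h2 : ∀ x y, R x y → Nat.card {y' // R x y'} = w y)
    (h2' : ∀ x y, R' x y → Nat.card {y' // R' x y'} = w' y)
    (h3 : ∀ y, Nat.card {x // R x y} = Nat.card {x' // R' x' (E y)})
    (h4 : ∀ y, w y = w' (E y)) : Nat.card X = Nat.card X' := by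
  classical
  letI := Fintype.ofFinite Y
  letI := Fintype.ofFinite Y'
  have e1 := double_key R w h1 h2
  have e2 := double_key R' w' h1' h2'
  have e3 : (Nat.card X : ℚ) = Nat.card X' := by
    rw [e1, e2, ← E.sum_comp]
    refine Finset.sum_congr rfl fun y _ => ?_
    rw [h3, h4]
  exact_mod_cast e3

section constituents

variable {H : Type u} [Group H] [Finite H] (M : Subgroup H) [hM : M.Normal]

theorem und_conj {χ : H → ℂ} (hχ : IsIrrCharacter H χ) {μ : M → ℂ} (h : H) :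
    Und M.subtype χ (conjFunN M h μ) ↔ Und M.subtype χ μ := by
  letI := Fintype.ofFinite M
  rw [und_iff, und_iff]
  have h1 := inner_restrict_cj M h (isClassFunction_of_isIrr hχ) μ
  show classInner (fun l : M => χ l) (conjFunN M h μ) ≠ 0 ↔ classInner (fun l : M => χ l) μ ≠ 0
  rw [h1]

theorem und_exists {χ : H → ℂ} (hχ : IsIrrCharacter H χ) :
    ∃ μ : M → ℂ, IsIrrCharacter M μ ∧ Und M.subtype χ μ := by
  letI := Fintype.ofFinite M
  have h1 : IsCharacter M (fun l : M => χ l) := isCharacter_restrict M (isCharacter_of_isIrr hχ)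
  obtain ⟨ψ, hψ, h2⟩ := exists_constituent h1 (by
    intro h0
    have h3 := congrFun h0 1
    exact irr_one_ne_zero hχ h3)
  exact ⟨ψ, hψ, (und_iff M.subtype χ ψ).2 h2⟩

theorem und_orbit {χ : H → ℂ} (hχ : IsIrrCharacter H χ) {μ μ' : M → ℂ} (hμ : IsIrrCharacter M μ)
    (hμ' : IsIrrCharacter M μ') (h : Und M.subtype χ μ) (h' : Und M.subtype χ μ') :
    ∃ g : H, μ' = conjFunN M g μ := by
  letI := Fintype.ofFinite M
  letI := Fintype.ofFinite H
  exact constituents_conj M hχ hμ hμ' ((und_iff M.subtype χ μ).1 h) ((und_iff M.subtype χ μ').1 h')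

theorem und_degree {χ : H → ℂ} (hχ : IsIrrCharacter H χ) {μ : M → ℂ} (hμ : IsIrrCharacter M μ)
    (h : Und M.subtype χ μ) : (inertia M μ).index * charDegree μ ∣ charDegree χ := by
  letI := Fintype.ofFinite M
  letI := Fintype.ofFinite H
  have h1 := degree_eq M hχ hμ ((und_iff M.subtype χ μ).1 h)
  obtain ⟨e, he⟩ := inner_char_natCast (isCharacter_restrict M (isCharacter_of_isIrr hχ))
    (isCharacter_of_isIrr hμ)
  have h2 : (charDegree χ : ℂ) = ((e * ((inertia M μ).index * charDegree μ) : ℕ) : ℂ) := by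
    rw [H77.PQuot.cast_irr' hχ, h1]
    push_cast
    rw [H77.PQuot.cast_irr' hμ, ← he]
    ring
  have h3 : charDegree χ = e * ((inertia M μ).index * charDegree μ) := by exact_mod_cast h2
  rw [h3]
  exact Dvd.intro_left e rfl

theorem und_degree_quot {χ : H → ℂ} (hχ : IsIrrCharacter H χ) {μ : M → ℂ} (hμ : IsIrrCharacter M μ)
    (h : Und M.subtype χ μ) : ∃ a : ℕ, a ∣ M.index ∧ charDegree χ = charDegree μ * a := by
  letI := Fintype.ofFinite M
  letI := Fintype.ofFinite H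
  obtain ⟨h1, h2⟩ := H19.CharExt.dvd_index hχ hμ ((und_iff M.subtype χ μ).1 h) (charDegree χ)
    (charDegree μ) (H77.PQuot.cast_irr' hχ).symm (H77.PQuot.cast_irr' hμ).symm
  exact ⟨_, h2, (Nat.mul_div_cancel' h1).symm⟩

/-- values at central elements -/
theorem und_central {χ : H → ℂ} (hχ : IsIrrCharacter H χ) {μ : M → ℂ} (hμ : IsIrrCharacter M μ)
    (h : Und M.subtype χ μ) {z : H} (hz : z ∈ Subgroup.center H) (hzM : z ∈ M) :
    χ z * μ 1 = χ 1 * μ ⟨z, hzM⟩ := by
  letI := Fintype.ofFinite M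
  letI := Fintype.ofFinite H
  have h1 := restrict_eq M hχ hμ ((und_iff M.subtype χ μ).1 h)
  have h2 := congrFun h1 ⟨z, hzM⟩
  have h3 := congrFun h1 1
  simp only [Pi.smul_apply, Finset.sum_apply, smul_eq_mul, OneMemClass.coe_one] at h2 h3
  have h4 : ∑ φ ∈ orb M μ, φ ⟨z, hzM⟩ = ∑ _φ ∈ orb M μ, μ ⟨z, hzM⟩ := by
    refine Finset.sum_congr rfl fun φ hφ => ?_
    obtain ⟨g, rfl⟩ := (mem_orb M).1 hφ
    rw [cj_apply]
    congr 1
    apply Subtype.ext
    show g * z * g⁻¹ = z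
    rw [Subgroup.mem_center_iff.mp hz g, mul_inv_cancel_right]
  have h5 : ∑ φ ∈ orb M μ, φ 1 = ∑ _φ ∈ orb M μ, μ 1 := by
    refine Finset.sum_congr rfl fun φ hφ => ?_
    obtain ⟨g, rfl⟩ := (mem_orb M).1 hφ
    exact cj_at_one M g μ
  rw [h4] at h2
  rw [h5] at h3
  rw [h2, h3, Finset.sum_const, Finset.sum_const, nsmul_eq_mul, nsmul_eq_mul]
  ring

end constituents

section sylow

variable {p : ℕ} [hpf : Fact p.Prime] {H : Type u} [Group H] [Finite H] (M : Subgroup H) [hM : M.Normal]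
  (S : Subgroup H)

/-- If `p ∤ χ(1)` there is an `S`-invariant constituent of the restriction. -/
theorem exists_inv_const (hS : IsPGroup p S) {χ : H → ℂ} (hχ : IsIrrCharacter H χ)
    (hdeg : ¬ p ∣ charDegree χ) :
    ∃ μ : M → ℂ, IsIrrCharacter M μ ∧ Und M.subtype χ μ ∧ ∀ s ∈ S, conjFunN M s μ = μ := by
  classical
  letI := Fintype.ofFinite H
  obtain ⟨μ, hμ, hund⟩ := und_exists M hχ
  have h1 : ¬ p ∣ (orb M μ).card := by
    rw [card_orb]
    intro h
    exact hdeg ((h.mul_right _).trans (und_degree M hχ hμ hund))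
  -- action of `S` on the orbit
  letI : MulAction S (orb M μ) :=
    { smul := fun s φ => ⟨conjFunN M (s : H)⁻¹ φ, by
        obtain ⟨g, hg⟩ := (mem_orb M).1 φ.2
        rw [mem_orb, hg, cj_mul]
        exact ⟨_, rfl⟩⟩
      one_smul := fun φ => by
        apply Subtype.ext
        show conjFunN M ((1 : S) : H)⁻¹ φ = φ
        rw [OneMemClass.coe_one, inv_one, cj_one]
      mul_smul := fun s t φ => by
        apply Subtype.ext
        show conjFunN M ((s * t : S) : H)⁻¹ φ = conjFunN M (s : H)⁻¹ (conjFunN M (t : H)⁻¹ φ)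
        rw [cj_mul, Subgroup.coe_mul, mul_inv_rev] }
  have h2 := hS.card_modEq_card_fixedPoints (orb M μ)
  have h3 : (MulAction.fixedPoints S (orb M μ)).Nonempty := by
    by_contra hcon
    rw [Set.not_nonempty_iff_eq_empty] at hcon
    apply h1
    rw [hcon] at h2
    have h4 : Nat.card (orb M μ) = (orb M μ).card :=
      (Nat.card_eq_fintype_card).trans (Fintype.card_coe _)
    rw [h4] at h2
    have h5 : Nat.card (↥(∅ : Set (orb M μ))) = 0 := by simp
    rw [h5] at h2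
    exact (Nat.modEq_zero_iff_dvd).mp h2
  obtain ⟨⟨φ, hφ⟩, hfix⟩ := h3
  obtain ⟨g, rfl⟩ := (mem_orb M).1 hφ
  refine ⟨_, irr_of_mem_orb M hμ hφ, (und_conj M hχ g).2 hund, ?_⟩
  intro s hs
  have h6 := congrArg Subtype.val (hfix ⟨s⁻¹, S.inv_mem hs⟩)
  have h7 : conjFunN M (s⁻¹)⁻¹ (conjFunN M g μ) = conjFunN M g μ := h6
  rwa [inv_inv] at h7

theorem inv_const_orbit (hS : IsPGroup p S) (hSi : ¬ p ∣ S.index) {χ : H → ℂ}
    (hχ : IsIrrCharacter H χ) {μ μ' : M → ℂ} (hμ : IsIrrCharacter M μ) (hμ' : IsIrrCharacter M μ')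
    (h : Und M.subtype χ μ) (h' : Und M.subtype χ μ') (hs : ∀ s ∈ S, conjFunN M s μ = μ)
    (hs' : ∀ s ∈ S, conjFunN M s μ' = μ') :
    ∃ n ∈ Subgroup.normalizer ((M ⊔ S : Subgroup H) : Set H), μ' = conjFunN M n μ := by
  obtain ⟨g, hg⟩ := und_orbit M hχ hμ hμ' h h'
  -- both `S` and `g⁻¹ S g` lie in the inertia group of `μ'`
  let I := inertia M μ'
  have hSI : S ≤ I := hs'
  have hSgI : S.map (MulAut.conj g⁻¹).toMonoidHom ≤ I := by
    rintro _ ⟨s, hs1, rfl⟩
    show conjFunN M (g⁻¹ * s * g⁻¹⁻¹) μ' = μ'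
    rw [hg, cj_mul, inv_inv, ← mul_assoc, mul_inv_cancel_left, ← cj_mul, hs s hs1]
  have hSg : IsPGroup p (S.map (MulAut.conj g⁻¹).toMonoidHom) := hS.map _
  have hcard : Nat.card (S.map (MulAut.conj g⁻¹).toMonoidHom) = Nat.card S :=
    Nat.card_congr (S.equivMapOfInjective _ (MulAut.conj g⁻¹).injective).toEquiv.symm
  -- Sylow subgroups of `I`
  have hsyl : ∀ R : Subgroup H, IsPGroup p R → Nat.card R = Nat.card S → R ≤ I →
      ¬ p ∣ (R.subgroupOf I).index := by
    intro R hR hc hRI h1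
    apply hSi
    have h2 : (R.subgroupOf I).index ∣ R.index := Subgroup.relIndex_dvd_index_of_le hRI
    have h3 : R.index = S.index := by
      have h4 := R.card_mul_index
      have h5 := S.card_mul_index
      rw [hc, ← h5] at h4
      exact Nat.eq_of_mul_eq_mul_left Nat.card_pos h4
    rw [← h3]
    exact h1.trans h2
  have hA : IsPGroup p (S.subgroupOf I) := hS.comap_subtype
  have hB : IsPGroup p ((S.map (MulAut.conj g⁻¹).toMonoidHom).subgroupOf I) := hSg.comap_subtype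
  let A : Sylow p I := hA.toSylow (hsyl S hS rfl hSI)
  let B : Sylow p I := hB.toSylow (hsyl _ hSg hcard hSgI)
  obtain ⟨i, hi⟩ := MulAction.exists_smul_eq I B A
  have hi' : ((S.map (MulAut.conj g⁻¹).toMonoidHom).subgroupOf I).map (MulAut.conj i).toMonoidHom =
      S.subgroupOf I := congrArg (fun P : Sylow p I => (P : Subgroup I)) hi
  -- `n = g * i⁻¹`
  refine ⟨g * (i : H)⁻¹, ?_, ?_⟩
  · have hnS : ∀ s ∈ S, (i : H) * (g⁻¹ * s * g) * (i : H)⁻¹ ∈ S := by
      intro s hs1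
      have hm : g⁻¹ * s * g ∈ S.map (MulAut.conj g⁻¹).toMonoidHom := ⟨s, hs1, by
        show g⁻¹ * s * g⁻¹⁻¹ = _
        rw [inv_inv]⟩
      have h3 : (⟨g⁻¹ * s * g, hSgI hm⟩ : I) ∈ (S.map (MulAut.conj g⁻¹).toMonoidHom).subgroupOf I := hm
      have h4 : MulAut.conj i ⟨g⁻¹ * s * g, hSgI hm⟩ ∈ S.subgroupOf I := by
        rw [← hi']
        exact ⟨_, h3, rfl⟩
      exact h4
    have hninv : ((i : H) * g⁻¹) ∈ Subgroup.normalizer ((M ⊔ S : Subgroup H) : Set H) := by
      have h5 : (M ⊔ S).map (MulAut.conj ((i : H) * g⁻¹)).toMonoidHom ≤ M ⊔ S := by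
        rw [Subgroup.map_sup]
        apply sup_le
        · rintro _ ⟨m, hm, rfl⟩
          exact le_sup_left (b := S) (hM.conj_mem m hm _)
        · rintro _ ⟨s, hs1, rfl⟩
          apply le_sup_right (a := M)
          have h6 := hnS s hs1
          show (i : H) * g⁻¹ * s * ((i : H) * g⁻¹)⁻¹ ∈ S
          have h7 : (i : H) * g⁻¹ * s * ((i : H) * g⁻¹)⁻¹ = (i : H) * (g⁻¹ * s * g) * (i : H)⁻¹ := by group
          rwa [h7]
      have h6 : (M ⊔ S).map (MulAut.conj ((i : H) * g⁻¹)).toMonoidHom = M ⊔ S := by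
        apply Subgroup.eq_of_le_of_card_ge h5
        exact (Nat.card_congr ((M ⊔ S).equivMapOfInjective _ (MulAut.conj ((i : H) * g⁻¹)).injective).toEquiv).le
      rw [Subgroup.mem_normalizer_iff]
      intro x
      constructor
      · intro hx
        exact h5 ⟨x, hx, rfl⟩
      · intro hx
        have h7 : ((i : H) * g⁻¹) * x * ((i : H) * g⁻¹)⁻¹ ∈
            (M ⊔ S).map (MulAut.conj ((i : H) * g⁻¹)).toMonoidHom := by rw [h6]; exact hx
        obtain ⟨y, hy, hyx⟩ := h7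
        have h8 : ((i : H) * g⁻¹) * y * ((i : H) * g⁻¹)⁻¹ = ((i : H) * g⁻¹) * x * ((i : H) * g⁻¹)⁻¹ := hyx
        have h9 : y = x := mul_left_cancel (mul_right_cancel h8)
        rwa [← h9]
    have h10 := Subgroup.inv_mem _ hninv
    rwa [mul_inv_rev, inv_inv] at h10
  · have h3 : conjFunN M (i : H)⁻¹ μ' = μ' := by
      have h4 : conjFunN M (i : H) μ' = μ' := i.2
      have h5 := congrArg (conjFunN M (i : H)⁻¹) h4
      rw [cj_mul, mul_inv_cancel, cj_one] at h5
      exact h5.symm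
    rw [← cj_mul, ← hg, h3]

end sylow

end H82.RM
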