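import Mathlib
import Cfsg.Agent.Lib.H82.RM2
import Cfsg.Agent.Lib.H82.RM4
import Cfsg.Agent.Lib.H19.CharExt
import Cfsg.Agent.Lib.H77.InvOver

/-!
# The central cover of an invariant character
-/

set_option autoImplicit false
set_option linter.unusedSectionVars false
set_option linter.style.haveILetI false

namespace H82.RM

open Cfsg H18.CharBasic H18.CharOrtho H18.CharQuot H18.CharInd H31.Clifford
open scoped ComplexConjugate

universe u v w

variable {G : Type u} [Group G] [Finite G] (L : Subgroup G) [hL : L.Normal]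

theorem cover {ν : L → ℂ} (hν : IsIrrCharacter L ν) (hinv : ∀ g : G, conjFunN L g ν = ν) :
    ∃ (B : Type u) (_ : Group B) (_ : Finite B) (Z : Subgroup B) (f : B →* G ⧸ L) (lam : Z →* ℂˣ),
      Z ≤ Subgroup.center B ∧ Function.Surjective f ∧ f.ker = Z ∧
      (∀ (p : ℕ), (p.Prime ∨ p = 0) → ¬ p ∣ charDegree ν → ∀ (H : Subgroup G) (hLH : L ≤ H)
        (hZH : Z ≤ (H.map (QuotientGroup.mk' L)).comap f),
        cnt p (Subgroup.inclusion hLH) ν =
          cz p (fun z : Z => (⟨z, hZH z.2⟩ : ↥((H.map (QuotientGroup.mk' L)).comap f)))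
            (fun z => ((lam z : ℂˣ) : ℂ))) ∧
      (∀ (b b' : B) (g g' : G), f b = (g : G ⧸ L) → f b' = (g' : G ⧸ L) →
        ∀ h : b * b' * b⁻¹ * b'⁻¹ ∈ Z, Pr L ν g g' (lam ⟨_, h⟩)⁻¹) := by
  classical
  have hinv' : ∀ (g : G) (n : L), ν ⟨g * n * g⁻¹, hL.conj_mem (n : G) n.2 g⟩ = ν n :=
    fun g n => congrFun (hinv g) n
  obtain ⟨Γ, _, _, π, M, hM, e, β, hπ, hπM, hβ, hβM, hker, hknorm⟩ := H19.CharExt.exists_cover hν hinv'
  obtain ⟨d, R, hR, hRβ⟩ := id hβ
  have hd := pos_of_irr R hR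
  have hβ1 : β 1 = d := by rw [← hRβ, Representation.char_one, Module.finrank_fin_fun]
  have hβ10 : β 1 ≠ 0 := irr_one_ne_zero hβ
  -- scalars
  have hw : ∀ k : π.ker, ∃ c : ℂˣ, R.toHomUnits k = sc d c := by
    intro k
    apply schur R hR
    intro x
    rw [← map_mul, ← map_inv, ← map_mul, hker k k.2 x, mul_inv_cancel_right]
  choose w hw using hw
  let wh : π.ker →* ℂˣ :=
    { toFun := w
      map_one' := by
        apply sc_inj hd
        rw [← hw, map_one, OneMemClass.coe_one, map_one]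
      map_mul' := fun a b => by
        apply sc_inj hd
        rw [← hw, map_mul, Subgroup.coe_mul, map_mul, hw, hw] }
  have hβk : ∀ (k : π.ker) (x : Γ), β (k * x) = w k * β x := by
    intro k x
    have h1 : R (k * x) = (w k : ℂ) • R x := by
      have h2 : (R.toHomUnits (k * x) : Module.End ℂ (Fin d → ℂ)) = (w k : ℂ) • (R.toHomUnits x : Module.End ℂ (Fin d → ℂ)) := by
        rw [map_mul, hw, Units.val_mul, sc_coe, smul_mul_assoc, one_mul]
      exact h2
    rw [← hRβ]
    simp only [Representation.character, h1, map_smul, smul_eq_mul]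
  have hβk1 : ∀ k : π.ker, β k = w k * β 1 := by
    intro k
    have := hβk k 1
    rwa [mul_one] at this
  -- quotient
  let q : Γ →* Γ ⧸ M := QuotientGroup.mk' M
  have hq : Function.Surjective q := QuotientGroup.mk'_surjective M
  have hqk : ∀ x, q x = 1 ↔ x ∈ M := fun x => QuotientGroup.eq_one_iff x
  have hMk : ∀ x ∈ M, π x = 1 → x = 1 := by
    intro x hx h1
    have h2 := hπM ⟨x, hx⟩
    rw [show π ((⟨x, hx⟩ : M) : Γ) = 1 from h1] at h2
    have h3 : e ⟨x, hx⟩ = 1 := Subtype.ext h2.symm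
    have h4 : (⟨x, hx⟩ : M) = 1 := (MulEquiv.map_eq_one_iff e).mp h3
    exact congrArg Subtype.val h4
  let qk : π.ker →* Γ ⧸ M := q.comp π.ker.subtype
  have hqkinj : Function.Injective qk := by
    rw [injective_iff_map_eq_one]
    intro k hk
    apply Subtype.ext
    exact hMk k ((hqk k).mp hk) k.2
  let f : Γ ⧸ M →* G ⧸ L := QuotientGroup.lift M ((QuotientGroup.mk' L).comp π) (by
    intro m hm
    show (QuotientGroup.mk' L) (π m) = 1
    rw [hπM ⟨m, hm⟩]
    exact (QuotientGroup.eq_one_iff _).mpr (e ⟨m, hm⟩).2)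
  have hfq : ∀ x, f (q x) = (π x : G ⧸ L) := fun x => rfl
  have hexM : ∀ x : Γ, π x ∈ L → ∃ m ∈ M, ∃ k : π.ker, x = m * k := by
    intro x hx
    refine ⟨(e.symm ⟨π x, hx⟩ : M), (e.symm ⟨π x, hx⟩).2, ⟨((e.symm ⟨π x, hx⟩ : M) : Γ)⁻¹ * x, ?_⟩, ?_⟩
    · rw [MonoidHom.mem_ker, map_mul, map_inv, hπM, e.apply_symm_apply, inv_mul_cancel]
    · show x = _ * (_ * x)
      rw [mul_inv_cancel_left]
  have hfker : f.ker = qk.range := by
    ext b
    obtain ⟨x, rfl⟩ := hq b
    rw [MonoidHom.mem_ker, hfq, QuotientGroup.eq_one_iff]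
    constructor
    · intro hx
      obtain ⟨m, hm, k, hk⟩ := hexM x hx
      refine ⟨k, ?_⟩
      show q k = q x
      rw [hk, map_mul, (hqk m).mpr hm, one_mul]
    · rintro ⟨k, hk⟩
      have h1 : q ((k : Γ)⁻¹ * x) = 1 := by
        rw [map_mul, map_inv, ← hk]
        show (q k)⁻¹ * q k = 1
        rw [inv_mul_cancel]
      have h2 := (hqk _).mp h1
      have h3 := hπM ⟨_, h2⟩
      have h4 : π ((k : Γ)⁻¹ * x) = π x := by
        rw [map_mul, map_inv, k.2, inv_one, one_mul]
      rw [← h4]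
      rw [show π ((⟨(k : Γ)⁻¹ * x, h2⟩ : M) : Γ) = _ from h3]
      exact (e _).2
  let eZ : π.ker ≃* qk.range := MonoidHom.ofInjective hqkinj
  let lam : qk.range →* ℂˣ := (wh.comp eZ.symm.toMonoidHom)⁻¹
  have hlam : ∀ (k : π.ker) (h : q k ∈ qk.range), lam ⟨q k, h⟩ = (w k)⁻¹ := by
    intro k h
    have h1 : eZ.symm ⟨q k, h⟩ = k := by
      rw [MulEquiv.symm_apply_eq]
      rfl
    show (wh (eZ.symm ⟨q k, h⟩))⁻¹ = _
    rw [h1]
    rfl
  have hwβ : ∀ k : π.ker, (((w k)⁻¹ : ℂˣ) : ℂ) * β k = β 1 := by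
    intro k
    rw [hβk1, ← mul_assoc, ← Units.val_mul, inv_mul_cancel, Units.val_one, one_mul]
  refine ⟨Γ ⧸ M, inferInstance, inferInstance, qk.range, f, lam, ?_, ?_, hfker, ?_, ?_⟩
  · rintro _ ⟨k, rfl⟩
    rw [Subgroup.mem_center_iff]
    intro b
    obtain ⟨x, rfl⟩ := hq b
    show q x * q k = q k * q x
    rw [← map_mul, ← map_mul, hker k k.2]
  · intro b
    obtain ⟨g, rfl⟩ := QuotientGroup.mk_surjective b
    obtain ⟨x, rfl⟩ := hπ g
    exact ⟨q x, rfl⟩
  · intro p hp hpν H hLH hZH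
    let πH : H.comap π →* H := π.subgroupComap H
    have hπH : Function.Surjective πH := π.subgroupComap_surjective_of_surjective H hπ
    have hπHv : ∀ x, ((πH x : H) : G) = π x := fun x => rfl
    have hmemB : ∀ x : Γ, q x ∈ (H.map (QuotientGroup.mk' L)).comap f ↔ π x ∈ H := by
      intro x
      rw [Subgroup.mem_comap, hfq]
      constructor
      · rintro ⟨h, hh, hh'⟩
        have h1 : h⁻¹ * π x ∈ L := QuotientGroup.eq.mp hh'
        have h2 := H.mul_mem hh (hLH h1)
        rwa [mul_inv_cancel_left] at h2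
      · intro h
        exact ⟨π x, h, rfl⟩
    let qH : H.comap π →* ↥((H.map (QuotientGroup.mk' L)).comap f) :=
      (q.comp (H.comap π).subtype).codRestrict _ (fun x => (hmemB x).mpr x.2)
    have hqHv : ∀ x, ((qH x : _) : Γ ⧸ M) = q x := fun x => rfl
    have hqH : Function.Surjective qH := by
      rintro ⟨b, hb⟩
      obtain ⟨x, rfl⟩ := hq b
      exact ⟨⟨x, (hmemB x).mp hb⟩, rfl⟩
    have hMH : M ≤ H.comap π := by
      intro m hm
      rw [Subgroup.mem_comap, hπM ⟨m, hm⟩]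
      exact hLH (e _).2
    have hkH : qH.ker = M.subgroupOf (H.comap π) := by
      ext x
      rw [MonoidHom.mem_ker, Subgroup.mem_subgroupOf, ← hqk]
      constructor
      · intro h; rw [← hqHv, h]; rfl
      · intro h; exact Subtype.ext h
    let e₁ : qH.ker ≃* L := (MulEquiv.subgroupCongr hkH).trans ((Subgroup.subgroupOfEquivOfLe hMH).trans e)
    have he₁ : ∀ x : qH.ker, π ((x : H.comap π) : Γ) = (e₁ x : G) := by
      intro x
      exact hπM (Subgroup.subgroupOfEquivOfLe hMH (MulEquiv.subgroupCongr hkH x))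
    have hβe₁ : ∀ x : qH.ker, β ((x : H.comap π) : Γ) = ν (e₁ x) := by
      intro x
      exact hβM (Subgroup.subgroupOfEquivOfLe hMH (MulEquiv.subgroupCongr hkH x))
    have hirrM : IsIrrCharacter qH.ker (fun x : qH.ker => β ((x : H.comap π) : Γ)) := by
      have h1 : (fun x : qH.ker => β ((x : H.comap π) : Γ)) = fun x => ν (e₁ x) := funext hβe₁
      rw [h1]
      exact (isIrrCharacter_mulEquiv e₁).1 hν
    have hirrH : IsIrrCharacter (H.comap π) (fun x : H.comap π => β x) :=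
      H77.InvOver.irr_of_restrict qH.ker.subtype (isCharacter_restrict _ (isCharacter_of_isIrr hβ)) hirrM
    have hdegβ : charDegree (fun x : H.comap π => β x) = charDegree ν := by
      have h1 : β ((1 : H.comap π) : Γ) = ν 1 := by
        have h2 := hβe₁ 1
        rw [map_one] at h2
        exact h2
      unfold charDegree
      show ⌊(β ((1 : H.comap π) : Γ)).re⌋₊ = ⌊(ν 1).re⌋₊
      rw [h1]
    have hmain := corrG πH hπH qH hqH hirrH hirrM (fun n => ¬ p ∣ n)
    unfold cnt cz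
    have hleft : Nat.card {χ : IrrCharacter H // ¬ p ∣ charDegree (χ : H → ℂ) ∧
        Und (Subgroup.inclusion hLH) (χ : H → ℂ) ν} =
        Nat.card {χ : IrrCharacter H // ¬ p ∣ charDegree (χ : H → ℂ) ∧
        Und (πH.comp qH.ker.subtype) (χ : H → ℂ) (fun x => β ((x : H.comap π) : Γ))} := by
      apply Nat.card_congr
      refine (Equiv.refl _).subtypeEquiv fun χ => ?_
      have h1 : Und (πH.comp qH.ker.subtype) (χ : H → ℂ) (fun x => β ((x : H.comap π) : Γ)) ↔
          Und (Subgroup.inclusion hLH) (χ : H → ℂ) ν := by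
        unfold Und
        rw [← finsum_comp_equiv e₁.toEquiv
          (f := fun l => (χ : H → ℂ) (Subgroup.inclusion hLH l) * conj (ν l))]
        have h2 : ∀ x : qH.ker, (χ : H → ℂ) ((πH.comp qH.ker.subtype) x) *
            conj (β ((x : H.comap π) : Γ)) =
            (χ : H → ℂ) (Subgroup.inclusion hLH (e₁.toEquiv x)) * conj (ν (e₁.toEquiv x)) := by
          intro x
          have h3 : (πH.comp qH.ker.subtype) x = Subgroup.inclusion hLH (e₁.toEquiv x) :=
            Subtype.ext (he₁ x)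
          rw [h3, hβe₁]
          rfl
        rw [finsum_congr h2]
      exact and_congr_right fun _ => h1.symm
    rw [hleft, hmain]
    apply Nat.card_congr
    refine (Equiv.refl _).subtypeEquiv fun δ => ?_
    have h5 : ¬ p ∣ charDegree ((δ : ↥((H.map (QuotientGroup.mk' L)).comap f) → ℂ)) *
        charDegree (fun x : H.comap π => β x) ↔
        ¬ p ∣ charDegree ((δ : ↥((H.map (QuotientGroup.mk' L)).comap f) → ℂ)) := by
      rw [ndvd_mul hp, hdegβ]
      exact and_iff_left hpν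
    have h6 : (∀ k ∈ πH.ker, (δ : ↥((H.map (QuotientGroup.mk' L)).comap f) → ℂ) (qH k) *
        β ((k : H.comap π) : Γ) = (δ : ↥((H.map (QuotientGroup.mk' L)).comap f) → ℂ) 1 *
          β (((1 : H.comap π) : H.comap π) : Γ)) ↔
        ∀ z : qk.range, (δ : ↥((H.map (QuotientGroup.mk' L)).comap f) → ℂ) ⟨z, hZH z.2⟩ =
          (δ : ↥((H.map (QuotientGroup.mk' L)).comap f) → ℂ) 1 * ((lam z : ℂˣ) : ℂ) := by
      constructor
      · rintro h ⟨_, k, rfl⟩
        have hkm : (k : Γ) ∈ H.comap π := by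
          rw [Subgroup.mem_comap, k.2]; exact H.one_mem
        have h7 := h ⟨k, hkm⟩ (by
          rw [MonoidHom.mem_ker]
          exact Subtype.ext k.2)
        have h8 : lam ⟨qk k, ⟨k, rfl⟩⟩ = (w k)⁻¹ := hlam k ⟨k, rfl⟩
        rw [h8]
        have h9 : (δ : ↥((H.map (QuotientGroup.mk' L)).comap f) → ℂ) ⟨qk k, hZH ⟨k, rfl⟩⟩ * β k =
            ((δ : ↥((H.map (QuotientGroup.mk' L)).comap f) → ℂ) 1 * (((w k)⁻¹ : ℂˣ) : ℂ)) * β k := by
          rw [mul_assoc, hwβ]
          exact h7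
        have h10 : β k ≠ 0 := by
          rw [hβk1]
          exact mul_ne_zero (w k).ne_zero hβ10
        exact mul_right_cancel₀ h10 h9
      · rintro h k hk
        have hk' : (k : Γ) ∈ π.ker := by
          rw [MonoidHom.mem_ker] at hk ⊢
          exact congrArg Subtype.val hk
        have h7 := h ⟨q k, ⟨⟨k, hk'⟩, rfl⟩⟩
        have h7' : lam ⟨q k, ⟨⟨k, hk'⟩, rfl⟩⟩ = (w ⟨k, hk'⟩)⁻¹ := hlam ⟨k, hk'⟩ ⟨⟨k, hk'⟩, rfl⟩
        rw [h7'] at h7
        have h8 : (δ : ↥((H.map (QuotientGroup.mk' L)).comap f) → ℂ) (qH k) =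
            (δ : ↥((H.map (QuotientGroup.mk' L)).comap f) → ℂ) 1 * (((w ⟨k, hk'⟩)⁻¹ : ℂˣ) : ℂ) := h7
        rw [h8, mul_assoc]
        exact congrArg _ (hwβ ⟨k, hk'⟩)
    show _ ∧ _ ↔ _ ∧ _
    rw [h5]
    exact and_congr_right fun _ => h6
  · intro b b' g g' hb hb' h
    obtain ⟨x, rfl⟩ := hq b
    obtain ⟨x', rfl⟩ := hq b'
    have hcf := isClassFunction_of_isIrr hν
    have hstab : ∀ y : G, Stab L ν y := by
      intro y
      refine ⟨by rw [Subgroup.normalizer_eq_top_iff.2 hL]; exact Subgroup.mem_top y, fun k => ?_⟩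
      exact congrFun (hinv y) k
    -- the pairing of `π x`, `π x'`
    have hbase : Pr L ν (π x) (π x') (lam ⟨_, h⟩)⁻¹ := by
      have h1 : π (x * x' * x⁻¹ * x'⁻¹) ∈ L := by
        have h2 : f (q (x * x' * x⁻¹ * x'⁻¹)) = 1 := by
          have h3 : q (x * x' * x⁻¹ * x'⁻¹) = q x * q x' * (q x)⁻¹ * (q x')⁻¹ := by
            rw [map_mul, map_mul, map_mul, map_inv, map_inv]
          rw [h3, ← MonoidHom.mem_ker, hfker]
          exact h
        rw [hfq, QuotientGroup.eq_one_iff] at h2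
        exact h2
      obtain ⟨m, hm, k, hk⟩ := hexM _ h1
      have h4 : q x * q x' * (q x)⁻¹ * (q x')⁻¹ = q k := by
        rw [← map_inv, ← map_inv, ← map_mul, ← map_mul, ← map_mul, hk, map_mul, (hqk m).mpr hm, one_mul]
      have h5 : lam ⟨_, h⟩ = (w k)⁻¹ := by
        rw [← hlam k ⟨k, rfl⟩]
        congr 1
        exact Subtype.ext h4
      rw [h5, inv_inv]
      have e1 : π x * π x' * (π x)⁻¹ * (π x')⁻¹ = π (x * x' * x⁻¹ * x'⁻¹) := by
        rw [map_mul, map_mul, map_mul, map_inv, map_inv]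
      refine ⟨by rw [Subgroup.normalizer_eq_top_iff.2 hL]; exact Subgroup.mem_top _,
        by rw [Subgroup.normalizer_eq_top_iff.2 hL]; exact Subgroup.mem_top _, by rw [e1]; exact h1, ?_⟩
      let ρ : Representation ℂ L (Fin d → ℂ) := (R.comp M.subtype).comp e.symm.toMonoidHom
      have hρu : ∀ l : L, ρ.toHomUnits l = R.toHomUnits (e.symm l : M) := fun l => Units.ext rfl
      have hρχ : ρ.character = ν := by
        funext l
        have h6 : ρ.character l = R.character ((e.symm l : M) : Γ) := rfl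
        rw [h6, hRβ, hβM, e.apply_symm_apply]
      have hρ : ρ.IsIrreducible := by
        letI := Fintype.ofFinite L
        apply H83.Gallagher.isIrreducible_of_norm_one
        rw [hρχ]
        exact inner_irr_self hν
      have hIA : ∀ (y : Γ) (hy : π y ∈ Subgroup.normalizer (L : Set G)),
          IA ρ (cjA L (π y) hy) (R.toHomUnits y) := by
        intro y hy l
        rw [hρu, hρu, ← map_inv, ← map_mul, ← map_mul]
        congr 1
        have h7 : y * ((e.symm l : M) : Γ) * y⁻¹ ∈ M := hM.conj_mem _ (e.symm l).2 y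
        have h8 : (e.symm (cjA L (π y) hy l) : M) = ⟨_, h7⟩ := by
          rw [MulEquiv.symm_apply_eq]
          apply Subtype.ext
          rw [← hπM, cjA_coe, map_mul, map_mul, map_inv, hπM, e.apply_symm_apply]
        rw [h8]
      refine PR_of ρ hρ hρχ (R.toHomUnits x) (R.toHomUnits x') (hIA x _) (hIA x' _) ?_
      have h10 : R.toHomUnits (x * x' * x⁻¹ * x'⁻¹) = sc d (w k) * R.toHomUnits m := by
        rw [hk, map_mul, hw, sc_comm]
      rw [← map_inv, ← map_inv, ← map_mul, ← map_mul, ← map_mul, h10, hρu]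
      congr 2
      have h9 : e ⟨m, hm⟩ = ⟨π x * π x' * (π x)⁻¹ * (π x')⁻¹, by rw [e1]; exact h1⟩ := by
        apply Subtype.ext
        rw [← hπM]
        show π m = π x * π x' * (π x)⁻¹ * (π x')⁻¹
        rw [e1, hk, map_mul, k.2, mul_one]
      rw [← h9, e.symm_apply_apply]
    have hg : (π x)⁻¹ * g ∈ L := QuotientGroup.eq.mp hb
    have hg' : (π x')⁻¹ * g' ∈ L := QuotientGroup.eq.mp hb'
    have h1 := Pr.mul_mem hν (hstab _) (hstab _) hg hg' hbase
    rwa [mul_inv_cancel_left, mul_inv_cancel_left] at h1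

end H82.RM
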