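import Mathlib
import Cfsg.Agent.Lib.H82.RM5

/-!
# The number of characters over an invariant character as a sum of the pairing
-/

set_option autoImplicit false
set_option linter.unusedSectionVars false
set_option linter.style.haveILetI false

namespace H82.RM

open Cfsg H18.CharBasic H18.CharOrtho H18.CharQuot H18.CharInd H31.Clifford
open scoped ComplexConjugate

universe u v w

theorem sum_comp_surj {A : Type u} {C : Type v} [Group A] [Group C] [Fintype A] [Fintype C]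
    (φ : A →* C) (hφ : Function.Surjective φ) (h : C → ℂ) :
    ∑ a : A, h (φ a) = (Nat.card φ.ker : ℂ) * ∑ c : C, h c := by
  classical
  rw [← Finset.sum_fiberwise (s := Finset.univ) (g := fun a : A => φ a), Finset.mul_sum]
  refine Finset.sum_congr rfl fun c _ => ?_
  rw [Finset.sum_congr rfl (g := fun _ => h c) (fun a ha => by rw [(Finset.mem_filter.1 ha).2]),
    Finset.sum_const, nsmul_eq_mul]
  congr 2
  obtain ⟨a₀, rfl⟩ := hφ c
  have h1 : (Finset.univ.filter (fun a : A => φ a = φ a₀)).card = Nat.card {a : A // φ a = φ a₀} := by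
    rw [Nat.card_eq_fintype_card, Fintype.card_subtype]
  rw [h1]
  have hA : ∀ k : φ.ker, φ (a₀ * k) = φ a₀ := fun k => by rw [map_mul, k.2, mul_one]
  have hB : ∀ a : {a : A // φ a = φ a₀}, a₀⁻¹ * a.1 ∈ φ.ker := fun a => by
    rw [MonoidHom.mem_ker, map_mul, map_inv, a.2, inv_mul_cancel]
  exact (Nat.card_congr (⟨fun k : φ.ker => ⟨a₀ * k, hA k⟩, fun a => ⟨a₀⁻¹ * a.1, hB a⟩,
    fun k => by apply Subtype.ext; simp, fun a => by apply Subtype.ext; simp⟩ :
      φ.ker ≃ {a : A // φ a = φ a₀})).symm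

variable {G : Type u} [Group G] [Finite G]

open Classical in
/-- value of the inverse of the pairing, `0` if the pairing is not defined -/
noncomputable def prv (K : Subgroup G) (θ : K → ℂ) (x y : G) : ℂ :=
  if h : ∃ z, Pr K θ x y z then ((h.choose⁻¹ : ℂˣ) : ℂ) else 0

theorem prv_eq {K : Subgroup G} {θ : K → ℂ} (hθ : IsIrrCharacter K θ) {x y : G} (hx : Stab K θ x)
    (hy : Stab K θ y) {z : ℂˣ} (h : Pr K θ x y z) : prv K θ x y = ((z⁻¹ : ℂˣ) : ℂ) := by
  have h1 : ∃ z, Pr K θ x y z := ⟨z, h⟩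
  unfold prv
  rw [dif_pos h1, Pr.unique hθ hx hy h1.choose_spec h]

theorem prv_zero {K : Subgroup G} {θ : K → ℂ} {x y : G} (h : x * y * x⁻¹ * y⁻¹ ∉ K) :
    prv K θ x y = 0 := by
  unfold prv
  rw [dif_neg]
  rintro ⟨z, _, _, h3, _⟩
  exact h h3

variable (L : Subgroup G) [hL : L.Normal]

theorem stab_of_inv {ν : L → ℂ} (hinv : ∀ g : G, conjFunN L g ν = ν) (y : G) : Stab L ν y := by
  refine ⟨by rw [Subgroup.normalizer_eq_top_iff.2 hL]; exact Subgroup.mem_top y, fun k => ?_⟩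
  exact congrFun (hinv y) k

theorem prv_mul_mem {ν : L → ℂ} (hν : IsIrrCharacter L ν) (hinv : ∀ g : G, conjFunN L g ν = ν)
    {x y k l : G} (hk : k ∈ L) (hl : l ∈ L) : prv L ν (x * k) (y * l) = prv L ν x y := by
  have hs := stab_of_inv L hinv
  by_cases h : x * y * x⁻¹ * y⁻¹ ∈ L
  · obtain ⟨z, hz⟩ := Pr.exists hν (hs x) (hs y) h
    rw [prv_eq hν (hs x) (hs y) hz, prv_eq hν (hs _) (hs _) (Pr.mul_mem hν (hs x) (hs y) hk hl hz)]
  · rw [prv_zero h, prv_zero]
    intro h1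
    apply h
    have h2 := (QuotientGroup.eq_one_iff (N := L) (x * k * (y * l) * (x * k)⁻¹ * (y * l)⁻¹)).mpr h1
    rw [← QuotientGroup.eq_one_iff (N := L)]
    have hk1 : (k : G ⧸ L) = 1 := (QuotientGroup.eq_one_iff k).mpr hk
    have hl1 : (l : G ⧸ L) = 1 := (QuotientGroup.eq_one_iff l).mpr hl
    simpa [hk1, hl1] using h2

theorem star {ν : L → ℂ} (hν : IsIrrCharacter L ν) (hinv : ∀ g : G, conjFunN L g ν = ν)
    {N' : Type v} [Group N'] [Fintype N'] (φ : N' →* G)
    (hφ : Function.Surjective ((QuotientGroup.mk' L).comp φ)) :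
    (cnt 0 L.subtype ν : ℂ) * ((Nat.card N' : ℂ) * Nat.card ((QuotientGroup.mk' L).comp φ).ker) =
      ∑ n : N', ∑ n' : N', prv L ν (φ n) (φ n') := by
  classical
  obtain ⟨B, _, _, Z, f, lam, hZc, hf, hfk, hcount, hpair⟩ := cover L hν hinv
  letI := Fintype.ofFinite B
  letI := Fintype.ofFinite G
  letI := Fintype.ofFinite (G ⧸ L)
  have hs := stab_of_inv L hinv
  have hdeg : ¬ (0 : ℕ) ∣ charDegree ν := by
    letI := Fintype.ofFinite L
    rw [zero_dvd_iff]
    intro h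
    have h1 := H77.PQuot.cast_irr' hν
    rw [h, Nat.cast_zero] at h1
    exact irr_one_ne_zero hν h1.symm
  have hc : (cnt 0 L.subtype ν : ℂ) * ((Nat.card B : ℂ) * Nat.card Z) =
      ∑ x : B, ∑ y : B, extendByZero Z (fun z => (lam z : ℂ)) (x * y * x⁻¹ * y⁻¹) := by
    rw [← count_central Z hZc lam]
    congr 2
    have hZH : Z ≤ ((⊤ : Subgroup G).map (QuotientGroup.mk' L)).comap f := by
      intro z hz
      rw [Subgroup.mem_comap]
      have h1 : f z = 1 := by rw [← MonoidHom.mem_ker, hfk]; exact hz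
      rw [h1]
      exact Subgroup.one_mem _
    have h1 := hcount 0 (Or.inr rfl) hdeg ⊤ le_top hZH
    have h2 : cnt 0 L.subtype ν = cnt 0 (Subgroup.inclusion (le_top : L ≤ ⊤)) ν :=
      cnt_congr_of 0 Subgroup.topEquiv (Subgroup.inclusion (le_top : L ≤ ⊤)) L.subtype (fun l => rfl) ν
    rw [h2, h1]
    have htop : ((⊤ : Subgroup G).map (QuotientGroup.mk' L)).comap f = ⊤ := by
      rw [Subgroup.map_top_of_surjective _ (QuotientGroup.mk'_surjective L), Subgroup.comap_top]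
    have h3 := cz_congr_of 0 ((MulEquiv.subgroupCongr htop).trans Subgroup.topEquiv)
      (fun z : Z => (⟨z, hZH z.2⟩ : ↥(((⊤ : Subgroup G).map (QuotientGroup.mk' L)).comap f)))
      (fun z : Z => (z : B)) (fun z => rfl) (fun z => ((lam z : ℂˣ) : ℂ))
    rw [← h3]
    unfold cz
    apply Nat.card_congr
    refine (Equiv.refl _).subtypeEquiv fun δ => ?_
    constructor
    · rintro ⟨_, h⟩; exact h
    · intro h
      refine ⟨?_, h⟩
      rw [zero_dvd_iff]
      intro h0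
      have h4 := H77.PQuot.cast_irr δ
      rw [h0, Nat.cast_zero] at h4
      exact irr_one_ne_zero δ.2 h4.symm
  let D : G ⧸ L → G ⧸ L → ℂ := fun u u' => prv L ν u.out u'.out
  have hD : ∀ g g' : G, D g g' = prv L ν g g' := by
    intro g g'
    obtain ⟨k, hk⟩ := QuotientGroup.mk_out_eq_mul L g
    obtain ⟨l, hl⟩ := QuotientGroup.mk_out_eq_mul L g'
    show prv L ν (Quotient.out (g : G ⧸ L)) (Quotient.out (g' : G ⧸ L)) = _
    rw [hk, hl, prv_mul_mem L hν hinv k.2 l.2]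
  have hB : ∀ b b' : B, extendByZero Z (fun z => (lam z : ℂ)) (b * b' * b⁻¹ * b'⁻¹) = D (f b) (f b') := by
    intro b b'
    obtain ⟨g, hg⟩ := QuotientGroup.mk_surjective (f b)
    obtain ⟨g', hg'⟩ := QuotientGroup.mk_surjective (f b')
    rw [← hg, ← hg', hD]
    by_cases h : b * b' * b⁻¹ * b'⁻¹ ∈ Z
    · rw [ext_mem Z _ h, prv_eq hν (hs g) (hs g') (hpair b b' g g' hg.symm hg'.symm h), inv_inv]
    · rw [ext_notMem Z _ h, prv_zero]
      intro h1
      apply h
      rw [← hfk, MonoidHom.mem_ker, map_mul, map_mul, map_mul, map_inv, map_inv, ← hg, ← hg']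
      exact (QuotientGroup.eq_one_iff _).mpr h1
  set S : ℂ := ∑ u : G ⧸ L, ∑ u' : G ⧸ L, D u u' with hS
  have hsumB : ∑ x : B, ∑ y : B, extendByZero Z (fun z => (lam z : ℂ)) (x * y * x⁻¹ * y⁻¹) =
      (Nat.card Z : ℂ) * ((Nat.card Z : ℂ) * S) := by
    have h1 : ∀ x : B, ∑ y : B, extendByZero Z (fun z => (lam z : ℂ)) (x * y * x⁻¹ * y⁻¹) =
        (Nat.card Z : ℂ) * ∑ u' : G ⧸ L, D (f x) u' := by
      intro x
      rw [Finset.sum_congr rfl (fun y _ => hB x y), sum_comp_surj f hf (fun u' => D (f x) u'), hfk]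
    rw [Finset.sum_congr rfl (fun x _ => h1 x), ← Finset.mul_sum,
      sum_comp_surj f hf (fun u => ∑ u' : G ⧸ L, D u u'), hfk]
  set φ' := (QuotientGroup.mk' L).comp φ with hφ'
  have hsumN : ∑ n : N', ∑ n' : N', prv L ν (φ n) (φ n') =
      (Nat.card φ'.ker : ℂ) * ((Nat.card φ'.ker : ℂ) * S) := by
    have h1 : ∀ x : N', ∑ y : N', prv L ν (φ x) (φ y) =
        (Nat.card φ'.ker : ℂ) * ∑ u' : G ⧸ L, D (φ' x) u' := by
      intro x
      rw [← sum_comp_surj φ' hφ (fun u' => D (φ' x) u')]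
      exact Finset.sum_congr rfl fun y _ => (hD (φ x) (φ y)).symm
    rw [Finset.sum_congr rfl (fun x _ => h1 x), ← Finset.mul_sum,
      sum_comp_surj φ' hφ (fun u => ∑ u' : G ⧸ L, D u u')]
  have hcB : (Nat.card B : ℂ) = Nat.card Z * Nat.card (G ⧸ L) := by
    rw [← Nat.card_congr (QuotientGroup.quotientKerEquivOfSurjective f hf).toEquiv, ← hfk]
    exact_mod_cast (f.ker.card_mul_index).symm
  have hcN : (Nat.card N' : ℂ) = Nat.card φ'.ker * Nat.card (G ⧸ L) := by
    rw [← Nat.card_congr (QuotientGroup.quotientKerEquivOfSurjective φ' hφ).toEquiv]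
    exact_mod_cast (φ'.ker.card_mul_index).symm
  have hZ0 : (Nat.card Z : ℂ) ≠ 0 := card_ne_zero'
  have hmain : (cnt 0 L.subtype ν : ℂ) * Nat.card (G ⧸ L) = S := by
    rw [hsumB, hcB] at hc
    have h1 : ((Nat.card Z : ℂ) * Nat.card Z) * ((cnt 0 L.subtype ν : ℂ) * Nat.card (G ⧸ L)) =
        ((Nat.card Z : ℂ) * Nat.card Z) * S := by
      linear_combination hc
    exact mul_left_cancel₀ (mul_ne_zero hZ0 hZ0) h1
  rw [hsumN, hcN, ← hmain]
  ring

end H82.RM
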