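import Mathlib
import Cfsg.Agent.Lib.H82.RM11
import Cfsg.Agent.Lib.H82.RM6

/-!
# Decomposition of character counts over a normal subgroup; ambient forms
-/

set_option autoImplicit false
set_option linter.unusedSectionVars false
set_option linter.style.haveILetI false

namespace H82.RM

open Cfsg H18.CharBasic H18.CharOrtho H18.CharQuot H18.CharInd H31.Clifford
open scoped ComplexConjugate

universe u v w

section dec

variable {p : ℕ} [hpf : Fact p.Prime] {H : Type u} [Group H] [Finite H] (M : Subgroup H) [hM : M.Normal]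
  (S : Subgroup H) {ι : Type w} (ζ : ι → H) (hζM : ∀ i, ζ i ∈ M) (lam : ι → ℂ)

/-- `S`-invariant characters of `M` over `lam`. -/
def YI : Type u := {μ : IrrCharacter M // (∀ s ∈ S, conjFunN M s (μ : M → ℂ) = (μ : M → ℂ)) ∧
    ∀ i, (μ : M → ℂ) ⟨ζ i, hζM i⟩ = (μ : M → ℂ) 1 * lam i}

instance : Finite (YI M S ζ hζM lam) := by
  unfold YI
  infer_instance

theorem dec (hS : IsPGroup p S) (hSi : ¬ p ∣ S.index) (hζc : ∀ i, ζ i ∈ Subgroup.center H) :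
    (cz p ζ lam : ℚ) = ∑ᶠ y : YI M S ζ hζM lam, (cnt p M.subtype (y.1 : M → ℂ) : ℚ) /
      Nat.card {y' : YI M S ζ hζM lam // ∃ n ∈ Subgroup.normalizer ((M ⊔ S : Subgroup H) : Set H),
        (y'.1 : M → ℂ) = conjFunN M n (y.1 : M → ℂ)} := by
  classical
  let X : Type u := {χ : IrrCharacter H // ¬ p ∣ charDegree (χ : H → ℂ) ∧
    ∀ i, (χ : H → ℂ) (ζ i) = (χ : H → ℂ) 1 * lam i}
  letI := Fintype.ofFinite (YI M S ζ hζM lam)
  have hX : Finite X := inferInstance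
  have h1 : ∀ x : X, ∃ y : YI M S ζ hζM lam, Und M.subtype (x.1 : H → ℂ) (y.1 : M → ℂ) := by
    rintro ⟨χ, hχ1, hχ2⟩
    obtain ⟨μ, hμ, hund, hinv⟩ := exists_inv_const M S hS χ.2 hχ1
    refine ⟨⟨⟨μ, hμ⟩, hinv, fun i => ?_⟩, hund⟩
    have h2 := und_central M χ.2 hμ hund (hζc i) (hζM i)
    rw [hχ2 i] at h2
    have h3 := irr_one_ne_zero χ.2
    show μ ⟨ζ i, hζM i⟩ = μ 1 * lam i
    apply mul_left_cancel₀ h3
    rw [← h2]
    ring
  have h2 : ∀ (x : X) (y : YI M S ζ hζM lam), Und M.subtype (x.1 : H → ℂ) (y.1 : M → ℂ) →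
      Nat.card {y' : YI M S ζ hζM lam // Und M.subtype (x.1 : H → ℂ) (y'.1 : M → ℂ)} =
      Nat.card {y' : YI M S ζ hζM lam // ∃ n ∈ Subgroup.normalizer ((M ⊔ S : Subgroup H) : Set H),
        (y'.1 : M → ℂ) = conjFunN M n (y.1 : M → ℂ)} := by
    intro x y hxy
    refine Nat.card_congr (Equiv.subtypeEquivRight fun y' => ?_)
    constructor
    · intro h
      exact inv_const_orbit M S hS hSi x.1.2 y.1.2 y'.1.2 hxy h y.2.1 y'.2.1
    · rintro ⟨n, _, hn⟩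
      rw [hn]
      exact (und_conj M x.1.2 n).2 hxy
  have h3 : ∀ y : YI M S ζ hζM lam, Nat.card {x : X // Und M.subtype (x.1 : H → ℂ) (y.1 : M → ℂ)} =
      cnt p M.subtype (y.1 : M → ℂ) := by
    intro y
    unfold cnt
    refine Nat.card_congr ⟨fun x => ⟨x.1.1, x.1.2.1, x.2⟩, fun χ => ⟨⟨χ.1, χ.2.1, fun i => ?_⟩, χ.2.2⟩,
      fun _ => rfl, fun _ => rfl⟩
    have h4 := und_central M χ.1.2 y.1.2 χ.2.2 (hζc i) (hζM i)
    have h5 := y.2.2 i
    have h6 : (y.1 : M → ℂ) 1 ≠ 0 := irr_one_ne_zero y.1.2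
    rw [h5] at h4
    apply mul_right_cancel₀ h6
    rw [h4]
    ring
  have key := double_key (X := X) (Y := YI M S ζ hζM lam)
    (fun x y => Und M.subtype (x.1 : H → ℂ) (y.1 : M → ℂ)) _ h1 h2
  rw [finsum_eq_sum_of_fintype]
  show (Nat.card X : ℚ) = _
  rw [key]
  refine Finset.sum_congr rfl fun y _ => ?_
  rw [h3]

end dec

section amb

variable {Γ : Type u} [Group Γ] [Finite Γ]

/-- transport of functions -/
def tr (M H : Subgroup Γ) (μ : M → ℂ) : M.subgroupOf H → ℂ :=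
  fun m => μ ⟨((m : H) : Γ), Subgroup.mem_subgroupOf.mp m.2⟩

theorem tr_irr {M H : Subgroup Γ} (hMH : M ≤ H) {μ : M → ℂ} :
    IsIrrCharacter (M.subgroupOf H) (tr M H μ) ↔ IsIrrCharacter M μ :=
  (isIrrCharacter_mulEquiv (Subgroup.subgroupOfEquivOfLe hMH)).symm

theorem tr_inj {M H : Subgroup Γ} (hMH : M ≤ H) {μ μ' : M → ℂ} (h : tr M H μ = tr M H μ') : μ = μ' := by
  funext m
  exact congrFun h (⟨⟨(m : Γ), hMH m.2⟩, Subgroup.mem_subgroupOf.mpr m.2⟩ : M.subgroupOf H)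

theorem tr_normal {M H : Subgroup Γ} (hHM : H ≤ Subgroup.normalizer (M : Set Γ)) :
    (M.subgroupOf H).Normal := by
  constructor
  intro n hn g
  rw [Subgroup.mem_subgroupOf] at hn ⊢
  exact (Subgroup.mem_normalizer_iff.mp (hHM g.2) n).mp hn

theorem tr_stab {M H : Subgroup Γ} (hMH : M ≤ H) (hHM : H ≤ Subgroup.normalizer (M : Set Γ))
    [(M.subgroupOf H).Normal] {μ : M → ℂ} (h : H) :
    Stab M μ h ↔ conjFunN (M.subgroupOf H) h (tr M H μ) = tr M H μ := by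
  constructor
  · rintro ⟨_, h2⟩
    funext m
    exact h2 ⟨((m : H) : Γ), Subgroup.mem_subgroupOf.mp m.2⟩
  · intro h1
    refine ⟨hHM h.2, fun k => ?_⟩
    exact congrFun h1 (⟨⟨(k : Γ), hMH k.2⟩, Subgroup.mem_subgroupOf.mpr k.2⟩ : M.subgroupOf H)

theorem tr_conj {M H : Subgroup Γ} (hMH : M ≤ H) (hHM : H ≤ Subgroup.normalizer (M : Set Γ))
    [(M.subgroupOf H).Normal] {μ μ' : M → ℂ} (h : H) :
    tr M H μ' = conjFunN (M.subgroupOf H) h (tr M H μ) ↔ ∀ m, μ' m = μ (cjA M h (hHM h.2) m) := by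
  constructor
  · intro h1 m
    exact congrFun h1 (⟨⟨(m : Γ), hMH m.2⟩, Subgroup.mem_subgroupOf.mpr m.2⟩ : M.subgroupOf H)
  · intro h1
    funext m
    exact h1 ⟨((m : H) : Γ), Subgroup.mem_subgroupOf.mp m.2⟩

theorem cnt_amb (p : ℕ) {M H : Subgroup Γ} (hMH : M ≤ H) (μ : M → ℂ) :
    cnt p (M.subgroupOf H).subtype (tr M H μ) = cnt p (Subgroup.inclusion hMH) μ :=
  cnt_congr_left p (Subgroup.subgroupOfEquivOfLe hMH) (Subgroup.inclusion hMH) μ

theorem und_amb {M H : Subgroup Γ} (hMH : M ≤ H) (χ : H → ℂ) (μ : M → ℂ) :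
    Und (M.subgroupOf H).subtype χ (tr M H μ) ↔ Und (Subgroup.inclusion hMH) χ μ := by
  unfold Und
  rw [← finsum_comp_equiv (Subgroup.subgroupOfEquivOfLe hMH).toEquiv
    (f := fun l => χ (Subgroup.inclusion hMH l) * conj (μ l))]
  rfl

/-- `S`-invariant characters of `M` over `lam`. -/
def YA (M S : Subgroup Γ) {ι : Type w} (ζ : ι → Γ) (hζM : ∀ i, ζ i ∈ M) (lam : ι → ℂ) : Type u :=
  {μ : IrrCharacter M // (∀ s ∈ S, Stab M (μ : M → ℂ) s) ∧
    ∀ i, (μ : M → ℂ) ⟨ζ i, hζM i⟩ = (μ : M → ℂ) 1 * lam i}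

instance (M S : Subgroup Γ) {ι : Type w} (ζ : ι → Γ) (hζM : ∀ i, ζ i ∈ M) (lam : ι → ℂ) :
    Finite (YA M S ζ hζM lam) := by
  unfold YA
  infer_instance

theorem sup_subgroupOf' {M S H : Subgroup Γ} (hMH : M ≤ H) (hSH : S ≤ H) :
    M.subgroupOf H ⊔ S.subgroupOf H = (M ⊔ S).subgroupOf H := by
  apply Subgroup.map_injective H.subtype_injective
  rw [Subgroup.map_sup, Subgroup.subgroupOf_map_subtype, Subgroup.subgroupOf_map_subtype,
    Subgroup.subgroupOf_map_subtype, inf_eq_left.mpr hMH, inf_eq_left.mpr hSH,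
    inf_eq_left.mpr (sup_le hMH hSH)]

theorem mem_normalizer_subgroupOf {A H : Subgroup Γ} (hAH : A ≤ H) (h : H) :
    h ∈ Subgroup.normalizer ((A.subgroupOf H : Subgroup H) : Set H) ↔
      (h : Γ) ∈ Subgroup.normalizer (A : Set Γ) := by
  rw [Subgroup.mem_normalizer_iff, Subgroup.mem_normalizer_iff]
  constructor
  · intro h1 x
    constructor
    · intro hx
      exact (h1 ⟨x, hAH hx⟩).mp hx
    · intro hx
      have h2 : x ∈ H := by
        have h3 := H.mul_mem (H.mul_mem (H.inv_mem h.2) (hAH hx)) h.2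
        have h4 : (h : Γ)⁻¹ * ((h : Γ) * x * (h : Γ)⁻¹) * (h : Γ) = x := by group
        rwa [h4] at h3
      exact (h1 ⟨x, h2⟩).mpr hx
  · intro h1 x
    exact h1 (x : Γ)

theorem dec_amb {p : ℕ} [hpf : Fact p.Prime] (M S H : Subgroup Γ) (hMH : M ≤ H) (hSH : S ≤ H)
    (hHM : H ≤ Subgroup.normalizer (M : Set Γ)) (hS : IsPGroup p S) (hSi : ¬ p ∣ S.relIndex H)
    {ι : Type w} (ζ : ι → Γ) (hζM : ∀ i, ζ i ∈ M) (lam : ι → ℂ)
    (hζc : ∀ i, ∀ h ∈ H, h * ζ i = ζ i * h) :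
    (cz p (fun i => (⟨ζ i, hMH (hζM i)⟩ : H)) lam : ℚ) =
      ∑ᶠ y : YA M S ζ hζM lam, (cnt p (Subgroup.inclusion hMH) (y.1 : M → ℂ) : ℚ) /
      Nat.card {y' : YA M S ζ hζM lam // ∃ n, ∃ hn : n ∈ H,
        n ∈ Subgroup.normalizer ((M ⊔ S : Subgroup Γ) : Set Γ) ∧
        ∀ m, (y'.1 : M → ℂ) m = (y.1 : M → ℂ) (cjA M n (hHM hn) m)} := by
  haveI := tr_normal hHM
  have h1 := dec (M.subgroupOf H) (S.subgroupOf H) (fun i => (⟨ζ i, hMH (hζM i)⟩ : H))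
    (fun i => hζM i) lam hS.comap_subtype hSi (fun i => Subgroup.mem_center_iff.mpr fun g =>
      Subtype.ext (hζc i g g.2))
  rw [h1]
  let e : YA M S ζ hζM lam ≃ YI (M.subgroupOf H) (S.subgroupOf H) (fun i => (⟨ζ i, hMH (hζM i)⟩ : H))
      (fun i => hζM i) lam :=
    (irrE (Subgroup.subgroupOfEquivOfLe hMH)).subtypeEquiv fun μ => by
      apply and_congr
      · constructor
        · intro h s hs
          exact (tr_stab hMH hHM s).1 (h s hs)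
        · intro h s hs
          exact (tr_stab hMH hHM ⟨s, hSH hs⟩).2 (h ⟨s, hSH hs⟩ hs)
      · exact Iff.rfl
  have he : ∀ y, ((e y).1 : M.subgroupOf H → ℂ) = tr M H (y.1 : M → ℂ) := fun y => rfl
  rw [← finsum_comp_equiv e]
  refine finsum_congr fun y => ?_
  congr 1
  · rw [he, cnt_amb p hMH]
  · congr 1
    symm
    refine Nat.card_congr (e.subtypeEquiv fun y' => ?_)
    constructor
    · rintro ⟨n, hn, h2, h3⟩
      refine ⟨⟨n, hn⟩, ?_, ?_⟩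
      · rw [sup_subgroupOf' hMH hSH, mem_normalizer_subgroupOf (sup_le hMH hSH)]
        exact h2
      · rw [he, he]
        exact (tr_conj hMH hHM ⟨n, hn⟩).2 h3
    · rintro ⟨n, h2, h3⟩
      rw [sup_subgroupOf' hMH hSH, mem_normalizer_subgroupOf (sup_le hMH hSH)] at h2
      rw [he, he] at h3
      exact ⟨n, n.2, h2, (tr_conj hMH hHM n).1 h3⟩

theorem cnt_inertia_amb {p : ℕ} (hp : p.Prime ∨ p = 0) (L T H : Subgroup Γ) (hLT : L ≤ T) (hTH : T ≤ H)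
    (hHL : H ≤ Subgroup.normalizer (L : Set Γ)) {ν : L → ℂ} (hν : IsIrrCharacter L ν)
    (hT : ∀ h ∈ H, h ∈ T ↔ Stab L ν h) (hidx : ¬ p ∣ T.relIndex H) :
    cnt p (Subgroup.inclusion (hLT.trans hTH)) ν = cnt p (Subgroup.inclusion hLT) ν := by
  haveI := tr_normal hHL
  have hLH := hLT.trans hTH
  rw [← cnt_amb p hLH]
  have h1 : L.subgroupOf H ≤ T.subgroupOf H := fun x hx => hLT hx
  rw [cnt_inertia hp (L.subgroupOf H) ((tr_irr hLH).2 hν) (T.subgroupOf H) h1 (fun g => by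
    rw [Subgroup.mem_subgroupOf, hT g g.2, tr_stab hLH hHL]) hidx]
  refine cnt_transport (G := Γ) p (Subgroup.inclusion h1) (Subgroup.inclusion hLT)
    (Subgroup.inclusion_injective h1) (Subgroup.inclusion_injective hLT)
    (H.subtype.comp (T.subgroupOf H).subtype) T.subtype
    (H.subtype_injective.comp (T.subgroupOf H).subtype_injective) T.subtype_injective ?_ ?_ ?_
  · ext x
    constructor
    · rintro ⟨y, rfl⟩
      exact ⟨⟨((y : H) : Γ), y.2⟩, rfl⟩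
    · rintro ⟨y, rfl⟩
      exact ⟨⟨⟨(y : Γ), hTH y.2⟩, y.2⟩, rfl⟩
  · ext x
    constructor
    · rintro ⟨y, rfl⟩
      exact ⟨⟨((y : H) : Γ), y.2⟩, rfl⟩
    · rintro ⟨y, rfl⟩
      exact ⟨⟨⟨(y : Γ), hLH y.2⟩, y.2⟩, rfl⟩
  · intro l₁ l₂ h
    show ν _ = ν _
    congr 1
    exact Subtype.ext h

theorem pr_amb {L T : Subgroup Γ} (hLT : L ≤ T) {ν : L → ℂ} (hν : IsIrrCharacter L ν) {x y : T}
    (hx : Stab L ν x) (hy : Stab L ν y) {z : ℂˣ} (h : Pr L ν (x : Γ) (y : Γ) z) :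
    Pr (L.subgroupOf T) (tr L T ν) x y z := by
  obtain ⟨h1, h2, h3, h4⟩ := h
  obtain ⟨_, hx2⟩ := hx
  obtain ⟨_, hy2⟩ := hy
  refine ⟨(mem_normalizer_subgroupOf hLT x).2 h1, (mem_normalizer_subgroupOf hLT y).2 h2, h3, ?_⟩
  exact PR.restrict (K₁ := L.subgroupOf T) (Subgroup.subgroupOfEquivOfLe hLT).toMonoidHom hν
    ((tr_irr hLT).2 hν) (fun k => Subtype.ext rfl) (fun k => Subtype.ext rfl) hx2 hy2
    (k := ⟨x * y * x⁻¹ * y⁻¹, h3⟩) h4

theorem prv_amb {L T : Subgroup Γ} (hLT : L ≤ T)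
    {ν : L → ℂ} (hν : IsIrrCharacter L ν) {x y : T}
    (hx : Stab L ν x) (hy : Stab L ν y) :
    prv (L.subgroupOf T) (tr L T ν) x y = prv L ν x y := by
  by_cases hk : (x : Γ) * y * (x : Γ)⁻¹ * (y : Γ)⁻¹ ∈ L
  · obtain ⟨z, hz⟩ := Pr.exists hν hx hy hk
    rw [prv_eq hν hx hy hz]
    have hst : ∀ {t : T}, Stab L ν t → Stab (L.subgroupOf T) (tr L T ν) t := by
      rintro t ⟨h1, h2⟩
      exact ⟨(mem_normalizer_subgroupOf hLT t).2 h1, fun k => h2 ⟨((k : T) : Γ), k.2⟩⟩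
    exact prv_eq ((tr_irr hLT).2 hν) (hst hx) (hst hy) (pr_amb hLT hν hx hy hz)
  · rw [prv_zero hk]
    exact prv_zero hk

theorem star_amb (L T N' : Subgroup Γ) (hLT : L ≤ T) (hNT : N' ≤ T) [Fintype N'] {ν : L → ℂ}
    (hν : IsIrrCharacter L ν) (hinv : ∀ t ∈ T, Stab L ν t)
    (hgen : ∀ t ∈ T, ∃ l ∈ L, ∃ n ∈ N', t = l * n) :
    (cnt 0 (Subgroup.inclusion hLT) ν : ℂ) * ((Nat.card N' : ℂ) * Nat.card (L ⊓ N' : Subgroup Γ)) =
      ∑ n : N', ∑ n' : N', prv L ν n n' := by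
  have hTL : T ≤ Subgroup.normalizer (L : Set Γ) := fun t ht => (hinv t ht).1
  haveI := tr_normal hTL
  have hinv' : ∀ g : T, conjFunN (L.subgroupOf T) g (tr L T ν) = tr L T ν := fun g =>
    (tr_stab hLT hTL g).1 (hinv g g.2)
  have h1 := star (L.subgroupOf T) ((tr_irr hLT).2 hν) hinv' (Subgroup.inclusion hNT) (by
    intro q
    obtain ⟨t, rfl⟩ := QuotientGroup.mk'_surjective (L.subgroupOf T) q
    obtain ⟨l, hl, n, hn, ht⟩ := hgen t t.2
    refine ⟨⟨n, hn⟩, ?_⟩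
    show ((Subgroup.inclusion hNT ⟨n, hn⟩ : T) : T ⧸ L.subgroupOf T) = (t : T ⧸ L.subgroupOf T)
    rw [QuotientGroup.eq]
    rw [Subgroup.mem_subgroupOf]
    show n⁻¹ * (t : Γ) ∈ L
    rw [ht, ← mul_assoc]
    have h2 := (Subgroup.mem_normalizer_iff.mp (hTL (T.inv_mem (hNT hn))) l).mp hl
    rwa [inv_inv] at h2)
  rw [cnt_amb 0 hLT] at h1
  have h2 : Nat.card ((QuotientGroup.mk' (L.subgroupOf T)).comp (Subgroup.inclusion hNT)).ker =
      Nat.card (L ⊓ N' : Subgroup Γ) := by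
    refine Nat.card_congr ⟨fun x => ⟨(x : N'), ?_, (x : N').2⟩, fun x => ⟨⟨x, x.2.2⟩, ?_⟩,
      fun _ => rfl, fun _ => rfl⟩
    · have h3 := x.2
      rw [MonoidHom.mem_ker, MonoidHom.comp_apply, QuotientGroup.mk'_apply, QuotientGroup.eq_one_iff] at h3
      exact h3
    · rw [MonoidHom.mem_ker, MonoidHom.comp_apply, QuotientGroup.mk'_apply, QuotientGroup.eq_one_iff]
      exact x.2.1
  rw [h2] at h1
  rw [h1]
  refine Finset.sum_congr rfl fun n _ => Finset.sum_congr rfl fun n' _ => ?_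
  exact prv_amb hLT hν (hinv _ (hNT n.2)) (hinv _ (hNT n'.2))

end amb

end H82.RM
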