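import Mathlib
import Cfsg.Agent.Lib.H82.RM12
import Cfsg.Agent.Lib.H82.RM3
import Cfsg.Agent.Lib.H77.Canon
import Cfsg.Agent.Lib.H77.PQuot

/-!
# Parametrization of the characters of `p'`-degree of a `p'`-by-`p` group
-/

set_option autoImplicit false
set_option linter.unusedSectionVars false
set_option linter.style.haveILetI false

namespace H82.RM

open Cfsg H18 H18.CharBasic H18.CharOrtho H18.CharQuot H18.CharInd H31.Clifford
open scoped ComplexConjugate

universe u v w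

theorem unit_eq {q d : ℕ} (h : Nat.Coprime q d) {a b : ℂˣ} (ha : a ^ q = 1) (hb : b ^ q = 1)
    (hd : a ^ d = b ^ d) : a = b := by
  have h1 : (a / b) ^ q = 1 := by rw [div_pow, ha, hb, div_one]
  have h2 : (a / b) ^ d = 1 := by rw [div_pow, hd, div_self']
  have h3 := Nat.dvd_gcd (orderOf_dvd_of_pow_eq_one h1) (orderOf_dvd_of_pow_eq_one h2)
  rw [h, Nat.dvd_one, orderOf_eq_one_iff] at h3
  exact div_eq_one.mp h3

theorem card_coprime_of {p : ℕ} [hpf : Fact p.Prime] {S : Type u} [Group S] [Finite S]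
    (hS : IsPGroup p S) {d : ℕ} (hd : ¬ p ∣ d) : Nat.Coprime (Nat.card S) d := by
  obtain ⟨n, hn⟩ := IsPGroup.iff_card.mp hS
  rw [hn]
  exact Nat.Coprime.pow_left n ((Nat.Prime.coprime_iff_not_dvd hpf.out).mpr hd)

theorem mu_unique {p : ℕ} [hpf : Fact p.Prime] {S : Type u} [Group S] [Finite S]
    (hS : IsPGroup p S) {d : ℕ} (hd : ¬ p ∣ d) {m m' : S →* ℂˣ}
    (h : ∀ s, (m s : ℂ) ^ d = (m' s : ℂ) ^ d) : m = m' := by
  ext s
  congr 1
  apply unit_eq (card_coprime_of hS hd)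
  · rw [← map_pow, pow_card_eq_one', map_one]
  · rw [← map_pow, pow_card_eq_one', map_one]
  · apply Units.ext
    rw [Units.val_pow_eq_pow_val, Units.val_pow_eq_pow_val, h]

theorem detChar_mul {A : Type u} [Group A] [Finite A] {ψ : A → ℂ} (hψ : IsCharacter A ψ) (a b : A) :
    detChar ψ (a * b) = detChar ψ a * detChar ψ b := by
  obtain ⟨f, hf⟩ := DetChar.exists_detHom hψ
  rw [hf]
  show ((f (a * b) : ℂˣ) : ℂ) = (f a : ℂ) * (f b : ℂ)
  rw [map_mul, Units.val_mul]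

section param

variable {p : ℕ} [hpf : Fact p.Prime] {A : Type u} [Group A] [Finite A] (K S : Subgroup A) [hKn : K.Normal]

theorem exists_pr (hKS : K ⊔ S = ⊤) (hdis : K ⊓ S = ⊥) :
    ∃ pr : A →* S, (∀ s : S, pr s = s) ∧ (∀ k ∈ K, pr k = 1) ∧ pr.ker = K := by
  let f : S →* A ⧸ K := (QuotientGroup.mk' K).comp S.subtype
  have hf : Function.Bijective f := by
    constructor
    · rw [injective_iff_map_eq_one]
      intro s hs
      have h1 : (s : A) ∈ K := (QuotientGroup.eq_one_iff (s : A)).mp hs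
      have h2 : (s : A) ∈ K ⊓ S := ⟨h1, s.2⟩
      rw [hdis, Subgroup.mem_bot] at h2
      exact Subtype.ext h2
    · intro q
      obtain ⟨a, rfl⟩ := QuotientGroup.mk'_surjective K q
      have ha : a ∈ K ⊔ S := by rw [hKS]; trivial
      rw [sup_comm] at ha
      obtain ⟨s, hs, k, hk, rfl⟩ := Subgroup.mem_sup_of_normal_right.mp ha
      refine ⟨⟨s, hs⟩, ?_⟩
      show ((s : A) : A ⧸ K) = ((s * k : A) : A ⧸ K)
      rw [QuotientGroup.eq, inv_mul_cancel_left]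
      exact hk
  let e : S ≃* A ⧸ K := MulEquiv.ofBijective f hf
  have hk : ∀ a : A, e.symm (a : A ⧸ K) = 1 ↔ a ∈ K := by
    intro a
    rw [MulEquiv.symm_apply_eq, map_one, QuotientGroup.eq_one_iff]
  refine ⟨e.symm.toMonoidHom.comp (QuotientGroup.mk' K), fun s => ?_, ?_, ?_⟩
  · show e.symm (f s) = s
    exact e.symm_apply_apply s
  · intro k h
    exact (hk k).2 h
  · ext a
    rw [MonoidHom.mem_ker]
    exact hk a

theorem index_coprime (hKS : K ⊔ S = ⊤) (hS : IsPGroup p S) : ∃ n : ℕ, K.index = p ^ n := by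
  have h1 : IsPGroup p (A ⧸ K) := by
    apply hS.of_surjective ((QuotientGroup.mk' K).comp S.subtype)
    intro q
    obtain ⟨a, rfl⟩ := QuotientGroup.mk'_surjective K q
    have ha : a ∈ K ⊔ S := by rw [hKS]; trivial
    rw [sup_comm] at ha
    obtain ⟨s, hs, k, hk, rfl⟩ := Subgroup.mem_sup_of_normal_right.mp ha
    refine ⟨⟨s, hs⟩, ?_⟩
    show ((s : A) : A ⧸ K) = ((s * k : A) : A ⧸ K)
    rw [QuotientGroup.eq, inv_mul_cancel_left]
    exact hk
  exact IsPGroup.iff_card.mp h1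

theorem residual_le (hKS : K ⊔ S = ⊤) (hS : IsPGroup p S) : pResidual p A ≤ K := by
  obtain ⟨n, hn⟩ := index_coprime K S hKS hS
  unfold pResidual
  rw [Subgroup.closure_le]
  intro g hg
  have h1 : Nat.Coprime (orderOf g) p := hg
  show g ∈ K
  rw [← QuotientGroup.eq_one_iff]
  have h2 : orderOf (g : A ⧸ K) ∣ orderOf g := orderOf_map_dvd (QuotientGroup.mk' K) g
  have h3 : orderOf (g : A ⧸ K) ∣ p ^ n := by
    rw [← hn]
    exact orderOf_dvd_natCard _
  have h4 := Nat.dvd_gcd h2 h3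
  rw [Nat.Coprime.pow_right n h1, Nat.dvd_one, orderOf_eq_one_iff] at h4
  exact h4

theorem restrict_irr (hKS : K ⊔ S = ⊤) (hS : IsPGroup p S) {ψ : A → ℂ} (hψ : IsIrrCharacter A ψ)
    (hd : ¬ p ∣ charDegree ψ) : IsIrrCharacter K (fun k : K => ψ k) :=
  H77.PQuot.restrict_irr (residual_le K S hKS hS) ⟨ψ, hψ⟩ hd

theorem disj_of (hK : ¬ p ∣ Nat.card K) (hS : IsPGroup p S) : K ⊓ S = ⊥ := by
  rw [eq_bot_iff]
  intro x hx
  obtain ⟨n, hn⟩ := IsPGroup.iff_card.mp hS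
  have h1 : orderOf x ∣ Nat.card K := Subgroup.orderOf_dvd_natCard K hx.1
  have h2 : orderOf x ∣ p ^ n := by rw [← hn]; exact Subgroup.orderOf_dvd_natCard S hx.2
  have h3 := Nat.dvd_gcd h1 h2
  rw [Nat.Coprime.pow_right n (Nat.Coprime.symm ((Nat.Prime.coprime_iff_not_dvd hpf.out).mpr hK)),
    Nat.dvd_one, orderOf_eq_one_iff] at h3
  exact h3

theorem ndvd_deg {K : Type u} [Group K] [Finite K] (hK : ¬ p ∣ Nat.card K) {θ : K → ℂ}
    (hθ : IsIrrCharacter K θ) : ¬ p ∣ charDegree θ := by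
  letI := Fintype.ofFinite K
  intro h
  exact hK (h.trans (H77.Degree.degree_dvd_card hθ (H77.PQuot.cast_irr' hθ).symm))

theorem exists_psi (hKS : K ⊔ S = ⊤) (hK : ¬ p ∣ Nat.card K) (hS : IsPGroup p S) {θ : K → ℂ}
    (hθ : IsIrrCharacter K θ) (hinv : ∀ a : A, conjFunN K a θ = θ) (m : S →* ℂˣ) :
    ∃ ψ : A → ℂ, IsIrrCharacter A ψ ∧ (∀ k : K, ψ k = θ k) ∧
      ∀ s : S, detChar ψ s = (m s : ℂ) ^ charDegree θ := by
  letI := Fintype.ofFinite K
  obtain ⟨n, hn⟩ := index_coprime K S hKS hS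
  have hpK : Nat.Coprime (Nat.card K) p :=
    Nat.Coprime.symm ((Nat.Prime.coprime_iff_not_dvd hpf.out).mpr hK)
  have hcop : (Nat.card K).Coprime K.index := by
    rw [hn]
    exact Nat.Coprime.pow_right n hpK
  obtain ⟨χ, hχ, hχd⟩ := H77.Canon.canon_exists K hcop ⟨θ, hθ⟩ (fun x k => congrFun (hinv x) k)
  obtain ⟨pr, hpr1, hpr2, _⟩ := exists_pr K S hKS (disj_of K S hK hS)
  have hχK : (fun k : K => (χ : A → ℂ) k) = θ := funext hχ
  have hχ1 : (χ : A → ℂ) 1 = (charDegree θ : ℂ) := by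
    rw [H77.PQuot.cast_irr' hθ]
    exact hχ 1
  refine ⟨fun a => ((m.comp pr) a : ℂ) * (χ : A → ℂ) a, ?_, fun k => ?_, fun s => ?_⟩
  · apply H83.Gallagher.isIrr_mul χ.2 K (by rw [hχK]; exact hθ) (isIrrCharacter_of_hom (m.comp pr))
    intro k hk
    show ((m (pr k) : ℂˣ) : ℂ) = ((m (pr 1) : ℂˣ) : ℂ)
    rw [hpr2 k hk, map_one pr]
  · show ((m (pr k) : ℂˣ) : ℂ) * (χ : A → ℂ) k = θ k
    rw [hpr2 k k.2, map_one, Units.val_one, one_mul]
    exact hχ k
  · rw [DetChar.detChar_hom_mul (m.comp pr) (isCharacter_of_isIrr χ.2) hχ1 (s : A)]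
    show ((m (pr s) : ℂˣ) : ℂ) ^ _ * _ = _
    rw [hpr1]
    have h1 : detChar (χ : A → ℂ) (s : A) = 1 := by
      obtain ⟨f, hf⟩ := DetChar.exists_detHom (isCharacter_of_isIrr χ.2)
      have h2 : f ^ Nat.card K = 1 := by
        rw [detOrder, hf, LinExt.orderOf_coe] at hχd
        exact orderOf_dvd_iff_pow_eq_one.mp hχd
      have h3 : (f (s : A)) ^ Nat.card K = 1 := by
        rw [← MonoidHom.pow_apply, h2, MonoidHom.one_apply]
      have h4 : (f (s : A)) ^ Nat.card S = 1 := by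
        rw [← map_pow]
        have h5 : (s : A) ^ Nat.card S = 1 := by
          have h6 : s ^ Nat.card S = 1 := pow_card_eq_one'
          exact congrArg Subtype.val h6
        rw [h5, map_one]
      have h5 : f (s : A) = 1 := unit_eq (card_coprime_of hS hK) h4 (one_pow _) (by rw [h3, one_pow])
      rw [hf]
      show ((f (s : A) : ℂˣ) : ℂ) = 1
      rw [h5, Units.val_one]
    rw [h1, mul_one]

theorem psi_unique (hKS : K ⊔ S = ⊤) (hK : ¬ p ∣ Nat.card K) (hS : IsPGroup p S) {θ : K → ℂ}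
    (hθ : IsIrrCharacter K θ) {ψ ψ' : A → ℂ} (hψ : IsIrrCharacter A ψ) (hψ' : IsIrrCharacter A ψ')
    (h1 : ∀ k : K, ψ k = θ k) (h2 : ∀ k : K, ψ' k = θ k)
    (h3 : ∀ s : S, detChar ψ s = detChar ψ' s) : ψ = ψ' := by
  obtain ⟨n, hn⟩ := index_coprime K S hKS hS
  have hcop : Nat.Coprime K.index (charDegree θ) := by
    rw [hn]
    exact Nat.Coprime.pow_left n ((Nat.Prime.coprime_iff_not_dvd hpf.out).mpr (ndvd_deg hK hθ))
  apply DetChar.ext_unique_det K hθ (H77.PQuot.cast_irr' hθ).symm hcop hψ hψ' h1 h2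
  funext a
  have ha : a ∈ K ⊔ S := by rw [hKS]; trivial
  obtain ⟨k, hk, s, hs, rfl⟩ := Subgroup.mem_sup_of_normal_left.mp ha
  rw [detChar_mul (isCharacter_of_isIrr hψ), detChar_mul (isCharacter_of_isIrr hψ'), h3 ⟨s, hs⟩]
  congr 1
  have h4 := DetChar.detChar_comp K.subtype (isCharacter_of_isIrr hψ) ⟨k, hk⟩
  have h5 := DetChar.detChar_comp K.subtype (isCharacter_of_isIrr hψ') ⟨k, hk⟩
  have h6 : (fun y : K => ψ (K.subtype y)) = fun y : K => ψ' (K.subtype y) := by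
    funext y
    exact (h1 y).trans (h2 y).symm
  rw [h6] at h4
  exact h4.symm.trans h5

theorem exists_mu (hS : IsPGroup p S) {ψ : A → ℂ} (hψ : IsIrrCharacter A ψ) {d : ℕ} (hd : ¬ p ∣ d) :
    ∃ m : S →* ℂˣ, ∀ s : S, detChar ψ s = (m s : ℂ) ^ d := by
  obtain ⟨f, hf⟩ := DetChar.exists_detHom (isCharacter_of_isIrr hψ)
  have h1 : (f.comp S.subtype) ^ Nat.card S = 1 := by
    ext s
    rw [MonoidHom.pow_apply, ← map_pow, pow_card_eq_one', map_one, MonoidHom.one_apply]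
  have hcop : d.Coprime (orderOf (f.comp S.subtype)) :=
    (card_coprime_of hS hd).symm.coprime_dvd_right (orderOf_dvd_of_pow_eq_one h1)
  obtain ⟨e, he⟩ := exists_pow_eq_self_of_coprime hcop
  refine ⟨(f.comp S.subtype) ^ e, fun s => ?_⟩
  rw [hf, ← Units.val_pow_eq_pow_val, ← MonoidHom.pow_apply, ← pow_mul, mul_comm e d, pow_mul, he]
  rfl

theorem central_val {ψ : A → ℂ} (hψ : IsIrrCharacter A ψ) {z : A} (hz : ∀ a, z * a = a * z) :
    ∃ c : ℂˣ, ψ z = ψ 1 * c ∧ detChar ψ z = (c : ℂ) ^ charDegree ψ ∧ c ^ orderOf z = 1 := by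
  have hc := H77.PQuot.cast_irr' hψ
  obtain ⟨d, ρ, hρ, rfl⟩ := hψ
  have hd : charDegree ρ.character = d := by
    rw [Representation.char_one, Module.finrank_fin_fun] at hc
    exact_mod_cast hc
  have hd0 := pos_of_irr ρ hρ
  obtain ⟨c, hcz⟩ := schur ρ hρ (ρ.toHomUnits z) (fun k => by
    rw [← map_mul, hz, map_mul, mul_inv_cancel_right])
  have h1 : ρ z = (c : ℂ) • (1 : Module.End ℂ (Fin d → ℂ)) := by
    rw [← sc_coe, ← hcz]
    rfl
  refine ⟨c, ?_, ?_, ?_⟩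
  · show LinearMap.trace ℂ _ (ρ z) = LinearMap.trace ℂ _ (ρ 1) * c
    rw [h1, map_one, map_smul, smul_eq_mul, mul_comm]
  · rw [DetChar.detChar_rep, h1, LinearMap.det_smul, Module.finrank_fin_fun, map_one, mul_one, hd]
  · apply sc_inj hd0
    rw [map_pow, ← hcz, ← map_pow, pow_orderOf_eq_one, map_one, map_one]

theorem central_mu (hS : IsPGroup p S) {ψ : A → ℂ} (hψ : IsIrrCharacter A ψ)
    (hd : ¬ p ∣ charDegree ψ) {m : S →* ℂˣ} (hm : ∀ s : S, detChar ψ s = (m s : ℂ) ^ charDegree ψ)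
    (s : S) (hs : ∀ a, (s : A) * a = a * s) : ψ s = ψ 1 * m s := by
  obtain ⟨c, h1, h2, h3⟩ := central_val hψ hs
  rw [h1]
  congr 2
  apply unit_eq (card_coprime_of hS hd)
  · have h4 : orderOf (s : A) ∣ Nat.card S := Subgroup.orderOf_dvd_natCard S s.2
    obtain ⟨k, hk⟩ := h4
    rw [hk, pow_mul, h3, one_pow]
  · rw [← map_pow, pow_card_eq_one', map_one]
  · apply Units.ext
    rw [Units.val_pow_eq_pow_val, Units.val_pow_eq_pow_val, ← h2, hm]

end param

end H82.RM
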