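import Mathlib
import Cfsg.Agent.Lib.H82.RM13
import Cfsg.Agent.Lib.H82.RM8

/-!
# Parametrization of the characters of `p'`-degree of a `p'`-by-`p` subgroup: ambient form
-/

set_option autoImplicit false
set_option linter.unusedSectionVars false
set_option linter.style.haveILetI false

namespace H82.RM

open Cfsg H18 H18.CharBasic H18.CharOrtho H18.CharQuot H18.CharInd H31.Clifford
open scoped ComplexConjugate

universe u v w

variable {Γ : Type u} [Group Γ] [Finite Γ]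

/-- `J = K S` with `K` a normal `p'`-subgroup and `S` a `p`-subgroup. -/
structure Dat (p : ℕ) (K S J : Subgroup Γ) : Prop where
  hKJ : K ≤ J
  hSJ : S ≤ J
  hJ : J ≤ K ⊔ S
  hJK : J ≤ Subgroup.normalizer (K : Set Γ)
  hK : ¬ p ∣ Nat.card K
  hS : IsPGroup p S

/-- `ψ` is parametrized by `θ` and `m`. -/
def GT {p : ℕ} {K S J : Subgroup Γ} (D : Dat p K S J) (θ : K → ℂ) (m : S →* ℂˣ) (ψ : J → ℂ) : Prop :=
  IsIrrCharacter K θ ∧ IsIrrCharacter J ψ ∧ (∀ k : K, ψ ⟨k, D.hKJ k.2⟩ = θ k) ∧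
    ∀ s : S, detChar ψ ⟨s, D.hSJ s.2⟩ = (m s : ℂ) ^ charDegree θ

variable {p : ℕ} [hpf : Fact p.Prime] {K S J : Subgroup Γ} (D : Dat p K S J)

include D

theorem Dat.sup : K.subgroupOf J ⊔ S.subgroupOf J = ⊤ := by
  rw [sup_subgroupOf' D.hKJ D.hSJ]
  exact Subgroup.subgroupOf_eq_top.mpr D.hJ

theorem Dat.card : ¬ p ∣ Nat.card (K.subgroupOf J) := by
  rw [Nat.card_congr (Subgroup.subgroupOfEquivOfLe D.hKJ).toEquiv]
  exact D.hK

theorem GT.deg {θ : K → ℂ} {m : S →* ℂˣ} {ψ : J → ℂ} (h : GT D θ m ψ) :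
    charDegree ψ = charDegree θ := by
  have h1 := h.2.2.1 1
  unfold charDegree
  congr 2

theorem GT.ndvd {θ : K → ℂ} {m : S →* ℂˣ} {ψ : J → ℂ} (h : GT D θ m ψ) :
    ¬ p ∣ charDegree ψ := by
  rw [h.deg]
  exact ndvd_deg D.hK h.1

theorem GT.stab {θ : K → ℂ} {m : S →* ℂˣ} {ψ : J → ℂ} (h : GT D θ m ψ) (x : Γ) (hx : x ∈ J) :
    Stab K θ x := by
  refine ⟨D.hJK hx, fun k => ?_⟩
  rw [← h.2.2.1, ← h.2.2.1]
  exact isClassFunction_of_isIrr h.2.1 ⟨k, D.hKJ k.2⟩ ⟨x, hx⟩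

theorem GT.exists {θ : K → ℂ} (hθ : IsIrrCharacter K θ) (hinv : ∀ s ∈ S, Stab K θ s) (m : S →* ℂˣ) :
    ∃ ψ : J → ℂ, GT D θ m ψ := by
  haveI := tr_normal D.hJK
  have hst : ∀ a : J, conjFunN (K.subgroupOf J) a (tr K J θ) = tr K J θ := by
    intro a
    apply (tr_stab D.hKJ D.hJK a).1
    have h1 : J ≤ stS K θ := D.hJ.trans (sup_le
      (fun x hx => Stab.of_mem (isClassFunction_of_isIrr hθ) hx) hinv)
    exact h1 a.2
  obtain ⟨ψ, h1, h2, h3⟩ := exists_psi (K.subgroupOf J) (S.subgroupOf J) D.sup D.card D.hS.comap_subtype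
    ((tr_irr D.hKJ).2 hθ) hst (m.comp (Subgroup.subgroupOfEquivOfLe D.hSJ).toMonoidHom)
  refine ⟨ψ, hθ, h1, fun k => ?_, fun s => ?_⟩
  · exact h2 ⟨⟨k, D.hKJ k.2⟩, k.2⟩
  · exact h3 ⟨⟨s, D.hSJ s.2⟩, s.2⟩

theorem GT.unique {θ : K → ℂ} {m : S →* ℂˣ} {ψ ψ' : J → ℂ} (h : GT D θ m ψ) (h' : GT D θ m ψ') :
    ψ = ψ' := by
  haveI := tr_normal D.hJK
  refine psi_unique (K.subgroupOf J) (S.subgroupOf J) D.sup D.card D.hS.comap_subtype
    ((tr_irr D.hKJ).2 h.1) h.2.1 h'.2.1 (fun k => ?_) (fun k => ?_) (fun s => ?_)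
  · exact h.2.2.1 ⟨((k : J) : Γ), k.2⟩
  · exact h'.2.2.1 ⟨((k : J) : Γ), k.2⟩
  · exact (h.2.2.2 ⟨((s : J) : Γ), s.2⟩).trans (h'.2.2.2 ⟨((s : J) : Γ), s.2⟩).symm

theorem GT.of {ψ : J → ℂ} (hψ : IsIrrCharacter J ψ) (hd : ¬ p ∣ charDegree ψ) :
    ∃ (θ : K → ℂ) (m : S →* ℂˣ), GT D θ m ψ := by
  haveI := tr_normal D.hJK
  have h1 := restrict_irr (K.subgroupOf J) (S.subgroupOf J) D.sup D.hS.comap_subtype hψ hd
  have h2 : (fun k : K.subgroupOf J => ψ k) = tr K J (fun k : K => ψ ⟨k, D.hKJ k.2⟩) := rfl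
  rw [h2] at h1
  obtain ⟨m, hm⟩ := exists_mu (S.subgroupOf J) D.hS.comap_subtype hψ hd
  refine ⟨fun k : K => ψ ⟨k, D.hKJ k.2⟩,
    m.comp (Subgroup.subgroupOfEquivOfLe D.hSJ).symm.toMonoidHom, (tr_irr D.hKJ).1 h1, hψ,
    fun _ => rfl, fun s => ?_⟩
  exact hm ⟨⟨s, D.hSJ s.2⟩, s.2⟩

theorem GT.inj {θ θ' : K → ℂ} {m m' : S →* ℂˣ} {ψ : J → ℂ} (h : GT D θ m ψ) (h' : GT D θ' m' ψ) :
    θ = θ' ∧ m = m' := by
  have h1 : θ = θ' := by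
    funext k
    rw [← h.2.2.1, ← h'.2.2.1]
  subst h1
  refine ⟨rfl, mu_unique D.hS (ndvd_deg D.hK h.1) fun s => ?_⟩
  rw [← h.2.2.2, ← h'.2.2.2]

theorem GT.conj {θ : K → ℂ} {m : S →* ℂˣ} {ψ : J → ℂ} (h : GT D θ m ψ) {n : Γ}
    (hnK : n ∈ Subgroup.normalizer (K : Set Γ)) (hnS : n ∈ Subgroup.normalizer (S : Set Γ))
    (hnJ : n ∈ Subgroup.normalizer (J : Set Γ)) :
    GT D (fun k => θ (cjA K n hnK k)) (m.comp (cjA S n hnS).toMonoidHom)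
      (fun j => ψ (cjA J n hnJ j)) := by
  refine ⟨irr_cjA h.1 hnK, irr_cjA h.2.1 hnJ, fun k => ?_, fun s => ?_⟩
  · exact h.2.2.1 (cjA K n hnK k)
  · have h1 := DetChar.detChar_comp (cjA J n hnJ).toMonoidHom (isCharacter_of_isIrr h.2.1)
      ⟨s, D.hSJ s.2⟩
    have h2 : charDegree (fun k => θ (cjA K n hnK k)) = charDegree θ := charDegree_comp (cjA K n hnK) θ
    rw [h2]
    refine h1.trans ?_
    exact h.2.2.2 (cjA S n hnS s)

theorem GT.central {θ : K → ℂ} {m : S →* ℂˣ} {ψ : J → ℂ} (h : GT D θ m ψ) (s : S)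
    (hs : ∀ j ∈ J, (s : Γ) * j = j * s) : ψ ⟨s, D.hSJ s.2⟩ = ψ 1 * m s := by
  have h1 : ∀ t : S.subgroupOf J, detChar ψ t =
      ((m.comp (Subgroup.subgroupOfEquivOfLe D.hSJ).toMonoidHom) t : ℂ) ^ charDegree ψ := by
    intro t
    rw [h.deg]
    exact h.2.2.2 ⟨((t : J) : Γ), t.2⟩
  exact central_mu (S.subgroupOf J) D.hS.comap_subtype h.2.1 h.ndvd h1 ⟨⟨s, D.hSJ s.2⟩, s.2⟩
    (fun a => Subtype.ext (hs a a.2))

omit D in
theorem central_split {K S : Subgroup Γ} (hK : ¬ p ∣ Nat.card K) (hS : IsPGroup p S) {z : Γ}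
    (hz : z ∈ K ⊔ S) (hSK : S ≤ Subgroup.normalizer (K : Set Γ)) (hzc : ∀ s ∈ S, s * z = z * s) :
    ∃ a b : ℕ, z ^ a ∈ K ∧ z ^ b ∈ S ∧ z = z ^ a * z ^ b := by
  have h1 : z ∈ ((K ⊔ S : Subgroup Γ) : Set Γ) := hz
  rw [Subgroup.coe_mul_of_right_le_normalizer_left K S hSK] at h1
  obtain ⟨k, hk, s, hs, hks⟩ := Set.mem_mul.mp h1
  have hks' : k * s = z := hks
  have hcomm : Commute k s := by
    have h2 := hzc s hs
    rw [← hks'] at h2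
    have h3 : s * k = k * s := by
      have h4 : s * k * s = k * s * s := by rw [mul_assoc s k s, h2]
      exact mul_right_cancel h4
    exact h3.symm
  obtain ⟨a, ha1, ha2⟩ := Nat.chineseRemainder (card_coprime_of hS hK).symm 1 0
  obtain ⟨b, hb1, hb2⟩ := Nat.chineseRemainder (card_coprime_of hS hK).symm 0 1
  have hka : ∀ {n m : ℕ}, n ≡ m [MOD Nat.card K] → k ^ n = k ^ m := fun h =>
    pow_eq_pow_iff_modEq.mpr (h.of_dvd (Subgroup.orderOf_dvd_natCard K hk))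
  have hsa : ∀ {n m : ℕ}, n ≡ m [MOD Nat.card S] → s ^ n = s ^ m := fun h =>
    pow_eq_pow_iff_modEq.mpr (h.of_dvd (Subgroup.orderOf_dvd_natCard S hs))
  have e1 : z ^ a = k := by
    rw [← hks', hcomm.mul_pow, hka ha1, hsa ha2, pow_one, pow_zero, mul_one]
  have e2 : z ^ b = s := by
    rw [← hks', hcomm.mul_pow, hka hb1, hsa hb2, pow_one, pow_zero, one_mul]
  refine ⟨a, b, ?_, ?_, ?_⟩
  · rw [e1]; exact hk
  · rw [e2]; exact hs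
  · rw [e1, e2, hks']

end H82.RM
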