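import Mathlib
import Cfsg.Agent.Lib.H82.RM14
import Cfsg.Agent.Lib.H82.RM10

/-!
# Base case: normal subgroup `K S`
-/

set_option autoImplicit false
set_option linter.unusedSectionVars false
set_option linter.style.haveILetI false

namespace H82.RM

open Cfsg H18 H18.CharBasic H18.CharOrtho H18.CharQuot H18.CharInd H31.Clifford
open scoped ComplexConjugate

universe u v w

theorem card_rel {A : Type u} {B : Type v} [Finite A] [Finite B] (Q : A → B → Prop)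
    (h1 : ∀ a, ∃ b, Q a b) (h2 : ∀ b, ∃ a, Q a b) (h3 : ∀ a b b', Q a b → Q a b' → b = b')
    (h4 : ∀ a a' b, Q a b → Q a' b → a = a') : Nat.card A = Nat.card B := by
  choose f hf using h1
  refine Nat.card_congr (Equiv.ofBijective f ⟨?_, ?_⟩)
  · intro a a' h
    exact h4 a a' (f a) (hf a) (h ▸ hf a')
  · intro b
    obtain ⟨a, ha⟩ := h2 b
    exact ⟨a, h3 a _ _ (hf a) ha⟩

theorem sum_rel {Y : Type u} {Y' : Type v} [Finite Y] [Finite Y'] (f : Y → ℚ) (f' : Y' → ℚ)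
    (Q : Y → Y' → Prop) (h1 : ∀ y, f y ≠ 0 → ∃ y', Q y y') (h2 : ∀ y', f' y' ≠ 0 → ∃ y, Q y y')
    (h3 : ∀ a b b', Q a b → Q a b' → b = b') (h4 : ∀ a a' b, Q a b → Q a' b → a = a')
    (h5 : ∀ a b, Q a b → f a = f' b) : ∑ᶠ y, f y = ∑ᶠ y', f' y' := by
  classical
  letI := Fintype.ofFinite Y
  letI := Fintype.ofFinite Y'
  rw [finsum_eq_sum_of_fintype, finsum_eq_sum_of_fintype]
  refine Finset.sum_bij_ne_zero (fun a _ h => (h1 a h).choose) (fun a _ _ => Finset.mem_univ _) ?_ ?_ ?_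
  · intro a _ ha a' _ ha' h
    have e1 := (h1 a ha).choose_spec
    have e2 := (h1 a' ha').choose_spec
    rw [← h] at e2
    exact h4 _ _ _ e1 e2
  · intro b _ hb
    obtain ⟨a, ha⟩ := h2 b hb
    have ha0 : f a ≠ 0 := by rw [h5 a b ha]; exact hb
    exact ⟨a, Finset.mem_univ _, ha0, h3 _ _ _ (h1 a ha0).choose_spec ha⟩
  · intro a _ ha
    exact h5 _ _ (h1 a ha).choose_spec

section cnts

variable {Γ : Type u} [Group Γ] [Finite Γ] {p : ℕ} [hpf : Fact p.Prime]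

theorem cnt_eq_zero (L H : Subgroup Γ) (hLH : L ≤ H) (hHL : H ≤ Subgroup.normalizer (L : Set Γ))
    {ν : L → ℂ} (hν : IsIrrCharacter L ν) (hd : p ∣ charDegree ν) :
    cnt p (Subgroup.inclusion hLH) ν = 0 := by
  haveI := tr_normal hHL
  rw [← cnt_amb p hLH]
  unfold cnt
  rw [Nat.card_eq_zero]
  left
  refine ⟨?_⟩
  rintro ⟨χ, h1, h2⟩
  obtain ⟨a, _, h3⟩ := und_degree_quot (L.subgroupOf H) χ.2 ((tr_irr hLH).2 hν) h2
  apply h1
  rw [h3]
  exact Dvd.dvd.mul_right hd a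

theorem cnt_p_zero (L H : Subgroup Γ) (hLH : L ≤ H) (hHL : H ≤ Subgroup.normalizer (L : Set Γ))
    {ν : L → ℂ} (hν : IsIrrCharacter L ν) (hd : ¬ p ∣ charDegree ν) (hidx : ¬ p ∣ L.relIndex H) :
    cnt p (Subgroup.inclusion hLH) ν = cnt 0 (Subgroup.inclusion hLH) ν := by
  haveI := tr_normal hHL
  rw [← cnt_amb p hLH, ← cnt_amb 0 hLH]
  unfold cnt
  refine Nat.card_congr (Equiv.subtypeEquivRight fun χ => ?_)
  apply and_congr_left
  intro h2
  obtain ⟨a, ha, h3⟩ := und_degree_quot (L.subgroupOf H) χ.2 ((tr_irr hLH).2 hν) h2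
  constructor
  · intro _ h4
    rw [zero_dvd_iff] at h4
    have h5 := H77.PQuot.cast_irr χ
    rw [h4, Nat.cast_zero] at h5
    exact irr_one_ne_zero χ.2 h5.symm
  · intro _ h4
    rw [h3] at h4
    rcases (hpf.out.dvd_mul).mp h4 with h5 | h5
    · exact hd h5
    · exact hidx (h5.trans ha)

theorem cor_central {C K : Subgroup Γ} (hCK : C ≤ K) {θ : K → ℂ} {θ' : C → ℂ}
    (hθ : IsIrrCharacter K θ) (hθ' : IsIrrCharacter C θ') (h : Cor p hCK θ θ') {z : Γ} (hz : z ∈ C)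
    (hzK : ∀ k ∈ K, z * k = k * z) : θ ⟨z, hCK hz⟩ * θ' 1 = θ 1 * θ' ⟨z, hz⟩ := by
  letI := Fintype.ofFinite C
  letI := Fintype.ofFinite K
  obtain ⟨c, h1, _, h3⟩ := central_val hθ (z := ⟨z, hCK hz⟩) (fun a => Subtype.ext (hzK a a.2))
  obtain ⟨c', h1', _, h3'⟩ := central_val hθ' (z := ⟨z, hz⟩)
    (fun a => Subtype.ext (hzK a (hCK a.2)))
  have hθ1 := irr_one_ne_zero hθ
  have hθ'1 := irr_one_ne_zero hθ'
  have hm : ∀ x : C, θ ⟨z * x, hCK (C.mul_mem hz x.2)⟩ = c * θ ⟨x, hCK x.2⟩ := by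
    intro x
    have h4 := H77.CentralInv.central_mul hθ (z := ⟨z, hCK hz⟩) (fun a => Subtype.ext (hzK a a.2))
      ⟨x, hCK x.2⟩
    rw [h1, mul_div_cancel_left₀ _ hθ1] at h4
    exact h4
  have hm' : ∀ x : C, θ' (⟨z, hz⟩ * x) = c' * θ' x := by
    intro x
    have h4 := H77.CentralInv.central_mul hθ' (z := ⟨z, hz⟩)
      (fun a => Subtype.ext (hzK a (hCK a.2))) x
    rw [h1', mul_div_cancel_left₀ _ hθ'1] at h4
    exact h4
  obtain ⟨n, hn, hsum⟩ := h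
  rw [finsum_eq_sum_of_fintype] at hsum
  set s := ∑ x : C, θ ⟨x, hCK x.2⟩ * conj (θ' x) with hs
  have hs0 : s ≠ 0 := by
    rw [hsum]
    apply mul_ne_zero
    · have : n ≠ 0 := by rintro rfl; exact hn (dvd_zero p)
      exact_mod_cast this
    · exact card_ne_zero'
  have h5 : s = (c * conj (c' : ℂ)) * s := by
    conv_lhs => rw [hs, ← Equiv.sum_comp (Equiv.mulLeft (⟨z, hz⟩ : C))]
    rw [hs, Finset.mul_sum]
    refine Finset.sum_congr rfl fun x _ => ?_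
    have e1 : θ ⟨((Equiv.mulLeft (⟨z, hz⟩ : C)) x : C), hCK ((Equiv.mulLeft (⟨z, hz⟩ : C)) x).2⟩ =
        c * θ ⟨x, hCK x.2⟩ := hm x
    have e2 : θ' ((Equiv.mulLeft (⟨z, hz⟩ : C)) x) = c' * θ' x := hm' x
    rw [e1, e2, map_mul]
    ring
  have h6 : (c : ℂ) * conj (c' : ℂ) = 1 := by
    apply mul_right_cancel₀ hs0
    rw [one_mul, ← h5]
  have h7 : conj (c' : ℂ) * (c' : ℂ) = 1 := by
    have h8 : ‖(c' : ℂ)‖ = 1 := by
      apply Complex.norm_eq_one_of_pow_eq_one (n := orderOf (⟨z, hz⟩ : C))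
      · rw [← Units.val_pow_eq_pow_val, h3', Units.val_one]
      · exact (orderOf_pos _).ne'
    rw [mul_comm, Complex.mul_conj, Complex.normSq_eq_norm_sq, h8]
    norm_num
  have h8 : (c : ℂ) = c' := by
    have h9 : conj (c' : ℂ) ≠ 0 := left_ne_zero_of_mul_eq_one h7
    apply mul_right_cancel₀ h9
    rw [h6, ← h7, mul_comm]
  rw [h1, h1', h8]
  ring

end cnts

section comm

variable {Γ : Type u} [Group Γ]

theorem comm_closure {D : Subgroup Γ} {x y : Γ} (hx : x ∈ Subgroup.normalizer (D : Set Γ))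
    (hy : y ∈ Subgroup.normalizer (D : Set Γ)) (hxy : x * y * x⁻¹ * y⁻¹ ∈ D) :
    ∀ a ∈ Subgroup.closure ({x, y} : Set Γ), ∀ b ∈ Subgroup.closure ({x, y} : Set Γ),
      a * b * a⁻¹ * b⁻¹ ∈ D := by
  have hcl : Subgroup.closure ({x, y} : Set Γ) ≤ Subgroup.normalizer (D : Set Γ) := by
    rw [Subgroup.closure_le]
    rintro _ (rfl | rfl)
    · exact hx
    · exact hy
  -- the centralizer modulo `D`
  have key : ∀ b ∈ Subgroup.normalizer (D : Set Γ), (x * b * x⁻¹ * b⁻¹ ∈ D) → (y * b * y⁻¹ * b⁻¹ ∈ D) →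
      ∀ a ∈ Subgroup.closure ({x, y} : Set Γ), a * b * a⁻¹ * b⁻¹ ∈ D := by
    intro b hb h1 h2
    let W : Subgroup Γ :=
      { carrier := {a | a ∈ Subgroup.normalizer (D : Set Γ) ∧ a * b * a⁻¹ * b⁻¹ ∈ D}
        one_mem' := ⟨Subgroup.one_mem _, by simp⟩
        mul_mem' := by
          rintro a a' ⟨ha, ha2⟩ ⟨ha', ha2'⟩
          refine ⟨Subgroup.mul_mem _ ha ha', ?_⟩
          have e : a * a' * b * (a * a')⁻¹ * b⁻¹ =
              (a * (a' * b * a'⁻¹ * b⁻¹) * a⁻¹) * (a * b * a⁻¹ * b⁻¹) := by group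
          rw [e]
          exact D.mul_mem ((Subgroup.mem_normalizer_iff.mp ha _).mp ha2') ha2
        inv_mem' := by
          rintro a ⟨ha, ha2⟩
          refine ⟨Subgroup.inv_mem _ ha, ?_⟩
          have e : a⁻¹ * b * a⁻¹⁻¹ * b⁻¹ = a⁻¹ * (a * b * a⁻¹ * b⁻¹)⁻¹ * a⁻¹⁻¹ := by group
          rw [e]
          exact (Subgroup.mem_normalizer_iff.mp (Subgroup.inv_mem _ ha) _).mp (D.inv_mem ha2) }
    have hW : Subgroup.closure ({x, y} : Set Γ) ≤ W := by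
      rw [Subgroup.closure_le]
      rintro _ (rfl | rfl)
      · exact ⟨hx, h1⟩
      · exact ⟨hy, h2⟩
    exact fun a ha => (hW ha).2
  have hinv : ∀ a b : Γ, a ∈ Subgroup.normalizer (D : Set Γ) → b ∈ Subgroup.normalizer (D : Set Γ) →
      a * b * a⁻¹ * b⁻¹ ∈ D → b * a * b⁻¹ * a⁻¹ ∈ D := by
    intro a b _ _ h
    have e : b * a * b⁻¹ * a⁻¹ = (a * b * a⁻¹ * b⁻¹)⁻¹ := by group
    rw [e]
    exact D.inv_mem h
  have kx := key x hx (by simp) (hinv x y hx hy hxy)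
  have ky := key y hy hxy (by simp)
  intro a ha b hb
  have hb' := hcl hb
  exact key b hb' (hinv b x hb' hx (kx b hb)) (hinv b y hb' hy (ky b hb)) a ha

end comm

end H82.RM
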