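import Mathlib
import Cfsg.Agent.Lib.H82.RM15

/-!
# Base case: the correspondence between characters of `K S` and of `C S`
-/

set_option autoImplicit false
set_option linter.unusedSectionVars false
set_option linter.style.haveILetI false

namespace H82.RM

open Cfsg H18 H18.CharBasic H18.CharOrtho H18.CharQuot H18.CharInd H31.Clifford
open scoped ComplexConjugate

universe u v w

variable {G : Type u} [Group G] [Finite G]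

/-- the situation of the base case -/
structure Bas (p : ℕ) (K S J C J₀ N : Subgroup G) : Prop where
  hKn : K.Normal
  hJn : J.Normal
  hK : ¬ p ∣ Nat.card K
  hS : IsPGroup p S
  hSi : ¬ p ∣ S.index
  hJ : J = K ⊔ S
  hC : C = K ⊓ Subgroup.centralizer (S : Set G)
  hJ₀ : J₀ = C ⊔ S
  hN : N = Subgroup.normalizer (S : Set G)

variable {p : ℕ} [hpf : Fact p.Prime] {K S J C J₀ N : Subgroup G} (B : Bas p K S J C J₀ N)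

include B

theorem Bas.nK (g : G) : g ∈ Subgroup.normalizer (K : Set G) := by
  haveI := B.hKn
  rw [Subgroup.normalizer_eq_top]
  trivial

theorem Bas.nJ (g : G) : g ∈ Subgroup.normalizer (J : Set G) := by
  haveI := B.hJn
  rw [Subgroup.normalizer_eq_top]
  trivial

theorem Bas.CK : C ≤ K := by rw [B.hC]; exact inf_le_left

theorem Bas.CS {c s : G} (hc : c ∈ C) (hs : s ∈ S) : s * c = c * s := by
  rw [B.hC] at hc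
  exact Subgroup.mem_centralizer_iff.mp hc.2 s hs

theorem Bas.nC {n : G} (hn : n ∈ N) : n ∈ Subgroup.normalizer (C : Set G) := by
  rw [B.hN] at hn
  rw [B.hC]
  exact normalizer_inf (B.nK n) (normalizer_centralizer' hn)

theorem Bas.CN : C ≤ N := by
  rw [B.hN]
  intro c hc
  apply mem_normalizer_of_conj
  intro s hs
  rw [← B.CS hc hs, mul_inv_cancel_right]
  exact hs

theorem Bas.SN : S ≤ N := by rw [B.hN]; exact Subgroup.le_normalizer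

theorem Bas.J₀N : J₀ ≤ N := by rw [B.hJ₀]; exact sup_le B.CN B.SN

theorem Bas.J₀J : J₀ ≤ J := by rw [B.hJ₀, B.hJ]; exact sup_le_sup_right B.CK S

theorem Bas.SJ : S ≤ J := by rw [B.hJ]; exact le_sup_right

theorem Bas.SJ₀ : S ≤ J₀ := by rw [B.hJ₀]; exact le_sup_right

theorem Bas.CJ₀ : C ≤ J₀ := by rw [B.hJ₀]; exact le_sup_left

theorem Bas.nS {n : G} (hn : n ∈ N) : n ∈ Subgroup.normalizer (S : Set G) := by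
  rw [B.hN] at hn; exact hn

theorem Bas.nJ₀ {n : G} (hn : n ∈ N) : n ∈ Subgroup.normalizer (J₀ : Set G) := by
  have h1 : J₀ ≤ N := B.J₀N
  apply mem_normalizer_of_conj
  intro x hx
  have h2 : J₀.map (MulAut.conj n).toMonoidHom ≤ J₀ := by
    conv_lhs => rw [B.hJ₀]
    rw [Subgroup.map_sup]
    apply sup_le
    · rintro _ ⟨c, hc, rfl⟩
      exact B.CJ₀ ((Subgroup.mem_normalizer_iff.mp (B.nC hn) c).mp hc)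
    · rintro _ ⟨c, hc, rfl⟩
      exact B.SJ₀ ((Subgroup.mem_normalizer_iff.mp (B.nS hn) c).mp hc)
  exact h2 ⟨x, hx, rfl⟩

theorem Bas.cC : ¬ p ∣ Nat.card C := fun h => B.hK (h.trans (Subgroup.card_dvd_of_le B.CK))

theorem Bas.D : Dat p K S J where
  hKJ := by rw [B.hJ]; exact le_sup_left
  hSJ := B.SJ
  hJ := B.hJ.le
  hJK := fun g _ => B.nK g
  hK := B.hK
  hS := B.hS

theorem Bas.D₀ : Dat p C S J₀ where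
  hKJ := B.CJ₀
  hSJ := B.SJ₀
  hJ := B.hJ₀.le
  hJK := fun _ hg => B.nC (B.J₀N hg)
  hK := B.cC
  hS := B.hS

/-- the correspondence -/
def QQ (ψ : J → ℂ) (ψ₀ : J₀ → ℂ) : Prop :=
  ∃ (θ : K → ℂ) (θ₀ : C → ℂ) (m : S →* ℂˣ), GT B.D θ m ψ ∧ GT B.D₀ θ₀ m ψ₀ ∧ Cor p B.CK θ θ₀

theorem Bas.SK : S ≤ Subgroup.normalizer (K : Set G) := fun s _ => B.nK s

theorem Bas.stabC {θ₀ : C → ℂ} (s : G) (hs : s ∈ S) : Stab C θ₀ s := by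
  refine ⟨B.nC (B.SN hs), fun k => ?_⟩
  congr 1
  apply Subtype.ext
  rw [cjA_coe, B.CS k.2 hs, mul_inv_cancel_right]

theorem QQ.total {ψ : J → ℂ} (hψ : IsIrrCharacter J ψ) (hd : ¬ p ∣ charDegree ψ) :
    ∃ ψ₀ : J₀ → ℂ, QQ B ψ ψ₀ := by
  obtain ⟨θ, m, h⟩ := GT.of B.D hψ hd
  obtain ⟨θ₀, h1, h2⟩ := cor_exists B.hS B.SK B.hC B.CK B.hK h.1
  obtain ⟨ψ₀, h3⟩ := GT.exists B.D₀ h1 (fun s hs => B.stabC s hs) m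
  exact ⟨ψ₀, θ, θ₀, m, h, h3, h2⟩

theorem QQ.surj {ψ₀ : J₀ → ℂ} (hψ : IsIrrCharacter J₀ ψ₀) (hd : ¬ p ∣ charDegree ψ₀) :
    ∃ ψ : J → ℂ, QQ B ψ ψ₀ := by
  obtain ⟨θ₀, m, h⟩ := GT.of B.D₀ hψ hd
  obtain ⟨θ, h1, h2, h3⟩ := cor_exists_inv B.hS B.SK B.hC B.CK B.hK h.1
  obtain ⟨ψ, h4⟩ := GT.exists B.D h1 h2 m
  exact ⟨ψ, θ, θ₀, m, h4, h, h3⟩

theorem QQ.func {ψ : J → ℂ} {ψ₀ ψ₀' : J₀ → ℂ} (h : QQ B ψ ψ₀) (h' : QQ B ψ ψ₀') : ψ₀ = ψ₀' := by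
  obtain ⟨θ, θ₀, m, h1, h2, h3⟩ := h
  obtain ⟨θ', θ₀', m', h1', h2', h3'⟩ := h'
  obtain ⟨rfl, rfl⟩ := GT.inj B.D h1 h1'
  have h4 : θ₀ = θ₀' := cor_unique B.hS B.SK B.hC B.CK B.hK h1.1
    (fun q hq => GT.stab B.D h1 q (B.SJ hq)) h2.1 h2'.1 h3 h3'
  subst h4
  exact GT.unique B.D₀ h2 h2'

theorem QQ.inj {ψ ψ' : J → ℂ} {ψ₀ : J₀ → ℂ} (h : QQ B ψ ψ₀) (h' : QQ B ψ' ψ₀) : ψ = ψ' := by
  obtain ⟨θ, θ₀, m, h1, h2, h3⟩ := h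
  obtain ⟨θ', θ₀', m', h1', h2', h3'⟩ := h'
  obtain ⟨rfl, rfl⟩ := GT.inj B.D₀ h2 h2'
  have h4 : θ = θ' := cor_inv_unique B.hS B.SK B.hC B.CK B.hK h1.1 h1'.1
    (fun q hq => GT.stab B.D h1 q (B.SJ hq)) (fun q hq => GT.stab B.D h1' q (B.SJ hq)) h2.1 h3 h3'
  subst h4
  exact GT.unique B.D h1 h1'

theorem QQ.conj {ψ : J → ℂ} {ψ₀ : J₀ → ℂ} (h : QQ B ψ ψ₀) {n : G} (hn : n ∈ N) :
    QQ B (fun j => ψ (cjA J n (B.nJ n) j)) (fun j => ψ₀ (cjA J₀ n (B.nJ₀ hn) j)) := by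
  obtain ⟨θ, θ₀, m, h1, h2, h3⟩ := h
  exact ⟨_, _, _, GT.conj B.D h1 (B.nK n) (B.nS hn) (B.nJ n),
    GT.conj B.D₀ h2 (B.nC hn) (B.nS hn) (B.nJ₀ hn), cor_cjA B.CK (B.nK n) (B.nC hn) h3⟩

theorem QQ.stab {ψ : J → ℂ} {ψ₀ : J₀ → ℂ} (h : QQ B ψ ψ₀) {n : G} (hn : n ∈ N) :
    Stab J ψ n ↔ Stab J₀ ψ₀ n := by
  have h1 := QQ.conj B h hn
  constructor
  · rintro ⟨_, h2⟩
    refine ⟨B.nJ₀ hn, fun j => ?_⟩
    have h3 : (fun j => ψ (cjA J n (B.nJ n) j)) = ψ := funext h2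
    rw [h3] at h1
    exact congrFun (QQ.func B h1 h) j
  · rintro ⟨_, h2⟩
    refine ⟨B.nJ n, fun j => ?_⟩
    have h3 : (fun j => ψ₀ (cjA J₀ n (B.nJ₀ hn) j)) = ψ₀ := funext h2
    rw [h3] at h1
    exact congrFun (QQ.inj B h1 h) j

theorem QQ.central {ψ : J → ℂ} {ψ₀ : J₀ → ℂ} (h : QQ B ψ ψ₀) {z : G} (hz : z ∈ J) (hz₀ : z ∈ J₀)
    (hc : ∀ g : G, z * g = g * z) : ψ ⟨z, hz⟩ * ψ₀ 1 = ψ 1 * ψ₀ ⟨z, hz₀⟩ := by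
  letI := Fintype.ofFinite J
  letI := Fintype.ofFinite J₀
  obtain ⟨θ, θ₀, m, h1, h2, h3⟩ := h
  obtain ⟨a, b, ha, hb, hab⟩ := central_split B.hK B.hS (z := z) (B.D.hJ hz) B.SK (fun s _ => (hc s).symm)
  have hca : ∀ g : G, z ^ a * g = g * z ^ a := fun g => (Commute.pow_left (hc g) a).eq
  have hcb : ∀ g : G, z ^ b * g = g * z ^ b := fun g => (Commute.pow_left (hc g) b).eq
  have haC : z ^ a ∈ C := by
    rw [B.hC]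
    exact ⟨ha, Subgroup.mem_centralizer_iff.mpr fun s _ => (hca s).symm⟩
  have hψ1 := irr_one_ne_zero h1.2.1
  have hψ01 := irr_one_ne_zero h2.2.1
  have e1 : ψ ⟨z, hz⟩ * ψ 1 = θ ⟨z ^ a, ha⟩ * (ψ 1 * m ⟨z ^ b, hb⟩) := by
    have h4 := H77.CentralInv.central_mul h1.2.1 (z := ⟨z ^ a, B.D.hKJ ha⟩)
      (fun x => Subtype.ext (hca x)) ⟨z ^ b, B.SJ hb⟩
    have h5 : (⟨z ^ a, B.D.hKJ ha⟩ * ⟨z ^ b, B.SJ hb⟩ : J) = ⟨z, hz⟩ := Subtype.ext hab.symm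
    rw [h5] at h4
    have h6 : ψ ⟨z ^ a, B.D.hKJ ha⟩ = θ ⟨z ^ a, ha⟩ := h1.2.2.1 ⟨z ^ a, ha⟩
    have h7 : ψ ⟨z ^ b, B.SJ hb⟩ = ψ 1 * m ⟨z ^ b, hb⟩ := GT.central B.D h1 ⟨z ^ b, hb⟩ (fun j _ => hcb j)
    rw [h4, h6, h7]
    field_simp
  have e2 : ψ₀ ⟨z, hz₀⟩ * ψ₀ 1 = θ₀ ⟨z ^ a, haC⟩ * (ψ₀ 1 * m ⟨z ^ b, hb⟩) := by
    have h4 := H77.CentralInv.central_mul h2.2.1 (z := ⟨z ^ a, B.CJ₀ haC⟩)
      (fun x => Subtype.ext (hca x)) ⟨z ^ b, B.SJ₀ hb⟩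
    have h5 : (⟨z ^ a, B.CJ₀ haC⟩ * ⟨z ^ b, B.SJ₀ hb⟩ : J₀) = ⟨z, hz₀⟩ := Subtype.ext hab.symm
    rw [h5] at h4
    have h6 : ψ₀ ⟨z ^ a, B.CJ₀ haC⟩ = θ₀ ⟨z ^ a, haC⟩ := h2.2.2.1 ⟨z ^ a, haC⟩
    have h7 : ψ₀ ⟨z ^ b, B.SJ₀ hb⟩ = ψ₀ 1 * m ⟨z ^ b, hb⟩ :=
      GT.central B.D₀ h2 ⟨z ^ b, hb⟩ (fun j _ => hcb j)
    rw [h4, h6, h7]
    field_simp
  have e3 := cor_central B.CK h1.1 h2.1 h3 haC (fun k _ => hca k)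
  have e4 : ψ 1 = θ 1 := h1.2.2.1 1
  have e5 : ψ₀ 1 = θ₀ 1 := h2.2.2.1 1
  apply mul_right_cancel₀ (mul_ne_zero hψ1 hψ01)
  rw [e4, e5]
  rw [e4] at e1
  rw [e5] at e2
  linear_combination (θ₀ 1 * θ₀ 1) * e1 - (θ 1 * θ 1) * e2 + θ 1 * θ₀ 1 * (m ⟨z ^ b, hb⟩ : ℂ) * e3

end H82.RM
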