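import Mathlib
import Cfsg.Agent.Lib.H82.RM16

/-!
# Base case: equality of counts
-/

set_option autoImplicit false
set_option linter.unusedSectionVars false
set_option linter.style.haveILetI false

namespace H82.RM

open Cfsg H18 H18.CharBasic H18.CharOrtho H18.CharQuot H18.CharInd H31.Clifford
open scoped ComplexConjugate

universe u v w

variable {G : Type u} [Group G] [Finite G]

theorem prv_congr {K K' : Subgroup G} {θ : K → ℂ} {θ' : K' → ℂ} (hθ : IsIrrCharacter K θ)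
    (hθ' : IsIrrCharacter K' θ') {x y x' y' : G} (hx : Stab K θ x) (hy : Stab K θ y)
    (hx' : Stab K' θ' x') (hy' : Stab K' θ' y') (h : ∀ z, Pr K θ x y z ↔ Pr K' θ' x' y' z) :
    prv K θ x y = prv K' θ' x' y' := by
  by_cases h1 : ∃ z, Pr K θ x y z
  · obtain ⟨z, hz⟩ := h1
    rw [prv_eq hθ hx hy hz, prv_eq hθ' hx' hy' ((h z).1 hz)]
  · have h2 : ¬ ∃ z, Pr K' θ' x' y' z := fun ⟨z, hz⟩ => h1 ⟨z, (h z).2 hz⟩
    unfold prv
    rw [dif_neg h1, dif_neg h2]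

theorem prv_mul_amb {K : Subgroup G} {θ : K → ℂ} (hθ : IsIrrCharacter K θ) {x y k l : G}
    (hx : Stab K θ x) (hy : Stab K θ y) (hk : k ∈ K) (hl : l ∈ K) :
    prv K θ (x * k) (y * l) = prv K θ x y := by
  have hc := isClassFunction_of_isIrr hθ
  apply prv_congr hθ hθ (hx.mul (Stab.of_mem hc hk)) (hy.mul (Stab.of_mem hc hl)) hx hy
  intro z
  constructor
  · intro h
    have h1 := Pr.mul_mem hθ (hx.mul (Stab.of_mem hc hk)) (hy.mul (Stab.of_mem hc hl))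
      (K.inv_mem hk) (K.inv_mem hl) h
    rwa [mul_inv_cancel_right, mul_inv_cancel_right] at h1
  · exact fun h => Pr.mul_mem hθ hx hy hk hl h

/-- a complement of a normal Sylow subgroup -/
theorem exists_compl {p : ℕ} [hpf : Fact p.Prime] {S N' : Subgroup G} (hS : IsPGroup p S)
    (hSi : ¬ p ∣ S.index) (hSN : S ≤ N') (hn : N' ≤ Subgroup.normalizer (S : Set G)) :
    ∃ V : Subgroup G, V ≤ N' ∧ ¬ p ∣ Nat.card V ∧ ∀ n ∈ N', ∃ v ∈ V, ∃ s ∈ S, n = v * s := by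
  haveI := tr_normal hn
  have h1 : ¬ p ∣ (S.subgroupOf N').index := by
    intro h
    exact hSi (h.trans (Subgroup.relIndex_dvd_index_of_le hSN))
  have h2 : Nat.Coprime (Nat.card (S.subgroupOf N')) (S.subgroupOf N').index :=
    card_coprime_of hS.comap_subtype h1
  obtain ⟨V, hV⟩ := Subgroup.exists_left_complement'_of_coprime h2
  refine ⟨V.map N'.subtype, ?_, ?_, ?_⟩
  · rintro _ ⟨v, _, rfl⟩
    exact v.2
  · rw [Nat.card_congr (V.equivMapOfInjective _ N'.subtype_injective).toEquiv.symm]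
    rw [hV.index_eq_card] at h1
    exact h1
  · intro n hn'
    obtain ⟨⟨v, s⟩, hvs⟩ := hV.2 ⟨n, hn'⟩
    refine ⟨((v : N') : G), ⟨v, v.2, rfl⟩, ((s : N') : G), s.2, ?_⟩
    exact (congrArg Subtype.val hvs).symm

theorem card_sup_ndvd {p : ℕ} [hpf : Fact p.Prime] {K V : Subgroup G} [K.Normal] (hK : ¬ p ∣ Nat.card K)
    (hV : ¬ p ∣ Nat.card V) : ¬ p ∣ Nat.card (K ⊔ V : Subgroup G) := by
  have h1 := Subgroup.card_mul_index (K.subgroupOf (K ⊔ V))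
  have h2 : (K.subgroupOf (K ⊔ V)).index = K.relIndex V := Subgroup.relIndex_sup_left V K
  rw [h2, Nat.card_congr (Subgroup.subgroupOfEquivOfLe (le_sup_left : K ≤ K ⊔ V)).toEquiv] at h1
  rw [← h1]
  intro h
  rcases (hpf.out.dvd_mul).mp h with h3 | h3
  · exact hK h3
  · exact hV (h3.trans (Subgroup.relIndex_dvd_card K V))

variable {p : ℕ} [hpf : Fact p.Prime] {K S J C J₀ N : Subgroup G} (B : Bas p K S J C J₀ N)

include B

theorem Bas.JN : J ⊓ N = J₀ := by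
  haveI := B.hKn
  apply le_antisymm
  · rintro x ⟨hxJ, hxN⟩
    have h1 : x ∈ ((K ⊔ S : Subgroup G) : Set G) := B.D.hJ hxJ
    rw [Subgroup.coe_mul_of_right_le_normalizer_left K S B.SK] at h1
    obtain ⟨k, hk, s, hs, hks⟩ := Set.mem_mul.mp h1
    have hks' : k * s = x := hks
    have hkN : k ∈ N := by
      have h2 : k = x * s⁻¹ := by rw [← hks', mul_inv_cancel_right]
      rw [h2]
      exact N.mul_mem hxN (N.inv_mem (B.SN hs))
    have hkC : k ∈ C := by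
      rw [B.hC]
      refine ⟨hk, Subgroup.mem_centralizer_iff.mpr fun t ht => ?_⟩
      have h3 : k * t * k⁻¹ * t⁻¹ ∈ K ⊓ S := by
        refine ⟨?_, ?_⟩
        · have e : k * t * k⁻¹ * t⁻¹ = k * (t * k⁻¹ * t⁻¹) := by group
          rw [e]
          exact K.mul_mem hk (B.hKn.conj_mem _ (K.inv_mem hk) t)
        · exact S.mul_mem ((Subgroup.mem_normalizer_iff.mp (B.nS hkN) t).mp ht) (S.inv_mem ht)
      rw [disj_of K S B.hK B.hS, Subgroup.mem_bot] at h3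
      have h4 : k * t = t * k := by
        have h5 : k * t * k⁻¹ = t := mul_inv_eq_one.mp h3
        exact mul_inv_eq_iff_eq_mul.mp h5
      exact h4.symm
    rw [← hks']
    exact J₀.mul_mem (B.CJ₀ hkC) (B.SJ₀ hs)
  · exact le_inf B.J₀J B.J₀N

theorem Bas.frat (g : G) : ∃ l ∈ J, ∃ n ∈ N, g = l * n := by
  haveI := B.hJn
  have h1 := Sylow.normalizer_sup_eq_top' (B.hS.toSylow B.hSi) (N := J) B.SJ
  have h2 : g ∈ N ⊔ J := by
    have h3 : g ∈ Subgroup.normalizer (S : Set G) ⊔ J := by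
      have : (Subgroup.normalizer (S : Set G) ⊔ J : Subgroup G) = ⊤ := h1
      rw [this]
      trivial
    rw [B.hN]
    exact h3
  rw [sup_comm] at h2
  obtain ⟨l, hl, n, hn, h⟩ := Subgroup.mem_sup_of_normal_left.mp h2
  exact ⟨l, hl, n, hn, h.symm⟩

/-- elements of `J₀` of order prime to `p` -/
theorem Bas.pprime {V : Subgroup G} (hV : ¬ p ∣ Nat.card V) {x : G} (hx : x ∈ J₀) (hxV : x ∈ V) : x ∈ C := by
  have h1 : x ∈ ((C ⊔ S : Subgroup G) : Set G) := B.D₀.hJ hx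
  rw [Subgroup.coe_mul_of_right_le_normalizer_left C S (fun s hs => B.nC (B.SN hs))] at h1
  obtain ⟨c, hc, s, hs, hcs⟩ := Set.mem_mul.mp h1
  have hcs' : c * s = x := hcs
  have hcomm : Commute c s := (B.CS hc hs).symm
  have h2 : x ^ (Nat.card C * Nat.card V) = 1 := by
    rw [mul_comm, pow_mul]
    have h3 : x ^ Nat.card V = 1 := by
      have h4 : (⟨x, hxV⟩ : V) ^ Nat.card V = 1 := pow_card_eq_one'
      exact congrArg Subtype.val h4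
    rw [h3, one_pow]
  have h3 : c ^ (Nat.card C * Nat.card V) = 1 := by
    rw [pow_mul]
    have h3 : c ^ Nat.card C = 1 := by
      have h4 : (⟨c, hc⟩ : C) ^ Nat.card C = 1 := pow_card_eq_one'
      exact congrArg Subtype.val h4
    rw [h3, one_pow]
  rw [← hcs', hcomm.mul_pow, h3, one_mul] at h2
  have h4 : ¬ p ∣ Nat.card C * Nat.card V := by
    intro h
    rcases (hpf.out.dvd_mul).mp h with h5 | h5
    · exact B.cC h5
    · exact hV h5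
  have h5 := card_coprime_of B.hS h4
  have h6 : orderOf s ∣ Nat.card S := Subgroup.orderOf_dvd_natCard S hs
  have h7 := Nat.dvd_gcd h6 (orderOf_dvd_of_pow_eq_one h2)
  rw [h5, Nat.dvd_one, orderOf_eq_one_iff] at h7
  rw [← hcs', h7, mul_one]
  exact hc

theorem Bas.pair {ψ : J → ℂ} {ψ₀ : J₀ → ℂ} (h : QQ B ψ ψ₀) {V : Subgroup G} (hVN : V ≤ N)
    (hV : ¬ p ∣ Nat.card V) (hVs : ∀ v ∈ V, Stab J ψ v) {v v' : G} (hv : v ∈ V) (hv' : v' ∈ V) {z : ℂˣ}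
    (h1 : Pr J ψ v v' z) : Pr J₀ ψ₀ v v' z := by
  haveI := B.hKn
  haveI := B.hJn
  have hVs₀ : ∀ v ∈ V, Stab J₀ ψ₀ v := fun v hv => (QQ.stab B h (hVN hv)).1 (hVs v hv)
  obtain ⟨θ, θ₀, m, g1, g2, g3⟩ := h
  obtain ⟨_, _, hk, _⟩ := id h1
  have hkC : v * v' * v⁻¹ * v'⁻¹ ∈ C := by
    have h2 : v * v' * v⁻¹ * v'⁻¹ ∈ V :=
      V.mul_mem (V.mul_mem (V.mul_mem hv hv') (V.inv_mem hv)) (V.inv_mem hv')
    refine B.pprime hV ?_ h2
    rw [← B.JN]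
    exact ⟨hk, hVN h2⟩
  -- the pairing of `θ`
  have r1 : (fun k : K => ψ ⟨k, B.D.hKJ k.2⟩) = θ := funext g1.2.2.1
  have r2 : (fun k : C => ψ₀ ⟨k, B.CJ₀ k.2⟩) = θ₀ := funext g2.2.2.1
  have h2 : Pr K θ v v' z := by
    have h3 := Pr.restrict (K₁ := K) g1.2.1 B.D.hKJ (by rw [r1]; exact g1.1) (hVs v hv) (hVs v' hv')
      (B.nK v) (B.nK v') (B.CK hkC) h1
    rw [r1] at h3
    exact h3
  have hθst : ∀ v ∈ V, Stab K θ v := by
    intro w hw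
    obtain ⟨_, h4⟩ := hVs w hw
    refine ⟨B.nK w, fun k => ?_⟩
    rw [← g1.2.2.1, ← g1.2.2.1]
    exact h4 ⟨k, B.D.hKJ k.2⟩
  -- the two-generator group
  set V₂ : Subgroup G := Subgroup.closure ({v, v'} : Set G) with hV₂
  have hV₂V : V₂ ≤ V := by
    rw [hV₂, Subgroup.closure_le]
    rintro _ (rfl | rfl)
    · exact hv
    · exact hv'
  have hcm : ∀ a ∈ V₂, ∀ b ∈ V₂, a * b * a⁻¹ * b⁻¹ ∈ C :=
    comm_closure (B.nC (hVN hv)) (B.nC (hVN hv')) hkC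
  have hcard : ¬ p ∣ Nat.card (K ⊔ V₂ : Subgroup G) := by
    intro h5
    exact card_sup_ndvd B.hK hV (h5.trans (Subgroup.card_dvd_of_le (sup_le_sup_left hV₂V K)))
  have h5 : Pr C θ₀ v v' z := chain (Nat.card S) S le_rfl B.hS K V₂ C B.CK B.SK (fun w _ => B.nK w)
    (fun w hw => B.nS (hVN (hV₂V hw))) hcard B.hC hcm θ θ₀ g1.1 g2.1 g3
    (fun q hq => GT.stab B.D g1 q (B.SJ hq)) (fun w hw => hθst w (hV₂V hw))
    v (Subgroup.subset_closure (by simp)) v' (Subgroup.subset_closure (by simp)) z h2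
  -- back to `ψ₀`
  obtain ⟨z', hz'⟩ := Pr.exists g2.2.1 (hVs₀ v hv) (hVs₀ v' hv') (B.CJ₀ hkC)
  have h6 : Pr C θ₀ v v' z' := by
    have h3 := Pr.restrict (K₁ := C) g2.2.1 B.CJ₀ (by rw [r2]; exact g2.1) (hVs₀ v hv) (hVs₀ v' hv')
      (B.nC (hVN hv)) (B.nC (hVN hv')) hkC hz'
    rw [r2] at h3
    exact h3
  have hst₀ : ∀ v ∈ V, Stab C θ₀ v := by
    intro w hw
    obtain ⟨_, h4⟩ := hVs₀ w hw
    refine ⟨B.nC (hVN hw), fun k => ?_⟩
    rw [← g2.2.2.1, ← g2.2.2.1]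
    exact h4 ⟨k, B.CJ₀ k.2⟩
  rw [Pr.unique g2.1 (hst₀ v hv) (hst₀ v' hv') h5 h6]
  exact hz'

theorem Bas.pair' {ψ : J → ℂ} {ψ₀ : J₀ → ℂ} (h : QQ B ψ ψ₀) {V : Subgroup G} (hVN : V ≤ N)
    (hV : ¬ p ∣ Nat.card V) (hVs : ∀ v ∈ V, Stab J ψ v) {v v' : G} (hv : v ∈ V) (hv' : v' ∈ V) :
    prv J ψ v v' = prv J₀ ψ₀ v v' := by
  have hVs₀ : ∀ v ∈ V, Stab J₀ ψ₀ v := fun v hv => (QQ.stab B h (hVN hv)).1 (hVs v hv)
  have hi : IsIrrCharacter J ψ := by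
    obtain ⟨θ, θ₀, m, g1, g2, g3⟩ := h
    exact g1.2.1
  have hi₀ : IsIrrCharacter J₀ ψ₀ := by
    obtain ⟨θ, θ₀, m, g1, g2, g3⟩ := h
    exact g2.2.1
  apply prv_congr hi hi₀ (hVs v hv) (hVs v' hv') (hVs₀ v hv) (hVs₀ v' hv')
  intro z
  refine ⟨fun h1 => B.pair h hVN hV hVs hv hv' h1, fun h1 => ?_⟩
  obtain ⟨_, _, hk, _⟩ := id h1
  obtain ⟨z', hz'⟩ := Pr.exists hi (hVs v hv) (hVs v' hv') (B.J₀J hk)
  rw [Pr.unique hi₀ (hVs₀ v hv) (hVs₀ v' hv') h1 (B.pair h hVN hV hVs hv hv' hz')]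
  exact hz'

theorem Bas.JT {ψ : J → ℂ} (hψ : IsIrrCharacter J ψ) : J ≤ stS J ψ := fun _ hx =>
  Stab.of_mem (isClassFunction_of_isIrr hψ) hx

theorem Bas.cnt_eq {ψ : J → ℂ} {ψ₀ : J₀ → ℂ} (h : QQ B ψ ψ₀) :
    cnt p (Subgroup.inclusion (le_top : J ≤ ⊤)) ψ = cnt p (Subgroup.inclusion B.J₀N) ψ₀ := by
  haveI := B.hKn
  haveI := B.hJn
  obtain ⟨θ, θ₀, m, g1, g2, g3⟩ := id h
  have hi := g1.2.1
  have hi₀ := g2.2.1
  have hJi : ¬ p ∣ J.index := fun h1 => B.hSi (h1.trans (Subgroup.index_dvd_of_le B.SJ))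
  have hJ₀i : ¬ p ∣ J₀.relIndex N := by
    intro h1
    apply B.hSi
    have h2 : J₀.relIndex N ∣ J₀.index := Subgroup.relIndex_dvd_index_of_le B.J₀N
    exact (h1.trans h2).trans (Subgroup.index_dvd_of_le B.SJ₀)
  rw [cnt_p_zero J ⊤ le_top (fun g _ => B.nJ g) hi (GT.ndvd B.D g1) (by
    rw [Subgroup.relIndex_top_right]; exact hJi),
    cnt_p_zero J₀ N B.J₀N (fun g hg => B.nJ₀ hg) hi₀ (GT.ndvd B.D₀ g2) hJ₀i]
  set T : Subgroup G := stS J ψ with hT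
  set N' : Subgroup G := T ⊓ N with hN'
  have hJT : J ≤ T := B.JT hi
  have hJN' : J₀ ≤ N' := le_inf (B.J₀J.trans hJT) B.J₀N
  have e1 : cnt 0 (Subgroup.inclusion (le_top : J ≤ ⊤)) ψ = cnt 0 (Subgroup.inclusion hJT) ψ :=
    cnt_inertia_amb (Or.inr rfl) J T ⊤ hJT le_top (fun g _ => B.nJ g) hi (fun g _ => Iff.rfl) (by
      rw [zero_dvd_iff, Subgroup.relIndex_top_right]
      exact Subgroup.index_ne_zero_of_finite)
  have e2 : cnt 0 (Subgroup.inclusion B.J₀N) ψ₀ = cnt 0 (Subgroup.inclusion hJN') ψ₀ :=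
    cnt_inertia_amb (Or.inr rfl) J₀ N' N hJN' inf_le_right (fun g hg => B.nJ₀ hg) hi₀ (fun g hg => by
      rw [hN', Subgroup.mem_inf, hT, mem_stS, QQ.stab B h hg]
      exact ⟨fun h1 => h1.1, fun h1 => ⟨h1, hg⟩⟩) (by
      rw [zero_dvd_iff]
      exact Subgroup.index_ne_zero_of_finite)
  rw [e1, e2]
  letI := Fintype.ofFinite N'
  have hst : ∀ t ∈ T, Stab J ψ t := fun t ht => ht
  have hst₀ : ∀ t ∈ N', Stab J₀ ψ₀ t := fun t ht => (QQ.stab B h ht.2).1 ht.1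
  have s1 := star_amb J T N' hJT inf_le_left hi hst (by
    intro t ht
    obtain ⟨l, hl, n, hn, e⟩ := B.frat t
    refine ⟨l, hl, n, ⟨?_, hn⟩, e⟩
    have h3 : n = l⁻¹ * t := by rw [e, inv_mul_cancel_left]
    rw [h3]
    exact T.mul_mem (T.inv_mem (hJT hl)) ht)
  have s2 := star_amb J₀ N' N' hJN' le_rfl hi₀ hst₀ (fun t ht => ⟨1, J₀.one_mem, t, ht, by rw [one_mul]⟩)
  have hint : J ⊓ N' = J₀ ⊓ N' := by
    rw [inf_eq_left.mpr hJN', hN', ← inf_assoc, inf_eq_left.mpr hJT, B.JN]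
  rw [hint] at s1
  obtain ⟨V, hVN', hVc, hVs⟩ := exists_compl B.hS B.hSi (N' := N') (B.SJ₀.trans hJN')
    (fun n hn => B.nS hn.2)
  have key : ∀ n n' : N', prv J ψ n n' = prv J₀ ψ₀ n n' := by
    intro n n'
    obtain ⟨v, hv, s, hs, e⟩ := hVs n n.2
    obtain ⟨v', hv', s', hs', e'⟩ := hVs n' n'.2
    rw [e, e', prv_mul_amb hi (hst v (hVN' hv).1) (hst v' (hVN' hv').1) (B.SJ hs) (B.SJ hs'),
      prv_mul_amb hi₀ (hst₀ v (hVN' hv)) (hst₀ v' (hVN' hv')) (B.SJ₀ hs) (B.SJ₀ hs')]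
    exact B.pair' h (fun w hw => (hVN' hw).2) hVc (fun w hw => (hVN' hw).1) hv hv'
  have s3 : ∑ n : N', ∑ n' : N', prv J ψ n n' = ∑ n : N', ∑ n' : N', prv J₀ ψ₀ n n' :=
    Finset.sum_congr rfl fun n _ => Finset.sum_congr rfl fun n' _ => key n n'
  rw [s3, ← s2] at s1
  have h5 : (Nat.card N' : ℂ) * Nat.card (J₀ ⊓ N' : Subgroup G) ≠ 0 :=
    mul_ne_zero card_ne_zero' (Nat.cast_ne_zero.mpr Nat.card_pos.ne')
  exact_mod_cast mul_right_cancel₀ h5 s1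

end H82.RM
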