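import Mathlib
import Cfsg.Agent.Lib.H82.RM17

/-!
# Base case
-/

set_option autoImplicit false
set_option linter.unusedSectionVars false
set_option linter.style.haveILetI false

namespace H82.RM

open Cfsg H18 H18.CharBasic H18.CharOrtho H18.CharQuot H18.CharInd H31.Clifford
open scoped ComplexConjugate

universe u v w

variable {G : Type u} [Group G] [Finite G]
variable {p : ℕ} [hpf : Fact p.Prime] {K S J C J₀ N : Subgroup G} (B : Bas p K S J C J₀ N)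

include B

theorem QQ.irr {ψ : J → ℂ} {ψ₀ : J₀ → ℂ} (h : QQ B ψ ψ₀) : IsIrrCharacter J ψ ∧ IsIrrCharacter J₀ ψ₀ := by
  obtain ⟨θ, θ₀, m, g1, g2, g3⟩ := h
  exact ⟨g1.2.1, g2.2.1⟩

theorem base {ι : Type w} (ζ : ι → G) (hζc : ∀ i, ∀ g : G, ζ i * g = g * ζ i) (hζJ : ∀ i, ζ i ∈ J)
    (hζN : ∀ i, ζ i ∈ N) (lam : ι → ℂ) :
    cz p ζ lam = cz p (fun i => (⟨ζ i, hζN i⟩ : N)) lam := by
  haveI := B.hKn
  haveI := B.hJn
  have hζJ₀ : ∀ i, ζ i ∈ J₀ := by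
    intro i
    rw [← B.JN]
    exact ⟨hζJ i, hζN i⟩
  have e0 : cz p ζ lam = cz p (fun i => (⟨ζ i, (le_top : J ≤ ⊤) (hζJ i)⟩ : (⊤ : Subgroup G))) lam :=
    cz_congr_of p (Subgroup.topEquiv (G := G))
      (fun i => (⟨ζ i, (le_top : J ≤ ⊤) (hζJ i)⟩ : (⊤ : Subgroup G))) ζ (fun _ => rfl) lam
  have d1 := dec_amb (p := p) J S ⊤ le_top le_top (fun g _ => B.nJ g) B.hS (by
    rw [Subgroup.relIndex_top_right]; exact B.hSi) ζ hζJ lam (fun i h _ => (hζc i h).symm)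
  have d2 := dec_amb (p := p) J₀ S N B.J₀N B.SN (fun g hg => B.nJ₀ hg) B.hS (fun h1 =>
    B.hSi (h1.trans (Subgroup.relIndex_dvd_index_of_le B.SN))) ζ hζJ₀ lam (fun i h _ => (hζc i h).symm)
  have key : (cz p (fun i => (⟨ζ i, (le_top : J ≤ ⊤) (hζJ i)⟩ : (⊤ : Subgroup G))) lam : ℚ) =
      (cz p (fun i => (⟨ζ i, B.J₀N (hζJ₀ i)⟩ : N)) lam : ℚ) := by
    rw [d1, d2]
    have mem1 : ∀ (ψ : J → ℂ) (ψ₀ : J₀ → ℂ), QQ B ψ ψ₀ → ((∀ i, ψ ⟨ζ i, hζJ i⟩ = ψ 1 * lam i) ↔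
        ∀ i, ψ₀ ⟨ζ i, hζJ₀ i⟩ = ψ₀ 1 * lam i) := by
      intro ψ ψ₀ h
      obtain ⟨hi, hi₀⟩ := QQ.irr B h
      apply forall_congr'
      intro i
      have h1 := QQ.central B h (hζJ i) (hζJ₀ i) (hζc i)
      have h2 := irr_one_ne_zero hi
      have h3 := irr_one_ne_zero hi₀
      constructor
      · intro h4
        rw [h4] at h1
        apply mul_left_cancel₀ h2
        rw [← h1]; ring
      · intro h4
        rw [h4] at h1
        apply mul_right_cancel₀ h3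
        rw [h1]; ring
    have tot : ∀ (a : YA J S ζ hζJ lam), ¬ p ∣ charDegree (a.1 : J → ℂ) →
        ∃ b : YA J₀ S ζ hζJ₀ lam, QQ B (a.1 : J → ℂ) (b.1 : J₀ → ℂ) := by
      intro a ha
      obtain ⟨ψ₀, h⟩ := QQ.total B a.1.2 ha
      obtain ⟨_, hi₀⟩ := QQ.irr B h
      exact ⟨⟨⟨ψ₀, hi₀⟩, fun s hs => Stab.of_mem (isClassFunction_of_isIrr hi₀) (B.SJ₀ hs),
        (mem1 _ _ h).1 a.2.2⟩, h⟩
    have sur : ∀ (b : YA J₀ S ζ hζJ₀ lam), ¬ p ∣ charDegree (b.1 : J₀ → ℂ) →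
        ∃ a : YA J S ζ hζJ lam, QQ B (a.1 : J → ℂ) (b.1 : J₀ → ℂ) := by
      intro b hb
      obtain ⟨ψ, h⟩ := QQ.surj B b.1.2 hb
      obtain ⟨hi, _⟩ := QQ.irr B h
      exact ⟨⟨⟨ψ, hi⟩, fun s hs => Stab.of_mem (isClassFunction_of_isIrr hi) (B.SJ hs),
        (mem1 _ _ h).2 b.2.2⟩, h⟩
    apply sum_rel _ _ (fun (a : YA J S ζ hζJ lam) (b : YA J₀ S ζ hζJ₀ lam) =>
      QQ B (a.1 : J → ℂ) (b.1 : J₀ → ℂ))
    · intro a ha
      apply tot
      intro h1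
      apply ha
      rw [cnt_eq_zero J ⊤ le_top (fun g _ => B.nJ g) a.1.2 h1, Nat.cast_zero, zero_div]
    · intro b hb
      apply sur
      intro h1
      apply hb
      rw [cnt_eq_zero J₀ N B.J₀N (fun g hg => B.nJ₀ hg) b.1.2 h1, Nat.cast_zero, zero_div]
    · intro a b b' h h'
      exact Subtype.ext (Subtype.ext (QQ.func B h h'))
    · intro a a' b h h'
      exact Subtype.ext (Subtype.ext (QQ.inj B h h'))
    · intro a b hab
      have hcnt := B.cnt_eq hab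
      have hJS : J ⊔ S = J := sup_eq_left.mpr B.SJ
      have hJ₀S : J₀ ⊔ S = J₀ := sup_eq_left.mpr B.SJ₀
      rw [hcnt]
      congr 2
      apply card_rel (fun a' b' => QQ B (a'.1.1 : J → ℂ) (b'.1.1 : J₀ → ℂ))
      · rintro ⟨a', g, hg, hg2, ha'⟩
        obtain ⟨l, hl, n, hn, rfl⟩ := B.frat g
        have h1 := QQ.conj B hab hn
        have h2 : (fun j => (a.1 : J → ℂ) (cjA J n (B.nJ n) j)) = (a'.1 : J → ℂ) := by
          funext j
          rw [ha']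
          have h3 := isClassFunction_of_isIrr a.1.2 (cjA J n (B.nJ n) j) ⟨l, hl⟩
          rw [← h3]
          refine congrArg (a.1 : J → ℂ) (Subtype.ext ?_)
          show l * (n * j * n⁻¹) * l⁻¹ = (l * n) * j * (l * n)⁻¹
          group
        rw [h2] at h1
        obtain ⟨_, hi₀⟩ := QQ.irr B h1
        refine ⟨⟨⟨⟨_, hi₀⟩, fun s hs => Stab.of_mem (isClassFunction_of_isIrr hi₀) (B.SJ₀ hs),
          (mem1 _ _ h1).1 a'.2.2⟩, n, hn, ?_, fun _ => rfl⟩, h1⟩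
        rw [hJ₀S]
        exact B.nJ₀ hn
      · rintro ⟨b', n, hn, hn2, hb'⟩
        have h1 := QQ.conj B hab hn
        have h2 : (fun j => (b.1 : J₀ → ℂ) (cjA J₀ n (B.nJ₀ hn) j)) = (b'.1 : J₀ → ℂ) := by
          funext j
          rw [hb']
        rw [h2] at h1
        obtain ⟨hi, _⟩ := QQ.irr B h1
        refine ⟨⟨⟨⟨_, hi⟩, fun s hs => Stab.of_mem (isClassFunction_of_isIrr hi) (B.SJ hs),
          (mem1 _ _ h1).2 b'.2.2⟩, n, trivial, ?_, fun _ => rfl⟩, h1⟩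
        rw [hJS]
        exact B.nJ n
      · intro a' b' b'' h h'
        exact Subtype.ext (Subtype.ext (Subtype.ext (QQ.func B h h')))
      · intro a' a'' b' h h'
        exact Subtype.ext (Subtype.ext (Subtype.ext (QQ.inj B h h')))
  rw [e0]
  exact_mod_cast key

end H82.RM
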