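import Mathlib
import Cfsg.Agent.Lib.H82.RM18
import Cfsg.Agent.Lib.H82.RM5
import Cfsg.Agent.Lib.H13.PSolvMap
import Cfsg.Agent.Lib.H37.PSolv
import Cfsg.Agent.Lib.H1.Cores

/-!
# The induction, preliminaries
-/

set_option autoImplicit false
set_option linter.unusedSectionVars false
set_option linter.style.haveILetI false

namespace H82.RM

open Cfsg H18 H18.CharBasic H18.CharOrtho H18.CharQuot H18.CharInd H31.Clifford
open scoped ComplexConjugate

universe u v w

theorem psolv_quot {p : ℕ} [Fact p.Prime] {A : Type u} {B : Type v} [Group A] [Group B] (f : A →* B)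
    (M : Subgroup A) [M.Normal] (hM : f.ker = M) (hB : IsPSolvable p B) : IsPSolvable p (A ⧸ M) := by
  subst hM
  exact H13.PSolvMap.of_equiv (H37.PSolv.subgroup hB f.range)
    (QuotientGroup.quotientKerEquivRange f).symm

/-- the statement for index `< n` -/
def MainProp (p n : ℕ) : Prop :=
  ∀ (G : Type u) [Group G] [Finite G] (L S : Subgroup G) [L.Normal], L.index < n →
    IsPSolvable p (G ⧸ L) → IsPGroup p S → ¬ p ∣ S.index → ∀ ν : L → ℂ, IsIrrCharacter L ν →
    (∀ s ∈ S, conjFunN L s ν = ν) →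
    ∀ hLN : L ≤ Subgroup.normalizer ((L ⊔ S : Subgroup G) : Set G),
      cnt p L.subtype ν = cnt p (Subgroup.inclusion hLN) ν

section amb

variable {Γ : Type u} [Group Γ] [Finite Γ] {p : ℕ} [hpf : Fact p.Prime]

theorem main_amb {n : ℕ} (IH : MainProp.{u} p n) (L S H : Subgroup Γ) [hLn : L.Normal] (hLH : L ≤ H)
    (hSH : S ≤ H) (hidx : L.relIndex H < n) (hps : IsPSolvable p (Γ ⧸ L)) (hS : IsPGroup p S)
    (hSi : ¬ p ∣ S.relIndex H) {ν : L → ℂ} (hν : IsIrrCharacter L ν) (hinv : ∀ s ∈ S, Stab L ν s)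
    (hLN : L ≤ H ⊓ Subgroup.normalizer ((L ⊔ S : Subgroup Γ) : Set Γ)) :
    cnt p (Subgroup.inclusion hLH) ν = cnt p (Subgroup.inclusion hLN) ν := by
  have hHL : H ≤ Subgroup.normalizer (L : Set Γ) := by
    rw [Subgroup.normalizer_eq_top]
    exact le_top
  have hps' : IsPSolvable p (H ⧸ L.subgroupOf H) := by
    apply psolv_quot ((QuotientGroup.mk' L).comp H.subtype) (L.subgroupOf H) _ hps
    ext x
    rw [MonoidHom.mem_ker, MonoidHom.comp_apply, QuotientGroup.mk'_apply, QuotientGroup.eq_one_iff,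
      Subgroup.mem_subgroupOf]
    rfl
  have hmem : ∀ x : H, x ∈ Subgroup.normalizer ((L.subgroupOf H ⊔ S.subgroupOf H : Subgroup H) : Set H) ↔
      (x : Γ) ∈ Subgroup.normalizer ((L ⊔ S : Subgroup Γ) : Set Γ) := by
    intro x
    rw [sup_subgroupOf' hLH hSH, mem_normalizer_subgroupOf (sup_le hLH hSH)]
  have hLN' : L.subgroupOf H ≤
      Subgroup.normalizer ((L.subgroupOf H ⊔ S.subgroupOf H : Subgroup H) : Set H) := by
    intro x hx
    exact (hmem x).2 (hLN hx).2
  have h1 := IH H (L.subgroupOf H) (S.subgroupOf H) hidx hps' hS.comap_subtype hSi (tr L H ν)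
    ((tr_irr hLH).2 hν) (fun s hs => (tr_stab hLH hHL s).1 (hinv s hs)) hLN'
  rw [cnt_amb p hLH] at h1
  rw [h1]
  refine cnt_transport (G := Γ) p (Subgroup.inclusion hLN') (Subgroup.inclusion hLN)
    (Subgroup.inclusion_injective hLN') (Subgroup.inclusion_injective hLN)
    (H.subtype.comp (Subgroup.subtype _)) (Subgroup.subtype _)
    (H.subtype_injective.comp (Subgroup.subtype_injective _)) (Subgroup.subtype_injective _) ?_ ?_ ?_
  · ext x
    constructor
    · rintro ⟨y, rfl⟩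
      exact ⟨⟨((y : H) : Γ), (y : H).2, (hmem y).1 y.2⟩, rfl⟩
    · rintro ⟨y, rfl⟩
      exact ⟨⟨⟨(y : Γ), y.2.1⟩, (hmem _).2 y.2.2⟩, rfl⟩
  · ext x
    constructor
    · rintro ⟨y, rfl⟩
      exact ⟨⟨((y : H) : Γ), y.2⟩, rfl⟩
    · rintro ⟨y, rfl⟩
      exact ⟨⟨⟨(y : Γ), hLH y.2⟩, y.2⟩, rfl⟩
  · intro l₁ l₂ h
    show ν _ = ν _
    congr 1
    exact Subtype.ext h

theorem cz_cnt_amb (Z H : Subgroup Γ) (hZH : Z ≤ H) (hc : ∀ z ∈ Z, ∀ h : Γ, h * z = z * h)
    (lam : Z →* ℂˣ) : cnt p (Subgroup.inclusion hZH) (fun z => (lam z : ℂ)) =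
      cz p (fun z : Z => (⟨z, hZH z.2⟩ : H)) (fun z => (lam z : ℂ)) := by
  letI := Fintype.ofFinite Z
  haveI hZn : Z.Normal := ⟨fun z hz g => by rw [hc z hz g, mul_inv_cancel_right]; exact hz⟩
  have hHZ : H ≤ Subgroup.normalizer (Z : Set Γ) := by
    rw [Subgroup.normalizer_eq_top]
    exact le_top
  haveI := tr_normal hHZ
  unfold cnt cz
  refine Nat.card_congr (Equiv.subtypeEquivRight fun χ => ?_)
  apply and_congr_right
  intro _
  constructor
  · intro h z
    have h1 := (und_amb hZH (χ : H → ℂ) (fun z => (lam z : ℂ))).2 h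
    have h2 := und_central (Z.subgroupOf H) χ.2 ((tr_irr hZH).2 (isIrrCharacter_of_hom lam)) h1
      (z := ⟨z, hZH z.2⟩) (Subgroup.mem_center_iff.mpr fun g => Subtype.ext (hc z z.2 g)) z.2
    have h3 : tr Z H (fun z => (lam z : ℂ)) 1 = 1 := by
      show ((lam 1 : ℂˣ) : ℂ) = 1
      rw [map_one, Units.val_one]
    rw [h3, mul_one] at h2
    exact h2
  · intro h
    unfold Und
    rw [finsum_eq_sum_of_fintype]
    have h1 : ∀ z : Z, (χ : H → ℂ) (Subgroup.inclusion hZH z) * conj (lam z : ℂ) = (χ : H → ℂ) 1 := by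
      intro z
      have h2 : (χ : H → ℂ) (Subgroup.inclusion hZH z) = (χ : H → ℂ) 1 * lam z := h z
      rw [h2, conj_hom, mul_assoc, ← Units.val_mul, ← map_mul, mul_inv_cancel, map_one, Units.val_one,
        mul_one]
    rw [Finset.sum_congr rfl (fun z _ => h1 z), Finset.sum_const, nsmul_eq_mul]
    apply mul_ne_zero
    · rw [Finset.card_univ, ← Nat.card_eq_fintype_card]
      exact card_ne_zero'
    · exact irr_one_ne_zero χ.2

theorem exists_compl' {S N' : Subgroup Γ} (hS : IsPGroup p S)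
    (hSi : ¬ p ∣ S.relIndex N') (hn : N' ≤ Subgroup.normalizer (S : Set Γ)) :
    ∃ V : Subgroup Γ, V ≤ N' ∧ ¬ p ∣ Nat.card V ∧ ∀ n ∈ N', ∃ v ∈ V, ∃ s ∈ S, n = v * s := by
  haveI := tr_normal hn
  have h2 : Nat.Coprime (Nat.card (S.subgroupOf N')) (S.subgroupOf N').index :=
    card_coprime_of hS.comap_subtype hSi
  obtain ⟨V, hV⟩ := Subgroup.exists_left_complement'_of_coprime h2
  refine ⟨V.map N'.subtype, ?_, ?_, ?_⟩
  · rintro _ ⟨v, _, rfl⟩
    exact v.2
  · rw [Nat.card_congr (V.equivMapOfInjective _ N'.subtype_injective).toEquiv.symm]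
    have h1 : (S.subgroupOf N').index = Nat.card V := hV.index_eq_card
    rw [← h1]
    exact hSi
  · intro n hn'
    obtain ⟨⟨v, s⟩, hvs⟩ := hV.2 ⟨n, hn'⟩
    refine ⟨((v : N') : Γ), ⟨v, v.2, rfl⟩, ((s : N') : Γ), s.2, ?_⟩
    exact (congrArg Subtype.val hvs).symm

theorem card_rel_mul {A B : Subgroup Γ} (h : A ≤ B) : Nat.card A * A.relIndex B = Nat.card B := by
  have h1 := (A.subgroupOf B).card_mul_index
  rwa [Nat.card_congr (Subgroup.subgroupOfEquivOfLe h).toEquiv] at h1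

/-- the normal `p`-complement of `M` when `M / Z` is a `p'`-group -/
theorem exists_K (Z M S : Subgroup Γ) [hM : M.Normal] (hZM : Z ≤ M) (hc : ∀ z ∈ Z, ∀ h : Γ, h * z = z * h)
    (hS : IsPGroup p S) (hSi : ¬ p ∣ S.index) (hMZ : ¬ p ∣ Z.relIndex M) :
    ∃ K : Subgroup Γ, K.Normal ∧ ¬ p ∣ Nat.card K ∧ K ≤ M ∧ K ⊔ S = M ⊔ S := by
  haveI hZn : Z.Normal := ⟨fun z hz g => by rw [hc z hz g, mul_inv_cancel_right]; exact hz⟩
  have hR : IsPGroup p (Z ⊓ S : Subgroup Γ) := hS.to_le inf_le_right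
  have hRi : ¬ p ∣ (Z ⊓ S).relIndex M := by
    have h1 : (Z ⊓ S).relIndex M = (Z ⊓ S).relIndex Z * Z.relIndex M :=
      (Subgroup.relIndex_mul_relIndex _ _ _ inf_le_left hZM).symm
    rw [h1]
    intro h
    rcases (hpf.out.dvd_mul).mp h with h2 | h2
    · have h3 : (Z ⊓ S).relIndex Z = S.relIndex Z := Subgroup.inf_relIndex_left Z S
      rw [h3] at h2
      have h5 : S.relIndex Z = S.relIndex (Z ⊔ S) := by
        have e1 : Nat.card (Z ⊓ S : Subgroup Γ) * S.relIndex Z = Nat.card Z := by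
          rw [← Subgroup.inf_relIndex_left Z S]
          exact card_rel_mul inf_le_left
        have e2 : Nat.card (Z ⊓ S : Subgroup Γ) * Z.relIndex S = Nat.card S := by
          rw [← Subgroup.inf_relIndex_right Z S]
          exact card_rel_mul inf_le_right
        have e3 : Nat.card S * S.relIndex (Z ⊔ S) = Nat.card (Z ⊔ S : Subgroup Γ) :=
          card_rel_mul le_sup_right
        have e4 : Nat.card Z * Z.relIndex S = Nat.card (Z ⊔ S : Subgroup Γ) := by
          rw [← Subgroup.relIndex_sup_left S Z]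
          exact card_rel_mul le_sup_left
        have e5 : 0 < Nat.card (Z ⊓ S : Subgroup Γ) * Z.relIndex S := by
          rw [e2]; exact Nat.card_pos
        apply Nat.eq_of_mul_eq_mul_left e5
        calc Nat.card (Z ⊓ S : Subgroup Γ) * Z.relIndex S * S.relIndex Z
            = (Nat.card (Z ⊓ S : Subgroup Γ) * S.relIndex Z) * Z.relIndex S := by ring
          _ = Nat.card Z * Z.relIndex S := by rw [e1]
          _ = Nat.card (Z ⊔ S : Subgroup Γ) := e4
          _ = Nat.card S * S.relIndex (Z ⊔ S) := e3.symm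
          _ = Nat.card (Z ⊓ S : Subgroup Γ) * Z.relIndex S * S.relIndex (Z ⊔ S) := by rw [e2]
      rw [h5] at h2
      exact hSi (h2.trans (Subgroup.relIndex_dvd_index_of_le le_sup_right))
    · exact hMZ h2
  have hRc : ∀ z ∈ Z ⊓ S, ∀ h : Γ, h * z = z * h := fun z hz h => hc z hz.1 h
  haveI hRn : (Z ⊓ S).Normal := ⟨fun z hz g => by
    rw [hRc z hz g, mul_inv_cancel_right]; exact hz⟩
  obtain ⟨V, hVM, hV, hVs⟩ := exists_compl' (N' := M) hR hRi (by
    rw [Subgroup.normalizer_eq_top]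
    exact le_top)
  refine ⟨V, ⟨fun v hv g => ?_⟩, hV, hVM, ?_⟩
  · obtain ⟨v', hv', r, hr, e⟩ := hVs (g * v * g⁻¹) (hM.conj_mem v (hVM hv) g)
    have h1 : (g * v * g⁻¹) ^ Nat.card V = 1 := by
      rw [conj_pow]
      have h2 : v ^ Nat.card V = 1 := by
        have h3 : (⟨v, hv⟩ : V) ^ Nat.card V = 1 := pow_card_eq_one'
        exact congrArg Subtype.val h3
      rw [h2, mul_one, mul_inv_cancel]
    have h2 : v' ^ Nat.card V = 1 := by
      have h3 : (⟨v', hv'⟩ : V) ^ Nat.card V = 1 := pow_card_eq_one'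
      exact congrArg Subtype.val h3
    have h3 : Commute v' r := hRc r hr v'
    rw [e, h3.mul_pow, h2, one_mul] at h1
    have h4 : orderOf r ∣ Nat.card (Z ⊓ S : Subgroup Γ) := Subgroup.orderOf_dvd_natCard _ hr
    have h5 := Nat.dvd_gcd h4 (orderOf_dvd_of_pow_eq_one h1)
    rw [card_coprime_of hR hV, Nat.dvd_one, orderOf_eq_one_iff] at h5
    rw [e, h5, mul_one]
    exact hv'
  · apply le_antisymm
    · exact sup_le_sup_right hVM S
    · apply sup_le _ le_sup_right
      intro x hx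
      obtain ⟨v, hv, r, hr, rfl⟩ := hVs x hx
      exact (V ⊔ S).mul_mem (le_sup_left (b := S) hv) (le_sup_right (a := V) hr.2)

end amb

end H82.RM
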