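import Mathlib
import Cfsg.Agent.Lib.H82.RM19

/-!
# The induction
-/

set_option autoImplicit false
set_option linter.unusedSectionVars false
set_option linter.style.haveILetI false

namespace H82.RM

open Cfsg H18 H18.CharBasic H18.CharOrtho H18.CharQuot H18.CharInd H31.Clifford
open scoped ComplexConjugate

universe u v w

section aux

variable {Γ : Type u} [Group Γ] [Finite Γ] {p : ℕ}

theorem cnt_cast (M H H' : Subgroup Γ) (h : H = H') (hM : M ≤ H) (hM' : M ≤ H') (μ : M → ℂ) :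
    cnt p (Subgroup.inclusion hM) μ = cnt p (Subgroup.inclusion hM') μ := by
  subst h; rfl

theorem cz_cast {ι : Type w} (ζ : ι → Γ) (H H' : Subgroup Γ) (h : H = H') (hM : ∀ i, ζ i ∈ H)
    (hM' : ∀ i, ζ i ∈ H') (lam : ι → ℂ) :
    cz p (fun i => (⟨ζ i, hM i⟩ : H)) lam = cz p (fun i => (⟨ζ i, hM' i⟩ : H')) lam := by
  subst h; rfl

theorem cz_top {ι : Type w} (ζ : ι → Γ) (h : ∀ i, ζ i ∈ (⊤ : Subgroup Γ)) (lam : ι → ℂ) :
    cz p ζ lam = cz p (fun i => (⟨ζ i, h i⟩ : (⊤ : Subgroup Γ))) lam :=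
  cz_congr_of p (Subgroup.topEquiv (G := Γ)) (fun i => (⟨ζ i, h i⟩ : (⊤ : Subgroup Γ))) ζ
    (fun _ => rfl) lam

theorem cnt_top (L : Subgroup Γ) (ν : L → ℂ) :
    cnt p L.subtype ν = cnt p (Subgroup.inclusion (le_top : L ≤ ⊤)) ν :=
  cnt_congr_of p (Subgroup.topEquiv (G := Γ)) (Subgroup.inclusion (le_top : L ≤ ⊤)) L.subtype
    (fun _ => rfl) ν

theorem mem_normalizer_sup {A B : Subgroup Γ} {n : Γ} (hA : n ∈ Subgroup.normalizer (A : Set Γ))
    (hB : n ∈ Subgroup.normalizer (B : Set Γ)) :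
    n ∈ Subgroup.normalizer ((A ⊔ B : Subgroup Γ) : Set Γ) := by
  apply mem_normalizer_of_conj
  intro x hx
  have h2 : (A ⊔ B).map (MulAut.conj n).toMonoidHom ≤ A ⊔ B := by
    rw [Subgroup.map_sup]
    apply sup_le
    · rintro _ ⟨c, hc, rfl⟩
      exact le_sup_left (b := B) ((Subgroup.mem_normalizer_iff.mp hA c).mp hc)
    · rintro _ ⟨c, hc, rfl⟩
      exact le_sup_right (a := A) ((Subgroup.mem_normalizer_iff.mp hB c).mp hc)
  exact h2 ⟨x, hx, rfl⟩

theorem mem_normalizer_normal (A : Subgroup Γ) [A.Normal] (n : Γ) :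
    n ∈ Subgroup.normalizer (A : Set Γ) := by
  rw [Subgroup.normalizer_eq_top]
  trivial

theorem stab_iff_conj (L : Subgroup Γ) [L.Normal] (ν : L → ℂ) (g : Γ) :
    Stab L ν g ↔ conjFunN L g ν = ν := by
  constructor
  · rintro ⟨_, h⟩
    funext l
    exact h l
  · intro h
    exact ⟨mem_normalizer_normal L g, fun l => congrFun h l⟩

variable [hpf : Fact p.Prime]

theorem mem_of_ppow {S H : Subgroup Γ} (hSi : ¬ p ∣ S.relIndex H)
    (hn : H ≤ Subgroup.normalizer (S : Set Γ)) {x : Γ} (hx : x ∈ H) {k : ℕ} (hk : x ^ p ^ k = 1) :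
    x ∈ S := by
  haveI := tr_normal hn
  have h1 : ((⟨x, hx⟩ : H) : H ⧸ S.subgroupOf H) = 1 := by
    have h2 : orderOf ((⟨x, hx⟩ : H) : H ⧸ S.subgroupOf H) ∣ S.relIndex H := orderOf_dvd_natCard _
    have h3 : orderOf ((⟨x, hx⟩ : H) : H ⧸ S.subgroupOf H) ∣ p ^ k := by
      apply orderOf_dvd_of_pow_eq_one
      rw [← QuotientGroup.mk_pow]
      have h4 : (⟨x, hx⟩ : H) ^ p ^ k = 1 := Subtype.ext hk
      rw [h4, QuotientGroup.mk_one]
    have h4 := Nat.dvd_gcd h3 h2
    rw [Nat.Coprime.pow_left k ((Nat.Prime.coprime_iff_not_dvd hpf.out).mpr hSi), Nat.dvd_one,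
      orderOf_eq_one_iff] at h4
    exact h4
  exact (QuotientGroup.eq_one_iff (⟨x, hx⟩ : H)).mp h1

/-- central `Z` and Sylow `S`: the normalizers of `Z S` and of `S` coincide -/
theorem normalizer_central_sup {Z S : Subgroup Γ} (hZc : ∀ z ∈ Z, ∀ h : Γ, h * z = z * h)
    (hS : IsPGroup p S) (hSi : ¬ p ∣ S.index) :
    Subgroup.normalizer ((Z ⊔ S : Subgroup Γ) : Set Γ) = Subgroup.normalizer (S : Set Γ) := by
  haveI hZn : Z.Normal := ⟨fun z hz g => by rw [hZc z hz g, mul_inv_cancel_right]; exact hz⟩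
  have hZSn : Z ⊔ S ≤ Subgroup.normalizer (S : Set Γ) := by
    apply sup_le _ Subgroup.le_normalizer
    intro z hz
    apply mem_normalizer_of_conj
    intro s hs
    rw [← hZc z hz s, mul_inv_cancel_right]
    exact hs
  apply le_antisymm
  · intro n hn
    apply mem_normalizer_of_conj
    intro s hs
    have h1 : n * s * n⁻¹ ∈ Z ⊔ S :=
      (Subgroup.mem_normalizer_iff.mp hn s).mp (le_sup_right (a := Z) hs)
    obtain ⟨k, hk⟩ := hS ⟨s, hs⟩
    have hk' : s ^ p ^ k = 1 := congrArg Subtype.val hk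
    apply mem_of_ppow (p := p) (S := S) (H := Z ⊔ S) (fun h => hSi (h.trans
      (Subgroup.relIndex_dvd_index_of_le le_sup_right))) hZSn h1 (k := k)
    rw [conj_pow, hk', mul_one, mul_inv_cancel]
  · intro n hn
    exact mem_normalizer_sup (mem_normalizer_normal Z n) hn

end aux

section claim

variable {p : ℕ} [hpf : Fact p.Prime] {B : Type u} [Group B] [Finite B]

theorem exists_M (Z S : Subgroup B) [hZn : Z.Normal] (hZ : Z ≠ ⊤) (hps : IsPSolvable p (B ⧸ Z))
    (hS : IsPGroup p S) (hSi : ¬ p ∣ S.index) :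
    ∃ M : Subgroup B, M.Normal ∧ Z < M ∧ (M ≤ Z ⊔ S ∨ ¬ p ∣ Z.relIndex M) := by
  haveI : Nontrivial (B ⧸ Z) := by
    by_contra hcon
    rw [not_nontrivial_iff_subsingleton] at hcon
    exact hZ (QuotientGroup.subsingleton_iff.mp hcon)
  have hlt : ∀ R : Subgroup (B ⧸ Z), R ≠ ⊥ → Z < R.comap (QuotientGroup.mk' Z) := by
    intro R hR
    refine lt_of_le_of_ne ?_ ?_
    · intro z hz
      rw [Subgroup.mem_comap]
      have : (QuotientGroup.mk' Z) z = 1 := (QuotientGroup.eq_one_iff z).mpr hz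
      rw [this]
      exact R.one_mem
    · intro h
      apply hR
      rw [← Subgroup.map_comap_eq_self_of_surjective (QuotientGroup.mk'_surjective Z) R, ← h]
      rw [Subgroup.map_eq_bot_iff, QuotientGroup.ker_mk']
  rcases H37.PSolv.core_ne_bot hps with h | h
  · refine ⟨(pCore p (B ⧸ Z)).comap (QuotientGroup.mk' Z), inferInstance, hlt _ h, Or.inl ?_⟩
    have hSb : IsPGroup p (S.map (QuotientGroup.mk' Z)) := hS.map _
    have hSbi : ¬ p ∣ (S.map (QuotientGroup.mk' Z)).index := fun h1 =>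
      hSi (h1.trans (Subgroup.index_map_dvd S (QuotientGroup.mk'_surjective Z)))
    have h2 : pCore p (B ⧸ Z) ≤ S.map (QuotientGroup.mk' Z) :=
      H1.Cores.pCore_le_sylow (hSb.toSylow hSbi)
    have h3 := Subgroup.comap_mono (f := QuotientGroup.mk' Z) h2
    rw [Subgroup.comap_map_eq, QuotientGroup.ker_mk', sup_comm] at h3
    exact h3
  · haveI := H1.Cores.pPrimeCore_characteristic (G := B ⧸ Z) p
    refine ⟨(pPrimeCore p (B ⧸ Z)).comap (QuotientGroup.mk' Z), inferInstance, hlt _ h, Or.inr ?_⟩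
    have h1 : Z.relIndex ((pPrimeCore p (B ⧸ Z)).comap (QuotientGroup.mk' Z)) =
        Nat.card (pPrimeCore p (B ⧸ Z)) := by
      have h2 := card_rel_mul (hlt _ h).le
      rw [H1.Cores.card_comap_mk'] at h2
      exact Nat.eq_of_mul_eq_mul_left Nat.card_pos h2
    rw [h1]
    intro h2
    have h3 := H1.Cores.coprime_card_pPrimeCore (G := B ⧸ Z) p
    exact hpf.out.one_lt.ne' (Nat.dvd_one.mp (h3 ▸ Nat.dvd_gcd h2 (dvd_refl p)))

theorem central_claim {n : ℕ} (IH : MainProp.{u} p n) (Z S : Subgroup B) [hZn : Z.Normal]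
    (hZc : ∀ z ∈ Z, ∀ h : B, h * z = z * h) (hidx : Z.index ≤ n) (hps : IsPSolvable p (B ⧸ Z))
    (hS : IsPGroup p S) (hSi : ¬ p ∣ S.index) (lam : Z →* ℂˣ) (N : Subgroup B)
    (hN : N = Subgroup.normalizer ((Z ⊔ S : Subgroup B) : Set B)) (hZN : Z ≤ N) :
    cz p (fun z : Z => (⟨z, trivial⟩ : (⊤ : Subgroup B))) (fun z => (lam z : ℂ)) =
      cz p (fun z : Z => (⟨z, hZN z.2⟩ : N)) (fun z => (lam z : ℂ)) := by
  by_cases hZ : Z = ⊤
  · have hNt : N = ⊤ := by
      rw [eq_top_iff, ← hZ]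
      exact hZN
    exact cz_cast (fun z : Z => (z : B)) ⊤ N hNt.symm (fun _ => trivial) (fun z => hZN z.2) _
  obtain ⟨M, hMn, hZM, hcase⟩ := exists_M Z S hZ hps hS hSi
  haveI := hMn
  set N₁ : Subgroup B := Subgroup.normalizer ((M ⊔ S : Subgroup B) : Set B) with hN₁
  have hMN₁ : M ≤ N₁ := le_sup_left.trans Subgroup.le_normalizer
  have hSN₁ : S ≤ N₁ := le_sup_right.trans Subgroup.le_normalizer
  have hZN₁ : Z ≤ N₁ := hZM.le.trans hMN₁
  -- decomposition over `M`
  have step : cz p (fun z : Z => (⟨z, trivial⟩ : (⊤ : Subgroup B))) (fun z => (lam z : ℂ)) =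
      cz p (fun z : Z => (⟨z, hZN₁ z.2⟩ : N₁)) (fun z => (lam z : ℂ)) := by
    have d1 := dec_amb (p := p) M S ⊤ le_top le_top (fun g _ => mem_normalizer_normal M g) hS (by
      rw [Subgroup.relIndex_top_right]; exact hSi) (fun z : Z => (z : B)) (fun z => hZM.le z.2)
      (fun z => (lam z : ℂ)) (fun z h _ => hZc z z.2 h)
    have d2 := dec_amb (p := p) M S N₁ hMN₁ hSN₁ (fun g _ => mem_normalizer_normal M g) hS (fun h =>
      hSi (h.trans (Subgroup.relIndex_dvd_index_of_le hSN₁))) (fun z : Z => (z : B))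
      (fun z => hZM.le z.2) (fun z => (lam z : ℂ)) (fun z h _ => hZc z z.2 h)
    have hMi : M.relIndex ⊤ < n := by
      rw [Subgroup.relIndex_top_right]
      refine lt_of_lt_of_le ?_ hidx
      have h1 := Subgroup.relIndex_mul_index hZM.le
      have h2 : 1 < Z.relIndex M := by
        have h3 : Z.relIndex M ≠ 1 := fun h => hZM.not_ge (Subgroup.relIndex_eq_one.mp h)
        have h4 : Z.relIndex M ≠ 0 := Subgroup.index_ne_zero_of_finite
        omega
      have h5 : 0 < M.index := Nat.pos_of_ne_zero Subgroup.index_ne_zero_of_finite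
      nlinarith
    have hpsM : IsPSolvable p (B ⧸ M) := by
      apply H13.PSolvMap.of_surjective hps (QuotientGroup.map Z M (MonoidHom.id B) hZM.le)
      intro q
      obtain ⟨b, rfl⟩ := QuotientGroup.mk'_surjective M q
      exact ⟨(b : B ⧸ Z), rfl⟩
    have h3 : (cz p (fun z : Z => (⟨z, trivial⟩ : (⊤ : Subgroup B))) (fun z => (lam z : ℂ)) : ℚ) =
        (cz p (fun z : Z => (⟨z, hZN₁ z.2⟩ : N₁)) (fun z => (lam z : ℂ)) : ℚ) := by
      refine d1.trans (Eq.trans ?_ d2.symm)
      refine finsum_congr fun y => ?_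
      have e1 : cnt p (Subgroup.inclusion (le_top : M ≤ ⊤)) (y.1 : M → ℂ) =
          cnt p (Subgroup.inclusion hMN₁) (y.1 : M → ℂ) := by
        rw [main_amb IH M S ⊤ le_top le_top hMi hpsM hS (by
          rw [Subgroup.relIndex_top_right]; exact hSi) y.1.2 y.2.1 (le_inf le_top hMN₁)]
        exact cnt_cast M _ N₁ (by rw [top_inf_eq]) _ _ _
      rw [e1]
      congr 2
      refine Nat.card_congr (Equiv.subtypeEquivRight fun y' => ?_)
      constructor
      · rintro ⟨g, _, h2, h3⟩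
        exact ⟨g, h2, h2, h3⟩
      · rintro ⟨g, _, h2, h3⟩
        exact ⟨g, trivial, h2, h3⟩
    exact_mod_cast h3
  rcases hcase with hcase | hcase
  · -- `M / Z` a `p`-group
    have h1 : M ⊔ S = Z ⊔ S := le_antisymm (sup_le hcase le_sup_right) (sup_le_sup_right hZM.le S)
    rw [step]
    exact cz_cast (fun z : Z => (z : B)) N₁ N (by rw [hN₁, hN, h1]) _ _ _
  · obtain ⟨K, hKn, hK, hKM, hKS⟩ := exists_K Z M S hZM.le hZc hS hSi hcase
    by_cases htop : N₁ = ⊤
    · -- base case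
      have hJn : (K ⊔ S).Normal := by
        rw [hKS]
        exact Subgroup.normalizer_eq_top_iff.mp htop
      have Bs : Bas p K S (K ⊔ S) (K ⊓ Subgroup.centralizer (S : Set B))
          ((K ⊓ Subgroup.centralizer (S : Set B)) ⊔ S) (Subgroup.normalizer (S : Set B)) :=
        { hKn := hKn, hJn := hJn, hK := hK, hS := hS, hSi := hSi, hJ := rfl, hC := rfl, hJ₀ := rfl,
          hN := rfl }
      have hnn : N = Subgroup.normalizer (S : Set B) := by
        rw [hN]
        exact normalizer_central_sup hZc hS hSi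
      have h1 := base Bs (fun z : Z => (z : B)) (fun z g => (hZc z z.2 g).symm) (fun z => by
        rw [hKS]
        exact le_sup_left (b := S) (hZM.le z.2)) (fun z => by
        rw [← hnn]
        exact hZN z.2) (fun z => (lam z : ℂ))
      rw [cz_top (fun z : Z => (z : B)) (fun _ => trivial)] at h1
      rw [h1]
      exact cz_cast (fun z : Z => (z : B)) _ N hnn.symm _ _ _
    · have hle : Subgroup.normalizer ((Z ⊔ S : Subgroup B) : Set B) ≤ N₁ := by
        intro g hg
        have h1 : M ⊔ S = M ⊔ (Z ⊔ S) := by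
          rw [← sup_assoc, sup_eq_left.mpr hZM.le]
        rw [hN₁, h1]
        exact mem_normalizer_sup (mem_normalizer_normal M g) hg
      have hidx' : Z.relIndex N₁ < n := by
        refine lt_of_lt_of_le ?_ hidx
        have h1 := Subgroup.relIndex_mul_index hZN₁
        have h2 : 1 < N₁.index := by
          have h3 : N₁.index ≠ 1 := fun h => htop (Subgroup.index_eq_one.mp h)
          have h4 : N₁.index ≠ 0 := Subgroup.index_ne_zero_of_finite
          omega
        have h5 : 0 < Z.relIndex N₁ := Nat.pos_of_ne_zero Subgroup.index_ne_zero_of_finite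
        nlinarith
      have hle' : Z ≤ N₁ ⊓ Subgroup.normalizer ((Z ⊔ S : Subgroup B) : Set B) :=
        le_inf hZN₁ (by rw [← hN]; exact hZN)
      have h1 := main_amb IH Z S N₁ hZN₁ hSN₁ hidx' hps hS (fun h =>
        hSi (h.trans (Subgroup.relIndex_dvd_index_of_le hSN₁))) (isIrrCharacter_of_hom lam) (by
          intro s _
          refine ⟨mem_normalizer_normal Z s, fun z => ?_⟩
          congr 2
          apply Subtype.ext
          rw [cjA_coe, hZc z z.2 s, mul_inv_cancel_right]) hle'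
      rw [step, ← cz_cnt_amb Z N₁ hZN₁ hZc lam, h1, ← cz_cnt_amb Z N hZN hZc lam]
      exact cnt_cast Z _ N (by rw [inf_eq_right.mpr hle, hN]) _ _ _

end claim

end H82.RM
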