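import Mathlib
import Cfsg.Agent.Lib.H82.RM20

/-!
# The main theorem: counting characters of `p'`-degree over an invariant character
-/

set_option autoImplicit false
set_option linter.unusedSectionVars false
set_option linter.style.haveILetI false

namespace H82.RM

open Cfsg H18 H18.CharBasic H18.CharOrtho H18.CharQuot H18.CharInd H31.Clifford
open scoped ComplexConjugate

universe u v w

variable {p : ℕ} [hpf : Fact p.Prime]

/-- a Sylow subgroup of the preimage -/
theorem exists_SB {B : Type u} {Q : Type v} [Group B] [Finite B] [Group Q] (f : B →* Q)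
    (hf : Function.Surjective f) (R : Subgroup Q) (hR : IsPGroup p R) (hRi : ¬ p ∣ R.index) :
    ∃ T : Subgroup B, IsPGroup p T ∧ ¬ p ∣ T.index ∧ f.ker ⊔ T = R.comap f := by
  haveI : Finite Q := Finite.of_surjective f hf
  set P := R.comap f with hP
  let σ : Sylow p P := default
  refine ⟨(σ : Subgroup P).map P.subtype, σ.isPGroup'.map _, ?_, ?_⟩
  · have h1 : ((σ : Subgroup P).map P.subtype).index =
        (σ : Subgroup P).index * P.index := Subgroup.index_map_subtype (σ : Subgroup P)
    rw [h1]
    intro h
    rcases (hpf.out.dvd_mul).mp h with h2 | h2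
    · exact σ.not_dvd_index h2
    · rw [hP, Subgroup.index_comap_of_surjective R hf] at h2
      exact hRi h2
  · have hle : f.ker ⊔ (σ : Subgroup P).map P.subtype ≤ P := by
      apply sup_le
      · intro x hx
        rw [hP, Subgroup.mem_comap, MonoidHom.mem_ker.mp hx]
        exact R.one_mem
      · exact Subgroup.map_subtype_le _
    apply le_antisymm hle
    rw [← Subgroup.relIndex_eq_one]
    have h1 : (f.ker ⊔ (σ : Subgroup P).map P.subtype).relIndex P ∣ f.ker.relIndex P :=
      Subgroup.relIndex_dvd_of_le_left P le_sup_left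
    have h2 : (f.ker ⊔ (σ : Subgroup P).map P.subtype).relIndex P ∣
        ((σ : Subgroup P).map P.subtype).relIndex P :=
      Subgroup.relIndex_dvd_of_le_left P le_sup_right
    have h3 : f.ker.relIndex P ∣ Nat.card R := by
      have h4 : f.ker.relIndex P = (⊥ : Subgroup Q).relIndex (P.map f) := by
        rw [← Subgroup.relIndex_comap]
        rfl
      rw [h4, Subgroup.relIndex_bot_left, hP, Subgroup.map_comap_eq_self_of_surjective hf]
    have h5 : ((σ : Subgroup P).map P.subtype).relIndex P = (σ : Subgroup P).index := by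
      show (((σ : Subgroup P).map P.subtype).subgroupOf P).index = _
      congr 1
      exact Subgroup.comap_map_eq_self_of_injective P.subtype_injective _
    obtain ⟨k, hk⟩ := IsPGroup.iff_card.mp hR
    have h6 := Nat.dvd_gcd (h1.trans h3) h2
    rw [hk, h5, Nat.Coprime.pow_left k ((Nat.Prime.coprime_iff_not_dvd hpf.out).mpr σ.not_dvd_index),
      Nat.dvd_one] at h6
    exact h6

theorem main_step {n : ℕ} (IH : MainProp.{u} p n) (G : Type u) [Group G] [Finite G]
    (L S : Subgroup G) [L.Normal] (hidx : L.index ≤ n) (hps : IsPSolvable p (G ⧸ L))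
    (hS : IsPGroup p S) (hSi : ¬ p ∣ S.index) {ν : L → ℂ} (hν : IsIrrCharacter L ν)
    (hinv : ∀ g : G, conjFunN L g ν = ν) (hd : ¬ p ∣ charDegree ν)
    (hLN : L ≤ Subgroup.normalizer ((L ⊔ S : Subgroup G) : Set G)) :
    cnt p L.subtype ν = cnt p (Subgroup.inclusion hLN) ν := by
  obtain ⟨B, _, _, Z, f, lam, hZc, hf, hfZ, hcount, _⟩ := cover L hν hinv
  set P : Subgroup G := L ⊔ S with hP
  set N : Subgroup G := Subgroup.normalizer (P : Set G) with hN
  set R : Subgroup (G ⧸ L) := P.map (QuotientGroup.mk' L) with hR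
  have hRS : R = S.map (QuotientGroup.mk' L) := by
    rw [hR, hP, Subgroup.map_sup]
    have : L.map (QuotientGroup.mk' L) = ⊥ := by
      rw [Subgroup.map_eq_bot_iff, QuotientGroup.ker_mk']
    rw [this, bot_sup_eq]
  have hRp : IsPGroup p R := by rw [hRS]; exact hS.map _
  have hRi : ¬ p ∣ R.index := by
    rw [hRS]
    exact fun h => hSi (h.trans (Subgroup.index_map_dvd S (QuotientGroup.mk'_surjective L)))
  obtain ⟨T, hT, hTi, hTR⟩ := exists_SB f hf R hRp hRi
  rw [hfZ] at hTR
  have hZc' : ∀ z ∈ Z, ∀ h : B, h * z = z * h := fun z hz h => Subgroup.mem_center_iff.mp (hZc hz) h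
  haveI hZn : Z.Normal := by rw [← hfZ]; infer_instance
  have hZi : Z.index = L.index := by
    have h1 : Z.index = f.ker.index := by rw [hfZ]
    rw [h1, Subgroup.index_ker, MonoidHom.range_eq_top.mpr hf, Subgroup.card_top]
    rfl
  -- normalizers
  have hNR : N.map (QuotientGroup.mk' L) = Subgroup.normalizer (R : Set (G ⧸ L)) := by
    have h1 : (Subgroup.normalizer (R : Set (G ⧸ L))).comap (QuotientGroup.mk' L) = N := by
      rw [Subgroup.comap_normalizer_eq_of_surjective _ (QuotientGroup.mk'_surjective L), hN, hR]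
      congr 2
      rw [Subgroup.comap_map_eq, QuotientGroup.ker_mk']
      exact sup_eq_left.mpr le_sup_left
    rw [← h1, Subgroup.map_comap_eq_self_of_surjective (QuotientGroup.mk'_surjective L)]
  have hNB : (N.map (QuotientGroup.mk' L)).comap f =
      Subgroup.normalizer ((Z ⊔ T : Subgroup B) : Set B) := by
    rw [hNR, Subgroup.comap_normalizer_eq_of_surjective _ hf, hTR]
  have hZle : ∀ H : Subgroup (G ⧸ L), Z ≤ H.comap f := by
    intro H
    rw [← hfZ]
    intro x hx
    rw [Subgroup.mem_comap, MonoidHom.mem_ker.mp hx]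
    exact H.one_mem
  have c1 := hcount p (Or.inl hpf.out) hd ⊤ le_top (hZle _)
  have c2 := hcount p (Or.inl hpf.out) hd N hLN (hZle _)
  have cc := central_claim IH Z T hZc' (by rw [hZi]; exact hidx) (psolv_quot f Z hfZ hps) hT hTi lam
    _ hNB (hZle _)
  rw [cnt_top, c1, c2, ← cc]
  refine cz_cast (fun z : Z => (z : B)) _ ⊤ ?_ _ _ _
  rw [Subgroup.map_top_of_surjective _ (QuotientGroup.mk'_surjective L), Subgroup.comap_top]

theorem main_all : ∀ n : ℕ, MainProp.{u} p n := by
  intro n
  induction n with
  | zero =>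
    intro G _ _ L S _ h
    exact absurd h (Nat.not_lt_zero _)
  | succ n IH =>
    intro G _ _ L S _ hidx hps hS hSi ν hν hinv hLN
    have hidx' : L.index ≤ n := Nat.lt_succ_iff.mp hidx
    set N : Subgroup G := Subgroup.normalizer ((L ⊔ S : Subgroup G) : Set G) with hN
    have hSN : S ≤ N := le_sup_right.trans Subgroup.le_normalizer
    have hnorm : ∀ H : Subgroup G, H ≤ Subgroup.normalizer (L : Set G) := fun H g _ =>
      mem_normalizer_normal L g
    by_cases hd : p ∣ charDegree ν
    · rw [cnt_top, cnt_eq_zero L ⊤ le_top (hnorm _) hν hd, cnt_eq_zero L N hLN (hnorm _) hν hd]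
    by_cases hall : ∀ g : G, conjFunN L g ν = ν
    · exact main_step IH G L S hidx' hps hS hSi hν hall hd hLN
    · set T : Subgroup G := stS L ν with hT
      have hLT : L ≤ T := fun x hx => Stab.of_mem (isClassFunction_of_isIrr hν) hx
      have hST : S ≤ T := fun s hs => (stab_iff_conj L ν s).2 (hinv s hs)
      have hTtop : T ≠ ⊤ := by
        intro h
        apply hall
        intro g
        have h1 : g ∈ T := by rw [h]; trivial
        exact (stab_iff_conj L ν g).1 h1
      have hTi : ¬ p ∣ T.index := fun h => hSi (h.trans (Subgroup.index_dvd_of_le hST))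
      have hSTN : S ≤ T ⊓ N := le_inf hST hSN
      have e1 : cnt p (Subgroup.inclusion (le_top : L ≤ ⊤)) ν = cnt p (Subgroup.inclusion hLT) ν :=
        cnt_inertia_amb (Or.inl hpf.out) L T ⊤ hLT le_top (hnorm _) hν (fun g _ => Iff.rfl) (by
          rw [Subgroup.relIndex_top_right]; exact hTi)
      have hLTN : L ≤ T ⊓ N := le_inf hLT hLN
      have e2 : cnt p (Subgroup.inclusion hLN) ν = cnt p (Subgroup.inclusion hLTN) ν :=
        cnt_inertia_amb (Or.inl hpf.out) L (T ⊓ N) N hLTN inf_le_right (hnorm _) hν (fun g hg => by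
          rw [Subgroup.mem_inf, hT, mem_stS]
          exact ⟨fun h => h.1, fun h => ⟨h, hg⟩⟩) (fun h => by
          have h1 : (T ⊓ N).relIndex N ∣ S.index :=
            (Subgroup.relIndex_dvd_index_of_le inf_le_right).trans (Subgroup.index_dvd_of_le hSTN)
          exact hSi (h.trans h1))
      have hidx2 : L.relIndex T < n := by
        refine lt_of_lt_of_le ?_ hidx'
        have h1 := Subgroup.relIndex_mul_index hLT
        have h2 : 1 < T.index := by
          have h3 : T.index ≠ 1 := fun h => hTtop (Subgroup.index_eq_one.mp h)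
          have h4 : T.index ≠ 0 := Subgroup.index_ne_zero_of_finite
          omega
        have h5 : 0 < L.relIndex T := Nat.pos_of_ne_zero Subgroup.index_ne_zero_of_finite
        nlinarith
      have e3 := main_amb IH L S T hLT hST hidx2 hps hS (fun h =>
        hSi (h.trans (Subgroup.relIndex_dvd_index_of_le hST))) hν (fun s hs => hST hs) hLTN
      rw [cnt_top, e1, e3, ← e2]

end H82.RM
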