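import Cfsg.Agent.Lib.H82.TIChar

/-!
# Arithmetic of the character degrees of the Suzuki groups
-/

set_option autoImplicit false
set_option linter.unusedSectionVars false
set_option linter.style.haveILetI false

namespace H82.TIPkg

variable {ι : Type*} [Fintype ι] {d : ι → ℕ} {one : ι} {k e s : ℕ} (P : TIPkg d one k e s)

theorem one_le_sum : 1 ≤ ∑ i, P.a i ^ 2 := by
  have h1 : P.a one ^ 2 ≤ ∑ i, P.a i ^ 2 :=
    Finset.single_le_sum (f := fun i => P.a i ^ 2) (fun i _ => sq_nonneg _) (Finset.mem_univ one)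
  rwa [P.aone, one_pow] at h1

theorem sq_add_le {i : ι} (hi : i ≠ one) : P.a i ^ 2 + 1 ≤ ∑ i, P.a i ^ 2 := by
  classical
  rw [← Finset.add_sum_erase _ _ (Finset.mem_univ one), P.aone]
  have h1 : P.a i ^ 2 ≤ ∑ i ∈ Finset.univ.erase one, P.a i ^ 2 :=
    Finset.single_le_sum (f := fun i => P.a i ^ 2) (fun i _ => sq_nonneg _)
      (Finset.mem_erase.2 ⟨hi, Finset.mem_univ i⟩)
  linarith

theorem sq_add_add_le {i j : ι} (hi : i ≠ one) (hj : j ≠ one) (hij : i ≠ j) :
    P.a i ^ 2 + P.a j ^ 2 + 1 ≤ ∑ i, P.a i ^ 2 := by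
  classical
  rw [← Finset.add_sum_erase _ _ (Finset.mem_univ one), P.aone,
    ← Finset.add_sum_erase _ _ (show j ∈ Finset.univ.erase one from
      Finset.mem_erase.2 ⟨hj, Finset.mem_univ j⟩)]
  have h1 : P.a i ^ 2 ≤ ∑ i ∈ (Finset.univ.erase one).erase j, P.a i ^ 2 :=
    Finset.single_le_sum (f := fun i => P.a i ^ 2) (fun i _ => sq_nonneg _)
      (Finset.mem_erase.2 ⟨hij, Finset.mem_erase.2 ⟨hi, Finset.mem_univ i⟩⟩)
  linarith

theorem eps_sq : P.ε ^ 2 = 1 := by
  rcases P.hε with h | h <;> rw [h] <;> norm_num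

theorem y_zero (h : e + 1 < s) : P.y = 0 := by
  by_contra hne
  have h1 : 1 ≤ P.y ^ 2 := by
    have : 0 < P.y ^ 2 := by positivity
    omega
  have h2 : ((s : ℤ) - 1) * 1 ≤ (s - 1) * P.y ^ 2 := by
    apply mul_le_mul_of_nonneg_left h1
    have : (1 : ℤ) ≤ s := by exact_mod_cast (by omega : 1 ≤ s)
    omega
  have h3 : 0 ≤ (P.y - P.ε) ^ 2 := sq_nonneg _
  have h4 : (e : ℤ) + 1 < s := by exact_mod_cast h
  have h5 := P.norm
  have h6 := P.one_le_sum
  linarith

theorem norm0 (hy : P.y = 0) : ∑ i, P.a i ^ 2 = e := by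
  have h := P.norm
  rw [hy, zero_sub, neg_sq, P.eps_sq] at h
  linarith

theorem sum_eq : ∃ M : ℤ, ∑ i, P.a i * (d i : ℤ) = ∑ i, P.a i ^ 2 + k * M := by
  have h1 : ∀ i, ∃ m : ℤ, P.a i * (d i : ℤ) = P.a i ^ 2 + k * m := by
    intro i
    by_cases hi : i ∈ Set.range P.θ
    · obtain ⟨j, rfl⟩ := hi
      exact ⟨0, by rw [P.aθ]; ring⟩
    · obtain ⟨m, hm⟩ := P.congr i hi
      exact ⟨P.a i * m, by rw [hm]; ring⟩
  choose m hm using h1
  refine ⟨∑ i, m i, ?_⟩
  rw [Finset.sum_congr rfl fun i _ => hm i, Finset.sum_add_distrib, Finset.mul_sum]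

theorem f_congr (hy : P.y = 0) : ∃ M : ℤ, (P.f : ℤ) = P.ε * e + k * M := by
  obtain ⟨M, hM⟩ := P.sum_eq
  rw [P.sum, hy, P.norm0 hy] at hM
  refine ⟨P.ε * M, ?_⟩
  have h := P.eps_sq
  have h1 : P.ε * (P.ε * P.f) = P.ε * (e + k * M) := by rw [← hM]; ring
  rw [← mul_assoc, ← sq, h] at h1
  linarith

end H82.TIPkg

namespace H82.SuzArith

open H82

variable {ι : Type*} [Fintype ι] {d : ι → ℕ} {one St : ι}

theorem split {s : ℕ} [DecidableEq ι] (S : Finset ι) (θ : Fin s → ι) (inj : Function.Injective θ)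
    (h : ∀ j, θ j ∈ S) (F : ι → ℤ) [DecidablePred (fun i => i ∉ Set.range θ)] :
    ∑ i ∈ S, F i = ∑ j, F (θ j) + ∑ i ∈ S.filter (fun i => i ∉ Set.range θ), F i := by
  have h1 : S = Finset.univ.image θ ∪ S.filter (fun i => i ∉ Set.range θ) := by
    ext i
    rw [Finset.mem_union, Finset.mem_image, Finset.mem_filter]
    constructor
    · intro hi
      by_cases h2 : i ∈ Set.range θ
      · obtain ⟨j, hj⟩ := h2
        exact Or.inl ⟨j, Finset.mem_univ j, hj⟩
      · exact Or.inr ⟨hi, h2⟩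
    · rintro (⟨j, -, rfl⟩ | ⟨hi, -⟩)
      · exact h j
      · exact hi
  have h2 : Disjoint (Finset.univ.image θ) (S.filter (fun i => i ∉ Set.range θ)) := by
    rw [Finset.disjoint_left]
    rintro i hi hi2
    rw [Finset.mem_image] at hi
    rw [Finset.mem_filter] at hi2
    obtain ⟨j, -, hj⟩ := hi
    exact hi2.2 ⟨j, hj⟩
  conv_lhs => rw [h1]
  rw [Finset.sum_union h2, Finset.sum_image (fun i _ j _ hij => inj hij)]

theorem abs_le_one {x : ℤ} (h : x ^ 2 ≤ 3) : x = -1 ∨ x = 0 ∨ x = 1 := by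
  have h1 : x < 2 := by nlinarith
  have h2 : -2 < x := by nlinarith
  omega

/-- The torus of order `q - 1`. -/
theorem P0_res {q k₀ s₀ : ℕ} (hne : St ≠ one) (h1 : d one = 1) (hSt : d St = q ^ 2)
    (hk : k₀ + 1 = q) (hk7 : 7 ≤ k₀) (hs : 3 ≤ s₀) (P : TIPkg d one k₀ 2 s₀) :
    P.f = q ^ 2 + 1 ∧ St ∉ Set.range P.θ ∧ P.a St = 1 ∧
      ∀ i, i ≠ one → i ≠ St → P.a i = 0 := by
  classical
  have hy : P.y = 0 := by
    by_contra hne
    have h2 : 1 ≤ P.y ^ 2 := by
      have : 0 < P.y ^ 2 := by positivity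
      omega
    have h3 : ((s₀ : ℤ) - 1) * 1 ≤ (s₀ - 1) * P.y ^ 2 := by
      apply mul_le_mul_of_nonneg_left h2
      have : (1 : ℤ) ≤ s₀ := by exact_mod_cast (by omega : 1 ≤ s₀)
      omega
    have h4 : (3 : ℤ) ≤ s₀ := by exact_mod_cast hs
    have h5 : 0 ≤ (P.y - P.ε) ^ 2 := sq_nonneg _
    have h6 := P.norm
    have h7 := P.one_le_sum
    push_cast at h6
    have h8 : ∑ i, P.a i ^ 2 = 1 := by linarith
    have h9 : (P.y - P.ε) ^ 2 = 0 := by linarith
    have h10 : P.y = P.ε := by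
      have := pow_eq_zero_iff (two_ne_zero) |>.1 h9
      linarith
    have h11 : (s₀ : ℤ) = 3 := by
      rw [h10, P.eps_sq] at h6
      rw [h8, sub_self] at h6
      linarith
    have h12 : ∑ i, P.a i * (d i : ℤ) = 1 := by
      rw [← Finset.add_sum_erase _ _ (Finset.mem_univ one), P.aone, h1, Finset.sum_eq_zero]
      · norm_num
      · intro i hi
        have h13 := P.sq_add_le (Finset.ne_of_mem_erase hi)
        have h14 : P.a i ^ 2 = 0 := by
          have := sq_nonneg (P.a i)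
          linarith
        rw [pow_eq_zero_iff (two_ne_zero) |>.1 h14, zero_mul]
    rw [P.sum, h10, h11] at h12
    have h13 : (2 : ℤ) ∣ 1 := ⟨-P.ε * P.f, by linarith⟩
    norm_num at h13
  have hn := P.norm0 hy
  push_cast at hn
  obtain ⟨M, hM⟩ := P.f_congr hy
  have hq : (q : ℤ) = k₀ + 1 := by exact_mod_cast hk.symm
  have hq2 : ((q : ℤ) ^ 2) = 1 + k₀ * (k₀ + 2) := by rw [hq]; ring
  have hk7' : (7 : ℤ) ≤ k₀ := by exact_mod_cast hk7
  have hno : ∀ x : ℤ, x ≠ 0 → |x| < 7 → ¬ (k₀ : ℤ) ∣ x := by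
    intro x hx hx7 hdvd
    have := Int.le_of_dvd (abs_pos.2 hx) ((dvd_abs _ _).2 hdvd)
    linarith
  have hStr : St ∉ Set.range P.θ := by
    rintro ⟨j, hj⟩
    have h2 := P.dθ j
    rw [hj, hSt] at h2
    rw [← h2] at hM
    push_cast at hM
    rcases P.hε with h | h
    · apply hno (1 - 2) (by norm_num) (by norm_num)
      exact ⟨M - (k₀ + 2), by rw [h] at hM; linarith⟩
    · apply hno (1 + 2) (by norm_num) (by norm_num)
      exact ⟨M - (k₀ + 2), by rw [h] at hM; linarith⟩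
  obtain ⟨m, hm⟩ := P.congr St hStr
  have hle := P.sq_add_le hne
  rw [hn] at hle
  have haSt : P.a St = 1 := by
    rw [hSt] at hm
    push_cast at hm
    rcases abs_le_one (by linarith : P.a St ^ 2 ≤ 3) with h | h | h
    · exfalso
      apply hno (1 + 1) (by norm_num) (by norm_num)
      exact ⟨m - (k₀ + 2), by rw [h] at hm; linarith⟩
    · exfalso
      apply hno 1 (by norm_num) (by norm_num)
      exact ⟨m - (k₀ + 2), by rw [h] at hm; linarith⟩
    · exact h
  have hz : ∀ i, i ≠ one → i ≠ St → P.a i = 0 := by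
    intro i hi hi2
    have h2 := P.sq_add_add_le hi hne hi2
    rw [hn, haSt] at h2
    have h3 : P.a i ^ 2 = 0 := by
      have := sq_nonneg (P.a i)
      linarith
    exact pow_eq_zero_iff (two_ne_zero) |>.1 h3
  refine ⟨?_, hStr, haSt, hz⟩
  have h2 := P.sum
  rw [hy, ← Finset.add_sum_erase _ _ (Finset.mem_univ one), P.aone, h1,
    ← Finset.add_sum_erase _ _ (show St ∈ Finset.univ.erase one from
      Finset.mem_erase.2 ⟨hne, Finset.mem_univ _⟩), haSt, hSt, Finset.sum_eq_zero] at h2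
  · push_cast at h2
    have hfpos : (0 : ℤ) ≤ P.f := by positivity
    have hqpos : (0 : ℤ) ≤ q := by positivity
    rcases P.hε with h | h
    · rw [h] at h2
      have h3 : (P.f : ℤ) = q ^ 2 + 1 := by linarith
      exact_mod_cast h3
    · rw [h] at h2
      exfalso
      nlinarith
  · intro i hi
    rw [hz i (Finset.ne_of_mem_erase (Finset.mem_of_mem_erase hi)) (Finset.ne_of_mem_erase hi),
      zero_mul]

/-- The tori of order `q ± r + 1`. -/
theorem P1_res {q K s : ℕ} (hne : St ≠ one) (hSt : d St = q ^ 2)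
    (hK : K ∣ q ^ 2 + 1) (hK5 : 5 < K) (P : TIPkg d one K 4 s) (hy : P.y = 0) :
    St ∉ Set.range P.θ ∧ P.a St = -1 ∧
      (∀ i, i ≠ one → i ≠ St → P.a i = -1 ∨ P.a i = 0 ∨ P.a i = 1) ∧
      (∀ i, d i = q ^ 2 + 1 → i ∉ Set.range P.θ ∧ (i ≠ one → P.a i = 0)) ∧
      ∀ i, i ≠ one → i ∉ Set.range P.θ → d i ≠ P.f := by
  classical
  have hn := P.norm0 hy
  push_cast at hn
  obtain ⟨M, hM⟩ := P.f_congr hy
  obtain ⟨c, hc⟩ := hK
  have hc' : (q : ℤ) ^ 2 + 1 = K * c := by exact_mod_cast hc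
  have hK5' : (5 : ℤ) < K := by exact_mod_cast hK5
  have hno : ∀ x : ℤ, x ≠ 0 → |x| ≤ 5 → ¬ (K : ℤ) ∣ x := by
    intro x hx hx7 hdvd
    have := Int.le_of_dvd (abs_pos.2 hx) ((dvd_abs _ _).2 hdvd)
    linarith
  have hStr : St ∉ Set.range P.θ := by
    rintro ⟨j, hj⟩
    have h2 := P.dθ j
    rw [hj, hSt] at h2
    rw [← h2] at hM
    push_cast at hM
    rcases P.hε with h | h
    · apply hno 5 (by norm_num) (by norm_num)
      exact ⟨c - M, by rw [h] at hM; linarith⟩
    · apply hno 3 (by norm_num) (by norm_num)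
      exact ⟨M - c, by rw [h] at hM; linarith⟩
  obtain ⟨m, hm⟩ := P.congr St hStr
  have hle := P.sq_add_le hne
  rw [hn] at hle
  have haSt : P.a St = -1 := by
    rw [hSt] at hm
    push_cast at hm
    rcases abs_le_one (by linarith : P.a St ^ 2 ≤ 3) with h | h | h
    · exact h
    · exfalso
      apply hno 1 (by norm_num) (by norm_num)
      exact ⟨c - m, by rw [h] at hm; linarith⟩
    · exfalso
      apply hno 2 (by norm_num) (by norm_num)
      exact ⟨c - m, by rw [h] at hm; linarith⟩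
  have hs : ∀ i, i ≠ one → P.a i = -1 ∨ P.a i = 0 ∨ P.a i = 1 := by
    intro i hi
    have h2 := P.sq_add_le hi
    rw [hn] at h2
    exact abs_le_one (by linarith)
  refine ⟨hStr, haSt, fun i hi _ => hs i hi, ?_, ?_⟩
  · intro i hi
    have h2 : i ∉ Set.range P.θ := by
      rintro ⟨j, hj⟩
      have h2 := P.dθ j
      rw [hj, hi] at h2
      rw [← h2] at hM
      push_cast at hM
      rcases P.hε with h | h
      · apply hno 4 (by norm_num) (by norm_num)
        exact ⟨c - M, by rw [h] at hM; linarith⟩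
      · apply hno 4 (by norm_num) (by norm_num)
        exact ⟨M - c, by rw [h] at hM; linarith⟩
    refine ⟨h2, fun hio => ?_⟩
    obtain ⟨m', hm'⟩ := P.congr i h2
    rw [hi] at hm'
    push_cast at hm'
    rcases hs i hio with h | h | h
    · exfalso
      apply hno 1 (by norm_num) (by norm_num)
      exact ⟨m' - c, by rw [h] at hm'; linarith⟩
    · exact h
    · exfalso
      apply hno 1 (by norm_num) (by norm_num)
      exact ⟨c - m', by rw [h] at hm'; linarith⟩
  · intro i hi hir hdf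
    obtain ⟨m', hm'⟩ := P.congr i hir
    rw [hdf, hM] at hm'
    push_cast at hm'
    have h2 : (K : ℤ) ∣ 4 * P.ε - P.a i := ⟨m' - M, by linarith⟩
    refine hno _ ?_ ?_ h2
    · rcases P.hε with h | h <;> rcases hs i hi with h' | h' | h' <;> rw [h, h'] <;> norm_num
    · rcases P.hε with h | h <;> rcases hs i hi with h' | h' | h' <;> rw [h, h'] <;> norm_num

end H82.SuzArith
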