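import Cfsg.Agent.Lib.H82.SuzArith

/-!
# Arithmetic of the character degrees of the Suzuki groups, `q ≥ 32`
-/

set_option autoImplicit false
set_option linter.unusedSectionVars false
set_option linter.style.haveILetI false

namespace H82.SuzArith

open H82

variable {ι : Type*} [Fintype ι] {d : ι → ℕ} {one St : ι}

structure Concl (d : ι → ℕ) (q k₀ k₁ k₂ : ℕ) : Prop where
  all : ∀ i, d i = 1 ∨ d i = q ^ 2 ∨ d i = q ^ 2 + 1 ∨ d i = k₀ * k₂ ∨ d i = k₀ * k₁ ∨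
    (∃ g, d i = k₀ * g ∧ Even g ∧ (d i).Coprime k₁ ∧ (d i).Coprime k₂)
  e0 : ∃ i, d i = q ^ 2
  e1 : ∃ i, d i = q ^ 2 + 1
  e2 : ∃ i, d i = k₀ * k₂
  e3 : ∃ i, d i = k₀ * k₁
  e4 : ∃ i, ∃ g, d i = k₀ * g ∧ Even g

theorem even_of_sq_add {x y t : ℕ} (h : x ^ 2 + y ^ 2 = 4 * t) : Even x ∧ Even y := by
  rcases Nat.even_or_odd' x with ⟨a, rfl | rfl⟩ <;> rcases Nat.even_or_odd' y with ⟨b, rfl | rfl⟩
  · exact ⟨even_two_mul a, even_two_mul b⟩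
  · exfalso; ring_nf at h; omega
  · exfalso; ring_nf at h; omega
  · exfalso; ring_nf at h; omega

theorem coprime_of_congr {n K : ℕ} {a m : ℤ} (ha : a = -1 ∨ a = 1) (h : (n : ℤ) = a + K * m) :
    n.Coprime K := by
  have h1 : IsCoprime (n : ℤ) (K : ℤ) := by
    rcases ha with rfl | rfl
    · exact ⟨-1, m, by rw [h]; ring⟩
    · exact ⟨1, -m, by rw [h]; ring⟩
  exact Nat.isCoprime_iff_coprime.1 h1

theorem zero_of_const [DecidableEq ι] {s : ℕ} (A : Finset ι) (θ : Fin s → ι)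
    (inj : Function.Injective θ) (hA : ∀ j, θ j ∈ A) (a : ι → ℤ) (hs : ∑ i ∈ A, a i ^ 2 = 2)
    (h3 : 3 ≤ s) (hc : ∀ j l, a (θ j) = a (θ l)) (j : Fin s) : a (θ j) = 0 := by
  classical
  by_contra hne
  rw [split A θ inj hA] at hs
  have h1 : ∑ j', a (θ j') ^ 2 = s * a (θ j) ^ 2 := by
    rw [Finset.sum_congr rfl fun j' _ => by rw [hc j' j], Finset.sum_const, Finset.card_univ,
      Fintype.card_fin, nsmul_eq_mul]
  have h2 : 0 ≤ ∑ i ∈ A.filter (fun i => i ∉ Set.range θ), a i ^ 2 :=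
    Finset.sum_nonneg fun i _ => sq_nonneg _
  have h4 : 1 ≤ a (θ j) ^ 2 := by
    have : 0 < a (θ j) ^ 2 := by positivity
    omega
  have h5 : (3 : ℤ) ≤ s := by exact_mod_cast h3
  nlinarith

theorem poly1 {x : ℤ} (h : 2 ≤ x) : 0 < 64 * x ^ 5 - 64 * x ^ 4 + 16 * x ^ 2 - 5 * x + 1 := by
  have h1 : 0 < x ^ 4 := by positivity
  have h2 : x ^ 5 = x * x ^ 4 := by ring
  have h3 : 2 * x ^ 4 ≤ x * x ^ 4 := mul_le_mul_of_nonneg_right h h1.le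
  have h4 : 2 * x ≤ x ^ 2 := by nlinarith
  rw [h2]
  linarith

theorem poly2 {x : ℤ} (h : 2 ≤ x) : 0 < 64 * x ^ 5 + 64 * x ^ 4 - 16 * x ^ 2 - 5 * x - 1 := by
  have h1 : 0 < x ^ 4 := by positivity
  have h2 : x ^ 5 = x * x ^ 4 := by ring
  have h3 : 2 * x ^ 4 ≤ x * x ^ 4 := mul_le_mul_of_nonneg_right h h1.le
  have h4 : 2 * x ≤ x ^ 2 := by nlinarith
  have h5 : x ^ 4 = x ^ 2 * x ^ 2 := by ring
  have h6 : 4 * x ^ 2 ≤ x ^ 2 * x ^ 2 := by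
    apply mul_le_mul_of_nonneg_right (by nlinarith) (by positivity)
  rw [h2]
  linarith

theorem nat_bounds {σ q k₀ k₁ k₂ s₀ s₁ s₂ : ℕ} (hσ : 2 ≤ σ) (hq : q = 8 * σ ^ 2)
    (hk0 : k₀ + 1 = q)
    (hk1 : k₁ = 8 * σ ^ 2 + 4 * σ + 1) (hk2 : k₂ + 4 * σ = 8 * σ ^ 2 + 1)
    (hs0 : s₀ + 1 = 4 * σ ^ 2) (hs1 : s₁ = σ * (2 * σ + 1)) (hs2 : s₂ + σ = 2 * σ ^ 2) :
    31 ≤ k₀ ∧ 5 < k₂ ∧ 5 < k₁ ∧ 4 + 1 < s₁ ∧ 4 + 1 < s₂ ∧ 3 ≤ s₀ ∧ s₂ < s₁ ∧ k₂ ≤ k₁ ∧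
      8 * σ ^ 2 < k₂ ^ 2 := by
  have h1 : 2 * σ ≤ σ ^ 2 := by rw [sq]; exact Nat.mul_le_mul_right σ hσ
  have h2 : s₁ = 2 * σ ^ 2 + σ := by rw [hs1]; ring
  have h3 : 12 * σ + 1 ≤ k₂ := by omega
  have h4 : (12 * σ + 1) ^ 2 ≤ k₂ ^ 2 := Nat.pow_le_pow_left h3 2
  have h5 : (12 * σ + 1) ^ 2 = 144 * σ ^ 2 + 24 * σ + 1 := by ring
  refine ⟨by omega, by omega, by omega, by omega, by omega, by omega, by omega, by omega,
    by omega⟩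

theorem big {σ q k₀ k₁ k₂ s₀ s₁ s₂ : ℕ} (hσ : 2 ≤ σ) (hq : q = 8 * σ ^ 2) (hk0 : k₀ + 1 = q)
    (hk1 : k₁ = 8 * σ ^ 2 + 4 * σ + 1) (hk2 : k₂ + 4 * σ = 8 * σ ^ 2 + 1)
    (hs0 : s₀ + 1 = 4 * σ ^ 2) (hs1 : s₁ = σ * (2 * σ + 1)) (hs2 : s₂ + σ = 2 * σ ^ 2)
    (hne : St ≠ one) (h1 : d one = 1) (hSt : d St = q ^ 2) (hpos : ∀ i, d i ≠ 0)
    (hsum : ∑ i, d i ^ 2 = q ^ 2 * (q ^ 2 + 1) * k₀) (P0 : TIPkg d one k₀ 2 s₀)
    (P1 : TIPkg d one k₁ 4 s₁) (P2 : TIPkg d one k₂ 4 s₂) : Concl d q k₀ k₁ k₂ := by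
  classical
  obtain ⟨hk0', hk2', hk1', hs1', hs2', hs0', hs12, hk21, hk2sq⟩ :=
    nat_bounds hσ hq hk0 hk1 hk2 hs0 hs1 hs2
  have hk12 : k₁ * k₂ = q ^ 2 + 1 := by
    have h2 : ((k₁ * k₂ : ℕ) : ℤ) = ((q ^ 2 + 1 : ℕ) : ℤ) := by
      have h3 : (k₂ : ℤ) = 8 * σ ^ 2 + 1 - 4 * σ := by
        have : ((k₂ + 4 * σ : ℕ) : ℤ) = ((8 * σ ^ 2 + 1 : ℕ) : ℤ) := by rw [hk2]
        push_cast at this
        linarith
      push_cast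
      rw [h3, hk1, hq]
      push_cast
      ring
    exact_mod_cast h2
  have hd1 : k₁ ∣ q ^ 2 + 1 := ⟨k₂, hk12.symm⟩
  have hd2 : k₂ ∣ q ^ 2 + 1 := ⟨k₁, by rw [mul_comm]; exact hk12.symm⟩
  obtain ⟨hf0, hSt0, haSt0, hz0⟩ := P0_res hne h1 hSt hk0 (by omega) hs0' P0
  have hy1 := P1.y_zero hs1'
  have hy2 := P2.y_zero hs2'
  obtain ⟨h1a, h1b, h1c, h1d, h1e⟩ := P1_res hne hSt hd1 hk1' P1 hy1
  obtain ⟨h2a, h2b, h2c, h2d, h2e⟩ := P1_res hne hSt hd2 hk2' P2 hy2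
  have hn1 := P1.norm0 hy1
  have hn2 := P2.norm0 hy2
  push_cast at hn1 hn2
  -- the families
  have hX : ∀ j, d (P0.θ j) = q ^ 2 + 1 := fun j => (P0.dθ j).trans hf0
  have hX1 : ∀ j, P0.θ j ∉ Set.range P1.θ := fun j => (h1d _ (hX j)).1
  have hX2 : ∀ j, P0.θ j ∉ Set.range P2.θ := fun j => (h2d _ (hX j)).1
  have hY0 : ∀ j, P1.θ j ∉ Set.range P0.θ := by
    rintro j ⟨l, hl⟩
    exact hX1 l ⟨j, hl.symm⟩
  have hZ0 : ∀ j, P2.θ j ∉ Set.range P0.θ := by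
    rintro j ⟨l, hl⟩
    exact hX2 l ⟨j, hl.symm⟩
  have hdisj : ∀ j l, P1.θ j ≠ P2.θ l := by
    intro j l hjl
    have hf : P1.f = P2.f := by rw [← P1.dθ j, ← P2.dθ l, hjl]
    have e1 : ∀ l', ∃ j', P1.θ j' = P2.θ l' := by
      intro l'
      by_contra hcon
      exact h1e (P2.θ l') (P2.θone l') (fun ⟨j', hj'⟩ => hcon ⟨j', hj'⟩) (by rw [P2.dθ, hf])
    have e2 : ∀ j', ∃ l', P2.θ l' = P1.θ j' := by
      intro j'
      by_contra hcon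
      exact h2e (P1.θ j') (P1.θone j') (fun ⟨l', hl'⟩ => hcon ⟨l', hl'⟩) (by rw [P1.dθ, hf])
    choose u hu using e1
    choose v hv using e2
    have hui : Function.Injective u := by
      intro x y hxy
      apply P2.inj
      rw [← hu x, ← hu y, hxy]
    have hvi : Function.Injective v := by
      intro x y hxy
      apply P1.inj
      rw [← hv x, ← hv y, hxy]
    have c1 := Fintype.card_le_of_injective u hui
    have c2 := Fintype.card_le_of_injective v hvi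
    rw [Fintype.card_fin, Fintype.card_fin] at c1 c2
    omega
  have hZ1 : ∀ l, P2.θ l ∉ Set.range P1.θ := fun l ⟨j, hj⟩ => hdisj j l hj
  have hY2 : ∀ j, P1.θ j ∉ Set.range P2.θ := fun j ⟨l, hl⟩ => hdisj j l hl.symm
  -- splitting
  set A := (Finset.univ.erase one).erase St with hA
  have hsumA : ∀ F : ι → ℤ, ∑ i, F i = F one + (F St + ∑ i ∈ A, F i) := by
    intro F
    rw [← Finset.add_sum_erase _ _ (Finset.mem_univ one),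
      ← Finset.add_sum_erase _ _ (show St ∈ Finset.univ.erase one from
      Finset.mem_erase.2 ⟨hne, Finset.mem_univ _⟩)]
  have hmemA : ∀ i, i ∈ A ↔ i ≠ St ∧ i ≠ one := by
    intro i
    rw [hA, Finset.mem_erase, Finset.mem_erase]
    simp
  have hXA : ∀ j, P0.θ j ∈ A := fun j => (hmemA _).2
    ⟨fun h => hSt0 ⟨j, h⟩, P0.θone j⟩
  have hYA : ∀ j, P1.θ j ∈ A := fun j => (hmemA _).2
    ⟨fun h => h1a ⟨j, h⟩, P1.θone j⟩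
  have hZA : ∀ j, P2.θ j ∈ A := fun j => (hmemA _).2
    ⟨fun h => h2a ⟨j, h⟩, P2.θone j⟩
  have hA1 : ∑ i ∈ A, P1.a i ^ 2 = 2 := by
    have := hsumA (fun i => P1.a i ^ 2)
    simp only [P1.aone, h1b, hn1] at this
    linarith
  have hA2 : ∑ i ∈ A, P2.a i ^ 2 = 2 := by
    have := hsumA (fun i => P2.a i ^ 2)
    simp only [P2.aone, h2b, hn2] at this
    linarith
  have hsmall : ∀ {K : ℕ}, 5 < K → ∀ {x y : ℤ}, (x = -1 ∨ x = 0 ∨ x = 1) →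
      (y = -1 ∨ y = 0 ∨ y = 1) → (K : ℤ) ∣ x - y → x = y := by
    intro K hK x y hx hy hdvd
    by_contra hxy
    have h2 : x - y ≠ 0 := sub_ne_zero.2 hxy
    have h3 := Int.le_of_dvd (abs_pos.2 h2) ((dvd_abs _ _).2 hdvd)
    have h4 : |x - y| ≤ 2 := by
      rcases hx with rfl | rfl | rfl <;> rcases hy with rfl | rfl | rfl <;> norm_num
    have h5 : (5 : ℤ) < K := by exact_mod_cast hK
    linarith
  have hZa : ∀ l, P1.a (P2.θ l) = 0 := by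
    apply zero_of_const A P2.θ P2.inj hZA P1.a hA1 (by omega)
    intro j l
    obtain ⟨m, hm⟩ := P1.congr _ (hZ1 j)
    obtain ⟨m', hm'⟩ := P1.congr _ (hZ1 l)
    rw [P2.dθ] at hm hm'
    exact hsmall hk1' (h1c _ (P2.θone j) (fun h => h2a ⟨j, h⟩))
      (h1c _ (P2.θone l) (fun h => h2a ⟨l, h⟩)) ⟨m' - m, by linarith⟩
  have hYa : ∀ j, P2.a (P1.θ j) = 0 := by
    apply zero_of_const A P1.θ P1.inj hYA P2.a hA2 (by omega)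
    intro j l
    obtain ⟨m, hm⟩ := P2.congr _ (hY2 j)
    obtain ⟨m', hm'⟩ := P2.congr _ (hY2 l)
    rw [P1.dθ] at hm hm'
    exact hsmall hk2' (h2c _ (P1.θone j) (fun h => h1a ⟨j, h⟩))
      (h2c _ (P1.θone l) (fun h => h1a ⟨l, h⟩)) ⟨m' - m, by linarith⟩
  -- divisibilities
  have hcop0 : k₀.Coprime (q ^ 2 + 1) := by
    have h2 : q ^ 2 + 1 = 2 + k₀ * (k₀ + 2) := by rw [← hk0]; ring
    rw [h2, Nat.coprime_add_mul_left_right]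
    have h3 : Odd k₀ := by
      refine ⟨4 * σ ^ 2 - 1, ?_⟩
      omega
    exact h3.coprime_two_right
  have hc01 : k₀.Coprime k₁ := Nat.Coprime.coprime_dvd_right hd1 hcop0
  have hc02 : k₀.Coprime k₂ := Nat.Coprime.coprime_dvd_right hd2 hcop0
  have hdvd0 : ∀ i, i ≠ one → i ≠ St → i ∉ Set.range P0.θ → k₀ ∣ d i := by
    intro i hi hi2 hi3
    obtain ⟨m, hm⟩ := P0.congr i hi3
    rw [hz0 i hi hi2, zero_add] at hm
    exact Int.natCast_dvd_natCast.1 ⟨m, hm⟩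
  have j1 : Fin s₁ := ⟨0, by omega⟩
  have j2 : Fin s₂ := ⟨0, by omega⟩
  have hf1 : k₀ * k₂ ∣ P1.f := by
    apply hc02.mul_dvd_of_dvd_of_dvd
    · rw [← P1.dθ j1]
      exact hdvd0 _ (P1.θone _) (fun h => h1a ⟨_, h⟩) (hY0 _)
    · obtain ⟨m, hm⟩ := P2.congr _ (hY2 j1)
      rw [hYa, zero_add, P1.dθ] at hm
      exact Int.natCast_dvd_natCast.1 ⟨m, hm⟩
  have hf2 : k₀ * k₁ ∣ P2.f := by
    apply hc01.mul_dvd_of_dvd_of_dvd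
    · rw [← P2.dθ j2]
      exact hdvd0 _ (P2.θone _) (fun h => h2a ⟨_, h⟩) (hZ0 _)
    · obtain ⟨m, hm⟩ := P1.congr _ (hZ1 j2)
      rw [hZa, zero_add, P2.dθ] at hm
      exact Int.natCast_dvd_natCast.1 ⟨m, hm⟩
  obtain ⟨y₁, hy₁⟩ := hf1
  obtain ⟨y₂, hy₂⟩ := hf2
  have hy₁0 : 1 ≤ y₁ := by
    rw [Nat.one_le_iff_ne_zero]
    rintro rfl
    rw [mul_zero, ← P1.dθ j1] at hy₁
    exact hpos _ hy₁
  have hy₂0 : 1 ≤ y₂ := by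
    rw [Nat.one_le_iff_ne_zero]
    rintro rfl
    rw [mul_zero, ← P2.dθ j2] at hy₂
    exact hpos _ hy₂
  -- the rest
  set B := A.filter (fun i => i ∉ Set.range P0.θ) with hB
  set C := B.filter (fun i => i ∉ Set.range P1.θ) with hC
  set D := C.filter (fun i => i ∉ Set.range P2.θ) with hD
  have hmemD : ∀ i, i ∈ D ↔ (i ≠ St ∧ i ≠ one) ∧ i ∉ Set.range P0.θ ∧ i ∉ Set.range P1.θ ∧
      i ∉ Set.range P2.θ := by
    intro i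
    rw [hD, hC, hB, Finset.mem_filter, Finset.mem_filter, Finset.mem_filter, hmemA]
    tauto
  have hsplit : ∀ F : ι → ℤ, ∑ i, F i = F one + F St + ∑ j, F (P0.θ j) + ∑ j, F (P1.θ j) +
      ∑ j, F (P2.θ j) + ∑ i ∈ D, F i := by
    intro F
    rw [hsumA F, split A P0.θ P0.inj hXA, split B P1.θ P1.inj (fun j => Finset.mem_filter.2
      ⟨hYA j, hY0 j⟩), split C P2.θ P2.inj (fun j => Finset.mem_filter.2
      ⟨Finset.mem_filter.2 ⟨hZA j, hZ0 j⟩, hZ1 j⟩)]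
    ring
  have hDdvd : ∀ i ∈ D, d i = k₀ * (d i / k₀) := by
    intro i hi
    obtain ⟨⟨hi1, hi2⟩, hi3, -, -⟩ := (hmemD i).1 hi
    exact (Nat.mul_div_cancel' (hdvd0 i hi2 hi1 hi3)).symm
  have hD1 : ∑ i ∈ D, P1.a i ^ 2 = 2 := by
    have h2 := hsplit (fun i => P1.a i ^ 2)
    simp only [P1.aone, h1b, hn1, P1.aθ, hZa, (h1d _ (hX _)).2 (P0.θone _)] at h2
    simp at h2
    linarith
  have hD2 : ∑ i ∈ D, P2.a i ^ 2 = 2 := by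
    have h2 := hsplit (fun i => P2.a i ^ 2)
    simp only [P2.aone, h2b, hn2, P2.aθ, hYa, (h2d _ (hX _)).2 (P0.θone _)] at h2
    simp at h2
    linarith
  -- integer equations
  have zq : (q : ℤ) = 8 * σ ^ 2 := by rw [hq]; push_cast; ring
  have zk0 : (k₀ : ℤ) = 8 * σ ^ 2 - 1 := by
    have : ((k₀ + 1 : ℕ) : ℤ) = q := by rw [hk0]
    push_cast at this
    linarith
  have zk1 : (k₁ : ℤ) = 8 * σ ^ 2 + 4 * σ + 1 := by rw [hk1]; push_cast; ring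
  have zk2 : (k₂ : ℤ) = 8 * σ ^ 2 - 4 * σ + 1 := by
    have : ((k₂ + 4 * σ : ℕ) : ℤ) = ((8 * σ ^ 2 + 1 : ℕ) : ℤ) := by rw [hk2]
    push_cast at this
    linarith
  have zs0 : (s₀ : ℤ) = 4 * σ ^ 2 - 1 := by
    have : ((s₀ + 1 : ℕ) : ℤ) = ((4 * σ ^ 2 : ℕ) : ℤ) := by rw [hs0]
    push_cast at this
    linarith
  have zs1 : (s₁ : ℤ) = σ * (2 * σ + 1) := by rw [hs1]; push_cast; ring
  have zs2 : (s₂ : ℤ) = 2 * σ ^ 2 - σ := by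
    have : ((s₂ + σ : ℕ) : ℤ) = ((2 * σ ^ 2 : ℕ) : ℤ) := by rw [hs2]
    push_cast at this
    linarith
  have zσ : (2 : ℤ) ≤ σ := by exact_mod_cast hσ
  set S : ℤ := ∑ i ∈ D, ((d i / k₀ : ℕ) : ℤ) ^ 2 with hS
  have hSnn : 0 ≤ S := Finset.sum_nonneg fun i _ => sq_nonneg _
  have hmain : (s₁ : ℤ) * k₂ ^ 2 * y₁ ^ 2 + s₂ * k₁ ^ 2 * y₂ ^ 2 + S =
      4 * σ ^ 2 * (64 * σ ^ 4 - 1) := by
    have h2 := hsplit (fun i => (d i : ℤ) ^ 2)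
    have h3 : ∑ i, (d i : ℤ) ^ 2 = (q : ℤ) ^ 2 * (q ^ 2 + 1) * k₀ := by exact_mod_cast hsum
    have h4 : ∑ i ∈ D, (d i : ℤ) ^ 2 = k₀ ^ 2 * S := by
      rw [hS, Finset.mul_sum]
      refine Finset.sum_congr rfl fun i hi => ?_
      have h5 : (d i : ℤ) = k₀ * ((d i / k₀ : ℕ) : ℤ) := by
        have := hDdvd i hi
        exact_mod_cast this
      rw [h5]; ring
    have h5 : ∀ j, (d (P0.θ j) : ℤ) ^ 2 = ((q : ℤ) ^ 2 + 1) ^ 2 := by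
      intro j; rw [hX]; push_cast; ring
    have h6 : ∀ j, (d (P1.θ j) : ℤ) ^ 2 = (k₀ * k₂ * y₁ : ℤ) ^ 2 := by
      intro j; rw [P1.dθ, hy₁]; push_cast; ring
    have h7 : ∀ j, (d (P2.θ j) : ℤ) ^ 2 = (k₀ * k₁ * y₂ : ℤ) ^ 2 := by
      intro j; rw [P2.dθ, hy₂]; push_cast; ring
    simp only [h3, h4, h5, h6, h7, h1, hSt, Finset.sum_const, Finset.card_univ, Fintype.card_fin,
      nsmul_eq_mul] at h2
    push_cast at h2
    have h8 : (k₀ : ℤ) ^ 2 * ((s₁ : ℤ) * k₂ ^ 2 * y₁ ^ 2 + s₂ * k₁ ^ 2 * y₂ ^ 2 + S) =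
        k₀ ^ 2 * (4 * σ ^ 2 * (64 * σ ^ 4 - 1)) := by
      have h9 : (k₀ : ℤ) ^ 2 * ((s₁ : ℤ) * k₂ ^ 2 * y₁ ^ 2 + s₂ * k₁ ^ 2 * y₂ ^ 2 + S) =
          (q : ℤ) ^ 2 * (q ^ 2 + 1) * k₀ - 1 - (q ^ 2) ^ 2 - s₀ * (q ^ 2 + 1) ^ 2 := by
        linarith
      rw [h9, zq, zk0, zs0]
      ring
    have h9 : (k₀ : ℤ) ^ 2 ≠ 0 := by
      have : (k₀ : ℤ) ≠ 0 := by
        have : (31 : ℤ) ≤ k₀ := by exact_mod_cast hk0'
        linarith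
      positivity
    exact mul_left_cancel₀ h9 h8
  have hid : (s₁ : ℤ) * k₂ ^ 2 + s₂ * k₁ ^ 2 = 4 * σ ^ 2 * (64 * σ ^ 4 - 1) - 8 * σ ^ 2 := by
    rw [zs1, zs2, zk1, zk2]; ring
  have e1 : (s₁ : ℤ) * k₂ ^ 2 = σ * (128 * σ ^ 5 - 64 * σ ^ 4 + 16 * σ ^ 2 - 6 * σ + 1) := by
    rw [zs1, zk2]; ring
  have e2 : (s₂ : ℤ) * k₁ ^ 2 = σ * (128 * σ ^ 5 + 64 * σ ^ 4 - 16 * σ ^ 2 - 6 * σ - 1) := by
    rw [zs2, zk1]; ring
  have p1 : 0 < (s₁ : ℤ) * k₂ ^ 2 := by positivity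
  have p2 : 0 < (s₂ : ℤ) * k₁ ^ 2 := by positivity
  have key4 : ∀ {y : ℕ} {T : ℤ}, 0 < T → 2 ≤ y → 4 * T ≤ T * (y : ℤ) ^ 2 := by
    intro y T hT hy
    have h3 : (2 : ℤ) ≤ y := by exact_mod_cast hy
    have h4 : (2 : ℤ) ^ 2 ≤ (y : ℤ) ^ 2 := pow_le_pow_left₀ (by norm_num) h3 2
    have h5 : T * 2 ^ 2 ≤ T * (y : ℤ) ^ 2 := mul_le_mul_of_nonneg_left h4 hT.le
    linarith
  have hy₁1 : y₁ = 1 := by
    by_contra hcon
    have h2 : 2 ≤ y₁ := by omega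
    have h5 : (4 : ℤ) * (s₁ * k₂ ^ 2) ≤ s₁ * k₂ ^ 2 * y₁ ^ 2 := key4 p1 h2
    have h6 : 0 ≤ (s₂ : ℤ) * k₁ ^ 2 * y₂ ^ 2 := by positivity
    have h7 : (4 : ℤ) * (σ * (128 * σ ^ 5 - 64 * σ ^ 4 + 16 * σ ^ 2 - 6 * σ + 1)) ≤
        4 * σ ^ 2 * (64 * σ ^ 4 - 1) := by rw [← e1]; linarith
    have h8 : (4 : ℤ) * σ * (64 * σ ^ 5 - 64 * σ ^ 4 + 16 * σ ^ 2 - 5 * σ + 1) ≤ 0 := by
      have : (4 : ℤ) * (σ * (128 * σ ^ 5 - 64 * σ ^ 4 + 16 * σ ^ 2 - 6 * σ + 1)) -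
        4 * σ ^ 2 * (64 * σ ^ 4 - 1) =
        4 * σ * (64 * σ ^ 5 - 64 * σ ^ 4 + 16 * σ ^ 2 - 5 * σ + 1) := by ring
      linarith
    have h9 := poly1 zσ
    have h10 : 0 < (4 : ℤ) * σ * (64 * σ ^ 5 - 64 * σ ^ 4 + 16 * σ ^ 2 - 5 * σ + 1) := by
      positivity
    linarith
  have hy₂1 : y₂ = 1 := by
    by_contra hcon
    have h2 : 2 ≤ y₂ := by omega
    have h5 : (4 : ℤ) * (s₂ * k₁ ^ 2) ≤ s₂ * k₁ ^ 2 * y₂ ^ 2 := key4 p2 h2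
    have h6 : 0 ≤ (s₁ : ℤ) * k₂ ^ 2 * y₁ ^ 2 := by positivity
    have h7 : (4 : ℤ) * (σ * (128 * σ ^ 5 + 64 * σ ^ 4 - 16 * σ ^ 2 - 6 * σ - 1)) ≤
        4 * σ ^ 2 * (64 * σ ^ 4 - 1) := by rw [← e2]; linarith
    have h8 : (4 : ℤ) * σ * (64 * σ ^ 5 + 64 * σ ^ 4 - 16 * σ ^ 2 - 5 * σ - 1) ≤ 0 := by
      have : (4 : ℤ) * (σ * (128 * σ ^ 5 + 64 * σ ^ 4 - 16 * σ ^ 2 - 6 * σ - 1)) -
        4 * σ ^ 2 * (64 * σ ^ 4 - 1) =
        4 * σ * (64 * σ ^ 5 + 64 * σ ^ 4 - 16 * σ ^ 2 - 5 * σ - 1) := by ring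
      linarith
    have h9 := poly2 zσ
    have h10 : 0 < (4 : ℤ) * σ * (64 * σ ^ 5 + 64 * σ ^ 4 - 16 * σ ^ 2 - 5 * σ - 1) := by
      positivity
    linarith
  rw [hy₁1, hy₂1] at hmain
  push_cast at hmain
  rw [mul_one, mul_one] at hmain
  have hS8 : S = 8 * σ ^ 2 := by linarith
  have hgle : ∀ i ∈ D, ((d i / k₀ : ℕ) : ℤ) ^ 2 ≤ 8 * σ ^ 2 := by
    intro i hi
    rw [← hS8]
    exact Finset.single_le_sum (f := fun i => ((d i / k₀ : ℕ) : ℤ) ^ 2)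
      (fun i _ => sq_nonneg _) hi
  have hglt : ∀ i ∈ D, d i / k₀ < k₂ := by
    intro i hi
    by_contra hcon
    push Not at hcon
    have h2 := hgle i hi
    have h3 : (k₂ : ℤ) ≤ ((d i / k₀ : ℕ) : ℤ) := by exact_mod_cast hcon
    have h4 : (k₂ : ℤ) ^ 2 ≤ 8 * σ ^ 2 := by
      have : (k₂ : ℤ) ^ 2 ≤ ((d i / k₀ : ℕ) : ℤ) ^ 2 := by
        apply pow_le_pow_left₀ (by positivity) h3
      linarith
    have h5 : ((8 * σ ^ 2 : ℕ) : ℤ) < ((k₂ ^ 2 : ℕ) : ℤ) := by exact_mod_cast hk2sq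
    push_cast at h5
    linarith
  have hgpos : ∀ i ∈ D, d i / k₀ ≠ 0 := by
    intro i hi h2
    have h3 := hDdvd i hi
    rw [h2, mul_zero] at h3
    exact hpos i h3
  have hnz : ∀ {K : ℕ} {s : ℕ} (P : TIPkg d one K 4 s), k₀.Coprime K → k₂ ≤ K →
      (∀ i, i ≠ one → i ≠ St → P.a i = -1 ∨ P.a i = 0 ∨ P.a i = 1) →
      (∀ i ∈ D, i ∉ Set.range P.θ) → ∀ i ∈ D, P.a i = -1 ∨ P.a i = 1 := by
    intro K s P hK hKk hc hr i hi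
    obtain ⟨⟨hi1, hi2⟩, -, -, -⟩ := (hmemD i).1 hi
    rcases hc i hi2 hi1 with h | h | h
    · exact Or.inl h
    · exfalso
      obtain ⟨m, hm⟩ := P.congr i (hr i hi)
      rw [h, zero_add] at hm
      have h2 : K ∣ d i := Int.natCast_dvd_natCast.1 ⟨m, hm⟩
      rw [hDdvd i hi] at h2
      have h3 := hK.symm.dvd_of_dvd_mul_left h2
      have h4 := Nat.le_of_dvd (Nat.pos_of_ne_zero (hgpos i hi)) h3
      have h5 := hglt i hi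
      omega
    · exact Or.inr h
  have hn1' := hnz P1 hc01 hk21 h1c (fun i hi => ((hmemD i).1 hi).2.2.1)
  have hn2' := hnz P2 hc02 le_rfl h2c (fun i hi => ((hmemD i).1 hi).2.2.2)
  have hcard : D.card = 2 := by
    have h2 : ∑ i ∈ D, P1.a i ^ 2 = D.card := by
      rw [Finset.sum_congr rfl fun i hi => show P1.a i ^ 2 = 1 by
        rcases hn1' i hi with h | h <;> rw [h] <;> norm_num]
      simp
    rw [hD1] at h2
    exact_mod_cast h2.symm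
  obtain ⟨w, w', hww, hDw⟩ := Finset.card_eq_two.1 hcard
  have heven : Even (d w / k₀) ∧ Even (d w' / k₀) := by
    have h2 : S = ((d w / k₀ : ℕ) : ℤ) ^ 2 + ((d w' / k₀ : ℕ) : ℤ) ^ 2 := by
      rw [hS, hDw, Finset.sum_pair hww]
    rw [hS8] at h2
    have h3 : (d w / k₀) ^ 2 + (d w' / k₀) ^ 2 = 4 * (2 * σ ^ 2) := by
      have : (((d w / k₀) ^ 2 + (d w' / k₀) ^ 2 : ℕ) : ℤ) = ((4 * (2 * σ ^ 2) : ℕ) : ℤ) := by
        push_cast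
        push_cast at h2
        linarith
      exact_mod_cast this
    exact even_of_sq_add h3
  have hDall : ∀ i ∈ D, ∃ g, d i = k₀ * g ∧ Even g ∧ (d i).Coprime k₁ ∧ (d i).Coprime k₂ := by
    intro i hi
    refine ⟨d i / k₀, hDdvd i hi, ?_, ?_, ?_⟩
    · rw [hDw, Finset.mem_insert, Finset.mem_singleton] at hi
      rcases hi with rfl | rfl
      · exact heven.1
      · exact heven.2
    · obtain ⟨m, hm⟩ := P1.congr i ((hmemD i).1 hi).2.2.1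
      exact coprime_of_congr (hn1' i hi) hm
    · obtain ⟨m, hm⟩ := P2.congr i ((hmemD i).1 hi).2.2.2
      exact coprime_of_congr (hn2' i hi) hm
  have hY : ∀ j, d (P1.θ j) = k₀ * k₂ := fun j => by rw [P1.dθ, hy₁, hy₁1, mul_one]
  have hZ : ∀ j, d (P2.θ j) = k₀ * k₁ := fun j => by rw [P2.dθ, hy₂, hy₂1, mul_one]
  refine ⟨?_, ⟨St, hSt⟩, ⟨P0.θ ⟨0, by omega⟩, hX _⟩, ⟨_, hY j1⟩, ⟨_, hZ j2⟩, ?_⟩
  · intro i
    by_cases i1 : i = one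
    · left; rw [i1, h1]
    by_cases i2 : i = St
    · right; left; rw [i2, hSt]
    by_cases i3 : i ∈ Set.range P0.θ
    · obtain ⟨j, rfl⟩ := i3
      right; right; left; exact hX j
    by_cases i4 : i ∈ Set.range P1.θ
    · obtain ⟨j, rfl⟩ := i4
      right; right; right; left; exact hY j
    by_cases i5 : i ∈ Set.range P2.θ
    · obtain ⟨j, rfl⟩ := i5
      right; right; right; right; left; exact hZ j
    · right; right; right; right; right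
      exact hDall i ((hmemD i).2 ⟨⟨i2, i1⟩, i3, i4, i5⟩)
  · have hw : w ∈ D := by rw [hDw]; simp
    obtain ⟨g, hg1, hg2, -⟩ := hDall w hw
    exact ⟨w, g, hg1, hg2⟩

end H82.SuzArith
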