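import Cfsg.Agent.Lib.H82.SuzArith2

/-!
# Arithmetic of the character degrees of the Suzuki group, `q = 8`
-/

set_option autoImplicit false
set_option linter.unusedSectionVars false
set_option linter.style.haveILetI false

namespace H82.SuzArith

open H82

variable {ι : Type*} [Fintype ι] {d : ι → ℕ} {one St : ι}

/-- the possible values of `y` -/
theorem small_y {f N : ℤ} {ε y : ℤ} (hε : ε = 1 ∨ ε = -1) (hN : 1 ≤ N)
    (h : N + (y - ε) ^ 2 + (3 - 1) * y ^ 2 = 5) {M : ℤ} (hf : (ε - 3 * y) * f = N + 13 * M) :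
    (N = 4 ∧ y = 0 ∧ ε * f = 4 + 13 * M) ∨ (N = 3 ∧ y = ε ∧ -2 * (ε * f) = 3 + 13 * M) := by
  have h1 : y ^ 2 ≤ 3 := by nlinarith [sq_nonneg (y - ε)]
  rcases abs_le_one h1 with rfl | rfl | rfl
  · rcases hε with rfl | rfl
    · exfalso; norm_num at h; linarith
    · right
      refine ⟨by norm_num at h; linarith, rfl, ?_⟩
      norm_num at h hf
      linarith
  · left
    refine ⟨?_, rfl, ?_⟩
    · rcases hε with rfl | rfl <;> norm_num at h <;> linarith
    · rcases hε with rfl | rfl <;> norm_num at h hf <;> linarith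
  · rcases hε with rfl | rfl
    · right
      refine ⟨by norm_num at h; linarith, rfl, ?_⟩
      norm_num at h hf
      linarith
    · exfalso; norm_num at h; linarith

theorem small (hne : St ≠ one) (h1 : d one = 1) (hSt : d St = 8 ^ 2) (hpos : ∀ i, d i ≠ 0)
    (hsum : ∑ i, d i ^ 2 = 29120) (hdvd : ∀ i, d i ∣ 29120) (P0 : TIPkg d one 7 2 3)
    (P1 : TIPkg d one 13 4 3) : Concl d 8 7 13 5 := by
  classical
  obtain ⟨hf0, hSt0, haSt0, hz0⟩ := P0_res hne h1 hSt (by norm_num) le_rfl le_rfl P0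
  norm_num at hf0 hSt
  have hX : ∀ j, d (P0.θ j) = 65 := fun j => (P0.dθ j).trans hf0
  obtain ⟨M, hM⟩ := P1.sum_eq
  rw [P1.sum] at hM
  have hnorm := P1.norm
  push_cast at hnorm hM
  have hcases := small_y P1.hε P1.one_le_sum hnorm hM
  set N := ∑ i, P1.a i ^ 2 with hN
  have hN4 : N ≤ 4 := by rcases hcases with h | h <;> rw [h.1]; norm_num
  have hneq : ∀ {x : ℤ}, x = 64 ∨ x = 65 → (P1.f : ℤ) ≠ x := by
    intro x hx hfx
    rw [hfx] at hcases
    rcases P1.hε with h | h <;> rw [h] at hcases <;> rcases hx with rfl | rfl <;>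
      rcases hcases with ⟨-, -, h⟩ | ⟨-, -, h⟩ <;> omega
  have h1a : St ∉ Set.range P1.θ := by
    rintro ⟨j, hj⟩
    have h2 := P1.dθ j
    rw [hj, hSt] at h2
    exact hneq (Or.inl rfl) (by rw [← h2]; norm_num)
  have hX1 : ∀ j, P0.θ j ∉ Set.range P1.θ := by
    rintro j ⟨l, hl⟩
    have h2 := P1.dθ l
    rw [hl, hX] at h2
    exact hneq (Or.inr rfl) (by rw [← h2]; norm_num)
  have hs : ∀ i, i ≠ one → P1.a i = -1 ∨ P1.a i = 0 ∨ P1.a i = 1 := by
    intro i hi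
    have h2 := P1.sq_add_le hi
    exact abs_le_one (by linarith)
  have h1b : P1.a St = -1 := by
    obtain ⟨m, hm⟩ := P1.congr St h1a
    rw [hSt] at hm
    push_cast at hm
    rcases hs St hne with h | h | h <;> rw [h] at hm ⊢ <;> omega
  have hXa : ∀ j, P1.a (P0.θ j) = 0 := by
    intro j
    obtain ⟨m, hm⟩ := P1.congr _ (hX1 j)
    rw [hX] at hm
    push_cast at hm
    rcases hs _ (P0.θone j) with h | h | h <;> rw [h] at hm ⊢ <;> omega
  have hY0 : ∀ j, P1.θ j ∉ Set.range P0.θ := by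
    rintro j ⟨l, hl⟩
    exact hX1 l ⟨j, hl.symm⟩
  have hdvd0 : ∀ i, i ≠ one → i ≠ St → i ∉ Set.range P0.θ → 7 ∣ d i := by
    intro i hi hi2 hi3
    obtain ⟨m, hm⟩ := P0.congr i hi3
    rw [hz0 i hi hi2, zero_add] at hm
    exact Int.natCast_dvd_natCast.1 ⟨m, hm⟩
  have hYne : ∀ j, P1.θ j ≠ St := fun j h => h1a ⟨j, h⟩
  obtain ⟨y₁, hy₁⟩ : 7 ∣ P1.f := by
    rw [← P1.dθ 0]
    exact hdvd0 _ (P1.θone _) (hYne _) (hY0 _)
  have hy₁d : y₁ ∣ 4160 := by
    have h2 := hdvd (P1.θ 0)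
    rw [P1.dθ, hy₁] at h2
    exact Nat.dvd_of_mul_dvd_mul_left (by norm_num : 0 < 7) (by simpa using h2)
  -- splitting
  set A := (Finset.univ.erase one).erase St with hA
  have hsumA : ∀ F : ι → ℤ, ∑ i, F i = F one + (F St + ∑ i ∈ A, F i) := by
    intro F
    rw [← Finset.add_sum_erase _ _ (Finset.mem_univ one),
      ← Finset.add_sum_erase _ _ (show St ∈ Finset.univ.erase one from
      Finset.mem_erase.2 ⟨hne, Finset.mem_univ _⟩)]
  have hmemA : ∀ i, i ∈ A ↔ i ≠ St ∧ i ≠ one := by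
    intro i
    rw [hA, Finset.mem_erase, Finset.mem_erase]
    simp
  have hXA : ∀ j, P0.θ j ∈ A := fun j => (hmemA _).2 ⟨fun h => hSt0 ⟨j, h⟩, P0.θone j⟩
  have hYA : ∀ j, P1.θ j ∈ A := fun j => (hmemA _).2 ⟨hYne j, P1.θone j⟩
  set B := A.filter (fun i => i ∉ Set.range P0.θ) with hB
  set D := B.filter (fun i => i ∉ Set.range P1.θ) with hD
  have hmemD : ∀ i, i ∈ D ↔ (i ≠ St ∧ i ≠ one) ∧ i ∉ Set.range P0.θ ∧ i ∉ Set.range P1.θ := by
    intro i
    rw [hD, hB, Finset.mem_filter, Finset.mem_filter, hmemA]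
    tauto
  have hsplit : ∀ F : ι → ℤ, ∑ i, F i = F one + F St + ∑ j, F (P0.θ j) + ∑ j, F (P1.θ j) +
      ∑ i ∈ D, F i := by
    intro F
    rw [hsumA F, split A P0.θ P0.inj hXA, split B P1.θ P1.inj (fun j => Finset.mem_filter.2
      ⟨hYA j, hY0 j⟩)]
    ring
  have hDdvd : ∀ i ∈ D, d i = 7 * (d i / 7) := by
    intro i hi
    obtain ⟨⟨hi1, hi2⟩, hi3, -⟩ := (hmemD i).1 hi
    exact (Nat.mul_div_cancel' (hdvd0 i hi2 hi1 hi3)).symm
  set S : ℤ := ∑ i ∈ D, ((d i / 7 : ℕ) : ℤ) ^ 2 with hS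
  have hSnn : 0 ≤ S := Finset.sum_nonneg fun i _ => sq_nonneg _
  have hmain : 3 * (y₁ : ℤ) ^ 2 + S = 252 := by
    have h2 := hsplit (fun i => (d i : ℤ) ^ 2)
    have h3 : ∑ i, (d i : ℤ) ^ 2 = 29120 := by exact_mod_cast hsum
    have h4 : ∑ i ∈ D, (d i : ℤ) ^ 2 = 49 * S := by
      rw [hS, Finset.mul_sum]
      refine Finset.sum_congr rfl fun i hi => ?_
      have h5 : (d i : ℤ) = 7 * ((d i / 7 : ℕ) : ℤ) := by
        have := hDdvd i hi
        exact_mod_cast this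
      rw [h5]; ring
    have h5 : ∀ j, (d (P0.θ j) : ℤ) ^ 2 = 65 ^ 2 := by
      intro j; rw [hX]; norm_num
    have h6 : ∀ j, (d (P1.θ j) : ℤ) ^ 2 = (7 * y₁ : ℤ) ^ 2 := by
      intro j; rw [P1.dθ, hy₁]; push_cast; ring
    simp only [h3, h4, h5, h6, h1, hSt, Finset.sum_const, Finset.card_univ, Fintype.card_fin,
      nsmul_eq_mul] at h2
    push_cast at h2
    linarith
  have hy₁9 : y₁ ≤ 9 := by
    by_contra hcon
    push Not at hcon
    have h2 : (10 : ℤ) ≤ y₁ := by exact_mod_cast hcon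
    nlinarith
  have hy₁0 : y₁ ≠ 0 := by
    rintro rfl
    rw [mul_zero] at hy₁
    exact hpos (P1.θ 0) (by rw [P1.dθ, hy₁])
  rw [hy₁] at hcases
  push_cast at hcases
  have hres : N = 4 ∧ (y₁ = 5 ∨ y₁ = 8) := by
    rcases hcases with ⟨h2, h3, h4⟩ | ⟨h2, h3, h4⟩
    · refine ⟨h2, ?_⟩
      rcases P1.hε with h | h <;> rw [h] at h4 <;> interval_cases y₁ <;> omega
    · exfalso
      rcases P1.hε with h | h <;> rw [h] at h4 <;> interval_cases y₁ <;> omega
  obtain ⟨hN4', hy₁58⟩ := hres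
  have hD1 : ∑ i ∈ D, P1.a i ^ 2 = 2 := by
    have h2 := hsplit (fun i => P1.a i ^ 2)
    simp only [P1.aone, h1b, ← hN, P1.aθ, hXa] at h2
    simp at h2
    linarith
  have hgle : ∀ i ∈ D, d i / 7 ≤ 13 := by
    intro i hi
    have h2 : ((d i / 7 : ℕ) : ℤ) ^ 2 ≤ S :=
      Finset.single_le_sum (f := fun i => ((d i / 7 : ℕ) : ℤ) ^ 2) (fun i _ => sq_nonneg _) hi
    by_contra hcon
    push Not at hcon
    have h3 : (14 : ℤ) ≤ ((d i / 7 : ℕ) : ℤ) := by exact_mod_cast hcon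
    have h4 : (5 : ℤ) ≤ y₁ := by rcases hy₁58 with rfl | rfl <;> norm_num
    nlinarith
  have hg : ∀ i ∈ D, (P1.a i = 0 ∧ d i / 7 = 13) ∨ (P1.a i ^ 2 = 1 ∧ d i / 7 = 2) := by
    intro i hi
    obtain ⟨⟨hi1, hi2⟩, hi3, hi4⟩ := (hmemD i).1 hi
    have h2 := hDdvd i hi
    have h3 := hgle i hi
    have h4 := hdvd i
    have h5 := hpos i
    obtain ⟨m, hm⟩ := P1.congr i hi4
    set g := d i / 7 with hgdef
    rw [h2] at hm h4 h5
    push_cast at hm
    have h6 : g ≠ 0 := fun h => h5 (by rw [h])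
    rcases hs i hi2 with h | h | h
    · right
      rw [h] at hm ⊢
      refine ⟨by norm_num, ?_⟩
      interval_cases g <;> omega
    · left
      rw [h] at hm
      refine ⟨h, ?_⟩
      interval_cases g <;> omega
    · right
      rw [h] at hm ⊢
      refine ⟨by norm_num, ?_⟩
      interval_cases g <;> omega
  have hS2 : S = 169 * D.card - 165 * 2 := by
    have h2 : ∀ i ∈ D, ((d i / 7 : ℕ) : ℤ) ^ 2 = 169 - 165 * P1.a i ^ 2 := by
      intro i hi
      rcases hg i hi with ⟨h3, h4⟩ | ⟨h3, h4⟩ <;> rw [h3, h4] <;> norm_num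
    rw [hS, Finset.sum_congr rfl h2, Finset.sum_sub_distrib, ← Finset.mul_sum, hD1]
    simp
    ring
  have hfin : y₁ = 5 ∧ D.card = 3 := by
    rcases hy₁58 with rfl | rfl
    · refine ⟨rfl, ?_⟩
      push_cast at hmain
      omega
    · exfalso
      push_cast at hmain
      omega
  obtain ⟨rfl, hcard⟩ := hfin
  have hDall : ∀ i ∈ D, d i = 7 * 13 ∨ (d i = 7 * 2 ∧ P1.a i ^ 2 = 1) := by
    intro i hi
    have h2 := hDdvd i hi
    rcases hg i hi with ⟨-, h3⟩ | ⟨h4, h3⟩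
    · left; rw [h3] at h2; exact h2
    · right; rw [h3] at h2; exact ⟨h2, h4⟩
  refine ⟨?_, ⟨St, hSt⟩, ⟨P0.θ 0, hX _⟩, ⟨P1.θ 0, by rw [P1.dθ, hy₁]⟩, ?_, ?_⟩
  · intro i
    by_cases i1 : i = one
    · left; rw [i1, h1]
    by_cases i2 : i = St
    · right; left; rw [i2, hSt]; norm_num
    by_cases i3 : i ∈ Set.range P0.θ
    · obtain ⟨j, rfl⟩ := i3
      right; right; left; rw [hX j]; norm_num
    by_cases i4 : i ∈ Set.range P1.θ
    · obtain ⟨j, rfl⟩ := i4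
      right; right; right; left; rw [P1.dθ, hy₁]
    · rcases hDall i ((hmemD i).2 ⟨⟨i2, i1⟩, i3, i4⟩) with h | ⟨h, -⟩
      · right; right; right; right; left; exact h
      · right; right; right; right; right
        exact ⟨2, h, even_two, by rw [h]; decide, by rw [h]; decide⟩
  · by_contra hcon
    have h2 : ∀ i ∈ D, P1.a i ^ 2 = 1 := by
      intro i hi
      rcases hDall i hi with h | ⟨-, h⟩
      · exact absurd ⟨i, h⟩ hcon
      · exact h
    rw [Finset.sum_congr rfl h2] at hD1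
    simp at hD1
    omega
  · by_contra hcon
    have h2 : ∀ i ∈ D, P1.a i ^ 2 = 0 := by
      intro i hi
      rcases hg i hi with ⟨h, -⟩ | ⟨-, h⟩
      · rw [h]; norm_num
      · exact absurd ⟨i, 2, by rw [← h]; exact hDdvd i hi, even_two⟩ hcon
    rw [Finset.sum_congr rfl h2] at hD1
    simp at hD1

end H82.SuzArith
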