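import Cfsg.Agent.Lib.H82.SuzArith3
import Cfsg.Agent.Lib.H82.SL2Even
import Cfsg.Agent.Lib.H4.TwoTrans
import Cfsg.Agent.Lib.H8.SuzTorus3
import Cfsg.Agent.Lib.H24.SzIso

/-!
# Character degrees of the Suzuki groups
-/

set_option autoImplicit false
set_option linter.unusedSectionVars false
set_option linter.style.haveILetI false

namespace H82.SuzDeg

open Cfsg H18.CharBasic H18.CharOrtho H18.CharQuot H82.Deg H82 H82.SuzArith

universe u

theorem pkg {G : Type u} [Group G] [Finite G] [Fintype (IrrCharacter G)] (U : Subgroup G)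
    (hU : ∀ u ∈ U, u ≠ 1 → Subgroup.centralizer ({u} : Set G) = U) {e s : ℕ}
    (hN : Nat.card (Subgroup.normalizer (U : Set G)) = e * Nat.card U)
    (hs : Nat.card U = s * e + 1) (hs2 : 2 ≤ s) :
    Nonempty (TIPkg (fun χ : IrrCharacter G => charDegree (χ : G → ℂ))
      (⟨fun _ => 1, isIrrCharacter_one⟩ : IrrCharacter G) (Nat.card U) e s) := by
  classical
  letI := Fintype.ofFinite G
  letI : Fintype (Subgroup.normalizer (U : Set G)) := Fintype.ofFinite _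
  letI : Fintype (H18.TICoh.KN U) := Fintype.ofFinite _
  refine H82.TIChar.main U ?_ (fun k hk hk1 => (hU k hk hk1).le) ?_ ?_ hs hs2
  · intro g hg k hk hgk
    by_contra hk1
    apply hg
    have hgk1 : g * k * g⁻¹ ≠ 1 := by
      intro h
      apply hk1
      rw [mul_inv_eq_one] at h
      exact mul_left_cancel (a := g) (by rw [h, mul_one])
    have h1 := hU _ hgk hgk1
    have h2 := hU _ hk hk1
    have h3 : ∀ x : G, x ∈ Subgroup.centralizer ({k} : Set G) ↔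
        g * x * g⁻¹ ∈ Subgroup.centralizer ({g * k * g⁻¹} : Set G) := by
      intro x
      rw [Subgroup.mem_centralizer_singleton_iff, Subgroup.mem_centralizer_singleton_iff]
      constructor
      · intro h
        have h4 : g * x * g⁻¹ * (g * k * g⁻¹) = g * (x * k) * g⁻¹ := by group
        have h5 : g * k * g⁻¹ * (g * x * g⁻¹) = g * (k * x) * g⁻¹ := by group
        rw [h4, h5, h]
      · intro h
        have h4 : g * x * g⁻¹ * (g * k * g⁻¹) = g * (x * k) * g⁻¹ := by group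
        have h5 : g * k * g⁻¹ * (g * x * g⁻¹) = g * (k * x) * g⁻¹ := by group
        rw [h4, h5] at h
        exact mul_left_cancel (mul_right_cancel h)
    rw [Subgroup.mem_normalizer_iff]
    intro x
    rw [h1, h2] at h3
    exact h3 x
  · intro a b
    by_cases ha : (a : G) = 1
    · have : a = 1 := Subtype.ext ha
      rw [this, one_mul, mul_one]
    · have h1 := hU a a.2 ha
      have h2 : (b : G) ∈ Subgroup.centralizer ({(a : G)} : Set G) := by rw [h1]; exact b.2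
      rw [Subgroup.mem_centralizer_singleton_iff] at h2
      exact Subtype.ext h2.symm
  · have h1 := (H18.TICoh.KN U).card_mul_index
    rw [Nat.card_congr (Subgroup.subgroupOfEquivOfLe (Subgroup.le_normalizer)).toEquiv, hN] at h1
    rw [mul_comm] at h1
    exact Nat.eq_of_mul_eq_mul_right Nat.card_pos h1

theorem graph {S : Type u} [Group S] [Finite S] {q k₀ k₁ k₂ n : ℕ} (hq : q = 2 ^ n)
    (hk0 : k₀ + 1 = q) (hk12 : k₁ * k₂ = q ^ 2 + 1)
    (hcard : Nat.card S = q ^ 2 * (q ^ 2 + 1) * k₀)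
    (hC : Concl (fun χ : IrrCharacter S => charDegree (χ : S → ℂ)) q k₀ k₁ k₂) :
    degreePrimes S = {r : ℕ | r.Prime ∧ (r = 2 ∨ r ∣ (q - 1) * (q ^ 2 + 1))} ∧
    ∀ r s : ℕ, (degreeGraph S).Adj r s ↔ (r ≠ s ∧ r.Prime ∧ s.Prime ∧
      ((r ∣ (q - 1) * (q ^ 2 + 1) ∧ s ∣ (q - 1) * (q ^ 2 + 1)) ∨ (r = 2 ∧ s ∣ q - 1) ∨
        (s = 2 ∧ r ∣ q - 1))) := by
  have hk0' : q - 1 = k₀ := by omega
  rw [hk0']
  have hq2 : ∀ {r : ℕ}, r.Prime → r ∣ q ^ 2 → r = 2 := by
    intro r hr h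
    rw [hq] at h
    exact (Nat.prime_dvd_prime_iff_eq hr Nat.prime_two).1 (hr.dvd_of_dvd_pow (hr.dvd_of_dvd_pow h))
  have hk1d : k₀ * k₁ ∣ k₀ * (q ^ 2 + 1) := Nat.mul_dvd_mul_left _ ⟨k₂, hk12.symm⟩
  have hk2d : k₀ * k₂ ∣ k₀ * (q ^ 2 + 1) := Nat.mul_dvd_mul_left _ ⟨k₁, by rw [mul_comm]; exact hk12.symm⟩
  -- the primes dividing the last type
  have hlast : ∀ (χ : IrrCharacter S), (charDegree (χ : S → ℂ)).Coprime k₁ →
      (charDegree (χ : S → ℂ)).Coprime k₂ → ∀ {r : ℕ}, r.Prime → r ∣ charDegree (χ : S → ℂ) →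
      r = 2 ∨ r ∣ k₀ := by
    intro χ h1 h2 r hr hrd
    have h3 : r ∣ q ^ 2 * (q ^ 2 + 1) * k₀ := by
      rw [← hcard]
      exact hrd.trans (degree_dvd_card χ)
    rcases (hr.dvd_mul).1 h3 with h | h
    · rcases (hr.dvd_mul).1 h with h | h
      · exact Or.inl (hq2 hr h)
      · exfalso
        rw [← hk12] at h
        rcases (hr.dvd_mul).1 h with h | h
        · exact hr.one_lt.ne' (Nat.eq_one_of_dvd_coprimes h1 hrd h)
        · exact hr.one_lt.ne' (Nat.eq_one_of_dvd_coprimes h2 hrd h)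
    · exact Or.inr h
  constructor
  · ext r
    constructor
    · rintro ⟨hr, d, ⟨χ, rfl⟩, hrd⟩
      refine ⟨hr, ?_⟩
      rcases hC.all χ with h | h | h | h | h | ⟨g, h, -, h1, h2⟩
      · rw [h] at hrd
        exact absurd (Nat.dvd_one.1 hrd) hr.one_lt.ne'
      · rw [h] at hrd
        exact Or.inl (hq2 hr hrd)
      · rw [h] at hrd
        exact Or.inr (Dvd.dvd.mul_left hrd _)
      · rw [h] at hrd
        exact Or.inr (hrd.trans hk2d)
      · rw [h] at hrd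
        exact Or.inr (hrd.trans hk1d)
      · rcases hlast χ h1 h2 hr hrd with h | h
        · exact Or.inl h
        · exact Or.inr (Dvd.dvd.mul_right h _)
    · rintro ⟨hr, h⟩
      refine ⟨hr, ?_⟩
      rcases h with rfl | h
      · obtain ⟨χ, hχ⟩ := hC.e0
        refine ⟨_, ⟨χ, rfl⟩, ?_⟩
        rw [hχ, hq, ← pow_mul]
        apply dvd_pow_self
        intro h0
        have hn : n = 0 := by omega
        obtain ⟨χ, hχ⟩ := hC.e2
        rw [hn] at hq
        have : k₀ = 0 := by omega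
        rw [this, zero_mul] at hχ
        exact charDegree_ne_zero χ hχ
      · rcases (hr.dvd_mul).1 h with h | h
        · obtain ⟨χ, hχ⟩ := hC.e2
          refine ⟨_, ⟨χ, rfl⟩, ?_⟩
          rw [hχ]
          exact Dvd.dvd.mul_right h _
        · obtain ⟨χ, hχ⟩ := hC.e1
          refine ⟨_, ⟨χ, rfl⟩, ?_⟩
          rw [hχ]
          exact h
  · intro r s
    constructor
    · rintro ⟨hne, hr, hs, d, ⟨χ, rfl⟩, hrs⟩
      refine ⟨hne, hr, hs, ?_⟩
      have h1 : r ∣ charDegree (χ : S → ℂ) := (Dvd.intro _ rfl).trans hrs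
      have h2 : s ∣ charDegree (χ : S → ℂ) := (Dvd.intro_left _ rfl).trans hrs
      rcases hC.all χ with h | h | h | h | h | ⟨g, h, -, h3, h4⟩
      · rw [h] at h1
        exact absurd (Nat.dvd_one.1 h1) hr.one_lt.ne'
      · rw [h] at h1 h2
        exact absurd ((hq2 hr h1).trans (hq2 hs h2).symm) hne
      · rw [h] at h1 h2
        exact Or.inl ⟨Dvd.dvd.mul_left h1 _, Dvd.dvd.mul_left h2 _⟩
      · rw [h] at h1 h2
        exact Or.inl ⟨h1.trans hk2d, h2.trans hk2d⟩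
      · rw [h] at h1 h2
        exact Or.inl ⟨h1.trans hk1d, h2.trans hk1d⟩
      · rcases hlast χ h3 h4 hr h1 with rfl | h5
        · rcases hlast χ h3 h4 hs h2 with rfl | h6
          · exact absurd rfl hne
          · exact Or.inr (Or.inl ⟨rfl, h6⟩)
        · rcases hlast χ h3 h4 hs h2 with rfl | h6
          · exact Or.inr (Or.inr ⟨rfl, h5⟩)
          · exact Or.inl ⟨Dvd.dvd.mul_right h5 _, Dvd.dvd.mul_right h6 _⟩
    · rintro ⟨hne, hr, hs, h⟩
      have hco : r.Coprime s := (Nat.coprime_primes hr hs).2 hne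
      refine ⟨hne, hr, hs, ?_⟩
      have two : ∀ {s : ℕ}, s ∣ k₀ → ∃ d ∈ charDegrees S, 2 * s ∣ d := by
        intro s hs
        obtain ⟨χ, g, hχ, hg⟩ := hC.e4
        refine ⟨_, ⟨χ, rfl⟩, ?_⟩
        rw [hχ, mul_comm k₀ g]
        exact Nat.mul_dvd_mul hg.two_dvd hs
      have key : ∀ {r s : ℕ}, r.Prime → s.Prime → r ∣ k₀ → s ∣ q ^ 2 + 1 →
          ∃ d ∈ charDegrees S, r * s ∣ d := by
        intro r s hr hs h1 h2
        rw [← hk12] at h2
        rcases (hs.dvd_mul).1 h2 with h3 | h3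
        · obtain ⟨χ, hχ⟩ := hC.e3
          refine ⟨_, ⟨χ, rfl⟩, ?_⟩
          rw [hχ]
          exact Nat.mul_dvd_mul h1 h3
        · obtain ⟨χ, hχ⟩ := hC.e2
          refine ⟨_, ⟨χ, rfl⟩, ?_⟩
          rw [hχ]
          exact Nat.mul_dvd_mul h1 h3
      rcases h with ⟨h1, h2⟩ | ⟨rfl, h1⟩ | ⟨rfl, h1⟩
      · rcases (hr.dvd_mul).1 h1 with h3 | h3
        · rcases (hs.dvd_mul).1 h2 with h4 | h4
          · obtain ⟨χ, hχ⟩ := hC.e2
            refine ⟨_, ⟨χ, rfl⟩, ?_⟩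
            rw [hχ]
            exact Dvd.dvd.mul_right (hco.mul_dvd_of_dvd_of_dvd h3 h4) _
          · exact key hr hs h3 h4
        · rcases (hs.dvd_mul).1 h2 with h4 | h4
          · obtain ⟨d, hd, h5⟩ := key hs hr h4 h3
            exact ⟨d, hd, by rwa [mul_comm]⟩
          · obtain ⟨χ, hχ⟩ := hC.e1
            refine ⟨_, ⟨χ, rfl⟩, ?_⟩
            rw [hχ]
            exact hco.mul_dvd_of_dvd_of_dvd h3 h4
      · exact two h1
      · obtain ⟨d, hd, h5⟩ := two h1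
        exact ⟨d, hd, by rwa [mul_comm]⟩

section sz

open H8.SuzGroup H8.SuzCent H8.SuzTorus H8.SuzOvoid

variable {F : Type u} [Field F] [Fintype F] {m : ℕ}

/-- The Steinberg character. -/
theorem exists_steinberg (hF : Fintype.card F = 2 ^ (2 * m + 1)) :
    ∃ χ : IrrCharacter (Cfsg.Sz F m), charDegree (χ : Cfsg.Sz F m → ℂ) = (2 ^ (2 * m + 1)) ^ 2 := by
  classical
  letI := Fintype.ofFinite (Cfsg.Sz F m)
  have h2 := two_transitive (m := m) hF
  have hX : 2 ≤ Nat.card (suzukiOvoid F m) := by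
    rw [card_ovoid, hF]
    have : 1 ≤ (2 ^ (2 * m + 1)) ^ 2 := Nat.one_le_two_pow.trans (Nat.le_self_pow (by norm_num) _)
    omega
  haveI : Finite (suzukiOvoid F m) := Nat.finite_of_card_ne_zero (by omega)
  haveI : MulAction.IsPretransitive (Cfsg.Sz F m) (suzukiOvoid F m) :=
    MulAction.isPretransitive_of_is_two_pretransitive
  have h3 := (H4.TwoTrans.isIrr_iff_two_trans (G := Cfsg.Sz F m) (suzukiOvoid F m) hX).2 h2
  refine ⟨⟨_, h3⟩, ?_⟩
  apply charDegree_eq_of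
  show H4.TwoTrans.permChar (Cfsg.Sz F m) (suzukiOvoid F m) 1 - 1 = _
  have h4 : H4.TwoTrans.permChar (Cfsg.Sz F m) (suzukiOvoid F m) 1 =
      (Nat.card (suzukiOvoid F m) : ℂ) := by
    unfold H4.TwoTrans.permChar
    congr 1
    rw [MulAction.fixedBy_one_eq_univ]
    exact Nat.card_congr (Equiv.Set.univ _)
  rw [h4, card_ovoid, hF]
  push_cast
  ring

theorem concl (hm : 1 ≤ m) (hF : Fintype.card F = 2 ^ (2 * m + 1)) {k₁ k₂ : ℕ}
    (hk1 : k₁ = 2 ^ (2 * m + 1) + 2 ^ (m + 1) + 1)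
    (hk2 : k₂ = 2 ^ (2 * m + 1) - 2 ^ (m + 1) + 1) :
    Concl (fun χ : IrrCharacter (Cfsg.Sz F m) => charDegree (χ : Cfsg.Sz F m → ℂ))
      (2 ^ (2 * m + 1)) (2 ^ (2 * m + 1) - 1) k₁ k₂ := by
  classical
  letI := Fintype.ofFinite (IrrCharacter (Cfsg.Sz F m))
  obtain ⟨σ, hσ⟩ : ∃ σ : ℕ, σ = 2 ^ (m - 1) := ⟨_, rfl⟩
  have hσ1 : 1 ≤ σ := by rw [hσ]; exact Nat.one_le_two_pow
  have hq : 2 ^ (2 * m + 1) = 8 * σ ^ 2 := by
    rw [hσ, ← pow_mul, show (8 : ℕ) = 2 ^ 3 by norm_num, ← pow_add]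
    congr 1
    omega
  have hr : 2 ^ (m + 1) = 4 * σ := by
    rw [hσ, show (4 : ℕ) = 2 ^ 2 by norm_num, ← pow_add]
    congr 1
    omega
  obtain ⟨St, hSt⟩ := exists_steinberg (m := m) hF
  have hsum := sum_degree_sq_nat (G := Cfsg.Sz F m)
  rw [card_Sz hm hF] at hsum
  have hdvd : ∀ χ : IrrCharacter (Cfsg.Sz F m), charDegree (χ : Cfsg.Sz F m → ℂ) ∣
      (2 ^ (2 * m + 1)) ^ 2 * ((2 ^ (2 * m + 1)) ^ 2 + 1) * (2 ^ (2 * m + 1) - 1) := by
    intro χ
    rw [← card_Sz hm hF]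
    exact degree_dvd_card χ
  have hpos : ∀ χ : IrrCharacter (Cfsg.Sz F m), charDegree (χ : Cfsg.Sz F m → ℂ) ≠ 0 :=
    fun χ => charDegree_ne_zero χ
  have hone : charDegree ((⟨fun _ => 1, isIrrCharacter_one⟩ : IrrCharacter (Cfsg.Sz F m)) :
      Cfsg.Sz F m → ℂ) = 1 := charDegree_eq_of (by simp)
  have hne : St ≠ (⟨fun _ => 1, isIrrCharacter_one⟩ : IrrCharacter (Cfsg.Sz F m)) := by
    rintro rfl
    rw [hone, hq] at hSt
    have h1 : 1 ≤ σ ^ 2 := Nat.one_le_pow _ _ hσ1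
    nlinarith
  -- the tori
  have hk12 := exceptional (F := F) hm hF
  obtain ⟨U₁, hc1, hU1, hC1, hN1⟩ := hk12 k₁ (by rw [hk1]; simp)
  have hN0 : Nat.card (Subgroup.normalizer ((HH (m := m) hF : Subgroup (Cfsg.Sz F m)) :
      Set (Cfsg.Sz F m))) = 2 * Nat.card (HH (m := m) hF) := by
    rw [← relIndex_HH hm hF, mul_comm]
    exact (card_mul_rel Subgroup.le_normalizer).symm
  have hσσ : σ ≤ σ ^ 2 := Nat.le_self_pow (by norm_num) σ
  have hU0 : Nat.card (HH (m := m) hF) = (4 * σ ^ 2 - 1) * 2 + 1 := by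
    rw [card_HH, hq]; omega
  obtain ⟨P0⟩ := pkg (HH (m := m) hF) (fun u hu hu1 => centralizer_HH hm hF hu hu1) hN0 hU0
    (by omega)
  rw [card_HH] at P0
  have hU1' : Nat.card U₁ = (σ * (2 * σ + 1)) * 4 + 1 := by
    rw [hU1, hk1, hq, hr]; ring
  obtain ⟨P1⟩ := pkg U₁ hC1 (e := 4) (by rw [hN1, hU1]) hU1' (by nlinarith)
  rw [hU1] at P1
  by_cases hσ2 : 2 ≤ σ
  · obtain ⟨U₂, hc2, hU2, hC2, hN2⟩ := hk12 k₂ (by rw [hk2]; simp)
    have hk2' : k₂ + 4 * σ = 8 * σ ^ 2 + 1 := by rw [hk2, hq, hr]; omega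
    have hU2' : Nat.card U₂ = (2 * σ ^ 2 - σ) * 4 + 1 := by
      rw [hU2]; omega
    have h2σ : 2 * σ ≤ σ ^ 2 := by rw [sq]; exact Nat.mul_le_mul_right σ hσ2
    obtain ⟨P2⟩ := pkg U₂ hC2 (e := 4) (by rw [hN2, hU2]) hU2' (by omega)
    rw [hU2] at P2
    exact big (σ := σ) hσ2 hq (by rw [hq]; omega) (by rw [hk1, hq, hr]) hk2' (by omega) rfl
      (by omega) hne hone hSt hpos hsum P0 P1 P2
  · have hσ1' : σ = 1 := by omega
    have hk1' : k₁ = 13 := by rw [hk1, hq, hr, hσ1']; norm_num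
    have hk2' : k₂ = 5 := by rw [hk2, hq, hr, hσ1']; norm_num
    have hq8 : 2 ^ (2 * m + 1) = 8 := by rw [hq, hσ1']; norm_num
    subst hσ1'
    rw [hk1'] at P1
    rw [hk1', hk2']
    rw [hq8] at hSt hsum hdvd P0 ⊢
    exact small hne hone hSt hpos hsum hdvd P0 P1

end sz

end H82.SuzDeg
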