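import Cfsg.Agent.Lib.H21.BrauerDeg
import Cfsg.Agent.Lib.H82.Deg

/-!
# Characters and a self-centralizing abelian TI-subgroup (after H21.BrauerDeg.main)

`|K| = s e + 1`, `e = |N(K) : K|`, `2 ≤ s`.
-/

set_option autoImplicit false
set_option linter.unusedSectionVars false
set_option linter.style.haveILetI false

/-- Arithmetic data on the irreducible character degrees from a self-centralizing abelian
TI-subgroup of order `k = s e + 1`. -/
structure H82.TIPkg {ι : Type*} [Fintype ι] (d : ι → ℕ) (one : ι) (k e s : ℕ) where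
  a : ι → ℤ
  ε : ℤ
  y : ℤ
  θ : Fin s → ι
  f : ℕ
  inj : Function.Injective θ
  hε : ε = 1 ∨ ε = -1
  aθ : ∀ j, a (θ j) = 0
  aone : a one = 1
  θone : ∀ j, θ j ≠ one
  norm : ∑ i, a i ^ 2 + (y - ε) ^ 2 + (s - 1) * y ^ 2 = e + 1
  congr : ∀ i, i ∉ Set.range θ → ∃ m : ℤ, (d i : ℤ) = a i + k * m
  dθ : ∀ j, d (θ j) = f
  sum : ∑ i, a i * (d i : ℤ) = (ε - s * y) * f

namespace H82.TIChar

open Cfsg H21.BrauerDeg H18.CharBasic H18.CharOrtho H18.CharInd H18.CharQuot H18.TICoh
open scoped ComplexConjugate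

universe u

variable {G : Type u} [Group G] [Fintype G] (K : Subgroup G)
  [Fintype (Subgroup.normalizer (K : Set G))] [Fintype (KN K)]
  (hTI : ∀ g : G, g ∉ Subgroup.normalizer (K : Set G) → ∀ k ∈ K, g * k * g⁻¹ ∈ K → k = 1)
  (hC : ∀ k ∈ K, k ≠ 1 → Subgroup.centralizer ({k} : Set G) ≤ K)
  (hab : ∀ a b : K, a * b = b * a)

include hTI hC hab in
theorem main {e s : ℕ} (he : (KN K).index = e) (hs : Nat.card K = s * e + 1) (hes : 2 ≤ s)
    [Fintype (IrrCharacter G)] :
    Nonempty (H82.TIPkg (fun χ : IrrCharacter G => charDegree (χ : G → ℂ))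
      (⟨fun _ => 1, isIrrCharacter_one⟩ : IrrCharacter G) (Nat.card K) e s) := by
  classical
  have hftN : Fintype (IrrCharacter ↥(Subgroup.normalizer (K : Set G))) := Fintype.ofFinite _
  have hcard := card_rel (KN K) (hC_KN K hC) (hab_KN K hab)
  rw [card_KN, he, hs] at hcard
  have he0 : 0 < e := by
    rw [← he]; exact Nat.pos_of_ne_zero (KN K).index_ne_zero_of_finite
  have hcard' : (Finset.univ.filter fun χ : IrrCharacter ↥(Subgroup.normalizer (K : Set G)) =>
      ∃ k ∈ KN K, χ.1 k ≠ χ.1 1).card = s := by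
    have := Nat.succ_injective hcard
    exact Nat.eq_of_mul_eq_mul_right he0 this
  -- enumeration
  let F := Finset.univ.filter fun χ : IrrCharacter ↥(Subgroup.normalizer (K : Set G)) =>
      ∃ k ∈ KN K, χ.1 k ≠ χ.1 1
  let eq : F ≃ Fin s := F.equivFinOfCardEq hcard'
  let lam : Fin s → (↥(Subgroup.normalizer (K : Set G)) → ℂ) := fun i => ((eq.symm i).1).1
  have hlam : ∀ i, lam i ∈ relS K := by
    intro i
    obtain ⟨k, hk, hk2⟩ := (Finset.mem_filter.1 (eq.symm i).2).2
    exact ⟨(eq.symm i).1.2, k, Subgroup.mem_subgroupOf.1 hk, hk2⟩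
  have hlaminj : Function.Injective lam := by
    intro i j hij
    apply eq.symm.injective
    exact Subtype.ext (Subtype.ext hij)
  have hlamsurj : ∀ ψ ∈ relS K, ∃ i, lam i = ψ := by
    intro ψ hψ
    obtain ⟨k, hk, hk2⟩ := hψ.2
    refine ⟨eq ⟨⟨ψ, hψ.1⟩, Finset.mem_filter.2 ⟨Finset.mem_univ _, k, Subgroup.mem_subgroupOf.2 hk,
      hk2⟩⟩, ?_⟩
    change ((eq.symm (eq _)).1).1 = ψ
    rw [Equiv.symm_apply_apply]
  have hlam1 : ∀ i, lam i 1 = (e : ℂ) := by
    intro i
    rw [degree_rel _ (hC_KN K hC) (hab_KN K hab) (hlam i).1 (relS_ker K (hlam i)), he]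
  obtain ⟨εc, hεc, θ0, hθ0, hθ0inj, hθ0d⟩ := H4.Exceptional.exceptional
    (Subgroup.normalizer (K : Set G)) (K : Set G) hTI s (by omega) lam (fun i => (hlam i).1)
    hlaminj (by
      intro i j x hx
      have hx' : x ∉ KN K := fun h => hx (Subgroup.mem_subgroupOf.1 h)
      rw [Pi.sub_apply, vanish (KN K) (hC_KN K hC) (hlam i).1 (relS_ker K (hlam i)) hx',
        vanish (KN K) (hC_KN K hC) (hlam j).1 (relS_ker K (hlam j)) hx', sub_zero])
    (fun i j => by rw [hlam1, hlam1])
  obtain ⟨ε, hε, hεεc⟩ : ∃ ε : ℤ, (ε = 1 ∨ ε = -1) ∧ (ε : ℂ) = εc := by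
    rcases hεc with h | h
    · exact ⟨1, Or.inl rfl, by rw [h]; simp⟩
    · exact ⟨-1, Or.inr rfl, by rw [h]; simp⟩
  have hε2 : ε * ε = 1 := by rcases hε with h | h <;> rw [h] <;> norm_num
  let θ : Fin s → IrrCharacter G := fun i => ⟨θ0 i, hθ0 i⟩
  have hθinj : Function.Injective θ := fun i j hij => hθ0inj (congrArg Subtype.val hij)
  -- integral coefficients
  have hb : ∀ i : Fin s, ∀ χ : IrrCharacter G, ∃ n : ℤ, classInner (beta K (lam i)) χ = n :=
    fun i χ => (isGen_iff.1 (isGen_beta hC hab (hlam i))).2 χ χ.2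
  choose b hb using hb
  have hbsum : ∀ i, ∑ χ, b i χ ^ 2 = (e : ℤ) + 1 := by
    intro i
    have h1 := H4.Exceptional.norm_eq_sum_sq (isGen_beta hC hab (hlam i)) (b i) (hb i)
    rw [inner_beta hTI hC hab (hlam i) (hlam i), if_pos rfl, he] at h1
    exact_mod_cast h1.symm
  have hβd : ∀ i j, beta K (lam i) - beta K (lam j) = (ε : ℂ) • (θ0 j - θ0 i) := by
    intro i j
    rw [hεεc, ← hθ0d j i, beta, beta, indFun_sub, indFun_sub]
    abel
  have hbd : ∀ i j χ, b i χ - b j χ = ε * ((if θ j = χ then 1 else 0) - (if θ i = χ then 1 else 0)) := by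
    intro i j χ
    have h1 : classInner (beta K (lam i) - beta K (lam j)) (χ : G → ℂ) = b i χ - b j χ := by
      rw [H18.CharOrtho.inner_sub_left, hb, hb]
    rw [hβd, H18.CharOrtho.inner_smul_left, H18.CharOrtho.inner_sub_left, inner_irr (hθ0 j) χ.2,
      inner_irr (hθ0 i) χ.2] at h1
    have e1 : ∀ j, (θ0 j = (χ : G → ℂ)) ↔ θ j = χ := by
      intro j
      constructor
      · intro h; exact Subtype.ext h
      · intro h; exact congrArg Subtype.val h
    simp only [e1] at h1
    have h2 : ((ε * ((if θ j = χ then 1 else 0) - (if θ i = χ then 1 else 0)) : ℤ) : ℂ) =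
        ((b i χ - b j χ : ℤ) : ℂ) := by
      push_cast
      exact h1
    exact_mod_cast h2.symm
  have hbt : ∀ i k l, ε * (b i (θ k) - b i (θ l)) =
      (if i = l then 1 else 0) - (if i = k then 1 else 0) := by
    intro i k l
    have h1 : classInner (beta K (lam i)) (indFun (Subgroup.normalizer (K : Set G)) (lam k) -
        indFun (Subgroup.normalizer (K : Set G)) (lam l)) = ε * (b i (θ k) - b i (θ l)) := by
      rw [hθ0d k l, H18.CharOrtho.inner_smul_right, H18.CharOrtho.inner_sub_right]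
      have e1 : classInner (beta K (lam i)) (θ0 k) = b i (θ k) := hb i (θ k)
      have e2 : classInner (beta K (lam i)) (θ0 l) = b i (θ l) := hb i (θ l)
      rw [e1, e2, ← hεεc]
      simp
    rw [← indFun_sub, beta, H18.TIFN.ind_isometry K hTI hC _ _
      (isClassFunction_sub (isClassFunction_of_isIrr (hlam k).1) (isClassFunction_of_isIrr (hlam l).1))
      (by
        intro x hx
        have hx' : x ∉ KN K := fun h => hx (Subgroup.mem_subgroupOf.1 h)
        rw [Pi.sub_apply, vanish (KN K) (hC_KN K hC) (hlam k).1 (relS_ker K (hlam k)) hx',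
          vanish (KN K) (hC_KN K hC) (hlam l).1 (relS_ker K (hlam l)) hx', sub_zero])
      (by rw [Pi.sub_apply, hlam1, hlam1, sub_self]), H18.CharOrtho.inner_sub_left,
      H18.CharOrtho.inner_sub_right, H18.CharOrtho.inner_sub_right,
      inner_rho_rel _ (hC_KN K hC) (hlam k).1 (relS_ker K (hlam k)),
      inner_rho_rel _ (hC_KN K hC) (hlam l).1 (relS_ker K (hlam l)),
      inner_irr (hlam i).1 (hlam k).1, inner_irr (hlam i).1 (hlam l).1] at h1
    simp only [hlaminj.eq_iff] at h1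
    have h2 : ((ε * (b i (θ k) - b i (θ l)) : ℤ) : ℂ) =
        (((if i = l then 1 else 0) - (if i = k then 1 else 0) : ℤ) : ℂ) := by
      push_cast
      rw [← h1]
      ring
    exact_mod_cast h2
  -- the principal character
  let one : IrrCharacter G := ⟨fun _ => 1, isIrrCharacter_one⟩
  have hbone : ∀ i, b i one = 1 := by
    intro i
    have h1 := hb i one
    have h2 : classInner (beta K (lam i)) (one : G → ℂ) = 1 := inner_beta_one hC hab (hlam i)
    rw [h2] at h1
    exact_mod_cast h1.symm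
  let z : Fin s := ⟨0, by omega⟩
  let o : Fin s := ⟨1, by omega⟩
  have hzo : z ≠ o := by
    intro h
    have := congrArg Fin.val h
    simp [z, o] at this
  have hθone : ∀ j, θ j ≠ one := by
    intro j hj
    obtain ⟨l, hl⟩ : ∃ l : Fin s, l ≠ j := by
      by_cases h : j = z
      · exact ⟨o, by rw [h]; exact hzo.symm⟩
      · exact ⟨z, fun h' => h h'.symm⟩
    have h1 := hbd j l one
    rw [hbone, hbone, sub_self, if_neg, if_pos hj] at h1
    · rcases hε with h | h <;> rw [h] at h1 <;> norm_num at h1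
    · intro h2
      exact hl (hθinj (h2.trans hj.symm))
  -- the constant y
  set y : ℤ := b z (θ z) + ε with hy
  have hbz : ∀ k, k ≠ z → b z (θ k) = y := by
    intro k hk
    have h1 := hbt z k z
    rw [if_pos rfl, if_neg (Ne.symm hk)] at h1
    have h2 : ε * (ε * (b z (θ k) - b z (θ z))) = ε * (1 - 0) := by rw [h1]
    rw [← mul_assoc, hε2, one_mul] at h2
    rw [hy]
    linarith
  have hnorm := hbsum z
  -- split the sum
  let R : Finset (IrrCharacter G) := Finset.univ.image θ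
  have hR : ∀ χ, χ ∈ R ↔ χ ∈ Set.range θ := by
    intro χ; simp [R]
  have honeR : one ∉ R := by
    rw [hR]; rintro ⟨j, hj⟩; exact hθone j hj
  have hsumR : ∀ (g : IrrCharacter G → ℤ), ∑ χ ∈ R, g χ = ∑ j : Fin s, g (θ j) := by
    intro g
    rw [Finset.sum_image (fun i _ j _ h => hθinj h)]
  have hsplit : ∑ χ ∈ R, b z χ ^ 2 + ∑ χ ∈ Rᶜ, b z χ ^ 2 = (e : ℤ) + 1 := by
    rw [Finset.sum_add_sum_compl]; exact hnorm
  have hRsum : ∑ χ ∈ R, b z χ ^ 2 = (y - ε) ^ 2 + (s - 1) * y ^ 2 := by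
    rw [hsumR, ← Finset.add_sum_erase _ _ (Finset.mem_univ z)]
    congr 1
    · rw [hy]; ring
    · rw [Finset.sum_congr rfl (fun k hk => by rw [hbz k (Finset.ne_of_mem_erase hk)]),
        Finset.sum_const, Finset.card_erase_of_mem (Finset.mem_univ z), Finset.card_univ,
        Fintype.card_fin, nsmul_eq_mul, Nat.cast_sub (by omega), Nat.cast_one]
  have hbzz : b z (θ z) = y - ε := by rw [hy]; ring
  -- degree of the exceptional characters
  obtain ⟨f, hf⟩ := exists_degree (isCharacter_of_isIrr (hθ0 z))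
  have hf' : ∀ j, θ0 j 1 = f := by
    intro j
    have h1 := congrFun (hβd z j) 1
    rw [Pi.sub_apply, beta_one hC hab (hlam z), beta_one hC hab (hlam j), sub_zero, Pi.smul_apply,
      Pi.sub_apply, smul_eq_mul] at h1
    have h2 : (ε : ℂ) ≠ 0 := by
      rcases hε with h | h <;> rw [h] <;> norm_num
    rcases mul_eq_zero.1 h1.symm with h3 | h3
    · exact absurd h3 h2
    · rw [sub_eq_zero.1 h3, hf]
  have hd' : ∀ χ : IrrCharacter G, (charDegree (χ : G → ℂ) : ℂ) = (χ : G → ℂ) 1 :=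
    fun χ => H82.Deg.coe_charDegree' χ
  refine ⟨⟨fun χ => if χ ∈ R then 0 else b z χ, ε, y, θ, f, hθinj, hε, ?_, ?_, hθone, ?_, ?_,
    ?_, ?_⟩⟩
  · intro j
    exact if_pos ((hR _).2 ⟨j, rfl⟩)
  · change (if one ∈ R then 0 else b z one) = 1
    rw [if_neg honeR, hbone]
  · have h1 : ∑ χ, (if χ ∈ R then 0 else b z χ) ^ 2 = ∑ χ ∈ Rᶜ, b z χ ^ 2 := by
      rw [← Finset.sum_add_sum_compl R, Finset.sum_eq_zero (s := R), zero_add]
      · refine Finset.sum_congr rfl fun χ hχ => ?_
        rw [if_neg (Finset.mem_compl.1 hχ)]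
      · intro χ hχ
        rw [if_pos hχ]; norm_num
    rw [h1]
    rw [hRsum] at hsplit
    linarith
  · intro χ hχ
    have hχR : χ ∉ R := fun h => hχ ((hR χ).1 h)
    have hconst : ∀ lam' ∈ relS K, classInner (χ : G → ℂ) (beta K lam') = (b z χ : ℂ) := by
      intro ψ hψ
      obtain ⟨i, rfl⟩ := hlamsurj ψ hψ
      rw [← H18.CharOrtho.inner_conj_symm, hb i χ]
      have h1 := hbd i z χ
      rw [if_neg (fun h => hχ ⟨z, h⟩), if_neg (fun h => hχ ⟨i, h⟩), sub_zero, mul_zero] at h1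
      have h2 : b i χ = b z χ := by linarith
      rw [h2]
      simp
    obtain ⟨m, hm⟩ := (value_of_const (isCharacter_of_isIrr χ.2) _ hconst ⟨_, hlam z⟩ hC hab).2
    refine ⟨m, ?_⟩
    simp only [if_neg hχR]
    rw [← hd'] at hm
    exact_mod_cast hm
  · intro j
    have h1 := hf' j
    have h2 := hd' (θ j)
    rw [show (θ j : G → ℂ) 1 = θ0 j 1 from rfl, h1] at h2
    exact_mod_cast h2
  · have h1 : (beta K (lam z)) 1 = ∑ χ : IrrCharacter G, (b z χ : ℂ) * (χ : G → ℂ) 1 := by
      have h2 := mem_classFun_expand (isClassFunction_of_isGen (isGen_beta hC hab (hlam z)))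
      have h3 := congrFun h2 1
      rw [Finset.sum_apply] at h3
      rw [h3]
      refine Finset.sum_congr rfl fun χ _ => ?_
      rw [Pi.smul_apply, hb, smul_eq_mul]
    rw [beta_one hC hab (hlam z), ← Finset.sum_add_sum_compl R] at h1
    have h2 : ∑ χ ∈ R, (b z χ : ℂ) * (χ : G → ℂ) 1 = (s * y - ε) * f := by
      have h3 : ∑ χ ∈ R, (b z χ : ℂ) * (χ : G → ℂ) 1 =
          ∑ j : Fin s, (b z (θ j) : ℂ) * (θ j : G → ℂ) 1 := by
        rw [Finset.sum_image (fun i _ j _ h => hθinj h)]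
      have h4 : ∀ k ∈ Finset.univ.erase z, (b z (θ k) : ℂ) * (θ k : G → ℂ) 1 = y * f := by
        intro k hk
        rw [hbz k (Finset.ne_of_mem_erase hk)]
        change (y : ℂ) * θ0 k 1 = _
        rw [hf']
      rw [h3, ← Finset.add_sum_erase _ _ (Finset.mem_univ z), Finset.sum_congr rfl h4,
        Finset.sum_const, Finset.card_erase_of_mem (Finset.mem_univ z), Finset.card_univ,
        Fintype.card_fin, nsmul_eq_mul, Nat.cast_sub (by omega), Nat.cast_one, hbzz]
      change ((y - ε : ℤ) : ℂ) * θ0 z 1 + _ = _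
      rw [hf']
      push_cast
      ring
    have h3 : ∑ χ : IrrCharacter G, ((if χ ∈ R then 0 else b z χ : ℤ) : ℂ) * (χ : G → ℂ) 1 =
        ∑ χ ∈ Rᶜ, (b z χ : ℂ) * (χ : G → ℂ) 1 := by
      rw [← Finset.sum_add_sum_compl R, Finset.sum_eq_zero (s := R), zero_add]
      · refine Finset.sum_congr rfl fun χ hχ => ?_
        rw [if_neg (Finset.mem_compl.1 hχ)]
      · intro χ hχ
        rw [if_pos hχ]; simp
    have h5 : ((∑ χ : IrrCharacter G, (if χ ∈ R then 0 else b z χ) *
        (charDegree (χ : G → ℂ) : ℤ) : ℤ) : ℂ) = (((ε - s * y) * f : ℤ) : ℂ) := by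
      push_cast
      have h6 : ∀ χ : IrrCharacter G, ((if χ ∈ R then 0 else (b z χ : ℂ)) *
          (charDegree (χ : G → ℂ) : ℂ)) = ((if χ ∈ R then 0 else b z χ : ℤ) : ℂ) * (χ : G → ℂ) 1 := by
        intro χ
        rw [hd']
        split_ifs <;> simp
      rw [Finset.sum_congr rfl fun χ _ => h6 χ, h3]
      rw [h2] at h1
      linear_combination -h1
    exact_mod_cast h5

end H82.TIChar
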