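import Mathlib
import Cfsg.Agent.Lib.H24.U3Syl

/-!
# Groups with Sylow 2-subgroups of type `U₃(2^n)`, part 1: the 2-groups
-/

set_option autoImplicit false
set_option linter.unusedVariables false
set_option linter.unusedSectionVars false

namespace H82.U3

/-- 2-groups of type `U₃(q)`, abstractly -/
structure Ty (P : Type*) [Group P] (q : ℕ) : Prop where
  inv : ∀ x : P, x * x = 1 → ∀ y, x * y = y * x
  cen : ∀ x : P, (∀ y, x * y = y * x) → x * x = 1
  four : ∀ x : P, x * x * (x * x) = 1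
  onto : ∀ z : P, z * z = 1 → ∃ x : P, x * x = z
  cab : ∀ x : P, x * x ≠ 1 → ∀ y z : P, x * y = y * x → x * z = z * x → y * z = z * y
  ccard : ∀ x : P, x * x ≠ 1 → Nat.card {y : P // x * y = y * x} = q ^ 2
  card : Nat.card P = q ^ 3
  cardZ : Nat.card {x : P // x * x = 1} = q

theorem Ty.congr {P Q : Type*} [Group P] [Group Q] {q : ℕ} (h : Ty P q) (e : P ≃* Q) : Ty Q q := by
  have hs : ∀ x : Q, x * x = 1 ↔ e.symm x * e.symm x = 1 := by
    intro x
    rw [← map_mul, map_eq_one_iff _ e.symm.injective]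
  have hc : ∀ x y : Q, x * y = y * x ↔ e.symm x * e.symm y = e.symm y * e.symm x := by
    intro x y
    rw [← map_mul, ← map_mul, e.symm.injective.eq_iff]
  refine ⟨?_, ?_, ?_, ?_, ?_, ?_, ?_, ?_⟩
  · intro x hx y
    exact (hc x y).2 (h.inv _ ((hs x).1 hx) _)
  · intro x hx
    refine (hs x).2 (h.cen _ fun y => ?_)
    have := (hc x (e y)).1 (hx (e y))
    rwa [e.symm_apply_apply] at this
  · intro x
    have := h.four (e.symm x)
    rwa [← map_mul, ← map_mul, map_eq_one_iff _ e.symm.injective] at this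
  · intro z hz
    obtain ⟨x, hx⟩ := h.onto _ ((hs z).1 hz)
    exact ⟨e x, by rw [← map_mul, hx, e.apply_symm_apply]⟩
  · intro x hx y z h1 h2
    exact (hc y z).2 (h.cab _ (fun h3 => hx ((hs x).2 h3)) _ _ ((hc x y).1 h1) ((hc x z).1 h2))
  · intro x hx
    rw [← h.ccard (e.symm x) (fun h3 => hx ((hs x).2 h3))]
    refine (Nat.card_congr (e.toEquiv.subtypeEquiv fun y => ?_)).symm
    change _ ↔ x * e y = e y * x
    rw [hc x (e y), e.symm_apply_apply]
  · rw [← h.card]
    exact (Nat.card_congr e.toEquiv).symm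
  · rw [← h.cardZ]
    refine (Nat.card_congr (e.toEquiv.subtypeEquiv fun y => ?_)).symm
    change _ ↔ e y * e y = 1
    rw [hs (e y), e.symm_apply_apply]

section model

open Cfsg Matrix H7.QuadExt H7.UnitSU H24.U3Syl

variable {K : Type*} [Field K] [Fintype K] {q : ℕ}

theorem ty_U (two : (2 : K) = 0) (hK : Fintype.card K = q ^ 2) : Ty (U two hK) q := by
  have hq1 := one_lt_q hK
  have hsq : ∀ a b : K, Good q a b → ∀ g : U two hK, (g : SL3 K) = u q a b → (g * g = 1 ↔ a = 0) := by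
    intro a b hab g hg
    rw [← invol_iff two hK (a := a) (b := b), ← hg]
    exact ⟨fun h => congrArg Subtype.val h, fun h => Subtype.ext h⟩
  have hcomm : ∀ a b c d : K, (u q a b * u q c d = u q c d * u q a b ↔ a ^ q * c = c ^ q * a) := by
    intro a b c d
    rw [u_mul hK, u_mul hK]
    constructor
    · intro h
      have := (u_inj h).2
      linear_combination this
    · intro h
      congr 1
      · ring
      · linear_combination h
  refine ⟨?_, ?_, ?_, ?_, ?_, ?_, card_U two hK, ?_⟩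
  · rintro ⟨_, a, b, hab, rfl⟩ hx ⟨_, c, d, hcd, rfl⟩
    have ha := (hsq a b hab _ rfl).1 hx
    apply Subtype.ext
    exact (central_iff two hK hab).2 ha c d hcd
  · rintro ⟨_, a, b, hab, rfl⟩ hx
    rw [hsq a b hab _ rfl, ← central_iff two hK hab]
    intro c d hcd
    exact congrArg Subtype.val (hx ⟨u q c d, c, d, hcd, rfl⟩)
  · rintro ⟨_, a, b, hab, rfl⟩
    apply Subtype.ext
    change u q a b * u q a b * (u q a b * u q a b) = 1
    rw [u_sq two hK, u_sq two hK, ← u_zero hK]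
    congr 1
    rw [zero_pow (by omega)]
  · rintro ⟨_, a, b, hab, rfl⟩ hx
    have ha := (hsq a b hab _ rfl).1 hx
    subst ha
    obtain ⟨c, hc⟩ := exists_norm_eq hK ((good_zero two).1 hab)
    obtain ⟨d, hd⟩ := exists_gt two hK c
    refine ⟨⟨u q c d, c, d, hd, rfl⟩, ?_⟩
    apply Subtype.ext
    change u q c d * u q c d = u q 0 b
    rw [u_sq two hK, hc]
  · rintro ⟨_, a, b, hab, rfl⟩ hx ⟨_, c, d, hcd, rfl⟩ ⟨_, c', d', hcd', rfl⟩ h1 h2
    have ha : a ≠ 0 := fun h => hx ((hsq a b hab _ rfl).2 h)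
    have h1' := (hcomm a b c d).1 (congrArg Subtype.val h1)
    have h2' := (hcomm a b c' d').1 (congrArg Subtype.val h2)
    apply Subtype.ext
    refine (hcomm c d c' d').2 ?_
    have ha2 : a ^ q ≠ 0 := pow_ne_zero _ ha
    apply mul_left_cancel₀ (mul_ne_zero ha2 ha)
    linear_combination (a ^ q * c') * (-h1') + (a ^ q * c) * h2'
  · rintro ⟨_, a, b, hab, rfl⟩ hx
    have ha : a ≠ 0 := fun h => hx ((hsq a b hab _ rfl).2 h)
    have e : (Σ c : {c : K // a ^ q * c = c ^ q * a}, {d : K // d + d ^ q = (c : K) ^ (q + 1)}) ≃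
        {y : U two hK // (⟨u q a b, a, b, hab, rfl⟩ : U two hK) * y = y * ⟨u q a b, a, b, hab, rfl⟩} :=
      Equiv.ofBijective (fun x => ⟨⟨u q x.1.1 x.2.1, x.1.1, x.2.1, x.2.2, rfl⟩,
        Subtype.ext ((hcomm a b x.1.1 x.2.1).2 x.1.2)⟩) (by
        constructor
        · rintro ⟨⟨c, hc⟩, d, hd⟩ ⟨⟨c', hc'⟩, d', hd'⟩ h
          obtain ⟨h1, h2⟩ := u_inj (congrArg (fun z => ((z : U two hK) : SL3 K)) (congrArg Subtype.val h))
          simp only at h1 h2
          subst h1; subst h2; rfl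
        · rintro ⟨⟨_, c, d, hcd, rfl⟩, h⟩
          exact ⟨⟨⟨c, (hcomm a b c d).1 (congrArg Subtype.val h)⟩, ⟨d, hcd⟩⟩, rfl⟩)
    haveI : Finite {c : K // a ^ q * c = c ^ q * a} := inferInstance
    have e2 : {c : K // a ^ q * c = c ^ q * a} ≃ {x : K // x ^ q = x} :=
      { toFun := fun c => ⟨c.1 / a, by
          have h := c.2
          rw [div_pow, div_eq_div_iff (pow_ne_zero _ ha) ha]
          linear_combination -h⟩
        invFun := fun x => ⟨x.1 * a, by
          have h := x.2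
          rw [mul_pow, h]; ring⟩
        left_inv := fun c => Subtype.ext (div_mul_cancel₀ _ ha)
        right_inv := fun x => Subtype.ext (mul_div_cancel_right₀ _ ha) }
    haveI : Fintype {c : K // a ^ q * c = c ^ q * a} := Fintype.ofFinite _
    rw [← Nat.card_congr e, Nat.card_sigma]
    have h3 : ∀ c : {c : K // a ^ q * c = c ^ q * a}, Nat.card {d : K // d + d ^ q = (c : K) ^ (q + 1)} = q :=
      fun c => trace_card two hK (norm_fixed hK c.1)
    simp only [h3]
    rw [Finset.sum_const, Finset.card_univ, ← Nat.card_eq_fintype_card, Nat.card_congr e2, card_fixed hK, smul_eq_mul,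
      sq]
  · refine Eq.trans ?_ (card_fixed hK)
    refine (Nat.card_congr (Equiv.ofBijective (fun x : {x : K // x ^ q = x} =>
      (⟨⟨u q 0 x.1, 0, x.1, (good_zero two).mpr x.2, rfl⟩, ?_⟩ : {x : U two hK // x * x = 1})) ⟨?_, ?_⟩)).symm
    · exact (hsq 0 x.1 ((good_zero two).mpr x.2) _ rfl).2 rfl
    · intro x y h
      have h1 := congrArg (fun z : {x : U two hK // x * x = 1} => ((z : U two hK) : SL3 K)) h
      exact Subtype.ext (u_inj h1).2
    · rintro ⟨⟨_, a, b, h, rfl⟩, hc⟩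
      have ha := (hsq a b h _ rfl).1 hc
      subst ha
      exact ⟨⟨b, (good_zero two).mp h⟩, rfl⟩

end model

/-- Sylow 2-subgroups of `PSU₃(2^n)` -/
theorem ty_psu {F : Type*} [Field F] [Fintype F] {n : ℕ} (hn : 2 ≤ n)
    (hF : Fintype.card F = (2 ^ n) ^ 2) (S : Sylow 2 (Cfsg.PSU 3 F (2 ^ n))) :
    Ty (S : Subgroup (Cfsg.PSU 3 F (2 ^ n))) (2 ^ n) := by
  have two : (2 : F) = 0 := by
    have h1 : ((2 ^ n) ^ 2 : F) = 0 := by
      have := Nat.cast_card_eq_zero F
      rw [hF] at this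
      exact_mod_cast this
    have h2 := pow_eq_zero_iff (two_ne_zero) |>.mp h1
    exact (pow_eq_zero_iff (by omega)).mp h2
  obtain ⟨e⟩ := H24.U3Syl.main two hF hn rfl S
  exact (ty_U two hF).congr e.symm

end H82.U3
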