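import Mathlib
import Cfsg.Agent.S0205
import Cfsg.Agent.Lib.H1.Cores
import Cfsg.Agent.Lib.H26.Components
import Cfsg.Agent.Lib.H26.GenFitting
import Cfsg.Agent.Lib.H26.Quasisimple
import Cfsg.Agent.Lib.H26.PxQ
import Cfsg.Agent.Lib.H51.SPE
import Cfsg.Agent.Lib.H5.PLocal
import Cfsg.Agent.Lib.H5.Dihedral
import Cfsg.Agent.Lib.H57.Bd1

/-!
# Groups with Sylow 2-subgroups of type `U₃(2^n)`, part 2: homocyclic Sylow 2-subgroups
-/

set_option autoImplicit false
set_option linter.unusedVariables false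
set_option linter.unusedSectionVars false
set_option linter.style.haveILetI false

namespace H82.U3

open Subgroup Cfsg

universe u

/-- the input on simple groups with abelian Sylow 2-subgroups and solvable involution centralizers -/
def LemE : Prop := ∀ (K : Type u) [Group K] [Finite K] [IsSimpleGroup K], (¬ IsMulCommutative K) →
  ∀ P : Sylow 2 K, (∀ a ∈ (P : Subgroup K), ∀ b ∈ (P : Subgroup K), a * b = b * a) →
    (∀ t : K, orderOf t = 2 → Group.IsSolvable ↥(centralizer ({t} : Set K))) →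
      ∀ x ∈ (P : Subgroup K), x * x = 1

theorem burn {X : Type*} [Group X] [Finite X] (Q : Sylow 2 X)
    (hQ : ∀ a ∈ (Q : Subgroup X), ∀ b ∈ (Q : Subgroup X), a * b = b * a) {b : X} (hb : b ∈ (Q : Subgroup X))
    (hN : ∀ n ∈ normalizer ((Q : Subgroup X) : Set X), n * b * n⁻¹ = b) (hX : b ∈ commutator X) : b = 1 := by
  haveI : Fact (Nat.Prime 2) := ⟨Nat.prime_two⟩
  let _i : CommGroup Q := { (inferInstance : Group Q) with
    mul_comm := fun a b => Subtype.ext (hQ a a.2 b b.2) }
  have h1 := MonoidHom.transfer_eq_pow (MonoidHom.id Q) b (by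
    intro k g hg
    haveI : IsMulCommutative (Q : Subgroup X) :=
      ⟨⟨fun a b => Subtype.ext (hQ a a.2 b b.2)⟩⟩
    obtain ⟨n, hn, he⟩ := Sylow.conj_eq_normalizer_conj_of_mem Q (b ^ k) g (Subgroup.pow_mem _ hb k) hg
    rw [he]
    have h3 := hN _ (Subgroup.inv_mem _ hn)
    rw [inv_inv] at h3
    have h4 : n⁻¹ * b ^ k * n = (n⁻¹ * b * n) ^ k := by
      have := (conj_pow (a := n⁻¹) (b := b) (i := k)).symm
      rwa [inv_inv] at this
    rw [h4, h3])
  have h2 : MonoidHom.transfer (MonoidHom.id Q) b = 1 :=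
    Abelianization.commutator_subset_ker _ hX
  rw [h2] at h1
  have h3 : b ^ (Q : Subgroup X).index = 1 := by
    have := congrArg Subtype.val h1
    exact this.symm
  obtain ⟨k, hk⟩ := Q.2 ⟨b, hb⟩
  have hk' : b ^ 2 ^ k = 1 := congrArg Subtype.val hk
  have h4 : Nat.Coprime ((Q : Subgroup X).index) (2 ^ k) :=
    Nat.Coprime.pow_right k ((Nat.Prime.coprime_iff_not_dvd Nat.prime_two).2 Q.not_dvd_index).symm
  rw [← orderOf_eq_one_iff]
  apply Nat.dvd_one.1
  rw [← h4]
  exact Nat.dvd_gcd (orderOf_dvd_of_pow_eq_one h3) (orderOf_dvd_of_pow_eq_one hk')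

theorem solvable_mono {G : Type*} [Group G] {A B : Subgroup G} (h : A ≤ B) (hB : Group.IsSolvable B) :
    Group.IsSolvable A := by
  haveI := hB
  exact Group.isSolvable_of_isSolvable_injective (Subgroup.inclusion_injective h)

theorem solvable_conj {G : Type*} [Group G] {t g : G}
    (h : Group.IsSolvable ↥(centralizer ({g * t * g⁻¹} : Set G))) :
    Group.IsSolvable ↥(centralizer ({t} : Set G)) := by
  let f : centralizer ({t} : Set G) →* centralizer ({g * t * g⁻¹} : Set G) :=
    ((MulAut.conj g).toMonoidHom.comp (centralizer ({t} : Set G)).subtype).codRestrict _ (by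
      rintro ⟨x, hx⟩
      rw [mem_centralizer_singleton_iff] at hx ⊢
      show g * x * g⁻¹ * (g * t * g⁻¹) = g * t * g⁻¹ * (g * x * g⁻¹)
      calc g * x * g⁻¹ * (g * t * g⁻¹) = g * (x * t) * g⁻¹ := by group
        _ = g * (t * x) * g⁻¹ := by rw [hx]
        _ = _ := by group)
  have hf : Function.Injective f := by
    intro x y hxy
    apply Subtype.ext
    have h1 : g * (x : G) * g⁻¹ = g * (y : G) * g⁻¹ := congrArg Subtype.val hxy
    exact mul_left_cancel (mul_right_cancel h1)
  exact Group.isSolvable_of_isSolvable_injective hf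

/-- every 2-element lies in an abelian Sylow subgroup of a subgroup -/
theorem sylow_sub' {G : Type*} [Group G] [Finite G] (S : Sylow 2 G)
    (hS : ∀ a ∈ (S : Subgroup G), ∀ b ∈ (S : Subgroup G), a * b = b * a) {K : Subgroup G} (T : Sylow 2 K) :
    ∀ a ∈ (T : Subgroup K), ∀ b ∈ (T : Subgroup K), a * b = b * a := by
  haveI : Fact (Nat.Prime 2) := ⟨Nat.prime_two⟩
  have hp : IsPGroup 2 ((T : Subgroup K).map K.subtype) := T.2.map _
  obtain ⟨P, hP⟩ := hp.exists_le_sylow
  obtain ⟨g, hg⟩ := MulAction.exists_smul_eq G P S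
  have hmem : ∀ a ∈ (T : Subgroup K), g * (a : G) * g⁻¹ ∈ (S : Subgroup G) := by
    intro a ha
    rw [← hg, Sylow.coe_subgroup_smul]
    exact Subgroup.smul_mem_pointwise_smul _ (MulAut.conj g) _ (hP ⟨a, ha, rfl⟩)
  intro a ha b hb
  apply Subtype.ext
  have h1 := hS _ (hmem a ha) _ (hmem b hb)
  have h2 : g * ((a : G) * b) * g⁻¹ = g * ((b : G) * a) * g⁻¹ := by
    calc g * ((a : G) * b) * g⁻¹ = g * (a : G) * g⁻¹ * (g * b * g⁻¹) := by group
      _ = g * b * g⁻¹ * (g * a * g⁻¹) := h1
      _ = g * ((b : G) * a) * g⁻¹ := by group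
  exact mul_left_cancel (mul_right_cancel h2)

/-- a component, when the group has abelian Sylow 2-subgroups -/
theorem exists_comp {G : Type u} [Group G] [Finite G] (S : Sylow 2 G)
    (hS : ∀ a ∈ (S : Subgroup G), ∀ b ∈ (S : Subgroup G), a * b = b * a)
    (hO : pPrimeCore 2 G = ⊥) (hns : ¬ Group.IsSolvable G) : ∃ K : Subgroup G, IsComponent K := by
  haveI : Fact (Nat.Prime 2) := ⟨Nat.prime_two⟩
  by_contra hcon
  push Not at hcon
  have hE : layer G = ⊥ := H26.Components.layer_eq_bot_iff.2 hcon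
  have h1 := H26.GenFitting.gFitting_eq_of_pPrimeCore_eq_bot hO
  rw [hE, bot_sup_eq] at h1
  have h2 := H26.GenFitting.gFitting_eq_pCore_iff.1 h1
  have h3 : pCore 2 G ≤ (S : Subgroup G) := H1.Cores.pCore_le_sylow S
  have h4 : (S : Subgroup G) ≤ pCore 2 G := by
    refine le_trans ?_ h2
    intro s hs
    rw [mem_centralizer_iff]
    intro r hr
    exact hS r (h3 hr) s hs
  have h5 : (S : Subgroup G) = pCore 2 G := le_antisymm h4 h3
  have h6 : (S : Subgroup G).Normal := by rw [h5]; infer_instance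
  apply hns
  have h7 : Group.IsSolvable (G ⧸ (S : Subgroup G)) := by
    apply Cfsg.Agent.S0205.result
    rw [← Nat.not_even_iff_odd, even_iff_two_dvd]
    exact S.not_dvd_index
  have h8 : Group.IsSolvable (S : Subgroup G) := by
    haveI := S.2.isNilpotent
    infer_instance
  exact Group.isSolvable_of_ker_le_range (S : Subgroup G).subtype (QuotientGroup.mk' (S : Subgroup G)) (by
    rw [QuotientGroup.ker_mk', Subgroup.range_subtype])

/-- **homocyclic Sylow 2-subgroups**, core-free -/
theorem lemC_core (hE : LemE.{u}) {D : Type u} [Group D] [Finite D] (T : Sylow 2 D)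
    (hT : ∀ a ∈ (T : Subgroup D), ∀ b ∈ (T : Subgroup D), a * b = b * a)
    (c1 : ∀ b ∈ (T : Subgroup D), b * b = 1 → ∃ c ∈ (T : Subgroup D), c * c = b)
    (c2 : ∀ b ∈ (T : Subgroup D), orderOf b = 2 →
      b ∈ center D ∨ Group.IsSolvable ↥(centralizer ({b} : Set D)))
    (hO : pPrimeCore 2 D = ⊥) : Group.IsSolvable D := by
  haveI : Fact (Nat.Prime 2) := ⟨Nat.prime_two⟩
  by_contra hns
  obtain ⟨K, hK⟩ := exists_comp T hT hO hns
  have hKns : ¬ Group.IsSolvable K := H26.Quasisimple.not_isSolvable hK.2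
  have h2K : 2 ∣ Nat.card K := by
    rw [← even_iff_two_dvd, ← Nat.not_odd_iff_even]
    exact fun ho => hKns (Cfsg.Agent.S0205.result ho)
  -- the centre of `K` is trivial
  have hcen : center K = ⊥ := by
    by_contra hne
    have h1 : K ⊓ centralizer (K : Set D) ≤ pCore 2 D := by
      rw [← H1.Cores.fittingSubgroup_eq_pCore_of 2 hO]
      exact (H26.GenFitting.component_centre_le_layer_centre hK).trans H26.GenFitting.centre_layer_le_fitting
    have h2 : (center K).map K.subtype ≤ pCore 2 D := by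
      refine le_trans ?_ h1
      rintro _ ⟨x, hx, rfl⟩
      refine mem_inf.2 ⟨x.2, mem_centralizer_iff.2 ?_⟩
      intro y hy
      exact congrArg Subtype.val (mem_center_iff.1 hx ⟨y, hy⟩)
    have h3 : IsPGroup 2 (center K) := by
      have h4 : IsPGroup 2 ((center K).map K.subtype) := (H1.Cores.isPGroup_pCore 2).to_le h2
      exact h4.of_equiv ((center K).equivMapOfInjective _ (Subgroup.subtype_injective K)).symm
    have h5 : 2 ∣ Nat.card (center K) := by
      obtain ⟨k, hk⟩ := IsPGroup.iff_card.mp h3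
      rw [hk]
      apply dvd_pow_self
      rintro rfl
      rw [pow_zero, Subgroup.card_eq_one] at hk
      exact hne hk
    obtain ⟨t, htZ, ht⟩ := H51.SPE.exists_order_p h5
    obtain ⟨Q, hQ⟩ := h3.exists_le_sylow
    have h6 : t = 1 := by
      refine burn Q (sylow_sub' T hT Q) (hQ htZ) ?_ ?_
      · intro n _
        rw [mem_center_iff.1 htZ n, mul_inv_cancel_right]
      · haveI := hK.2.1
        rw [Group.IsPerfect.commutator_eq_top]
        exact mem_top _
    rw [h6, orderOf_one] at ht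
    omega
  haveI hsim : IsSimpleGroup K := by
    haveI := hK.2.2
    have e : K ⧸ center K ≃* K :=
      (QuotientGroup.quotientMulEquivOfEq hcen).trans QuotientGroup.quotientBot
    exact e.symm.isSimpleGroup
  have hnc : ¬ IsMulCommutative K := by
    intro hc
    exact hKns (Group.isSolvable_of_comm fun a b => hc.is_comm.comm a b)
  -- involutions of `K` have solvable centralizers
  have hC : ∀ t ∈ K, orderOf t = 2 → Group.IsSolvable ↥(centralizer ({t} : Set D)) := by
    intro t htK ht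
    obtain ⟨g, hg⟩ := H5.PLocal.exists_conj_mem_sylow T ht
    rcases c2 _ hg (by rw [H5.Dihedral.orderOf_conj, ht]) with h | h
    · exfalso
      have h1 : t ∈ center D := by
        have h2 := (inferInstance : (center D).Normal).conj_mem _ h g⁻¹
        have h3 : g⁻¹ * (g * t * g⁻¹) * g⁻¹⁻¹ = t := by group
        rwa [h3] at h2
      have h4 : (⟨t, htK⟩ : K) ∈ center K := by
        rw [mem_center_iff]
        intro y
        exact Subtype.ext (mem_center_iff.1 h1 y)
      rw [hcen, mem_bot] at h4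
      have h5 : t = 1 := congrArg Subtype.val h4
      rw [h5, orderOf_one] at ht
      omega
    · exact solvable_conj h
  have hnorm : K.Normal := by
    have hcon : ∀ g : D, K.map (MulAut.conj g).toMonoidHom = K := by
      intro g
      have h1 : IsComponent (K.map (MulAut.conj g).toMonoidHom) := (H26.Components.map_conj_iff g).2 hK
      rcases H26.Components.eq_or_commutator_eq_bot hK h1 with h | h
      · exact h.symm
      · exfalso
        obtain ⟨t, htK, ht⟩ := H51.SPE.exists_order_p h2K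
        have h3 : orderOf (g * t * g⁻¹) = 2 := by rw [H5.Dihedral.orderOf_conj, ht]
        apply hKns
        refine solvable_mono ?_ (solvable_conj (g := g⁻¹) (t := g * t * g⁻¹) ?_)
        · intro k hk
          rw [mem_centralizer_singleton_iff]
          exact (mem_centralizer_iff.1 ((Subgroup.commutator_eq_bot_iff_le_centralizer.1 h) hk) _ ⟨t, htK, rfl⟩).symm
        · have h4 : g⁻¹ * (g * t * g⁻¹) * g⁻¹⁻¹ = t := by group
          rw [h4]
          exact hC t htK ht
    refine ⟨fun x hx g => ?_⟩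
    rw [← hcon g]
    exact ⟨x, hx, rfl⟩
  -- 2-elements of `K` have square one
  have hEl : ∀ x ∈ K, (∃ k, x ^ 2 ^ k = 1) → x * x = 1 := by
    intro x hx ⟨k, hk⟩
    have hp : IsPGroup 2 (zpowers (⟨x, hx⟩ : K)) := by
      rintro ⟨_, j, rfl⟩
      refine ⟨k, ?_⟩
      apply Subtype.ext
      apply Subtype.ext
      change (x ^ j) ^ 2 ^ k = 1
      rw [← zpow_natCast, ← zpow_mul, mul_comm, zpow_mul, zpow_natCast, hk, one_zpow]
    obtain ⟨Q, hQ⟩ := hp.exists_le_sylow
    have h1 := hE K hnc Q (sylow_sub' T hT Q) (by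
      intro t ht
      have h1 := hC (t : D) t.2 (by rw [Subgroup.orderOf_coe]; exact ht)
      let f : centralizer ({t} : Set K) →* centralizer ({(t : D)} : Set D) :=
        (K.subtype.comp (centralizer ({t} : Set K)).subtype).codRestrict _ (by
          rintro ⟨x, hx⟩
          rw [mem_centralizer_singleton_iff] at hx ⊢
          exact congrArg Subtype.val hx)
      have hf : Function.Injective f := by
        intro x y hxy
        apply Subtype.ext
        apply Subtype.ext
        exact congrArg (fun z : centralizer ({(t : D)} : Set D) => (z : D)) hxy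
      exact Group.isSolvable_of_isSolvable_injective hf) _ (hQ (mem_zpowers _))
    exact congrArg Subtype.val h1
  -- the contradiction
  obtain ⟨t, htK, ht⟩ := H51.SPE.exists_order_p h2K
  obtain ⟨g, hg⟩ := H5.PLocal.exists_conj_mem_sylow T ht
  set b := g * t * g⁻¹ with hb
  have hbK : b ∈ K := hnorm.conj_mem _ htK g
  have hbo : orderOf b = 2 := by rw [hb, H5.Dihedral.orderOf_conj, ht]
  obtain ⟨c, hcT, hc⟩ := c1 b hg (by rw [← pow_two, ← hbo, pow_orderOf_eq_one])
  have hc4 : c ^ 2 ^ 2 = 1 := by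
    have h1 : c ^ 2 ^ 2 = c * c * (c * c) := by
      rw [show (2 : ℕ) ^ 2 = 4 by norm_num, pow_succ, pow_succ, pow_two]; group
    rw [h1, hc, ← pow_two, ← hbo, pow_orderOf_eq_one]
  set X : Subgroup D := K ⊔ zpowers c with hX
  have hcX : c ∈ X := (le_sup_right : zpowers c ≤ X) (mem_zpowers c)
  have hKX : K ≤ X := le_sup_left
  set K' : Subgroup X := K.subgroupOf X with hK'
  have hq : ∀ x ∈ X, ∃ i : ℤ, (QuotientGroup.mk' K) x = (QuotientGroup.mk' K c) ^ i := by
    intro x hx
    obtain ⟨k, hk, _, ⟨i, rfl⟩, rfl⟩ := Subgroup.mem_sup_of_normal_left.1 hx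
    refine ⟨i, ?_⟩
    have h1 : QuotientGroup.mk' K k = 1 := (QuotientGroup.eq_one_iff k).2 hk
    change QuotientGroup.mk' K (k * c ^ i) = _
    rw [map_mul, h1, one_mul, map_zpow]
  have hXK : ∀ x y : X, x * y * x⁻¹ * y⁻¹ ∈ K' := by
    rintro ⟨x, hx⟩ ⟨y, hy⟩
    obtain ⟨i, hi⟩ := hq x hx
    obtain ⟨j, hj⟩ := hq y hy
    rw [hK', mem_subgroupOf]
    change x * y * x⁻¹ * y⁻¹ ∈ K
    rw [← QuotientGroup.eq_one_iff]
    change QuotientGroup.mk' K (x * y * x⁻¹ * y⁻¹) = 1
    rw [map_mul, map_mul, map_mul, map_inv, map_inv, hi, hj, ← zpow_add, ← zpow_neg, ← zpow_neg, ← zpow_add,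
      ← zpow_add, show i + j + -i + -j = 0 by ring, zpow_zero]
  have hp : IsPGroup 2 (zpowers (⟨c, hcX⟩ : X)) := by
    rintro ⟨_, j, rfl⟩
    refine ⟨2, ?_⟩
    apply Subtype.ext
    apply Subtype.ext
    change (c ^ j) ^ 2 ^ 2 = 1
    rw [← zpow_natCast, ← zpow_mul, mul_comm, zpow_mul, zpow_natCast, hc4, one_zpow]
  obtain ⟨Q, hQ⟩ := hp.exists_le_sylow
  have hQc := sylow_sub' T hT Q
  have hcQ : (⟨c, hcX⟩ : X) ∈ (Q : Subgroup X) := hQ (mem_zpowers _)
  have hbX : b ∈ X := hKX hbK
  have hbc : (⟨b, hbX⟩ : X) = ⟨c, hcX⟩ * ⟨c, hcX⟩ := Subtype.ext hc.symm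
  have hfin := burn Q hQc (b := ⟨b, hbX⟩) (by rw [hbc]; exact mul_mem hcQ hcQ) (by
    intro n hn
    set c' : X := ⟨c, hcX⟩ with hc'
    have h1 : n * c' * n⁻¹ ∈ (Q : Subgroup X) := (mem_normalizer_iff.1 hn c').1 hcQ
    set p : X := n * c' * n⁻¹ * c'⁻¹ with hp'
    have hpK : p ∈ K' := hXK n c'
    have hpQ : p ∈ (Q : Subgroup X) := mul_mem h1 (inv_mem hcQ)
    have hp2 : p * p = 1 := by
      obtain ⟨k, hk⟩ := Q.2 ⟨p, hpQ⟩
      have hk' : (p : D) ^ 2 ^ k = 1 := congrArg (fun z : (Q : Subgroup X) => ((z : X) : D)) hk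
      exact Subtype.ext (hEl (p : D) (mem_subgroupOf.1 hpK) ⟨k, hk'⟩)
    have h2 : n * c' * n⁻¹ = p * c' := by rw [hp']; group
    rw [hbc]
    calc n * (c' * c') * n⁻¹ = (n * c' * n⁻¹) * (n * c' * n⁻¹) := by group
      _ = p * c' * (p * c') := by rw [h2]
      _ = p * (c' * p) * c' := by group
      _ = p * (p * c') * c' := by rw [hQc c' hcQ p hpQ]
      _ = (p * p) * (c' * c') := by group
      _ = c' * c' := by rw [hp2, one_mul]) (by
    have h1 : (⟨b, hbK⟩ : K) ∈ commutator K := by
      haveI := hK.2.1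
      rw [Group.IsPerfect.commutator_eq_top]
      exact mem_top _
    have h2 : (commutator K).map (Subgroup.inclusion hKX) ≤ commutator X := by
      rw [_root_.commutator_def, _root_.commutator_def, Subgroup.map_commutator]
      exact Subgroup.commutator_mono le_top le_top
    exact h2 ⟨_, h1, rfl⟩)
  have h1 : b = 1 := congrArg Subtype.val hfin
  rw [h1, orderOf_one] at hbo
  omega

/-- lifting involutions from `G / O(G)` -/
theorem lift_inv {G : Type*} [Group G] [Finite G] (S : Sylow 2 G) {s : G} (hs : s ∈ (S : Subgroup G))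
    (h : (QuotientGroup.mk' (pPrimeCore 2 G)) s * (QuotientGroup.mk' (pPrimeCore 2 G)) s = 1) : s * s = 1 := by
  haveI : Fact (Nat.Prime 2) := ⟨Nat.prime_two⟩
  have hcop : (Nat.card (pPrimeCore 2 G)).Coprime 2 := H1.Cores.coprime_card_pPrimeCore 2
  have h2 : s * s ∈ pPrimeCore 2 G := by
    rw [← QuotientGroup.eq_one_iff]
    exact h
  obtain ⟨k, hk⟩ := S.2 ⟨s * s, mul_mem hs hs⟩
  have hk' : (s * s) ^ 2 ^ k = 1 := congrArg Subtype.val hk
  have h4 : orderOf (s * s) ∣ 2 ^ k := orderOf_dvd_of_pow_eq_one hk'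
  have h5 : orderOf (s * s) ∣ Nat.card (pPrimeCore 2 G) := Subgroup.orderOf_dvd_natCard _ h2
  have h6 : orderOf (s * s) = 1 := Nat.eq_one_of_dvd_coprimes (Nat.Coprime.pow_left k hcop.symm) h4 h5
  exact orderOf_eq_one_iff.1 h6

/-- centralizers of involutions in `G / O(G)` -/
theorem centralizer_quot {G : Type*} [Group G] [Finite G] {s : G} (hs : orderOf s = 2) :
    centralizer ({(QuotientGroup.mk' (pPrimeCore 2 G)) s} : Set (G ⧸ pPrimeCore 2 G)) =
      (centralizer {s}).map (QuotientGroup.mk' (pPrimeCore 2 G)) := by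
  haveI : Fact (Nat.Prime 2) := ⟨Nat.prime_two⟩
  set q := QuotientGroup.mk' (pPrimeCore 2 G) with hq
  have hcop : (Nat.card (pPrimeCore 2 G)).Coprime 2 := H1.Cores.coprime_card_pPrimeCore 2
  have h8 : ¬ 2 ∣ Nat.card (pPrimeCore 2 G) := (Nat.Prime.coprime_iff_not_dvd Nat.prime_two).1 hcop.symm
  have hp : IsPGroup 2 (zpowers s) := IsPGroup.of_card (n := 1) (by rw [Nat.card_zpowers, hs, pow_one])
  have h9 := H26.PxQ.map_centralizer_eq (p := 2) (A := zpowers s) (N := pPrimeCore 2 G) hp h8
  have h10 : centralizer ((zpowers s : Subgroup G) : Set G) = centralizer {s} := by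
    rw [zpowers_eq_closure, centralizer_closure]
  have h11 : centralizer (((zpowers s).map q : Subgroup _) : Set (G ⧸ pPrimeCore 2 G)) = centralizer {q s} := by
    rw [MonoidHom.map_zpowers, zpowers_eq_closure, centralizer_closure]
  rw [h10] at h9
  change centralizer (((zpowers s).map q : Subgroup _) : Set (G ⧸ pPrimeCore 2 G)) = (centralizer {s}).map q at h9
  rw [h11] at h9
  exact h9

/-- **homocyclic Sylow 2-subgroups** -/
theorem lemC (hE : LemE.{u}) {D : Type u} [Group D] [Finite D] (T : Sylow 2 D)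
    (hT : ∀ a ∈ (T : Subgroup D), ∀ b ∈ (T : Subgroup D), a * b = b * a)
    (c1 : ∀ b ∈ (T : Subgroup D), b * b = 1 → ∃ c ∈ (T : Subgroup D), c * c = b)
    (c2 : ∀ b ∈ (T : Subgroup D), orderOf b = 2 →
      b ∈ center D ∨ Group.IsSolvable ↥(centralizer ({b} : Set D))) : Group.IsSolvable D := by
  haveI : Fact (Nat.Prime 2) := ⟨Nat.prime_two⟩
  have hcop : (Nat.card (pPrimeCore 2 D)).Coprime 2 := H1.Cores.coprime_card_pPrimeCore 2
  have hOs : Group.IsSolvable (pPrimeCore 2 D) := Cfsg.Agent.S0205.result (Nat.coprime_two_right.1 hcop)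
  set q := QuotientGroup.mk' (pPrimeCore 2 D) with hq
  have hqs : Function.Surjective q := QuotientGroup.mk'_surjective _
  let T' : Sylow 2 (D ⧸ pPrimeCore 2 D) := T.mapSurjective hqs
  have hT' : (T' : Subgroup (D ⧸ pPrimeCore 2 D)) = (T : Subgroup D).map q := rfl
  have hfin : Group.IsSolvable (D ⧸ pPrimeCore 2 D) := by
    refine lemC_core hE T' ?_ ?_ ?_ (H1.Cores.pPrimeCore_quotient_pPrimeCore 2)
    · rw [hT']
      rintro _ ⟨a, ha, rfl⟩ _ ⟨b, hb, rfl⟩
      rw [← map_mul, ← map_mul, hT a ha b hb]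
    · rw [hT']
      rintro _ ⟨b, hb, rfl⟩ h
      obtain ⟨c, hc, hcb⟩ := c1 b hb (lift_inv T hb h)
      exact ⟨q c, ⟨c, hc, rfl⟩, by rw [← map_mul, hcb]⟩
    · rw [hT']
      rintro _ ⟨b, hb, rfl⟩ h
      have h2 : b * b = 1 := lift_inv T hb (by
        have := pow_orderOf_eq_one (q b)
        rw [h, pow_two] at this
        exact this)
      have hb2 : orderOf b = 2 := by
        refine orderOf_eq_prime (by rw [pow_two, h2]) ?_
        rintro rfl
        rw [map_one, orderOf_one] at h
        omega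
      rcases c2 b hb hb2 with h3 | h3
      · left
        rw [mem_center_iff]
        intro y
        obtain ⟨y, rfl⟩ := hqs y
        rw [← map_mul, ← map_mul, mem_center_iff.1 h3 y]
      · right
        have h4 := centralizer_quot hb2
        rw [h4]
        exact Group.isSolvable_of_surjective (q.subgroupMap_surjective (centralizer {b}))
  exact Group.isSolvable_of_ker_le_range (pPrimeCore 2 D).subtype (QuotientGroup.mk' (pPrimeCore 2 D)) (by
    rw [QuotientGroup.ker_mk', Subgroup.range_subtype])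

end H82.U3
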