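import Mathlib
import Cfsg.Agent.Lib.H71.NC2

/-!
# Groups with Sylow 2-subgroups of type `U₃(2^n)`, part 3: the functor lemma
-/

set_option autoImplicit false
set_option linter.unusedVariables false
set_option linter.unusedSectionVars false

open Subgroup Cfsg H27 H27.EquivSig
open scoped Pointwise

namespace H82.U3

variable {X : Type*} [Group X] [Finite X]

/-- **functor lemma**: an elementary abelian `A ≤ S`, with all involutions `e` of `S` in elementary abelian
groups of order at least 8 over `A`, and `C(e) ≤ O(C(e)) N(A)` -/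
theorem functor_lemma (hO : pPrimeCore 2 X = ⊥) (S : Sylow 2 X) (A : Subgroup X)
    (hA : IsElementaryAbelian 2 A) (hA4 : 4 ≤ Nat.card A) (hAS : A ≤ (S : Subgroup X))
    (hNS : normalizer ((S : Subgroup X) : Set X) ≤ normalizer (A : Set X))
    (h : Hyp 2 (H71.NC.th X))
    (hE : ∀ e ∈ (S : Subgroup X), orderOf e = 2 →
      ∃ E : Subgroup X, IsElementaryAbelian 2 E ∧ A ≤ E ∧ e ∈ E ∧ 8 ≤ Nat.card E)
    (hC : ∀ e ∈ (S : Subgroup X), orderOf e = 2 →
      centralizer ({e} : Set X) ≤ H71.NC.th X e ⊔ normalizer (A : Set X)) :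
    A.Normal ∨ ∃ M : Subgroup X, IsStronglyEmbedded M := by
  haveI : Fact (Nat.Prime 2) := ⟨Nat.prime_two⟩
  set W := EquivSig.W (H71.NC.th X) A with hW
  have hle : ∀ e ∈ (S : Subgroup X), orderOf e = 2 → H71.NC.th X e ≤ W := by
    intro e he heo
    obtain ⟨E, h1, h2, h3, h4⟩ := hE e he heo
    rw [hW, h.W_eq h1 (by norm_num; exact h4) h2 (by norm_num; exact hA4)]
    apply EquivSig.le_W h3
    rintro rfl
    rw [orderOf_one] at heo
    omega
  have hodd : ¬ 2 ∣ Nat.card W := by
    obtain ⟨a, ha, ha1⟩ : ∃ a ∈ A, a ≠ 1 := by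
      by_contra hcon
      push Not at hcon
      have : A = ⊥ := by rw [eq_bot_iff]; intro a ha; exact mem_bot.2 (hcon a ha)
      rw [this, Subgroup.card_bot] at hA4
      omega
    have hao : orderOf a = 2 := orderOf_eq_prime (hA.2 a ha) ha1
    obtain ⟨E, h1, h2, h3, h4⟩ := hE a (hAS ha) hao
    rw [hW, h.W_eq h1 (by norm_num; exact h4) h2 (by norm_num; exact hA4)]
    exact (h.main h1 (by norm_num; exact h4)).1
  have hNW : normalizer (A : Set X) ≤ normalizer (W : Set X) := by
    intro g hg
    rw [H11.SubnormalJoin.mem_normalizer_iff_conj] at hg ⊢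
    rw [hW, ← H71.NC.W_conj, hg]
  by_cases htop : W ⊔ normalizer (A : Set X) = ⊤
  · left
    have hWn : W.Normal := by
      rw [← normalizer_eq_top_iff, eq_top_iff, ← htop]
      exact sup_le le_normalizer hNW
    have hWb : W = ⊥ := by
      rw [eq_bot_iff, ← hO]
      exact H1.Cores.le_pPrimeCore hWn ((Nat.Prime.coprime_iff_not_dvd Nat.prime_two).2 hodd).symm
    rw [hWb, bot_sup_eq, normalizer_eq_top_iff] at htop
    exact htop
  · right
    refine ⟨W ⊔ normalizer (A : Set X), H71.NC.strEmb (S := S) htop (hNS.trans le_sup_right) ?_ ?_⟩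
    · intro h1
      rw [h1, le_bot_iff] at hAS
      rw [hAS, Subgroup.card_bot] at hA4
      omega
    · intro t ht hto
      have hSM : (S : Subgroup X) ≤ W ⊔ normalizer (A : Set X) := (le_normalizer.trans hNS).trans le_sup_right
      have htp : IsPGroup 2 (zpowers t) := IsPGroup.of_card (n := 1) (by
        rw [Nat.card_zpowers, hto, pow_one])
      obtain ⟨m, hm, htm⟩ := H11.FourCore.exists_conj_le_of_sylow_le S _ hSM (zpowers t) htp
        (by rw [zpowers_le]; exact ht)
      have hS : m⁻¹ * t * m ∈ (S : Subgroup X) := by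
        have := htm (mem_zpowers t)
        rwa [H1.SZ.mem_conj_smul] at this
      have ho : orderOf (m⁻¹ * t * m) = 2 := by
        have : m⁻¹ * t * m = MulAut.conj m⁻¹ t := by simp
        rw [this, MulEquiv.orderOf_eq, hto]
      have h1 := (hC _ hS ho).trans (sup_le_sup (hle _ hS ho) le_rfl)
      intro x hx
      rw [mem_centralizer_singleton_iff] at hx
      have h2 : m⁻¹ * x * m ∈ centralizer ({m⁻¹ * t * m} : Set X) := by
        rw [mem_centralizer_singleton_iff]
        calc m⁻¹ * x * m * (m⁻¹ * t * m) = m⁻¹ * (x * t) * m := by group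
          _ = m⁻¹ * (t * x) * m := by rw [hx]
          _ = _ := by group
      have h3 := h1 h2
      have h4 : x = m * (m⁻¹ * x * m) * m⁻¹ := by group
      rw [h4]
      exact mul_mem (mul_mem hm h3) (inv_mem hm)

end H82.U3
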