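import Mathlib
import Cfsg.Agent.Lib.H82.U3A
import Cfsg.Agent.Lib.H82.U3B
import Cfsg.Agent.Lib.H26.SolvBal
import Cfsg.Agent.Lib.H26.LocalFitting
import Cfsg.Agent.Lib.H27.LayerFree
import Cfsg.Agent.Lib.H59.PCons
import Cfsg.Agent.Lib.H75.Basic
import Cfsg.Agent.Lib.H25.StrEmb

/-!
# Groups with Sylow 2-subgroups of type `U₃(2^n)`, part 4: local structure
-/

set_option autoImplicit false
set_option linter.unusedVariables false
set_option linter.unusedSectionVars false
set_option linter.style.haveILetI false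

namespace H82.U3

open Subgroup Cfsg
open scoped Pointwise

universe u

section ty

variable {G : Type*} [Group G]

/-- type `U₃(q)` for subgroups, in terms of elements -/
structure TyG (S : Subgroup G) (q : ℕ) : Prop where
  inv : ∀ x ∈ S, x * x = 1 → ∀ y ∈ S, x * y = y * x
  cen : ∀ x ∈ S, (∀ y ∈ S, x * y = y * x) → x * x = 1
  four : ∀ x ∈ S, x * x * (x * x) = 1
  onto : ∀ z ∈ S, z * z = 1 → ∃ x ∈ S, x * x = z
  cab : ∀ x ∈ S, x * x ≠ 1 → ∀ y ∈ S, ∀ z ∈ S, x * y = y * x → x * z = z * x → y * z = z * y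
  ccard : ∀ x ∈ S, x * x ≠ 1 → Nat.card (S ⊓ centralizer {x} : Subgroup G) = q ^ 2
  card : Nat.card S = q ^ 3
  cardZ : Nat.card {x : G // x ∈ S ∧ x * x = 1} = q

theorem Ty.toG {S : Subgroup G} {q : ℕ} (h : Ty S q) : TyG S q := by
  refine ⟨?_, ?_, ?_, ?_, ?_, ?_, h.card, ?_⟩
  · intro x hx hx2 y hy
    exact congrArg Subtype.val (h.inv ⟨x, hx⟩ (Subtype.ext hx2) ⟨y, hy⟩)
  · intro x hx hc
    exact congrArg Subtype.val (h.cen ⟨x, hx⟩ fun y => Subtype.ext (hc y y.2))
  · intro x hx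
    exact congrArg Subtype.val (h.four ⟨x, hx⟩)
  · intro z hz hz2
    obtain ⟨x, hx⟩ := h.onto ⟨z, hz⟩ (Subtype.ext hz2)
    exact ⟨x, x.2, congrArg Subtype.val hx⟩
  · intro x hx hx2 y hy z hz h1 h2
    exact congrArg Subtype.val (h.cab ⟨x, hx⟩ (fun h3 => hx2 (congrArg Subtype.val h3)) ⟨y, hy⟩ ⟨z, hz⟩
      (Subtype.ext h1) (Subtype.ext h2))
  · intro x hx hx2
    rw [← h.ccard ⟨x, hx⟩ (fun h3 => hx2 (congrArg Subtype.val h3))]
    refine Nat.card_congr ⟨fun y => ⟨⟨y.1, (mem_inf.1 y.2).1⟩, Subtype.ext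
      (mem_centralizer_singleton_iff.1 (mem_inf.1 y.2).2).symm⟩,
      fun y => ⟨y.1.1, mem_inf.2 ⟨y.1.2, mem_centralizer_singleton_iff.2
        (congrArg Subtype.val y.2).symm⟩⟩, fun y => rfl, fun y => rfl⟩
  · rw [← h.cardZ]
    exact Nat.card_congr ⟨fun y => ⟨⟨y.1, y.2.1⟩, Subtype.ext y.2.2⟩,
      fun y => ⟨y.1.1, y.1.2, congrArg Subtype.val y.2⟩, fun y => rfl, fun y => rfl⟩

/-- `Ω₁(S)` -/
def om (S : Subgroup G) : Subgroup G := closure {x | x ∈ S ∧ x * x = 1}

theorem TyG.mem_om {S : Subgroup G} {q : ℕ} (h : TyG S q) {x : G} : x ∈ om S ↔ x ∈ S ∧ x * x = 1 := by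
  constructor
  · intro hx
    refine closure_induction (p := fun x _ => x ∈ S ∧ x * x = 1) (fun x hx => hx) ⟨one_mem S, one_mul 1⟩ ?_ ?_ hx
    · rintro x y - - ⟨h1, h2⟩ ⟨h3, h4⟩
      refine ⟨mul_mem h1 h3, ?_⟩
      calc x * y * (x * y) = x * (y * x) * y := by group
        _ = x * (x * y) * y := by rw [h.inv x h1 h2 y h3]
        _ = (x * x) * (y * y) := by group
        _ = 1 := by rw [h2, h4, one_mul]
    · rintro x - ⟨h1, h2⟩
      refine ⟨inv_mem h1, ?_⟩
      rw [← mul_inv_rev, h2, inv_one]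
  · intro hx
    exact subset_closure hx

theorem TyG.om_le {S : Subgroup G} {q : ℕ} (h : TyG S q) : om S ≤ S := fun x hx => (h.mem_om.1 hx).1

theorem TyG.om_card {S : Subgroup G} {q : ℕ} (h : TyG S q) : Nat.card (om S) = q := by
  rw [← h.cardZ]
  exact Nat.card_congr (Equiv.subtypeEquivRight fun x => h.mem_om)

theorem TyG.om_comm {S : Subgroup G} {q : ℕ} (h : TyG S q) {x y : G} (hx : x ∈ om S) (hy : y ∈ S) :
    x * y = y * x := h.inv x (h.mem_om.1 hx).1 (h.mem_om.1 hx).2 y hy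

theorem TyG.sq_mem {S : Subgroup G} {q : ℕ} (h : TyG S q) {x : G} (hx : x ∈ S) : x * x ∈ om S :=
  h.mem_om.2 ⟨mul_mem hx hx, h.four x hx⟩

variable [Finite G]

theorem TyG.normalizer_le {S T : Subgroup G} {q : ℕ} (h : TyG S q) (h1 : om S ≤ T) (h2 : T ≤ S) :
    normalizer (T : Set G) ≤ normalizer (om S : Set G) := by
  intro g hg
  apply H75.Basic.mem_normalizer_of_conj_mem
  intro x hx
  rw [h.mem_om]
  refine ⟨h2 ((mem_normalizer_iff.1 hg x).1 (h1 hx)), ?_⟩
  have : g * x * g⁻¹ * (g * x * g⁻¹) = g * (x * x) * g⁻¹ := by group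
  rw [this, (h.mem_om.1 hx).2, mul_one, mul_inv_cancel]

theorem Ty.sylow {S : Sylow 2 G} {q : ℕ} (h : Ty (S : Subgroup G) q) (P : Sylow 2 G) : Ty (P : Subgroup G) q := by
  haveI : Fact (Nat.Prime 2) := ⟨Nat.prime_two⟩
  exact h.congr (Sylow.equiv S P)

/-- the centralizer in `S` of an element of order four -/
theorem TyG.cent {S : Subgroup G} {q : ℕ} (hq : 0 < q) (h : TyG S q) {y : G} (hy : y ∈ S) (hy2 : y * y ≠ 1) :
    (∀ a ∈ (S ⊓ centralizer {y} : Subgroup G), ∀ b ∈ (S ⊓ centralizer {y} : Subgroup G), a * b = b * a) ∧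
      om S ≤ S ⊓ centralizer {y} ∧
        ∀ z ∈ om S, ∃ x ∈ (S ⊓ centralizer {y} : Subgroup G), x * x = z := by
  have h1 : ∀ a ∈ (S ⊓ centralizer {y} : Subgroup G), ∀ b ∈ (S ⊓ centralizer {y} : Subgroup G),
      a * b = b * a := by
    intro a ha b hb
    obtain ⟨ha1, ha2⟩ := mem_inf.1 ha
    obtain ⟨hb1, hb2⟩ := mem_inf.1 hb
    rw [mem_centralizer_singleton_iff] at ha2 hb2
    exact h.cab y hy hy2 a ha1 b hb1 ha2.symm hb2.symm
  have h2 : om S ≤ S ⊓ centralizer {y} := by
    intro x hx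
    exact mem_inf.2 ⟨h.om_le hx, mem_centralizer_singleton_iff.2 (h.om_comm hx hy)⟩
  refine ⟨h1, h2, ?_⟩
  set T : Subgroup G := S ⊓ centralizer {y} with hT
  let f : T →* G :=
    { toFun := fun x => (x : G) * x
      map_one' := one_mul 1
      map_mul' := by
        intro a b
        change (a : G) * b * (a * b) = a * a * (b * b)
        calc (a : G) * b * (a * b) = a * (b * a) * b := by group
          _ = a * (a * b) * b := by rw [h1 a a.2 b b.2]
          _ = a * a * (b * b) := by group }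
  have hker : f.ker = (om S).subgroupOf T := by
    ext x
    rw [MonoidHom.mem_ker, mem_subgroupOf, h.mem_om]
    exact ⟨fun h3 => ⟨(mem_inf.1 x.2).1, h3⟩, fun h3 => h3.2⟩
  have hr : f.range ≤ om S := by
    rintro _ ⟨x, rfl⟩
    exact h.sq_mem (mem_inf.1 x.2).1
  have hc1 : Nat.card f.ker = q := by
    rw [hker, Nat.card_congr (subgroupOfEquivOfLe h2).toEquiv, h.om_card]
  have hc2 : Nat.card f.ker * Nat.card f.range = q ^ 2 := by
    rw [← Subgroup.index_ker, Subgroup.card_mul_index]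
    exact h.ccard y hy hy2
  have hc3 : Nat.card f.range = q := by
    rw [hc1, pow_two] at hc2
    exact Nat.eq_of_mul_eq_mul_left hq hc2
  have hr2 : f.range = om S := Subgroup.eq_of_le_of_card_ge hr (by rw [hc3, h.om_card])
  intro z hz
  rw [← hr2] at hz
  obtain ⟨x, hx⟩ := hz
  exact ⟨x, x.2, hx⟩

end ty

/-- a solvable group with abelian Sylow 2-subgroup: Frattini -/
theorem frat {H : Type*} [Group H] [Finite H] (hs : Group.IsSolvable H) (P : Sylow 2 H)
    (hP : ∀ a ∈ (P : Subgroup H), ∀ b ∈ (P : Subgroup H), a * b = b * a) :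
    pPrimeCore 2 H ⊔ normalizer ((P : Subgroup H) : Set H) = ⊤ := by
  haveI : Fact (Nat.Prime 2) := ⟨Nat.prime_two⟩
  set N := pPrimeCore 2 H with hN
  have hqs : Function.Surjective (QuotientGroup.mk' N) := QuotientGroup.mk'_surjective N
  set R := pCore 2 (H ⧸ N) with hR
  have hCR : centralizer (R : Set (H ⧸ N)) ≤ R := H26.SolvBal.centralizer_pCore_quotient_le_of_isSolvable hs
  have hRP : R ≤ (P : Subgroup H).map (QuotientGroup.mk' N) := H1.Cores.pCore_le_sylow (P.mapSurjective hqs)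
  have hPR : (P : Subgroup H).map (QuotientGroup.mk' N) ≤ R := by
    refine le_trans ?_ hCR
    rintro _ ⟨x, hx, rfl⟩
    rw [mem_centralizer_iff]
    intro r hr
    obtain ⟨y, hy, rfl⟩ := hRP hr
    rw [← map_mul, ← map_mul, hP x hx y hy]
  have heq : (P : Subgroup H).map (QuotientGroup.mk' N) = R := le_antisymm hPR hRP
  set K := R.comap (QuotientGroup.mk' N) with hK
  haveI hKn : K.Normal := Subgroup.Normal.comap inferInstance _
  have hPK : (P : Subgroup H) ≤ K := by
    intro x hx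
    rw [hK, Subgroup.mem_comap, ← heq]
    exact ⟨x, hx, rfl⟩
  have h1 := Sylow.normalizer_sup_eq_top' P hPK
  have h2 : K = (P : Subgroup H) ⊔ N := by
    rw [hK, ← heq, Subgroup.comap_map_eq, QuotientGroup.ker_mk']
  rw [h2] at h1
  rw [eq_top_iff, ← h1]
  refine sup_le le_sup_right (sup_le ?_ le_sup_left)
  exact le_normalizer.trans le_sup_right

/-- solvable groups are 2-constrained -/
theorem pcons {X : Type*} [Group X] [Finite X] (hs : Group.IsSolvable X) : IsPConstrained 2 X := by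
  haveI : Fact (Nat.Prime 2) := ⟨Nat.prime_two⟩
  rw [H59.PCons.isPConstrained_iff]
  exact H59.CharP.charP_of_centralizer_pCore_le (H26.SolvBal.centralizer_pCore_quotient_le_of_isSolvable hs)

theorem pcons_all {X : Type*} [Group X] [Finite X] (S : Sylow 2 X)
    (h : ∀ e ∈ (S : Subgroup X), orderOf e = 2 → Group.IsSolvable ↥(centralizer ({e} : Set X))) (t : X)
    (ht : orderOf t = 2) : Group.IsSolvable ↥(centralizer ({t} : Set X)) := by
  obtain ⟨g, hg⟩ := H5.PLocal.exists_conj_mem_sylow S ht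
  exact solvable_conj (h _ hg (by rw [H5.Dihedral.orderOf_conj, ht]))

/-- `G` with normal Sylow subgroup mod core is solvable -/
theorem solvable_of_top {H : Type*} [Group H] [Finite H] (P : Sylow 2 H)
    (h : pPrimeCore 2 H ⊔ normalizer ((P : Subgroup H) : Set H) = ⊤) : Group.IsSolvable H := by
  haveI : Fact (Nat.Prime 2) := ⟨Nat.prime_two⟩
  have hcop : (Nat.card (pPrimeCore 2 H)).Coprime 2 := H1.Cores.coprime_card_pPrimeCore 2
  have hOs : Group.IsSolvable (pPrimeCore 2 H) := Cfsg.Agent.S0205.result (Nat.coprime_two_right.1 hcop)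
  set q := QuotientGroup.mk' (pPrimeCore 2 H) with hq
  have hqs : Function.Surjective q := QuotientGroup.mk'_surjective _
  let T : Sylow 2 (H ⧸ pPrimeCore 2 H) := P.mapSurjective hqs
  have hT : (T : Subgroup (H ⧸ pPrimeCore 2 H)) = (P : Subgroup H).map q := rfl
  have hn : (T : Subgroup (H ⧸ pPrimeCore 2 H)).Normal := by
    rw [← normalizer_eq_top_iff, eq_top_iff, ← Subgroup.map_top_of_surjective q hqs, ← h, Subgroup.map_sup]
    refine sup_le ?_ ?_
    · rintro _ ⟨x, hx, rfl⟩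
      have : q x = 1 := (QuotientGroup.eq_one_iff x).2 hx
      rw [this]
      exact one_mem _
    · rintro _ ⟨x, hx, rfl⟩
      apply H75.Basic.mem_normalizer_of_conj_mem
      rw [hT]
      rintro _ ⟨y, hy, rfl⟩
      exact ⟨x * y * x⁻¹, (mem_normalizer_iff.1 hx y).1 hy, by rw [map_mul, map_mul, map_inv]⟩
  have h7 : Group.IsSolvable ((H ⧸ pPrimeCore 2 H) ⧸ (T : Subgroup (H ⧸ pPrimeCore 2 H))) := by
    apply Cfsg.Agent.S0205.result
    rw [← Nat.not_even_iff_odd, even_iff_two_dvd]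
    exact T.not_dvd_index
  have h8 : Group.IsSolvable (T : Subgroup (H ⧸ pPrimeCore 2 H)) := by
    haveI := T.2.isNilpotent
    infer_instance
  have h9 : Group.IsSolvable (H ⧸ pPrimeCore 2 H) :=
    Group.isSolvable_of_ker_le_range (T : Subgroup (H ⧸ pPrimeCore 2 H)).subtype
      (QuotientGroup.mk' (T : Subgroup (H ⧸ pPrimeCore 2 H))) (by
        rw [QuotientGroup.ker_mk', Subgroup.range_subtype])
  exact Group.isSolvable_of_ker_le_range (pPrimeCore 2 H).subtype (QuotientGroup.mk' (pPrimeCore 2 H)) (by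
    rw [QuotientGroup.ker_mk', Subgroup.range_subtype])

/-- local structure of the centralizer of `e` -/
structure Loc {G : Type*} [Group G] (S : Subgroup G) (e : G) (T : Subgroup G) : Prop where
  le : T ≤ S
  om : om S ≤ T
  cen : T ≤ centralizer {e}
  syl : ∃ P : Sylow 2 (centralizer ({e} : Set G)), (P : Subgroup (centralizer ({e} : Set G))) =
    T.subgroupOf (centralizer {e})
  sol : Group.IsSolvable ↥(centralizer ({e} : Set G))
  top : centralizer ({e} : Set G) ≤ centralizerPPrimeCore 2 e ⊔ normalizer (T : Set G)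

/-- from the internal Frattini form -/
theorem cent_le_of_top {G : Type*} [Group G] [Finite G] {e : G} {T : Subgroup G} (hT : T ≤ centralizer {e})
    (h : pPrimeCore 2 (centralizer ({e} : Set G)) ⊔
      normalizer ((T.subgroupOf (centralizer {e}) : Subgroup (centralizer ({e} : Set G))) : Set _) = ⊤) :
    centralizer ({e} : Set G) ≤ centralizerPPrimeCore 2 e ⊔ normalizer (T : Set G) := by
  have h2 : (⊤ : Subgroup (centralizer ({e} : Set G))).map (centralizer ({e} : Set G)).subtype =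
      centralizer {e} := by rw [← MonoidHom.range_eq_map, Subgroup.range_subtype]
  conv_lhs => rw [← h2, ← h, Subgroup.map_sup]
  refine sup_le_sup le_rfl ?_
  rintro _ ⟨x, hx, rfl⟩
  apply H75.Basic.mem_normalizer_of_conj_mem
  intro y hy
  have := (mem_normalizer_iff.1 hx ⟨y, hT hy⟩).1 (by rw [Subgroup.mem_subgroupOf]; exact hy)
  rw [Subgroup.mem_subgroupOf] at this
  exact this

end H82.U3
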