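import Mathlib
import Cfsg.Agent.Lib.H82.U3D

/-!
# Groups with Sylow 2-subgroups of type `U₃(2^n)`, part 5: centralizers in central quotients
-/

set_option autoImplicit false
set_option linter.unusedVariables false
set_option linter.unusedSectionVars false
set_option linter.style.haveILetI false

namespace H82.U3

open Subgroup Cfsg
open scoped Pointwise

universe u

theorem loc_a {G : Type u} [Group G] [Finite G] {S : Sylow 2 G} {q : ℕ} (h : Ty (S : Subgroup G) q)
    {e : G} (he : e ∈ om (S : Subgroup G))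
    (hA : ∀ P : Sylow 2 (centralizer ({e} : Set G)), Ty (P : Subgroup (centralizer ({e} : Set G))) q →
      pPrimeCore 2 (centralizer ({e} : Set G)) ⊔
        normalizer ((P : Subgroup (centralizer ({e} : Set G))) : Set (centralizer ({e} : Set G))) = ⊤) :
    Loc (S : Subgroup G) e (S : Subgroup G) := by
  haveI : Fact (Nat.Prime 2) := ⟨Nat.prime_two⟩
  have hle : (S : Subgroup G) ≤ centralizer {e} := by
    intro x hx
    rw [mem_centralizer_singleton_iff]
    exact (h.toG.om_comm he hx).symm
  have hP : ((S.subtype hle : Sylow 2 (centralizer ({e} : Set G))) : Subgroup (centralizer ({e} : Set G))) =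
      (S : Subgroup G).subgroupOf (centralizer {e}) := Sylow.coe_subtype _ _
  have hty : Ty ((S.subtype hle : Sylow 2 (centralizer ({e} : Set G))) : Subgroup (centralizer ({e} : Set G))) q := by
    rw [hP]
    exact h.congr (subgroupOfEquivOfLe hle).symm
  have htop := hA (S.subtype hle) hty
  refine ⟨le_rfl, h.toG.om_le, hle, ⟨S.subtype hle, hP⟩, solvable_of_top _ htop, ?_⟩
  refine cent_le_of_top hle ?_
  rw [← hP]
  exact htop

theorem loc_b (hE : LemE.{u}) {G : Type u} [Group G] [Finite G] {S : Sylow 2 G} {q : ℕ} (hq : 0 < q)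
    (h : Ty (S : Subgroup G) q) {y : G} (hy : y ∈ (S : Subgroup G)) (hy2 : y * y ≠ 1)
    (hc : ∀ b ∈ om (S : Subgroup G), b ≠ 1 → b ∈ center G ∨ Group.IsSolvable ↥(centralizer ({b} : Set G))) :
    Loc (S : Subgroup G) y ((S : Subgroup G) ⊓ centralizer {y}) := by
  haveI : Fact (Nat.Prime 2) := ⟨Nat.prime_two⟩
  obtain ⟨h1, h2, h3⟩ := h.toG.cent hq hy hy2
  set T : Subgroup G := (S : Subgroup G) ⊓ centralizer {y} with hT
  set C := centralizer ({y} : Set G) with hC
  have hTC : T ≤ C := inf_le_right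
  have hTp : IsPGroup 2 (T.subgroupOf C) := by
    have h4 : IsPGroup 2 T := S.2.to_le inf_le_left
    exact h4.of_equiv (subgroupOfEquivOfLe hTC).symm
  obtain ⟨Q, hQ⟩ := hTp.exists_le_sylow
  have hQp : IsPGroup 2 ((Q : Subgroup C).map C.subtype) := Q.2.map _
  obtain ⟨P, hP⟩ := hQp.exists_le_sylow
  have hyT : y ∈ T := mem_inf.2 ⟨hy, mem_centralizer_singleton_iff.2 rfl⟩
  have hyP : y ∈ (P : Subgroup G) := hP ⟨⟨y, hTC hyT⟩, hQ (mem_subgroupOf.2 hyT), rfl⟩
  have hcard : Nat.card Q ≤ Nat.card (T.subgroupOf C) := by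
    have e1 : Nat.card (T.subgroupOf C) = q ^ 2 := by
      rw [Nat.card_congr (subgroupOfEquivOfLe hTC).toEquiv]
      exact h.toG.ccard y hy hy2
    have e2 : Nat.card Q = Nat.card ((Q : Subgroup C).map C.subtype) :=
      (Subgroup.card_map_of_injective C.subtype_injective).symm
    rw [e1, e2, ← (h.sylow P).toG.ccard y hyP hy2]
    apply Subgroup.card_le_of_le
    refine le_inf hP ?_
    rintro _ ⟨x, hx, rfl⟩
    exact x.2
  have hQT : T.subgroupOf C = (Q : Subgroup C) := Subgroup.eq_of_le_of_card_ge hQ hcard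
  have hcomm : ∀ a ∈ (Q : Subgroup C), ∀ b ∈ (Q : Subgroup C), a * b = b * a := by
    rw [← hQT]
    intro a ha b hb
    exact Subtype.ext (h1 a (mem_subgroupOf.1 ha) b (mem_subgroupOf.1 hb))
  have hs : Group.IsSolvable C := by
    refine lemC hE Q hcomm ?_ ?_
    · rw [← hQT]
      intro b hb hb2
      have h5 : (b : G) ∈ om (S : Subgroup G) := h.toG.mem_om.2
        ⟨(mem_inf.1 (mem_subgroupOf.1 hb)).1, congrArg Subtype.val hb2⟩
      obtain ⟨c, hc1, hc2⟩ := h3 _ h5
      exact ⟨⟨c, hTC hc1⟩, mem_subgroupOf.2 hc1, Subtype.ext hc2⟩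
    · rw [← hQT]
      intro b hb hb2
      have h4 : b * b = 1 := by rw [← pow_two, ← hb2, pow_orderOf_eq_one]
      have h5 : (b : G) ∈ om (S : Subgroup G) := h.toG.mem_om.2
        ⟨(mem_inf.1 (mem_subgroupOf.1 hb)).1, congrArg Subtype.val h4⟩
      have h6 : (b : G) ≠ 1 := by
        intro h7
        have : b = 1 := Subtype.ext h7
        rw [this, orderOf_one] at hb2
        omega
      rcases hc _ h5 h6 with h7 | h7
      · left
        rw [mem_center_iff]
        intro g
        exact Subtype.ext (mem_center_iff.1 h7 g)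
      · right
        let f : centralizer ({b} : Set C) →* centralizer ({(b : G)} : Set G) :=
          (C.subtype.comp (centralizer ({b} : Set C)).subtype).codRestrict _ (by
            rintro ⟨x, hx⟩
            rw [mem_centralizer_singleton_iff] at hx ⊢
            exact congrArg Subtype.val hx)
        have hf : Function.Injective f := by
          intro x y hxy
          apply Subtype.ext
          apply Subtype.ext
          exact congrArg (fun z : centralizer ({(b : G)} : Set G) => (z : G)) hxy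
        exact Group.isSolvable_of_isSolvable_injective hf
  refine ⟨inf_le_left, h2, hTC, ⟨Q, hQT.symm⟩, hs, ?_⟩
  refine cent_le_of_top hTC ?_
  rw [← hC, hQT]
  exact frat hs Q hcomm

theorem centralizer_central_mul {G : Type*} [Group G] {z e : G} (hz : z ∈ center G) :
    centralizer ({z * e} : Set G) = centralizer {e} := by
  ext x
  rw [mem_centralizer_singleton_iff, mem_centralizer_singleton_iff]
  have h1 : x * z = z * x := mem_center_iff.1 hz x
  constructor
  · intro h
    apply mul_left_cancel (a := z)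
    calc z * (x * e) = (z * x) * e := by group
      _ = x * (z * e) := by rw [← h1]; group
      _ = z * (e * x) := by rw [h]; group
  · intro h
    calc x * (z * e) = (x * z) * e := by group
      _ = z * (x * e) := by rw [h1]; group
      _ = z * e * x := by rw [h]; group

/-- centralizers in central quotients -/
theorem loc_quot {G : Type*} [Group G] [Finite G] {S : Subgroup G} {e : G} {T : Subgroup G} (hL : Loc S e T)
    (Z : Subgroup G) [Z.Normal] (hZ : Z ≤ center G) :
    Group.IsSolvable ↥(centralizer ({QuotientGroup.mk' Z e} : Set (G ⧸ Z))) ∧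
      centralizer ({QuotientGroup.mk' Z e} : Set (G ⧸ Z)) ≤
        centralizerPPrimeCore 2 (QuotientGroup.mk' Z e) ⊔ (normalizer (T : Set G)).map (QuotientGroup.mk' Z) := by
  haveI : Fact (Nat.Prime 2) := ⟨Nat.prime_two⟩
  set m := QuotientGroup.mk' Z with hm
  have hms : Function.Surjective m := QuotientGroup.mk'_surjective Z
  set C := centralizer ({e} : Set G) with hC
  set K := centralizerPPrimeCore 2 e with hK
  set Cs := (centralizer ({m e} : Set (G ⧸ Z))).comap m with hCs
  have hmap : Cs.map m = centralizer ({m e} : Set (G ⧸ Z)) := Subgroup.map_comap_eq_self_of_surjective hms _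
  have hKC : K ≤ C := Subgroup.map_subtype_le _
  have hz : ∀ g ∈ Cs, ∃ z ∈ Z, g * e * g⁻¹ = z * e := by
    intro g hg
    rw [hCs, mem_comap, mem_centralizer_singleton_iff] at hg
    refine ⟨g * e * g⁻¹ * e⁻¹, ?_, by group⟩
    rw [← QuotientGroup.eq_one_iff]
    change m (g * e * g⁻¹ * e⁻¹) = 1
    rw [map_mul, map_mul, map_mul, map_inv, map_inv, hg]
    group
  have hCg : ∀ g ∈ Cs, centralizer ({g * e * g⁻¹} : Set G) = C := by
    intro g hg
    obtain ⟨z, hz1, hz2⟩ := hz g hg
    rw [hz2, centralizer_central_mul (hZ hz1)]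
  have hconjC : ∀ g ∈ Cs, ∀ x ∈ C, g * x * g⁻¹ ∈ C := by
    intro g hg x hx
    rw [← hCg g hg, mem_centralizer_singleton_iff]
    rw [hC, mem_centralizer_singleton_iff] at hx
    calc g * x * g⁻¹ * (g * e * g⁻¹) = g * (x * e) * g⁻¹ := by group
      _ = g * (e * x) * g⁻¹ := by rw [hx]
      _ = _ := by group
  have hKg : ∀ g ∈ Cs, ∀ x ∈ K, g * x * g⁻¹ ∈ K := by
    intro g hg x hx
    have h1 : centralizerPPrimeCore 2 (g * e * g⁻¹) = K := by
      rw [hK, centralizerPPrimeCore, hCg g hg]
      rfl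
    rw [← h1, H27.LayerFree.core_equiv]
    exact ⟨x, hx, rfl⟩
  -- solvability
  have hsCs : Group.IsSolvable Cs := by
    let φ : Cs →* center G :=
      { toFun := fun g => ⟨(g : G) * e * (g : G)⁻¹ * e⁻¹, by
          obtain ⟨z, hz1, hz2⟩ := hz g g.2
          rw [hz2, mul_inv_cancel_right]
          exact hZ hz1⟩
        map_one' := by
          apply Subtype.ext
          change (1 : G) * e * (1 : G)⁻¹ * e⁻¹ = 1
          group
        map_mul' := by
          intro a b
          apply Subtype.ext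
          change ((a : G) * b) * e * ((a : G) * b)⁻¹ * e⁻¹ = (a : G) * e * (a : G)⁻¹ * e⁻¹ * (b * e * (b : G)⁻¹ * e⁻¹)
          obtain ⟨z, hz1, hz2⟩ := hz b b.2
          have h3 : (b : G) * e * (b : G)⁻¹ * e⁻¹ = z := by rw [hz2, mul_inv_cancel_right]
          have h4 := mem_center_iff.1 (hZ hz1)
          rw [h3]
          calc ((a : G) * b) * e * ((a : G) * b)⁻¹ * e⁻¹ = a * (b * e * (b : G)⁻¹) * (a : G)⁻¹ * e⁻¹ := by group
            _ = a * z * (e * (a : G)⁻¹ * e⁻¹) := by rw [hz2]; group
            _ = (a : G) * (z * (e * (a : G)⁻¹ * e⁻¹)) := by group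
            _ = (a : G) * ((e * (a : G)⁻¹ * e⁻¹) * z) := by rw [h4]
            _ = (a : G) * e * (a : G)⁻¹ * e⁻¹ * z := by group }
    have hCC : C ≤ Cs := by
      intro x hx
      rw [hCs, mem_comap, mem_centralizer_singleton_iff, ← map_mul, ← map_mul]
      rw [hC, mem_centralizer_singleton_iff] at hx
      rw [hx]
    haveI := hL.sol
    haveI : Group.IsSolvable (center G) := Group.isSolvable_of_comm fun a b => Subtype.ext (mem_center_iff.1 b.2 a)
    refine Group.isSolvable_of_ker_le_range (Subgroup.inclusion hCC) φ ?_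
    intro x hx
    rw [MonoidHom.mem_ker] at hx
    have h5 : (x : G) * e * (x : G)⁻¹ * e⁻¹ = 1 := congrArg Subtype.val hx
    have h6 : (x : G) ∈ C := by
      rw [hC, mem_centralizer_singleton_iff]
      have h7 : (x : G) * e * (x : G)⁻¹ = e := mul_inv_eq_one.1 h5
      calc (x : G) * e = (x : G) * e * (x : G)⁻¹ * x := by group
        _ = e * x := by rw [h7]
    exact ⟨⟨x, h6⟩, Subtype.ext rfl⟩
  refine ⟨?_, ?_⟩
  · rw [← hmap]
    exact Group.isSolvable_of_surjective (m.subgroupMap_surjective Cs)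
  -- the Frattini argument
  have hfr : Cs ≤ K ⊔ normalizer (T : Set G) := by
    intro g hg
    obtain ⟨P, hP⟩ := hL.syl
    have hTg : ∀ x ∈ T, g * x * g⁻¹ ∈ C := fun x hx => hconjC g hg x (hL.cen hx)
    set T' : Subgroup G := T.map (MulAut.conj g).toMonoidHom with hT'
    have hT'C : T' ≤ C := by
      rintro _ ⟨x, hx, rfl⟩
      exact hTg x hx
    have hTp : IsPGroup 2 T := by
      have h3 : IsPGroup 2 (T.subgroupOf C) := by rw [← hP]; exact P.2
      exact h3.of_equiv (subgroupOfEquivOfLe hL.cen)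
    have hT'p : IsPGroup 2 (T'.subgroupOf C) := (hTp.map _).of_equiv (subgroupOfEquivOfLe hT'C).symm
    obtain ⟨Q, hQ⟩ := hT'p.exists_le_sylow
    obtain ⟨c, hc⟩ := MulAction.exists_smul_eq C Q P
    have hcg : ∀ x ∈ T, ((c : G) * g) * x * ((c : G) * g)⁻¹ ∈ T := by
      intro x hx
      have h4 : (⟨g * x * g⁻¹, hTg x hx⟩ : C) ∈ (Q : Subgroup C) := hQ (mem_subgroupOf.2 ⟨x, hx, rfl⟩)
      have h5 : c * ⟨g * x * g⁻¹, hTg x hx⟩ * c⁻¹ ∈ (P : Subgroup C) := by
        rw [← hc, Sylow.coe_subgroup_smul]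
        exact Subgroup.smul_mem_pointwise_smul _ (MulAut.conj c) _ h4
      rw [hP, mem_subgroupOf] at h5
      have h6 : ((c : G) * g) * x * ((c : G) * g)⁻¹ = (c : G) * (g * x * g⁻¹) * (c : G)⁻¹ := by group
      rw [h6]
      exact h5
    have h7 : (c : G) * g ∈ normalizer (T : Set G) := H75.Basic.mem_normalizer_of_conj_mem _ _ hcg
    have h8 : (c : G)⁻¹ ∈ K ⊔ normalizer (T : Set G) := hL.top (inv_mem c.2)
    have h9 : g = (c : G)⁻¹ * ((c : G) * g) := by group
    rw [h9]
    exact mul_mem h8 ((le_sup_right : normalizer (T : Set G) ≤ _) h7)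
  have hKle : K.map m ≤ centralizerPPrimeCore 2 (m e) := by
    have hKm : K.map m ≤ centralizer ({m e} : Set (G ⧸ Z)) := by
      rintro _ ⟨x, hx, rfl⟩
      rw [mem_centralizer_singleton_iff, ← map_mul, ← map_mul]
      have := hKC hx
      rw [hC, mem_centralizer_singleton_iff] at this
      rw [this]
    set D := centralizer ({m e} : Set (G ⧸ Z)) with hD
    have hn : ((K.map m).subgroupOf D).Normal := by
      refine ⟨?_⟩
      rintro ⟨_, hx'⟩ hx ⟨g, hg⟩
      rw [mem_subgroupOf] at hx
      obtain ⟨x, hxK, hx2⟩ := hx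
      obtain ⟨g, rfl⟩ := hms g
      rw [mem_subgroupOf]
      change m x = _ at hx2
      refine ⟨g * x * g⁻¹, hKg g hg x hxK, ?_⟩
      change m (g * x * g⁻¹) = m g * _ * (m g)⁻¹
      rw [map_mul, map_mul, map_inv, hx2]
    have hcop : (Nat.card ((K.map m).subgroupOf D)).Coprime 2 := by
      rw [Nat.card_congr (subgroupOfEquivOfLe hKm).toEquiv]
      exact Nat.Coprime.coprime_dvd_left (Subgroup.card_map_dvd K m) (H26.LocalFitting.card_ppc 2 _)
    have h10 := H1.Cores.le_pPrimeCore hn hcop
    intro x hx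
    exact ⟨⟨x, hKm hx⟩, h10 (mem_subgroupOf.2 hx), rfl⟩
  rw [← hmap]
  calc Cs.map m ≤ (K ⊔ normalizer (T : Set G)).map m := Subgroup.map_mono hfr
    _ = K.map m ⊔ (normalizer (T : Set G)).map m := Subgroup.map_sup _ _ _
    _ ≤ _ := sup_le_sup hKle le_rfl

end H82.U3
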