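import Mathlib
import Cfsg.Agent.Lib.H82.U3C
import Cfsg.Agent.Lib.H82.U3D2
import Cfsg.Agent.S0215

/-!
# Groups with Sylow 2-subgroups of type `U₃(2^n)`, part 6: a central involution
-/

set_option autoImplicit false
set_option linter.unusedVariables false
set_option linter.unusedSectionVars false
set_option linter.style.haveILetI false

namespace H82.U3

open Subgroup Cfsg
open scoped Pointwise

universe u

theorem core_quot_central {G : Type*} [Group G] [Finite G] {p : ℕ} [hp : Fact p.Prime]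
    (hO : pPrimeCore p G = ⊥) (Z : Subgroup G) [Z.Normal] (hZ : Z ≤ Subgroup.center G)
    (hZp : IsPGroup p Z) : pPrimeCore p (G ⧸ Z) = ⊥ := by
  set M := (pPrimeCore p (G ⧸ Z)).comap (QuotientGroup.mk' Z) with hM
  have : (pPrimeCore p (G ⧸ Z)).Characteristic := H1.Cores.pPrimeCore_characteristic p
  have hMn : M.Normal := by rw [hM]; exact inferInstance
  have hZM : Z ≤ M := by
    rw [hM]
    intro z hz
    rw [Subgroup.mem_comap]
    have : QuotientGroup.mk' Z z = 1 := (QuotientGroup.eq_one_iff z).mpr hz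
    rw [this]; exact one_mem _
  have hcardM : Nat.card M = Nat.card (pPrimeCore p (G ⧸ Z)) * Nat.card Z := by
    rw [hM, H1.Cores.card_comap_mk', mul_comm]
  have hZc : Nat.card (Z.subgroupOf M) = Nat.card Z := H1.SZ.card_subgroupOf_of_le hZM
  have hidx : (Z.subgroupOf M).index = Nat.card (pPrimeCore p (G ⧸ Z)) := by
    have h1 := Subgroup.card_mul_index (Z.subgroupOf M)
    rw [hZc, hcardM, mul_comm] at h1
    exact Nat.eq_of_mul_eq_mul_right Nat.card_pos h1
  have hcop : (Nat.card (Z.subgroupOf M)).Coprime (Z.subgroupOf M).index := by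
    rw [hZc, hidx]
    obtain ⟨n, hn⟩ := IsPGroup.iff_card.mp hZp
    rw [hn]
    exact (Nat.Coprime.pow_right n (H1.Cores.coprime_card_pPrimeCore p)).symm
  obtain ⟨K, hK⟩ := Subgroup.exists_right_complement'_of_coprime hcop
  -- `K` is normal in `M`
  have hKn : K.Normal := by
    refine ⟨fun k hk m => ?_⟩
    obtain ⟨⟨z, k'⟩, hzk, -⟩ := hK.existsUnique m
    simp only at hzk
    have hz : ((z : M) : G) ∈ Subgroup.center G := hZ (Subgroup.mem_subgroupOf.mp z.2)
    have hzc : ∀ y : M, (z : M) * y = y * (z : M) := fun y =>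
      Subtype.ext ((Subgroup.mem_center_iff.mp hz (y : G)).symm)
    rw [← hzk]
    have h1 : (z : M) * (k' : M) * k * ((z : M) * (k' : M))⁻¹ = (k' : M) * k * (k' : M)⁻¹ := by
      calc (z : M) * (k' : M) * k * ((z : M) * (k' : M))⁻¹
          = (z : M) * ((k' : M) * k * (k' : M)⁻¹) * (z : M)⁻¹ := by group
        _ = (k' : M) * k * (k' : M)⁻¹ := by rw [hzc]; group
    rw [h1]
    exact K.mul_mem (K.mul_mem k'.2 hk) (K.inv_mem k'.2)
  have hKcard : Nat.card K = Nat.card (pPrimeCore p (G ⧸ Z)) := by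
    have h1 := hK.card_mul_card
    rw [hZc, hcardM, mul_comm] at h1
    exact Nat.eq_of_mul_eq_mul_right Nat.card_pos h1
  have hKle : K ≤ pPrimeCore p M := H1.Cores.le_pPrimeCore hKn (by
    rw [hKcard]; exact H1.Cores.coprime_card_pPrimeCore p)
  have hbot : pPrimeCore p M = ⊥ := by
    have h1 := H1.Cores.map_subtype_pPrimeCore p M
    rw [hO, inf_bot_eq] at h1
    exact (Subgroup.map_eq_bot_iff_of_injective _ M.subtype_injective).mp h1
  rw [hbot, le_bot_iff] at hKle
  rw [hKle, Subgroup.card_bot] at hKcard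
  exact Subgroup.card_eq_one.mp hKcard.symm

/-- the general statement -/
def Gen (q : ℕ) (H : Type u) [Group H] [Finite H] : Prop :=
  ∀ P : Sylow 2 H, Ty (P : Subgroup H) q → (∃ t ∈ center H, orderOf t = 2) →
    pPrimeCore 2 H ⊔ normalizer ((P : Subgroup H) : Set H) = ⊤

/-- the core-free statement -/
def CF (q : ℕ) (G : Type u) [Group G] [Finite G] : Prop :=
  ∀ S : Sylow 2 G, Ty (S : Subgroup G) q → pPrimeCore 2 G = ⊥ → (∃ t ∈ center G, orderOf t = 2) →
    (S : Subgroup G).Normal

/-- normality from `Ω₁(S)` normal -/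
theorem normal_of_om {G : Type u} [Group G] [Finite G] {q : ℕ} {S : Sylow 2 G} (hS : Ty (S : Subgroup G) q)
    (hO : pPrimeCore 2 G = ⊥) (hn : (om (S : Subgroup G)).Normal)
    (hH : ∀ P : Sylow 2 (centralizer (om (S : Subgroup G) : Set G)),
      Ty (P : Subgroup (centralizer (om (S : Subgroup G) : Set G))) q →
      pPrimeCore 2 (centralizer (om (S : Subgroup G) : Set G)) ⊔
        normalizer ((P : Subgroup (centralizer (om (S : Subgroup G) : Set G))) : Set _) = ⊤) :
    (S : Subgroup G).Normal := by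
  haveI : Fact (Nat.Prime 2) := ⟨Nat.prime_two⟩
  set H := centralizer (om (S : Subgroup G) : Set G) with hHd
  haveI hHn : H.Normal := by rw [hHd]; infer_instance
  have hle : (S : Subgroup G) ≤ H := by
    intro x hx
    rw [hHd, mem_centralizer_iff]
    intro y hy
    exact hS.toG.om_comm hy hx
  have hP : ((S.subtype hle : Sylow 2 H) : Subgroup H) = (S : Subgroup G).subgroupOf H := Sylow.coe_subtype _ _
  have hty : Ty ((S.subtype hle : Sylow 2 H) : Subgroup H) q := by
    rw [hP]
    exact hS.congr (subgroupOfEquivOfLe hle).symm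
  have htop := hH (S.subtype hle) hty
  have hbot : pPrimeCore 2 H = ⊥ := by
    have h1 := H1.Cores.map_subtype_pPrimeCore 2 H
    rw [hO, inf_bot_eq] at h1
    exact (Subgroup.map_eq_bot_iff_of_injective _ H.subtype_injective).mp h1
  rw [hbot, bot_sup_eq] at htop
  have h1 := Sylow.normalizer_sup_eq_top' S hle
  have h2 : H ≤ normalizer ((S : Subgroup G) : Set G) := by
    intro g hg
    apply H75.Basic.mem_normalizer_of_conj_mem
    intro y hy
    have h3 : (⟨g, hg⟩ : H) ∈ normalizer (((S.subtype hle : Sylow 2 H) : Subgroup H) : Set H) := by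
      rw [htop]; exact mem_top _
    have h4 := (mem_normalizer_iff.1 h3 ⟨y, hle hy⟩).1 (by rw [hP, mem_subgroupOf]; exact hy)
    rw [hP, mem_subgroupOf] at h4
    exact h4
  rw [← normalizer_eq_top_iff, eq_top_iff, ← h1]
  exact sup_le le_rfl h2

/-- normality in central quotients -/
theorem normal_of_map {G : Type*} [Group G] {Z A : Subgroup G} [Z.Normal] (hZA : Z ≤ A)
    (h : (A.map (QuotientGroup.mk' Z)).Normal) : A.Normal := by
  have h1 : (A.map (QuotientGroup.mk' Z)).comap (QuotientGroup.mk' Z) = A := by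
    rw [QuotientGroup.comap_map_mk', sup_eq_right.mpr hZA]
  rw [← h1]
  exact Subgroup.Normal.comap h _

/-- conjugacy in central quotients implies conjugacy of squares -/
theorem sq_eq_of_conj {G : Type*} [Group G] {Z : Subgroup G} [Z.Normal] (hZ : Z ≤ center G)
    (hZ2 : ∀ z ∈ Z, z * z = 1) {a b : G} (haz : a * a ∈ center G)
    (h : IsConj (QuotientGroup.mk' Z a) (QuotientGroup.mk' Z b)) : a * a = b * b := by
  obtain ⟨c, hc⟩ := isConj_iff.1 h
  obtain ⟨g, rfl⟩ := QuotientGroup.mk'_surjective Z c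
  have h1 : b⁻¹ * (g * a * g⁻¹) ∈ Z := by
    rw [← QuotientGroup.eq_one_iff]
    change QuotientGroup.mk' Z (b⁻¹ * (g * a * g⁻¹)) = 1
    rw [map_mul, map_inv, map_mul, map_mul, map_inv, hc, inv_mul_cancel]
  set z := b⁻¹ * (g * a * g⁻¹) with hz
  have h2 : g * a * g⁻¹ = b * z := by rw [hz]; group
  have h3 := mem_center_iff.1 (hZ h1)
  have h4 := mem_center_iff.1 haz
  calc a * a = g * (a * a) * g⁻¹ := by rw [h4 g, mul_inv_cancel_right]
    _ = (g * a * g⁻¹) * (g * a * g⁻¹) := by group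
    _ = b * z * (b * z) := by rw [h2]
    _ = b * (z * b) * z := by group
    _ = b * (b * z) * z := by rw [h3 b]
    _ = (b * b) * (z * z) := by group
    _ = b * b := by rw [hZ2 z h1, mul_one]

/-- an isolated situation -/
theorem isolated {G : Type*} [Group G] [Finite G] {S : Sylow 2 G} {q : ℕ} (h : TyG (S : Subgroup G) q)
    {a : G} (ha : a ∈ om (S : Subgroup G)) (hac : a ∉ center G)
    (hc : ∀ b ∈ om (S : Subgroup G), b ∉ center G → a * b ∈ center G) :
    ∀ g : G, g * a * g⁻¹ ∈ (S : Subgroup G) → g * a * g⁻¹ = a := by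
  haveI : Fact (Nat.Prime 2) := ⟨Nat.prime_two⟩
  intro g hg
  set b := g * a * g⁻¹ with hb
  have haa : a * a = 1 := (h.mem_om.1 ha).2
  have hbb : b * b = 1 := by
    have : b * b = g * (a * a) * g⁻¹ := by rw [hb]; group
    rw [this, haa, mul_one, mul_inv_cancel]
  have hbom : b ∈ om (S : Subgroup G) := h.mem_om.2 ⟨hg, hbb⟩
  have hbc : b ∉ center G := by
    intro h1
    apply hac
    have h2 := (inferInstance : (center G).Normal).conj_mem _ h1 g⁻¹
    have h3 : g⁻¹ * b * g⁻¹⁻¹ = a := by rw [hb]; group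
    rwa [h3] at h2
  have hz := hc b hbom hbc
  have hcS : ∀ x ∈ om (S : Subgroup G), x ∈ centralizer ((S : Subgroup G) : Set G) := by
    intro x hx
    rw [mem_centralizer_iff]
    intro y hy
    exact (h.om_comm hx hy).symm
  obtain ⟨n, hn, hne⟩ := Sylow.conj_eq_normalizer_conj_of_mem_centralizer S a g⁻¹ (hcS a ha) (by
    rw [inv_inv]; exact hcS b hbom)
  rw [inv_inv, ← hb] at hne
  -- `hne : b = n⁻¹ * a * n`
  set N := normalizer ((S : Subgroup G) : Set G) with hN
  set z := a * b with hzd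
  have hb' : b = a * z := by rw [hzd, ← mul_assoc, haa, one_mul]
  have hzc := mem_center_iff.1 hz
  have hz2 : z * z = 1 := by
    have h1 : z * z = a * (b * z) := by rw [hzd]; group
    rw [h1, hzc b, hzd]
    calc a * (a * b * b) = (a * a) * (b * b) := by group
      _ = 1 := by rw [haa, hbb, one_mul]
  have hpow : ∀ k : ℕ, (n⁻¹) ^ k * a * ((n⁻¹) ^ k)⁻¹ = a * z ^ k := by
    intro k
    induction k with
    | zero => simp
    | succ k ih =>
      have hzk : ∀ y, y * z ^ k = z ^ k * y := fun y => mem_center_iff.1 (pow_mem hz k) y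
      calc (n⁻¹) ^ (k + 1) * a * ((n⁻¹) ^ (k + 1))⁻¹ = n⁻¹ * ((n⁻¹) ^ k * a * ((n⁻¹) ^ k)⁻¹) * n := by
            rw [pow_succ']; group
        _ = n⁻¹ * (a * z ^ k) * n := by rw [ih]
        _ = (n⁻¹ * a) * (z ^ k * n) := by group
        _ = (n⁻¹ * a) * (n * z ^ k) := by rw [hzk n]
        _ = (n⁻¹ * a * n) * z ^ k := by group
        _ = a * z * z ^ k := by rw [← hne, hb']
        _ = a * z ^ (k + 1) := by rw [pow_succ']; group
  have hnS : ∃ j : ℕ, Odd j ∧ (n⁻¹) ^ j ∈ (S : Subgroup G) := by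
    have hSN : (S : Subgroup G) ≤ N := le_normalizer
    haveI : ((S : Subgroup G).subgroupOf N).Normal := Subgroup.normal_in_normalizer
    refine ⟨((S : Subgroup G).subgroupOf N).index, ?_, ?_⟩
    · rw [← Nat.not_even_iff_odd, even_iff_two_dvd]
      have h1 : ¬ 2 ∣ ((S.subtype hSN : Sylow 2 N) : Subgroup N).index := Sylow.not_dvd_index _
      rwa [Sylow.coe_subtype] at h1
    · have h1 := Subgroup.pow_index_mem ((S : Subgroup G).subgroupOf N) (⟨n⁻¹, inv_mem hn⟩ : N)
      rw [mem_subgroupOf] at h1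
      exact h1
  obtain ⟨j, ⟨i, hi⟩, hjS⟩ := hnS
  have h5 := hpow j
  have h6 : (n⁻¹) ^ j * a * ((n⁻¹) ^ j)⁻¹ = a := by
    rw [← h.om_comm ha hjS, mul_inv_cancel_right]
  rw [h6] at h5
  have h7 : z ^ j = 1 := (mul_eq_left.1 h5.symm)
  have h8 : z = 1 := by
    rw [hi, pow_succ, pow_mul, pow_two, hz2, one_pow, one_mul] at h7
    exact h7
  rw [hb', h8, mul_one]

end H82.U3
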