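import Mathlib
import Cfsg.Agent.Lib.H82.U3D3

/-!
# Groups with Sylow 2-subgroups of type `U₃(2^n)`, part 7: a central involution, the main step
-/

set_option autoImplicit false
set_option linter.unusedVariables false
set_option linter.unusedSectionVars false
set_option linter.style.haveILetI false

namespace H82.U3

open Subgroup Cfsg
open scoped Pointwise

universe u

theorem elab_of_sq {G : Type*} [Group G] {A : Subgroup G} (h : ∀ a ∈ A, a * a = 1) : IsElementaryAbelian 2 A := by
  refine ⟨⟨⟨fun a b => Subtype.ext ?_⟩⟩, fun a ha => by rw [pow_two]; exact h a ha⟩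
  change (a : G) * b = b * a
  have h1 := h _ (mul_mem a.2 b.2)
  have h2 := h _ a.2
  have h3 := h _ b.2
  have e1 : (a : G)⁻¹ = a := inv_eq_of_mul_eq_one_right h2
  have e2 : (b : G)⁻¹ = b := inv_eq_of_mul_eq_one_right h3
  calc (a : G) * b = (a * b)⁻¹ := (inv_eq_of_mul_eq_one_right h1).symm
    _ = (b : G)⁻¹ * (a : G)⁻¹ := mul_inv_rev _ _
    _ = b * a := by rw [e1, e2]

section step

variable {G : Type u} [Group G] [Finite G] {S : Sylow 2 G} {q : ℕ}

theorem centralizer_lt {x : G} {A : Set G} (hxA : x ∈ A) (hx : x ∉ center G) :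
    Nat.card (centralizer A) < Nat.card G := by
  refine lt_of_le_of_ne (Subgroup.card_le_card_group _) (fun h => hx ?_)
  have h1 : centralizer A = ⊤ := Subgroup.eq_top_of_card_eq _ h
  rw [mem_center_iff]
  intro g
  have h2 : g ∈ centralizer A := by rw [h1]; exact mem_top g
  exact (mem_centralizer_iff.1 h2 x hxA).symm

theorem central_sub {t : G} (ht : t ∈ center G) (hto : orderOf t = 2) (C : Subgroup G) (htC : t ∈ C) :
    ∃ t' ∈ center C, orderOf t' = 2 :=
  ⟨⟨t, htC⟩, mem_center_iff.2 fun g => Subtype.ext (mem_center_iff.1 ht g), by rw [Subgroup.orderOf_mk]; exact hto⟩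

/-- all the local information -/
theorem locAll (hE : LemE.{u}) (hq : 0 < q) (hS : Ty (S : Subgroup G) q) {t : G} (htc : t ∈ center G)
    (hto : orderOf t = 2)
    (ih : ∀ (H : Type u) [Group H] [Finite H], Nat.card H < Nat.card G → Gen q H)
    {e : G} (heS : e ∈ (S : Subgroup G)) (he : e ∈ om (S : Subgroup G) → e ∉ center G) :
    ∃ T, Loc (S : Subgroup G) e T := by
  have ha : ∀ a ∈ om (S : Subgroup G), a ∉ center G → Loc (S : Subgroup G) a (S : Subgroup G) := by
    intro a ha hac
    refine loc_a hS ha fun P hP => ?_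
    refine ih _ (centralizer_lt (Set.mem_singleton a) hac) P hP ?_
    refine central_sub htc hto _ ?_
    rw [mem_centralizer_singleton_iff]
    exact (mem_center_iff.1 htc a).symm
  by_cases h1 : e ∈ om (S : Subgroup G)
  · exact ⟨_, ha e h1 (he h1)⟩
  · refine ⟨_, loc_b hE hq hS heS (fun h2 => h1 (hS.toG.mem_om.2 ⟨heS, h2⟩)) ?_⟩
    intro b hb hb1
    by_cases h3 : b ∈ center G
    · exact Or.inl h3
    · exact Or.inr (ha b hb h3).sol

theorem step (hE : LemE.{u}) (hq : 8 ≤ q) (hS : Ty (S : Subgroup G) q) (hO : pPrimeCore 2 G = ⊥)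
    {t : G} (htc : t ∈ center G) (hto : orderOf t = 2)
    (ih : ∀ (H : Type u) [Group H] [Finite H], Nat.card H < Nat.card G → Gen q H) :
    (S : Subgroup G).Normal := by
  haveI : Fact (Nat.Prime 2) := ⟨Nat.prime_two⟩
  by_contra hSn
  have h := hS.toG
  set Z1 : Subgroup G := om (S : Subgroup G) ⊓ center G with hZ1
  have hZc : Z1 ≤ center G := inf_le_right
  have hZo : Z1 ≤ om (S : Subgroup G) := inf_le_left
  haveI hZn : Z1.Normal := ⟨fun z hz g => by
    have := mem_center_iff.1 (hZc hz) g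
    rwa [this, mul_inv_cancel_right]⟩
  have hZ2 : ∀ z ∈ Z1, z * z = 1 := fun z hz => (h.mem_om.1 (hZo hz)).2
  have hZp : IsPGroup 2 Z1 := S.2.to_le (hZo.trans h.om_le)
  have htt : t * t = 1 := by rw [← pow_two, ← hto, pow_orderOf_eq_one]
  have ht1 : t ≠ 1 := by rintro rfl; rw [orderOf_one] at hto; omega
  have htS : t ∈ (S : Subgroup G) := by
    obtain ⟨g, hg⟩ := H5.PLocal.exists_conj_mem_sylow S hto
    have := mem_center_iff.1 htc g
    rwa [this, mul_inv_cancel_right] at hg
  have htZ : t ∈ Z1 := mem_inf.2 ⟨h.mem_om.2 ⟨htS, htt⟩, htc⟩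
  have hOX := core_quot_central hO Z1 hZc hZp
  set m := QuotientGroup.mk' Z1 with hm
  have hms : Function.Surjective m := QuotientGroup.mk'_surjective Z1
  have hm1 : ∀ x, m x = 1 ↔ x ∈ Z1 := fun x => QuotientGroup.eq_one_iff x
  let S' : Sylow 2 (G ⧸ Z1) := S.mapSurjective hms
  have hS' : (S' : Subgroup (G ⧸ Z1)) = (S : Subgroup G).map m := rfl
  -- lifting involutions
  have lift : ∀ e' ∈ (S' : Subgroup (G ⧸ Z1)), orderOf e' = 2 → ∃ e ∈ (S : Subgroup G), m e = e' ∧ e ∉ Z1 ∧
      e * e ∈ Z1 ∧ ∃ T, Loc (S : Subgroup G) e T := by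
    intro e' he' heo
    rw [hS'] at he'
    obtain ⟨e, heS, rfl⟩ := he'
    have h1 : e ∉ Z1 := by
      intro h2
      rw [(hm1 e).2 h2, orderOf_one] at heo
      omega
    refine ⟨e, heS, rfl, h1, ?_, ?_⟩
    · rw [← hm1, map_mul, ← pow_two, ← heo, pow_orderOf_eq_one]
    · exact locAll hE (by omega) hS htc hto ih heS (fun h2 h3 => h1 (mem_inf.2 ⟨h2, h3⟩))
  have sol : ∀ t' : G ⧸ Z1, orderOf t' = 2 → Group.IsSolvable ↥(centralizer ({t'} : Set (G ⧸ Z1))) := by
    intro t' ht'
    refine pcons_all S' ?_ t' ht'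
    intro e' he' heo
    obtain ⟨e, -, rfl, -, -, T, hT⟩ := lift e' he' heo
    exact (loc_quot hT Z1 hZc).1
  have hyp := H71.NC.hyp (G := G ⧸ Z1) (fun t' ht' => pcons (sol t' ht'))
  have hNS : ∀ x ∈ normalizer ((S' : Subgroup (G ⧸ Z1)) : Set (G ⧸ Z1)), ∃ g ∈ normalizer ((S : Subgroup G) : Set G),
      m g = x := by
    intro x hx
    obtain ⟨g, rfl⟩ := hms x
    refine ⟨g, ?_, rfl⟩
    apply H75.Basic.mem_normalizer_of_conj_mem
    intro s hs
    have h1 := (mem_normalizer_iff.1 hx (m s)).1 ⟨s, hs, rfl⟩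
    rw [← map_inv, ← map_mul, ← map_mul, hS'] at h1
    obtain ⟨s', hs', he⟩ := h1
    have h2 : s'⁻¹ * (g * s * g⁻¹) ∈ Z1 := by
      rw [← hm1, map_mul, map_inv, he, inv_mul_cancel]
    have h3 : g * s * g⁻¹ = s' * (s'⁻¹ * (g * s * g⁻¹)) := by group
    rw [h3]
    exact mul_mem hs' (h.om_le (hZo h2))
  have norm_map : ∀ (T B : Subgroup G), normalizer (T : Set G) ≤ normalizer (B : Set G) →
      (normalizer (T : Set G)).map m ≤ normalizer ((B.map m : Subgroup (G ⧸ Z1)) : Set (G ⧸ Z1)) := by
    rintro T B hTB _ ⟨g, hg, rfl⟩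
    apply H75.Basic.mem_normalizer_of_conj_mem
    rintro _ ⟨x, hx, rfl⟩
    exact ⟨g * x * g⁻¹, (mem_normalizer_iff.1 (hTB hg) x).1 hx, by rw [map_mul, map_mul, map_inv]⟩
  by_cases h0 : om (S : Subgroup G) ≤ center G
  · -- the centre contains `Ω₁(S)`
    have hZe : Z1 = om (S : Subgroup G) := inf_eq_left.2 h0
    have hsq : ∀ x ∈ (S' : Subgroup (G ⧸ Z1)), x * x = 1 := by
      rw [hS']
      rintro _ ⟨x, hx, rfl⟩
      rw [← map_mul, hm1, hZe]
      exact h.sq_mem hx
    have hel := elab_of_sq hsq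
    have hcomm : ∀ a ∈ (S' : Subgroup (G ⧸ Z1)), ∀ b ∈ (S' : Subgroup (G ⧸ Z1)), a * b = b * a := fun a ha b hb =>
      congrArg Subtype.val (hel.1.is_comm.comm (⟨a, ha⟩ : (S' : Subgroup (G ⧸ Z1))) ⟨b, hb⟩)
    have hcard : 8 ≤ Nat.card (S' : Subgroup (G ⧸ Z1)) := by
      have h1 := H1.Cores.card_map_mk' Z1 (S : Subgroup G) (hZo.trans h.om_le)
      have h0 : Nat.card Z1 = q := by rw [hZe, h.om_card]
      rw [h0, h.card, pow_succ'] at h1
      have h2 := Nat.eq_of_mul_eq_mul_left (by omega) h1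
      rw [hS', h2]
      nlinarith
    rcases functor_lemma hOX S' (S' : Subgroup (G ⧸ Z1)) hel (by omega) le_rfl le_rfl hyp
      (fun e he _ => ⟨_, hel, le_rfl, he, hcard⟩) (by
        intro e he heo
        have hle : (S' : Subgroup (G ⧸ Z1)) ≤ centralizer {e} := by
          intro x hx
          rw [mem_centralizer_singleton_iff]
          exact hcomm x hx e he
        refine cent_le_of_top hle ?_
        have h1 := frat (sol e heo) (S'.subtype hle) (by
          rintro a ha b hb
          apply Subtype.ext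
          rw [Sylow.coe_subtype, Subgroup.mem_subgroupOf] at ha hb
          exact hcomm a ha b hb)
        rw [Sylow.coe_subtype] at h1
        exact h1) with h1 | ⟨M, hM⟩
    · exact hSn (normal_of_map (hZo.trans h.om_le) h1)
    · -- two distinct squares
      obtain ⟨z, hz, hz1, hzt⟩ : ∃ z ∈ om (S : Subgroup G), z ≠ 1 ∧ z ≠ t := by
        by_contra hcon
        push Not at hcon
        have h2 : om (S : Subgroup G) ≤ zpowers t := by
          intro z hz
          by_cases h3 : z = 1
          · rw [h3]; exact one_mem _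
          · rw [hcon z hz h3]; exact mem_zpowers t
        have h3 := Subgroup.card_le_of_le h2
        rw [h.om_card, Nat.card_zpowers, hto] at h3
        omega
      obtain ⟨y1, hy1, hy1t⟩ := h.onto t htS htt
      obtain ⟨y2, hy2, hy2z⟩ := h.onto z (h.om_le hz) (h.mem_om.1 hz).2
      have o1 : orderOf (m y1) = 2 := by
        refine orderOf_eq_prime ?_ ?_
        · rw [pow_two, ← map_mul, hy1t, hm1]; exact htZ
        · rw [Ne, hm1]
          intro h4
          exact ht1 (by rw [← hy1t]; exact hZ2 _ h4)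
      have o2 : orderOf (m y2) = 2 := by
        refine orderOf_eq_prime ?_ ?_
        · rw [pow_two, ← map_mul, hy2z, hm1, hZe]; exact hz
        · rw [Ne, hm1]
          intro h4
          exact hz1 (by rw [← hy2z]; exact hZ2 _ h4)
      have h5 := sq_eq_of_conj hZc hZ2 (a := y1) (b := y2) (by rw [hy1t]; exact htc)
        (H25.StrEmb.isConj_of_involutions hM o1 o2)
      rw [hy1t, hy2z] at h5
      exact hzt h5.symm
  obtain ⟨a, ha, hac⟩ := SetLike.not_le_iff_exists.1 h0
  have haa : a * a = 1 := (h.mem_om.1 ha).2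
  have haZ : a ∉ Z1 := fun h1 => hac (hZc h1)
  have hoa : orderOf (m a) = 2 := by
    refine orderOf_eq_prime ?_ ?_
    · rw [pow_two, ← map_mul, haa, map_one]
    · rw [Ne, hm1]; exact haZ
  by_cases h2 : ∀ b ∈ om (S : Subgroup G), b ∉ center G → a * b ∈ center G
  · -- `a` is isolated
    obtain ⟨N, hN, hNo, hNc⟩ := Cfsg.Agent.S0215.result S a
      (orderOf_eq_prime (by rw [pow_two, haa]) (fun h3 => hac (by rw [h3]; exact one_mem _))) (h.om_le ha)
      (isolated h ha hac h2)
    have h3 : N = ⊥ := by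
      rw [eq_bot_iff, ← hO]
      exact H1.Cores.le_pPrimeCore hN (Nat.coprime_two_right.2 hNo)
    apply hac
    rw [mem_center_iff]
    intro g
    have h4 := hNc g
    rw [h3, mem_bot] at h4
    have h5 : a * g * a⁻¹ = g := mul_inv_eq_one.1 h4
    calc g * a = a * g * a⁻¹ * a := by rw [h5]
      _ = a * g := by group
  · push Not at h2
    obtain ⟨b, hb, hbc, habc⟩ := h2
    set A : Subgroup (G ⧸ Z1) := (om (S : Subgroup G)).map m with hA
    have hAel : IsElementaryAbelian 2 A := by
      apply elab_of_sq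
      rintro _ ⟨x, hx, rfl⟩
      rw [← map_mul, (h.mem_om.1 hx).2, map_one]
    have hA4 : 4 ≤ Nat.card A := by
      have h3 : 2 ∣ Nat.card A := by
        rw [← hoa]
        exact Subgroup.orderOf_dvd_natCard _ ⟨a, ha, rfl⟩
      have h4 : Nat.card A ≠ 2 := by
        intro h5
        have h6 : zpowers (m a) = A := by
          apply Subgroup.eq_of_le_of_card_ge
          · rw [zpowers_le]; exact ⟨a, ha, rfl⟩
          · rw [h5, Nat.card_zpowers, hoa]
        have h7 : m b ∈ zpowers (m a) := by rw [h6]; exact ⟨b, hb, rfl⟩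
        have h8 : m b = 1 ∨ m b = m a := by
          classical
          rw [mem_zpowers_iff_mem_range_orderOf, hoa] at h7
          simp only [Finset.mem_image, Finset.mem_range] at h7
          obtain ⟨i, hi, hib⟩ := h7
          interval_cases i
          · left; rw [← hib, pow_zero]
          · right; rw [← hib, pow_one]
        rcases h8 with h8 | h8
        · rw [hm1] at h8; exact hbc (hZc h8)
        · apply habc
          apply hZc
          rw [← hm1, map_mul, h8, ← map_mul, haa, map_one]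
      have h9 : 0 < Nat.card A := Nat.card_pos
      omega
    have hAS : A ≤ (S' : Subgroup (G ⧸ Z1)) := by
      rw [hS']; exact Subgroup.map_mono h.om_le
    have hNA : normalizer ((S' : Subgroup (G ⧸ Z1)) : Set (G ⧸ Z1)) ≤ normalizer (A : Set (G ⧸ Z1)) := by
      intro x hx
      obtain ⟨g, hg, rfl⟩ := hNS x hx
      exact norm_map (S : Subgroup G) (om (S : Subgroup G)) (h.normalizer_le h.om_le le_rfl) ⟨g, hg, rfl⟩
    -- an element with square `t`
    obtain ⟨y0, hy0, hy0t⟩ := h.onto t htS htt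
    have hbig : ∀ y ∈ (S : Subgroup G), y * y ∈ Z1 → y ∉ om (S : Subgroup G) →
        ∃ E : Subgroup (G ⧸ Z1), IsElementaryAbelian 2 E ∧ A ≤ E ∧ m y ∈ E ∧ 8 ≤ Nat.card E := by
      intro y hy hyZ hyo
      have hyy : y * y ≠ 1 := fun h3 => hyo (h.mem_om.2 ⟨hy, h3⟩)
      obtain ⟨c1, c2, -⟩ := h.cent (by omega) hy hyy
      let E' : Subgroup G :=
        { carrier := {x | x ∈ ((S : Subgroup G) ⊓ centralizer {y} : Subgroup G) ∧ x * x ∈ Z1}
          one_mem' := ⟨one_mem _, by rw [one_mul]; exact one_mem _⟩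
          mul_mem' := by
            rintro x x' ⟨hx1, hx2⟩ ⟨hx3, hx4⟩
            refine ⟨mul_mem hx1 hx3, ?_⟩
            have : x * x' * (x * x') = (x * x) * (x' * x') := by
              calc x * x' * (x * x') = x * (x' * x) * x' := by group
                _ = x * (x * x') * x' := by rw [c1 x hx1 x' hx3]
                _ = _ := by group
            rw [this]
            exact mul_mem hx2 hx4
          inv_mem' := by
            rintro x ⟨hx1, hx2⟩
            refine ⟨inv_mem hx1, ?_⟩
            rw [← mul_inv_rev]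
            exact inv_mem hx2 }
      have hyE : y ∈ E' := ⟨mem_inf.2 ⟨hy, mem_centralizer_singleton_iff.2 rfl⟩, hyZ⟩
      have hAE : A ≤ E'.map m := by
        refine Subgroup.map_mono ?_
        intro x hx
        exact ⟨c2 hx, by rw [(h.mem_om.1 hx).2]; exact one_mem _⟩
      refine ⟨E'.map m, ?_, hAE, ⟨y, hyE, rfl⟩, ?_⟩
      · apply elab_of_sq
        rintro _ ⟨x, hx, rfl⟩
        rw [← map_mul, hm1]
        exact hx.2
      · have h3 : m y ∉ A := by
          rintro ⟨x, hx, hxy⟩
          apply hyo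
          have h4 : x⁻¹ * y ∈ Z1 := by rw [← hm1, map_mul, map_inv, hxy, inv_mul_cancel]
          have h5 : y = x * (x⁻¹ * y) := by group
          rw [h5]
          exact mul_mem hx (hZo h4)
        have h6 : Nat.card A ∣ Nat.card (E'.map m) := Subgroup.card_dvd_of_le hAE
        obtain ⟨k, hk⟩ := h6
        have h7 : k ≠ 0 := by
          rintro rfl
          rw [mul_zero] at hk
          exact Nat.card_pos.ne' hk
        have h8 : k ≠ 1 := by
          rintro rfl
          rw [mul_one] at hk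
          have h9 : A = E'.map m := Subgroup.eq_of_le_of_card_ge hAE hk.le
          apply h3
          rw [h9]
          exact ⟨y, hyE, rfl⟩
        have h10 : 2 ≤ k := by omega
        rw [hk]
        nlinarith
    have hy0o : y0 ∉ om (S : Subgroup G) := fun h3 => ht1 (by rw [← hy0t]; exact (h.mem_om.1 h3).2)
    rcases functor_lemma hOX S' A hAel hA4 hAS hNA hyp (by
        intro e' he' heo
        obtain ⟨e, heS, rfl, heZ, hee, -⟩ := lift e' he' heo
        by_cases heo' : e ∈ om (S : Subgroup G)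
        · obtain ⟨E, e1, e2, e3, e4⟩ := hbig y0 hy0 (by rw [hy0t]; exact htZ) hy0o
          exact ⟨E, e1, e2, e2 ⟨e, heo', rfl⟩, e4⟩
        · exact hbig e heS hee heo') (by
        intro e' he' heo
        obtain ⟨e, heS, rfl, heZ, hee, T, hT⟩ := lift e' he' heo
        refine (loc_quot hT Z1 hZc).2.trans (sup_le_sup le_rfl ?_)
        exact norm_map T (om (S : Subgroup G)) (h.normalizer_le hT.om hT.le)) with h3 | ⟨M, hM⟩
    · -- `Ω₁(S)` is normal
      have h4 : (om (S : Subgroup G)).Normal := normal_of_map hZo h3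
      apply hSn
      refine normal_of_om hS hO h4 fun P hP => ?_
      refine ih _ (centralizer_lt ha hac) P hP ?_
      refine central_sub htc hto _ ?_
      rw [mem_centralizer_iff]
      intro x _
      exact mem_center_iff.1 htc x
    · have o2 : orderOf (m y0) = 2 := by
        refine orderOf_eq_prime ?_ ?_
        · rw [pow_two, ← map_mul, hy0t, hm1]; exact htZ
        · rw [Ne, hm1]
          intro h4
          exact hy0o (hZo h4)
      have h5 := sq_eq_of_conj hZc hZ2 (a := a) (b := y0) (by rw [haa]; exact one_mem _)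
        (H25.StrEmb.isConj_of_involutions hM hoa o2)
      rw [haa, hy0t] at h5
      exact ht1 h5.symm

end step

/-- quotients by odd order normal subgroups -/
theorem ty_quot {H : Type*} [Group H] [Finite H] {q : ℕ} (P : Sylow 2 H) (hP : Ty (P : Subgroup H) q)
    (N : Subgroup H) [N.Normal] (hN : ¬ 2 ∣ Nat.card N) :
    Ty ((P : Subgroup H).map (QuotientGroup.mk' N) : Subgroup (H ⧸ N)) q := by
  haveI : Fact (Nat.Prime 2) := ⟨Nat.prime_two⟩
  have hinj : Function.Injective ((QuotientGroup.mk' N).comp (P : Subgroup H).subtype) := by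
    rw [injective_iff_map_eq_one]
    rintro ⟨x, hx⟩ h
    have h2 : x ∈ N := (QuotientGroup.eq_one_iff x).1 h
    obtain ⟨k, hk⟩ := P.2 ⟨x, hx⟩
    have hk' : x ^ 2 ^ k = 1 := congrArg Subtype.val hk
    have h4 : orderOf x ∣ 2 ^ k := orderOf_dvd_of_pow_eq_one hk'
    have h5 : orderOf x ∣ Nat.card N := Subgroup.orderOf_dvd_natCard _ h2
    have hc : Nat.Coprime (2 ^ k) (Nat.card N) := Nat.Coprime.pow_left k
      ((Nat.Prime.coprime_iff_not_dvd Nat.prime_two).2 hN)
    have h6 : orderOf x = 1 := Nat.eq_one_of_dvd_coprimes hc h4 h5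
    exact Subtype.ext (orderOf_eq_one_iff.1 h6)
  have e := MonoidHom.ofInjective hinj
  have h1 : ((QuotientGroup.mk' N).comp (P : Subgroup H).subtype).range =
      (P : Subgroup H).map (QuotientGroup.mk' N) := by
    rw [MonoidHom.range_comp, Subgroup.range_subtype]
  rw [← h1]
  exact hP.congr e

theorem gen_of_cf {q : ℕ} {H : Type u} [Group H] [Finite H]
    (h : CF q (H ⧸ pPrimeCore 2 H)) : Gen q H := by
  haveI : Fact (Nat.Prime 2) := ⟨Nat.prime_two⟩
  rintro P hP ⟨t, htc, hto⟩
  have hcop : (Nat.card (pPrimeCore 2 H)).Coprime 2 := H1.Cores.coprime_card_pPrimeCore 2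
  have hnd : ¬ 2 ∣ Nat.card (pPrimeCore 2 H) := (Nat.Prime.coprime_iff_not_dvd Nat.prime_two).1 hcop.symm
  set N := pPrimeCore 2 H with hN
  have hqs : Function.Surjective (QuotientGroup.mk' N) := QuotientGroup.mk'_surjective N
  have hn := h (P.mapSurjective hqs) (ty_quot P hP N hnd) (H1.Cores.pPrimeCore_quotient_pPrimeCore 2)
    ⟨QuotientGroup.mk' N t, ?_, ?_⟩
  · change ((P : Subgroup H).map (QuotientGroup.mk' N)).Normal at hn
    set K := ((P : Subgroup H).map (QuotientGroup.mk' N)).comap (QuotientGroup.mk' N) with hK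
    haveI hKn : K.Normal := Subgroup.Normal.comap inferInstance _
    have hPK : (P : Subgroup H) ≤ K := by
      intro x hx
      rw [hK, Subgroup.mem_comap]
      exact ⟨x, hx, rfl⟩
    have h1 := Sylow.normalizer_sup_eq_top' P hPK
    have h2 : K = (P : Subgroup H) ⊔ N := by
      rw [hK, Subgroup.comap_map_eq, QuotientGroup.ker_mk']
    rw [h2] at h1
    rw [eq_top_iff, ← h1]
    refine sup_le le_sup_right (sup_le ?_ le_sup_left)
    exact le_normalizer.trans le_sup_right
  · rw [mem_center_iff]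
    intro y
    obtain ⟨y, rfl⟩ := hqs y
    rw [← map_mul, ← map_mul, mem_center_iff.1 htc y]
  · refine orderOf_eq_prime ?_ ?_
    · have h5 : t ^ 2 = 1 := by
        have := pow_orderOf_eq_one t
        rwa [hto] at this
      rw [← map_pow, h5, map_one]
    · intro h3
      have h4 : t ∈ N := (QuotientGroup.eq_one_iff t).1 h3
      apply hnd
      rw [← hto]
      exact Subgroup.orderOf_dvd_natCard _ h4

/-- **Theorem A** -/
theorem thmA (hE : LemE.{u}) {q : ℕ} (hq : 8 ≤ q) (n : ℕ) : ∀ (G : Type u) [Group G] [Finite G], Nat.card G < n →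
    CF q G := by
  induction n with
  | zero =>
    intro G _ _ h
    omega
  | succ n ih =>
    intro G _ _ hn S hS hO ⟨t, htc, hto⟩
    refine step hE hq hS hO htc hto ?_
    intro H _ _ hH
    refine gen_of_cf (ih _ ?_)
    have h1 : Nat.card (H ⧸ pPrimeCore 2 H) ≤ Nat.card H := by
      have := Subgroup.card_eq_card_quotient_mul_card_subgroup (pPrimeCore 2 H)
      have h2 : 0 < Nat.card (pPrimeCore 2 H) := Nat.card_pos
      nlinarith
    omega

theorem thmA' (hE : LemE.{u}) {q : ℕ} (hq : 8 ≤ q) {G : Type u} [Group G] [Finite G] : Gen q G :=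
  gen_of_cf (thmA hE hq _ _ (Nat.lt_succ_self _))

/-- **Theorem B** -/
theorem thmB (hE : LemE.{u}) {q : ℕ} (hq : 8 ≤ q) {G : Type u} [Group G] [Finite G] {S : Sylow 2 G}
    (hS : Ty (S : Subgroup G) q) (hO : pPrimeCore 2 G = ⊥) :
    (S : Subgroup G).Normal ∨ ∃ M : Subgroup G, IsStronglyEmbedded M := by
  haveI : Fact (Nat.Prime 2) := ⟨Nat.prime_two⟩
  have h := hS.toG
  have hloc : ∀ e ∈ (S : Subgroup G), orderOf e = 2 → Loc (S : Subgroup G) e (S : Subgroup G) := by
    intro e he heo
    have hee : e * e = 1 := by rw [← pow_two, ← heo, pow_orderOf_eq_one]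
    refine loc_a hS (h.mem_om.2 ⟨he, hee⟩) fun P hP => thmA' hE hq P hP ?_
    refine ⟨⟨e, mem_centralizer_singleton_iff.2 rfl⟩, ?_, by rw [Subgroup.orderOf_mk]; exact heo⟩
    rw [mem_center_iff]
    rintro ⟨g, hg⟩
    exact Subtype.ext (mem_centralizer_singleton_iff.1 hg)
  have sol : ∀ t' : G, orderOf t' = 2 → Group.IsSolvable ↥(centralizer ({t'} : Set G)) :=
    pcons_all S fun e he heo => (hloc e he heo).sol
  have hyp := H71.NC.hyp (G := G) (fun t' ht' => pcons (sol t' ht'))
  have hel : IsElementaryAbelian 2 (om (S : Subgroup G)) := elab_of_sq fun x hx => (h.mem_om.1 hx).2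
  have hN := h.normalizer_le h.om_le le_rfl
  rcases functor_lemma hO S (om (S : Subgroup G)) hel (by rw [h.om_card]; omega) h.om_le hN hyp
    (fun e he heo => ⟨_, hel, le_rfl, h.mem_om.2 ⟨he, by rw [← pow_two, ← heo, pow_orderOf_eq_one]⟩, by
      rw [h.om_card]; exact hq⟩)
    (fun e he heo => (hloc e he heo).top.trans (sup_le_sup le_rfl hN)) with h1 | h1
  · left
    refine normal_of_om hS hO h1 fun P hP => thmA' hE hq P hP ?_
    -- a central involution
    obtain ⟨z, hz, hz1⟩ : ∃ z ∈ om (S : Subgroup G), z ≠ 1 := by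
      by_contra hcon
      push Not at hcon
      have h2 : om (S : Subgroup G) = ⊥ := by rw [eq_bot_iff]; intro x hx; exact mem_bot.2 (hcon x hx)
      have h3 := h.om_card
      rw [h2, Subgroup.card_bot] at h3
      omega
    have hzc : z ∈ centralizer (om (S : Subgroup G) : Set G) := by
      rw [mem_centralizer_iff]
      intro y hy
      exact (h.om_comm hz (h.om_le hy)).symm
    refine ⟨⟨z, hzc⟩, ?_, ?_⟩
    · rw [mem_center_iff]
      rintro ⟨g, hg⟩
      exact Subtype.ext (mem_centralizer_iff.1 hg z hz).symm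
    · rw [Subgroup.orderOf_mk]
      exact orderOf_eq_prime (by rw [pow_two]; exact (h.mem_om.1 hz).2) hz1
  · exact Or.inr h1

end H82.U3
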