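import Mathlib
import Cfsg.Agent.Lib.H82.U3D4
import Cfsg.Agent.Lib.H24.SzIso
import Cfsg.Agent.S0330
import Cfsg.Agent.Lib.H6.Frame

/-!
# Groups with Sylow 2-subgroups of type `U₃(2^n)`, part 8: the candidates
-/

set_option autoImplicit false
set_option linter.unusedVariables false
set_option linter.unusedSectionVars false
set_option linter.style.haveILetI false

namespace H82.U3

open Subgroup Cfsg Matrix
open scoped Pointwise

universe u

/-- the square of a matrix of determinant one in characteristic two -/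
theorem sl_sq {F : Type*} [Field F] (two : (2 : F) = 0) (g : SpecialLinearGroup (Fin 2) F) :
    trace (g : Matrix (Fin 2) (Fin 2) F) = 0 → g * g = 1 := by
  intro h
  have hd := g.det_coe
  rw [Matrix.det_fin_two] at hd
  rw [Matrix.trace_fin_two] at h
  apply Subtype.ext
  change (g : Matrix (Fin 2) (Fin 2) F) * g = 1
  set a := (g : Matrix (Fin 2) (Fin 2) F) 0 0
  set b := (g : Matrix (Fin 2) (Fin 2) F) 0 1
  set c := (g : Matrix (Fin 2) (Fin 2) F) 1 0
  set d := (g : Matrix (Fin 2) (Fin 2) F) 1 1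
  ext i j
  fin_cases i <;> fin_cases j
  · change ((g : Matrix (Fin 2) (Fin 2) F) * g) 0 0 = (1 : Matrix (Fin 2) (Fin 2) F) 0 0
    rw [Matrix.mul_apply, Fin.sum_univ_two, Matrix.one_apply_eq]
    linear_combination a * h - hd - two
  · change ((g : Matrix (Fin 2) (Fin 2) F) * g) 0 1 = (1 : Matrix (Fin 2) (Fin 2) F) 0 1
    rw [Matrix.mul_apply, Fin.sum_univ_two, Matrix.one_apply_ne (by decide)]
    linear_combination b * h
  · change ((g : Matrix (Fin 2) (Fin 2) F) * g) 1 0 = (1 : Matrix (Fin 2) (Fin 2) F) 1 0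
    rw [Matrix.mul_apply, Fin.sum_univ_two, Matrix.one_apply_ne (by decide)]
    linear_combination c * h
  · change ((g : Matrix (Fin 2) (Fin 2) F) * g) 1 1 = (1 : Matrix (Fin 2) (Fin 2) F) 1 1
    rw [Matrix.mul_apply, Fin.sum_univ_two, Matrix.one_apply_eq]
    linear_combination d * h - hd - two

theorem trace_sq {F : Type*} [Field F] (two : (2 : F) = 0) (g : SpecialLinearGroup (Fin 2) F) :
    trace ((g * g : SpecialLinearGroup (Fin 2) F) : Matrix (Fin 2) (Fin 2) F) =
      trace (g : Matrix (Fin 2) (Fin 2) F) ^ 2 := by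
  have hd := g.det_coe
  rw [Matrix.det_fin_two] at hd
  rw [Matrix.trace_fin_two, Matrix.trace_fin_two]
  change ((g : Matrix (Fin 2) (Fin 2) F) * g) 0 0 + ((g : Matrix (Fin 2) (Fin 2) F) * g) 1 1 = _
  rw [Matrix.mul_apply, Matrix.mul_apply, Fin.sum_univ_two, Fin.sum_univ_two]
  set a := (g : Matrix (Fin 2) (Fin 2) F) 0 0
  set b := (g : Matrix (Fin 2) (Fin 2) F) 0 1
  set c := (g : Matrix (Fin 2) (Fin 2) F) 1 0
  set d := (g : Matrix (Fin 2) (Fin 2) F) 1 1
  linear_combination (-2) * hd - two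

theorem trace_pow {F : Type*} [Field F] (two : (2 : F) = 0) (g : SpecialLinearGroup (Fin 2) F) (k : ℕ) :
    trace ((g ^ 2 ^ k : SpecialLinearGroup (Fin 2) F) : Matrix (Fin 2) (Fin 2) F) =
      trace (g : Matrix (Fin 2) (Fin 2) F) ^ 2 ^ k := by
  induction k with
  | zero => simp
  | succ k ih => rw [pow_succ, pow_mul, pow_two, trace_sq two, ih, ← pow_mul, ← pow_succ]

theorem psl_sq {F : Type*} [Field F] (two : (2 : F) = 0) (x : ProjectiveSpecialLinearGroup (Fin 2) F)
    (h : ∃ k, x ^ 2 ^ k = 1) : x * x = 1 := by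
  obtain ⟨k, hk⟩ := h
  obtain ⟨g, rfl⟩ := QuotientGroup.mk_surjective x
  have h1 : g ^ 2 ^ k ∈ center (SpecialLinearGroup (Fin 2) F) := by
    rw [← QuotientGroup.eq_one_iff]
    exact hk
  have h2 : g ^ 2 ^ (k + 1) = 1 := by
    obtain ⟨r, hr, hr2⟩ := Matrix.SpecialLinearGroup.mem_center_iff.1 h1
    rw [pow_succ, pow_mul]
    apply Subtype.ext
    rw [Matrix.SpecialLinearGroup.coe_pow, ← hr2, ← map_pow]
    rw [Fintype.card_fin] at hr
    rw [hr]
    simp
  have h3 : trace (g : Matrix (Fin 2) (Fin 2) F) = 0 := by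
    have h4 := trace_pow two g (k + 1)
    rw [h2] at h4
    have h5 : trace ((1 : SpecialLinearGroup (Fin 2) F) : Matrix (Fin 2) (Fin 2) F) = 0 := by
      change trace (1 : Matrix (Fin 2) (Fin 2) F) = 0
      rw [Matrix.trace_one, Fintype.card_fin]
      exact_mod_cast two
    rw [h5] at h4
    exact pow_eq_zero_iff (by positivity) |>.1 h4.symm
  change ((g : ProjectiveSpecialLinearGroup (Fin 2) F)) * (g : ProjectiveSpecialLinearGroup (Fin 2) F) = 1
  rw [← QuotientGroup.mk_mul, sl_sq two g h3, QuotientGroup.mk_one]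

theorem slCongr_mem_SU {F F' : Type*} [Field F] [Field F'] [Fintype F] [Fintype F'] {n q : ℕ}
    (hF : Fintype.card F = q ^ 2) (hF' : Fintype.card F' = q ^ 2) (e : F ≃+* F')
    (g : SpecialLinearGroup (Fin n) F) :
    H6.Frame.slCongr e g ∈ SU n F' q ↔ g ∈ SU n F q := by
  rw [H7.UnitSU.mem_SU_iff hF, H7.UnitSU.mem_SU_iff hF']
  have h1 : ((H6.Frame.slCongr e g : SpecialLinearGroup (Fin n) F') : Matrix (Fin n) (Fin n) F') =
      (g : Matrix (Fin n) (Fin n) F).map e := rfl
  have h2 : ((g : Matrix (Fin n) (Fin n) F).map e)ᵀ * H7.UnitSU.bar q ((g : Matrix (Fin n) (Fin n) F).map e) =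
      ((g : Matrix (Fin n) (Fin n) F)ᵀ * H7.UnitSU.bar q (g : Matrix (Fin n) (Fin n) F)).map e := by
    ext i j
    simp [Matrix.mul_apply, H7.UnitSU.bar]
  rw [h1, h2]
  constructor
  · intro h
    ext i j
    have h3 := congrFun (congrFun h i) j
    apply e.injective
    rw [Matrix.map_apply] at h3
    rw [h3]
    by_cases hij : i = j
    · subst hij; simp
    · simp [hij]
  · intro h
    rw [h]
    ext i j
    by_cases hij : i = j
    · subst hij; simp
    · simp [hij]

/-- `SU` over isomorphic fields -/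
noncomputable def suCongr {F F' : Type*} [Field F] [Field F'] [Fintype F] [Fintype F'] {n q : ℕ}
    (hF : Fintype.card F = q ^ 2) (hF' : Fintype.card F' = q ^ 2) (e : F ≃+* F') :
    SU n F q ≃* SU n F' q :=
  ((H6.Frame.slCongr (ι := Fin n) e).subgroupMap (SU n F q)).trans (MulEquiv.subgroupCongr (by
    ext g
    rw [Subgroup.mem_map]
    constructor
    · rintro ⟨x, hx, rfl⟩
      exact (slCongr_mem_SU hF hF' e x).2 hx
    · intro hg
      refine ⟨(H6.Frame.slCongr e).symm g, ?_, ?_⟩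
      · rw [← slCongr_mem_SU hF hF' e]
        rw [MulEquiv.apply_symm_apply]
        exact hg
      · change H6.Frame.slCongr e ((H6.Frame.slCongr e).symm g) = g
        rw [MulEquiv.apply_symm_apply]))

theorem psu_congr {F : Type*} {F' : Type*} [Field F] [Field F'] [Fintype F] [Fintype F'] {q : ℕ}
    (hF : Fintype.card F = q ^ 2) (hF' : Fintype.card F' = q ^ 2) : Nonempty (PSU 3 F q ≃* PSU 3 F' q) :=
  ⟨H6.Frame.quotCenterCongr (suCongr hF hF' (FiniteField.ringEquivOfCardEq (by rw [hF, hF'])))⟩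

/-- a normal subgroup of odd index contains the Sylow 2-subgroups -/
theorem sylow_le_of_odd {G : Type*} [Group G] [Finite G] (S : Sylow 2 G) {N : Subgroup G} (hN : N.Normal)
    (hi : Odd N.index) : (S : Subgroup G) ≤ N := by
  intro x hx
  obtain ⟨k, hk⟩ := S.2 ⟨x, hx⟩
  have hk' : x ^ 2 ^ k = 1 := congrArg Subtype.val hk
  have h1 : orderOf (QuotientGroup.mk' N x) ∣ 2 ^ k := by
    apply orderOf_dvd_of_pow_eq_one
    rw [← map_pow, hk', map_one]
  have h2 : orderOf (QuotientGroup.mk' N x) ∣ N.index := orderOf_dvd_natCard _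
  have h3 : orderOf (QuotientGroup.mk' N x) = 1 :=
    Nat.eq_one_of_dvd_coprimes (Nat.Coprime.pow_left k (Nat.coprime_two_left.2 hi)) h1 h2
  exact (QuotientGroup.eq_one_iff x).1 (orderOf_eq_one_iff.1 h3)

/-- the Sylow subgroups of the Suzuki groups are not of type `U₃(q)` -/
theorem not_sz {F : Type*} [Field F] [Fintype F] {m : ℕ} (hm : 1 ≤ m)
    (hF : Fintype.card F = 2 ^ (2 * m + 1)) (P : Sylow 2 (Cfsg.Sz F m)) {q : ℕ} (hq : 2 ≤ q)
    (h : Ty (P : Subgroup (Cfsg.Sz F m)) q) : False := by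
  obtain ⟨h1, -, -, h4⟩ := Cfsg.Agent.S0330.result hm hF P
  have h5 : Nat.card (Subgroup.center (P : Subgroup (Cfsg.Sz F m))) = q := by
    rw [← h.cardZ]
    refine Nat.card_congr (Equiv.subtypeEquivRight fun x => ?_)
    rw [mem_center_iff]
    exact ⟨fun h6 => h.cen x fun y => (h6 y).symm, fun h6 y => (h.inv x h6 y).symm⟩
  have h6 := h.card
  rw [h1, ← h4] at h6
  change Nat.card (Subgroup.center (P : Subgroup (Cfsg.Sz F m))) ^ 2 = q ^ 3 at h6
  rw [h5] at h6
  have h7 := Nat.pow_right_injective hq h6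
  omega

end H82.U3
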