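import Mathlib
import Cfsg.Agent.Lib.H82.U3E
import Cfsg.Agent.Lib.H28.PLen

/-!
# Groups with Sylow 2-subgroups of type `U₃(2^n)`, part 9: assembly
-/

set_option autoImplicit false
set_option linter.unusedVariables false
set_option linter.unusedSectionVars false
set_option linter.style.haveILetI false

namespace H82.U3

open Subgroup Cfsg
open scoped Pointwise

universe u

/-- the three families (same as `H16.BS.Concl`) -/
def CU (L : Type u) [Group L] : Prop :=
  (∃ (F : Type) (_ : Field F) (_ : Fintype F), (∃ n : ℕ, 2 ≤ n ∧ Fintype.card F = 2 ^ n) ∧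
      Nonempty (L ≃* Matrix.ProjectiveSpecialLinearGroup (Fin 2) F)) ∨
    Cfsg.Lie.IsoSuzuki L ∨
    (∃ (F : Type) (_ : Field F) (_ : Fintype F) (n : ℕ), 2 ≤ n ∧ Fintype.card F = (2 ^ n) ^ 2 ∧
      Nonempty (L ≃* Cfsg.PSU 3 F (2 ^ n)))

theorem two_eq_zero {F : Type*} [Field F] [Fintype F] {n : ℕ} (hF : Fintype.card F = 2 ^ n) : (2 : F) = 0 := by
  have h1 : ((2 ^ n : ℕ) : F) = 0 := by
    rw [← hF]
    exact Nat.cast_card_eq_zero F
  push_cast at h1
  by_cases hn : n = 0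
  · subst hn
    have := Fintype.one_lt_card (α := F)
    omega
  · exact (pow_eq_zero_iff hn).mp h1

theorem ty_mapSurj {G : Type*} {H : Type*} [Group G] [Finite G] [Group H] {q : ℕ} (S : Sylow 2 G)
    (hS : Ty (S : Subgroup G) q) (e : G ≃* H) :
    Ty ((S : Subgroup G).map e.toMonoidHom : Subgroup H) q :=
  hS.congr (e.subgroupMap (S : Subgroup G))

/-- identification of the normal subgroup -/
theorem ident {G : Type u} [Group G] [Finite G] {n : ℕ} (hn : 3 ≤ n) {F : Type*} [Field F] [Fintype F]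
    (hF : Fintype.card F = 4 ^ n) (S : Sylow 2 G) (hS : Ty (S : Subgroup G) (2 ^ n)) {N : Subgroup G}
    (hN : N.Normal) (hi : Odd N.index) (h : CU N) : Nonempty (N ≃* Cfsg.PSU 3 F (2 ^ n)) := by
  haveI : Fact (Nat.Prime 2) := ⟨Nat.prime_two⟩
  have hSN := sylow_le_of_odd S hN hi
  have hq : 8 ≤ 2 ^ n := by
    calc 8 = 2 ^ 3 := by norm_num
      _ ≤ 2 ^ n := Nat.pow_le_pow_right (by norm_num) hn
  have hP : ((S.subtype hSN : Sylow 2 N) : Subgroup N) = (S : Subgroup G).subgroupOf N := Sylow.coe_subtype _ _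
  have hty : Ty ((S.subtype hSN : Sylow 2 N) : Subgroup N) (2 ^ n) := by
    rw [hP]
    exact hS.congr (subgroupOfEquivOfLe hSN).symm
  rcases h with ⟨F', iF, iFf, ⟨m, hm, hc⟩, ⟨e⟩⟩ | ⟨F', iF, iFf, m, hm, hc, ⟨e⟩⟩ | ⟨F', iF, iFf, m, hm, hc, ⟨e⟩⟩
  · -- `PSL₂(2^m)`
    exfalso
    obtain ⟨z, hz, hz1⟩ : ∃ z ∈ om (S : Subgroup G), z ≠ 1 := by
      by_contra hcon
      push Not at hcon
      have h2 : om (S : Subgroup G) = ⊥ := by rw [eq_bot_iff]; intro x hx; exact mem_bot.2 (hcon x hx)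
      have h3 := hS.toG.om_card
      rw [h2, Subgroup.card_bot] at h3
      omega
    obtain ⟨x, hx, hxz⟩ := hS.toG.onto z (hS.toG.om_le hz) (hS.toG.mem_om.1 hz).2
    obtain ⟨k, hk⟩ := S.2 ⟨x, hx⟩
    have hk' : x ^ 2 ^ k = 1 := congrArg Subtype.val hk
    have h4 := psl_sq (two_eq_zero hc) (e ⟨x, hSN hx⟩) ⟨k, by
      rw [← map_pow, map_eq_one_iff _ e.injective]
      exact Subtype.ext hk'⟩
    rw [← map_mul, map_eq_one_iff _ e.injective] at h4
    have h5 : x * x = 1 := congrArg Subtype.val h4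
    rw [hxz] at h5
    exact hz1 h5
  · -- Suzuki groups
    exfalso
    have e' : N ≃* Cfsg.Sz F' m := e.trans (H24.SzIso.equiv hc hm).symm
    haveI : Finite (Cfsg.Sz F' m) := Finite.of_equiv N e'.toEquiv
    let P : Sylow 2 (Cfsg.Sz F' m) := (S.subtype hSN).mapSurjective (f := e'.toMonoidHom) e'.surjective
    have hPty : Ty (P : Subgroup (Cfsg.Sz F' m)) (2 ^ n) := ty_mapSurj _ hty e'
    exact not_sz hm hc P (by omega) hPty
  · -- unitary groups
    haveI : Finite (Cfsg.PSU 3 F' (2 ^ m)) := Finite.of_equiv N e.toEquiv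
    let P : Sylow 2 (Cfsg.PSU 3 F' (2 ^ m)) := (S.subtype hSN).mapSurjective (f := e.toMonoidHom) e.surjective
    have hPty : Ty (P : Subgroup (Cfsg.PSU 3 F' (2 ^ m))) (2 ^ n) := ty_mapSurj _ hty e
    have h1 := (ty_psu hm hc P).cardZ
    rw [hPty.cardZ] at h1
    have h2 : n = m := Nat.pow_right_injective le_rfl h1
    subst h2
    have h3 : Fintype.card F = (2 ^ n) ^ 2 := by
      rw [hF, ← pow_mul, mul_comm, pow_mul]; norm_num
    obtain ⟨f⟩ := psu_congr hc h3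
    exact ⟨e.trans f⟩

/-- the core-free case -/
theorem core_case (hE : LemE.{u}) {G : Type u} [Group G] [Finite G] {n : ℕ} (hn : 3 ≤ n) {F : Type*} [Field F]
    [Fintype F] (hF : Fintype.card F = 4 ^ n) (S : Sylow 2 G) (hS : Ty (S : Subgroup G) (2 ^ n))
    (hO : pPrimeCore 2 G = ⊥)
    (hB : ∀ M : Subgroup G, IsStronglyEmbedded M →
      (∃ v w : G, v ≠ w ∧ orderOf v = 2 ∧ orderOf w = 2 ∧ v * w = w * v) →
        ∃ N : Subgroup G, N.Normal ∧ Odd N.index ∧ CU N) :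
    (S : Subgroup G).Normal ∨
      ∃ N : Subgroup G, N.Normal ∧ Odd N.index ∧ Nonempty (N ≃* Cfsg.PSU 3 F (2 ^ n)) := by
  have hq : 8 ≤ 2 ^ n := by
    calc 8 = 2 ^ 3 := by norm_num
      _ ≤ 2 ^ n := Nat.pow_le_pow_right (by norm_num) hn
  rcases thmB hE hq hS hO with h | ⟨M, hM⟩
  · exact Or.inl h
  right
  have h := hS.toG
  obtain ⟨v, hv, hv1⟩ : ∃ z ∈ om (S : Subgroup G), z ≠ 1 := by
    by_contra hcon
    push Not at hcon
    have h2 : om (S : Subgroup G) = ⊥ := by rw [eq_bot_iff]; intro x hx; exact mem_bot.2 (hcon x hx)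
    have h3 := h.om_card
    rw [h2, Subgroup.card_bot] at h3
    omega
  have hov : orderOf v = 2 := orderOf_eq_prime (by rw [pow_two]; exact (h.mem_om.1 hv).2) hv1
  obtain ⟨w, hw, hw1, hwv⟩ : ∃ z ∈ om (S : Subgroup G), z ≠ 1 ∧ z ≠ v := by
    by_contra hcon
    push Not at hcon
    have h2 : om (S : Subgroup G) ≤ zpowers v := by
      intro z hz
      by_cases h3 : z = 1
      · rw [h3]; exact one_mem _
      · rw [hcon z hz h3]; exact mem_zpowers v
    have h3 := Subgroup.card_le_of_le h2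
    rw [h.om_card, Nat.card_zpowers, hov] at h3
    omega
  have how : orderOf w = 2 := orderOf_eq_prime (by rw [pow_two]; exact (h.mem_om.1 hw).2) hw1
  obtain ⟨N, hN, hi, hc⟩ := hB M hM ⟨v, w, hwv.symm, hov, how, h.om_comm hv (h.om_le hw)⟩
  exact ⟨N, hN, hi, ident hn hF S hS hN hi hc⟩

/-- the theorem, from its inputs -/
theorem final (hE : LemE.{u})
    (hB : ∀ (G : Type u) [Group G] [Finite G], pPrimeCore 2 G = ⊥ → ∀ M : Subgroup G, IsStronglyEmbedded M →
      (∃ v w : G, v ≠ w ∧ orderOf v = 2 ∧ orderOf w = 2 ∧ v * w = w * v) →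
        ∃ N : Subgroup G, N.Normal ∧ Odd N.index ∧ CU N)
    {G : Type u} [Group G] [Finite G] {n : ℕ} (hn : 3 ≤ n) {F : Type*} [Field F] [Fintype F]
    (hF : Fintype.card F = 4 ^ n) (S : Sylow 2 G) (P : Sylow 2 (Cfsg.PSU 3 F (2 ^ n)))
    (hS : Nonempty (↥(S : Subgroup G) ≃* ↥(P : Subgroup (Cfsg.PSU 3 F (2 ^ n))))) :
    (Group.IsSolvable G ∧ Cfsg.PLengthLE 2 1 G) ∨
      ∃ N : Subgroup (G ⧸ Cfsg.oddCore G), N.Normal ∧ Odd N.index ∧ Nonempty (↥N ≃* Cfsg.PSU 3 F (2 ^ n)) := by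
  haveI : Fact (Nat.Prime 2) := ⟨Nat.prime_two⟩
  obtain ⟨e⟩ := hS
  have hF2 : Fintype.card F = (2 ^ n) ^ 2 := by
    rw [hF, ← pow_mul, mul_comm, pow_mul]; norm_num
  have hTy : Ty (S : Subgroup G) (2 ^ n) := (ty_psu (by omega) hF2 P).congr e.symm
  have hcop : (Nat.card (pPrimeCore 2 G)).Coprime 2 := H1.Cores.coprime_card_pPrimeCore 2
  have hnd : ¬ 2 ∣ Nat.card (pPrimeCore 2 G) := (Nat.Prime.coprime_iff_not_dvd Nat.prime_two).1 hcop.symm
  have hqs : Function.Surjective (QuotientGroup.mk' (pPrimeCore 2 G)) := QuotientGroup.mk'_surjective _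
  have hO := H1.Cores.pPrimeCore_quotient_pPrimeCore (G := G) 2
  rcases core_case hE hn hF (S.mapSurjective hqs) (ty_quot S hTy (pPrimeCore 2 G) hnd) hO
    (fun M hM h4 => hB _ hO M hM h4) with h | h
  · left
    set T : Sylow 2 (G ⧸ pPrimeCore 2 G) := S.mapSurjective hqs with hT
    have h7 : Group.IsSolvable ((G ⧸ pPrimeCore 2 G) ⧸ (T : Subgroup (G ⧸ pPrimeCore 2 G))) := by
      apply Cfsg.Agent.S0205.result
      rw [← Nat.not_even_iff_odd, even_iff_two_dvd]
      exact T.not_dvd_index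
    have h8 : Group.IsSolvable (T : Subgroup (G ⧸ pPrimeCore 2 G)) := by
      haveI := T.2.isNilpotent
      infer_instance
    have h9 : Group.IsSolvable (G ⧸ pPrimeCore 2 G) :=
      Group.isSolvable_of_ker_le_range (T : Subgroup (G ⧸ pPrimeCore 2 G)).subtype
        (QuotientGroup.mk' (T : Subgroup (G ⧸ pPrimeCore 2 G))) (by
          rw [QuotientGroup.ker_mk', Subgroup.range_subtype])
    have hOs : Group.IsSolvable (pPrimeCore 2 G) := Cfsg.Agent.S0205.result (Nat.coprime_two_right.1 hcop)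
    refine ⟨Group.isSolvable_of_ker_le_range (pPrimeCore 2 G).subtype (QuotientGroup.mk' (pPrimeCore 2 G)) (by
      rw [QuotientGroup.ker_mk', Subgroup.range_subtype]), ?_⟩
    refine H28.PLen.pLengthLE_one_of (N := pPrimeCore 2 G)
      (K := (T : Subgroup (G ⧸ pPrimeCore 2 G)).comap (QuotientGroup.mk' (pPrimeCore 2 G))) inferInstance
      (Subgroup.Normal.comap h _) hcop ?_ ?_
    · intro x hx
      obtain ⟨j, hj⟩ := T.2 ⟨_, hx⟩
      refine ⟨j, ?_⟩
      rw [← QuotientGroup.eq_one_iff]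
      exact congrArg Subtype.val hj
    · rw [Subgroup.index_comap_of_surjective _ hqs]
      exact ((Nat.Prime.coprime_iff_not_dvd Nat.prime_two).2 T.not_dvd_index).symm
  · exact Or.inr h

end H82.U3
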